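import Mathlib
import Cfsg.Prelude.Def_Solvable

/-! Abstract criteria for the `p'`-core of the centraliser of an automorphism in a group of
automorphisms containing the inner ones. -/

set_option autoImplicit false
set_option backward.isDefEq.respectTransparency false

namespace Cfsg.Agent.Classical.Balance

variable {K : Type*} [Group K] {A : Subgroup (MulAut K)} {x : MulAut K} {p : ℕ}

theorem conj_mul_conj (a : MulAut K) (k : K) : a * MulAut.conj k * a⁻¹ = MulAut.conj (a k) := by
  ext y; simp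

theorem conj_mem_of_fix {k : K} (h : x k = k) : MulAut.conj k ∈ Subgroup.centralizer {x} := by
  rw [Subgroup.mem_centralizer_singleton_iff, eq_comm, ← mul_inv_eq_iff_eq_mul, conj_mul_conj, h]

/-- The fixed points of `x` as inner automorphisms centralising `x`. -/
def innHom (hinn : ∀ k, MulAut.conj k ∈ A) (x : MulAut K) :
    x.toMonoidHom.eqLocus (MonoidHom.id K) →* (A ⊓ Subgroup.centralizer {x} : Subgroup _) :=
  (MulAut.conj.comp (Subgroup.subtype _)).codRestrict _ fun k => ⟨hinn _, conj_mem_of_fix k.2⟩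

theorem apply_mem (a : (A ⊓ Subgroup.centralizer {x} : Subgroup _)) {k : K} (hk : x k = k) :
    x (a.1 k) = a.1 k := by
  have := congrArg (fun β : MulAut K => β k) (Subgroup.mem_centralizer_singleton_iff.1 a.2.2)
  simpa [hk] using this.symm

theorem fix_of_conj_mem (hinj : Function.Injective (MulAut.conj : K →* _)) {k : K}
    (h : MulAut.conj k ∈ Subgroup.centralizer {x}) : x k = k := by
  rw [Subgroup.mem_centralizer_singleton_iff, eq_comm, ← mul_inv_eq_iff_eq_mul, conj_mul_conj] at h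
  exact hinj h

theorem core_ne_bot (hinj : Function.Injective (MulAut.conj : K →* _))
    (hinn : ∀ k, MulAut.conj k ∈ A) {k : K} (hk : x k = k) (hk1 : k ≠ 1)
    (hp : p.Coprime (Nat.card (x.toMonoidHom.eqLocus (MonoidHom.id K)))) :
    pPrimeCore p (A ⊓ Subgroup.centralizer {x} : Subgroup _) ≠ ⊥ := by
  have hj : Function.Injective (innHom hinn x) := fun a b h =>
    Subtype.ext (hinj (congrArg Subtype.val h))
  intro h
  have h1 : (innHom hinn x).range = ⊥ := sSup_eq_bot.1 h _ ⟨⟨by
    rintro _ ⟨k, rfl⟩ a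
    exact ⟨⟨a.1 k, apply_mem a k.2⟩, Subtype.ext (conj_mul_conj _ _).symm⟩⟩, by
      rw [← Nat.card_congr (MonoidHom.ofInjective hj).toEquiv]; exact hp.symm⟩
  exact hk1 (congrArg Subtype.val (hj ((h1.le ⟨⟨k, hk⟩, rfl⟩).trans (map_one _).symm)))

theorem core_eq_bot (hinj : Function.Injective (MulAut.conj : K →* _))
    (hinn : ∀ k, MulAut.conj k ∈ A) {L : Type*} [Group L] (φ : L →* K) (hφ : ∀ l, x (φ l) = φ l)
    (hn : ∀ k, x k = k → ∀ l, ∃ l', k * φ l * k⁻¹ = φ l')
    (hL : ∀ M : Subgroup L, M.Normal → (∀ l ∈ M, (orderOf (φ l)).Coprime p) → ∀ l ∈ M, φ l = 1)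
    (hC : ∀ α : MulAut K, (∀ l, α (φ l) = φ l) → (orderOf α).Coprime p → α = 1) :
    pPrimeCore p (A ⊓ Subgroup.centralizer {x} : Subgroup _) = ⊥ := by
  have hj : Function.Injective (innHom hinn x) := fun a b h =>
    Subtype.ext (hinj (congrArg Subtype.val h))
  refine sSup_eq_bot.2 fun N ⟨hN, hNp⟩ => ?_
  have h0 : ∀ a ∈ N, (orderOf a.1).Coprime p := fun a ha => by
    rw [Subgroup.orderOf_coe]
    exact hNp.coprime_dvd_left (Subgroup.orderOf_dvd_natCard N ha)
  have h1 : ∀ k ∈ N.comap (innHom hinn x), k = 1 := fun k hk => by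
    let ψ := (innHom hinn x).comp (φ.codRestrict _ hφ)
    refine Subtype.ext (hinj ((hC _ (fun l => ?_) (h0 _ hk)).trans (map_one _).symm))
    obtain ⟨l', hl⟩ := hn k k.2 l
    have h2 : l' * l⁻¹ ∈ N.comap ψ := by
      have := N.mul_mem hk (hN.conj_mem _ (N.inv_mem hk) (ψ l))
      refine Subgroup.mem_comap.2 (by
        convert this using 1
        refine Subtype.ext (?_ : MulAut.conj (φ (l' * l⁻¹)) = MulAut.conj k.1 *
          (MulAut.conj (φ l) * (MulAut.conj k.1)⁻¹ * (MulAut.conj (φ l))⁻¹))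
        simp only [map_mul, map_inv, ← hl, mul_assoc])
    have h3 := hL _ inferInstance (fun l hl => by
      rw [← orderOf_injective _ hinj]; exact h0 _ hl) _ h2
    rw [map_mul, map_inv, mul_inv_eq_one, ← hl] at h3
    exact h3
  rw [eq_bot_iff]
  intro a ha
  refine Subtype.ext (hC _ (fun l => ?_) (h0 _ ha))
  have h2 := h1 ⟨a.1 (φ l) * (φ l)⁻¹, mul_mem (apply_mem a (hφ l)) (inv_mem (hφ l))⟩ (by
    have := N.mul_mem ha (hN.conj_mem _ (N.inv_mem ha) (innHom hinn x ⟨φ l, hφ l⟩))
    refine Subgroup.mem_comap.2 (by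
      convert this using 1
      refine Subtype.ext (?_ : MulAut.conj (a.1 (φ l) * (φ l)⁻¹) = a.1 *
        (MulAut.conj (φ l) * (a.1)⁻¹ * (MulAut.conj (φ l))⁻¹))
      simp only [map_mul, map_inv, ← conj_mul_conj, mul_assoc]))
  exact mul_inv_eq_one.1 (congrArg Subtype.val h2)

/-- Transport of the criterion along a conjugation. -/
theorem core_eq_bot_conj (α : MulAut K)
    (h : pPrimeCore p (A.map (MulAut.conj α).toMonoidHom ⊓
      Subgroup.centralizer {α * x * α⁻¹} : Subgroup _) = ⊥) :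
    pPrimeCore p (A ⊓ Subgroup.centralizer {x} : Subgroup _) = ⊥ := by
  let f : (A ⊓ Subgroup.centralizer {x} : Subgroup _) ≃* (A.map (MulAut.conj α).toMonoidHom ⊓
      Subgroup.centralizer {α * x * α⁻¹} : Subgroup _) :=
    ((MulAut.conj α).subgroupMap _).trans (MulEquiv.subgroupCongr (by
      rw [Subgroup.map_inf _ _ _ (MulAut.conj α).injective]
      congr 1
      ext y
      obtain ⟨y, rfl⟩ := (MulAut.conj α).surjective y
      rw [Subgroup.mem_centralizer_singleton_iff, ← MulAut.conj_apply, ← map_mul, ← map_mul,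
        (MulAut.conj α).injective.eq_iff, ← Subgroup.mem_centralizer_singleton_iff]
      exact Subgroup.mem_map_iff_mem (f := (MulAut.conj α).toMonoidHom) (MulAut.conj α).injective))
  refine sSup_eq_bot.2 fun N ⟨hN, hNp⟩ => ?_
  exact (Subgroup.map_eq_bot_iff_of_injective N (f := f.toMonoidHom) f.injective).1
    (sSup_eq_bot.1 h _ ⟨hN.map _ f.surjective, by
      rwa [Subgroup.card_map_of_injective f.injective]⟩)

theorem inn_map (hinn : ∀ k, MulAut.conj k ∈ A) (α : MulAut K) (k : K) :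
    MulAut.conj k ∈ A.map (MulAut.conj α).toMonoidHom :=
  ⟨_, hinn (α⁻¹ k), (conj_mul_conj _ _).trans (by simp)⟩

theorem exists_fix_orderOf [Finite K] (hp : p.Prime) (α : MulAut K)
    (h : ¬ p.Coprime (Nat.card (x.toMonoidHom.eqLocus (MonoidHom.id K)))) :
    ∃ k, (α * x * α⁻¹) k = k ∧ orderOf k = p := by
  haveI := Fact.mk hp
  obtain ⟨k, hk⟩ := exists_prime_orderOf_dvd_card' p (hp.dvd_iff_not_coprime.2 h)
  exact ⟨α k, by have : x k = k := k.2; simp [this], by rw [α.orderOf_eq, Subgroup.orderOf_coe, hk]⟩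

/-- A normal subgroup containing all `r`-th powers has an element of order divisible by `p`. -/
theorem not_coprime_of_pow {L : Type*} [Group L] {φ : L →* K} {M : Subgroup L} {r : ℕ}
    (hp : p.Prime) (hr : p.Coprime r) (hM : ∀ s, s ^ r ∈ M) {s : L} (hs : p ∣ orderOf (φ s))
    (h : ∀ l ∈ M, (orderOf (φ l)).Coprime p) : False := by
  have h1 := h _ (hM s)
  rw [map_pow] at h1
  have h2 : orderOf (φ s) ∣ r * orderOf (φ s ^ r) :=
    orderOf_dvd_of_pow_eq_one (by rw [pow_mul, pow_orderOf_eq_one])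
  exact hp.one_lt.ne' ((hr.mul_right h1.symm).eq_one_of_dvd (hs.trans h2))

end Cfsg.Agent.Classical.Balance
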