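import Mathlib
import Cfsg.Agent.Classical.AutSp
import Cfsg.Agent.Classical.AutPSL3

/-! The conformal symplectic group and the automorphisms of `PSp_2m(q)` in matrix form. -/

set_option autoImplicit false
set_option backward.isDefEq.respectTransparency false

namespace Cfsg.Agent.Classical.AutSp2

open Matrix Cfsg.Agent.Classical.SpWitt Cfsg.Agent.Classical.SpMat Cfsg.Agent.Classical.AutSp
  Cfsg.Agent.Classical.AutPSL Cfsg.Agent.Classical.AutPSL2 Cfsg.Agent.Classical.AutPSL3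
  Cfsg.Agent.Classical.Lang Cfsg.Agent.Classical.SplitCount
open scoped MatrixGroups

variable {m : ℕ} {F : Type*} [Field F]

theorem sB_mulVec' {ι : Type*} [Fintype ι] [DecidableEq ι] (g : Matrix (ι ⊕ ι) (ι ⊕ ι) F)
    (u v : ι ⊕ ι → F) : sB ι F (g *ᵥ u) (g *ᵥ v) = u ⬝ᵥ (gᵀ * J ι F * g) *ᵥ v := by
  rw [sB_apply, ← mulVec_mulVec, ← mulVec_mulVec, dotProduct_mulVec u, vecMul_transpose]

theorem sim_iff {ι : Type*} [Fintype ι] [DecidableEq ι] {g : Matrix (ι ⊕ ι) (ι ⊕ ι) F} {c : F} :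
    (∀ u v, sB ι F (g *ᵥ u) (g *ᵥ v) = c * sB ι F u v) ↔ gᵀ * J ι F * g = c • J ι F := by
  constructor
  · intro h
    ext i j
    have := h (Pi.single i 1) (Pi.single j 1)
    rw [sB_mulVec', sB_single] at this
    simpa using this
  · intro h u v
    rw [sB_mulVec', h, sB_apply, smul_mulVec, dotProduct_smul, smul_eq_mul]

theorem mem_GSp_iff {g : GL (Fin m ⊕ Fin m) F} :
    g ∈ GSp m F ↔ ∃ c : Fˣ, g.1ᵀ * J (Fin m) F * g.1 = (c : F) • J (Fin m) F :=
  exists_congr fun c => by rw [← sim_iff]; simp only [sympForm_eq]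

theorem J_map {K : Type*} [Field K] (φ : K →+* F) : (J (Fin m) K).map φ = J (Fin m) F := by
  ext (i | i) (j | j) <;> simp [J, one_apply, apply_ite φ]

theorem map_mem_GSp {K : Type*} [Field K] (φ : K →+* F) {g : GL (Fin m ⊕ Fin m) K} {c : K}
    (h : g.1ᵀ * J (Fin m) K * g.1 = c • J (Fin m) K) :
    (g.1.map φ)ᵀ * J (Fin m) F * g.1.map φ = φ c • J (Fin m) F := by
  rw [← J_map φ, ← transpose_map, ← Matrix.map_mul, ← Matrix.map_mul, h]
  ext i j; exact map_mul φ _ _

/-- Entrywise application of a field homomorphism on the conformal group. -/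
def mapGSp {K : Type*} [Field K] (φ : K →+* F) : GSp m K →* GSp m F :=
  ((GeneralLinearGroup.map φ).comp (GSp m K).subtype).codRestrict _ fun g => by
    obtain ⟨c, hc⟩ := mem_GSp_iff.1 g.2
    exact mem_GSp_iff.2 ⟨Units.map φ.toMonoidHom c, map_mem_GSp φ hc⟩

theorem mapGSp_coe {K : Type*} [Field K] (φ : K →+* F) (g : GSp m K) :
    (mapGSp φ g).1 = GeneralLinearGroup.map φ g.1 := rfl

theorem scalar_sim (c : Fˣ) : (GeneralLinearGroup.scalar _ c).1ᵀ * J (Fin m) F *
    (GeneralLinearGroup.scalar _ c).1 = ((c ^ 2 : Fˣ) : F) • J (Fin m) F := by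
  rw [scalar_coe, transpose_smul, transpose_one, smul_mul_assoc, one_mul, mul_smul_comm, mul_one,
    smul_smul, pow_two, Units.val_mul]

theorem scalar_mem_GSp (c : Fˣ) : GeneralLinearGroup.scalar _ c ∈ GSp m F :=
  mem_GSp_iff.2 ⟨_, scalar_sim c⟩

/-- The scalar matrices inside the conformal group. -/
def scalarGSp : Fˣ →* GSp m F := (GeneralLinearGroup.scalar _).codRestrict _ scalar_mem_GSp

/-- The symplectic group inside the conformal group. -/
def spToGSp : symplecticGroup (Fin m) F →* GSp m F where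
  toFun s := ⟨⟨s.1, (s⁻¹).1, coe_mul_inv s, coe_inv_mul s⟩,
    mem_GSp_iff.2 ⟨1, by simpa using SymplecticGroup.mem_iff'.1 s.2⟩⟩
  map_one' := Subtype.ext (Units.ext rfl)
  map_mul' _ _ := Subtype.ext (Units.ext rfl)

theorem conj_mem (g : GSp m F) (s : symplecticGroup (Fin m) F) :
    g.1.1 * s.1 * (g.1⁻¹).1 ∈ symplecticGroup (Fin m) F := by
  obtain ⟨c, hc⟩ := mem_GSp_iff.1 g.2
  rw [SymplecticGroup.mem_iff']
  have h1 : (g.1⁻¹).1ᵀ * g.1.1ᵀ = 1 := by rw [← transpose_mul, Units.mul_inv, transpose_one]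
  calc _ = (g.1⁻¹).1ᵀ * (s.1ᵀ * (g.1.1ᵀ * J _ F * g.1.1) * s.1) * (g.1⁻¹).1 := by
        simp only [transpose_mul, mul_assoc]
    _ = (g.1⁻¹).1ᵀ * (g.1.1ᵀ * J _ F * g.1.1) * (g.1⁻¹).1 := by
        rw [hc, mul_smul_comm, smul_mul_assoc, SymplecticGroup.mem_iff'.1 s.2]
    _ = _ := by rw [← mul_assoc, ← mul_assoc, h1, one_mul, Units.mul_inv_cancel_right]

/-- Conjugation of `Sp` by the conformal group. -/
def conjSp : GSp m F →* MulAut (symplecticGroup (Fin m) F) where
  toFun g :=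
    { toFun s := ⟨_, conj_mem g s⟩
      invFun s := ⟨_, conj_mem g⁻¹ s⟩
      left_inv s := Subtype.ext (by simp [← mul_assoc, mul_assoc s.1])
      right_inv s := Subtype.ext (by simp [← mul_assoc, mul_assoc s.1])
      map_mul' s t := Subtype.ext (by
        simp only [Submonoid.coe_mul, mul_assoc, Units.inv_mul_cancel_left]) }
  map_one' := MulEquiv.ext fun s => Subtype.ext (by simp)
  map_mul' g h := MulEquiv.ext fun s => Subtype.ext (by
    simp only [MulEquiv.coe_mk, Equiv.coe_fn_mk, MulAut.mul_apply, _root_.mul_inv_rev,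
      Units.val_mul, mul_assoc, Subgroup.coe_mul])

theorem conjSp_coe (g : GSp m F) (s : symplecticGroup (Fin m) F) :
    (conjSp g s).1 = g.1.1 * s.1 * (g.1⁻¹).1 := rfl

variable (m) in
/-- Field automorphisms of `Sp`. -/
def fieldSp : (F ≃+* F) →* MulAut (symplecticGroup (Fin m) F) where
  toFun σ := Congr.spCongr σ
  map_one' := rfl
  map_mul' _ _ := rfl

theorem fieldSp_coe (σ : F ≃+* F) (s : symplecticGroup (Fin m) F) :
    (fieldSp m σ s).1 = s.1.map σ := rfl

/-- Inner-diagonal automorphisms of `PSp`. -/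
def dS : GSp m F →* MulAut (PSp m F) := (autQ _).comp conjSp

variable (m) in
/-- Field automorphisms of `PSp`. -/
def fS : (F ≃+* F) →* MulAut (PSp m F) := (autQ _).comp (fieldSp m)

theorem dS_mk (g : GSp m F) (s : symplecticGroup (Fin m) F) :
    dS g (s : PSp m F) = conjSp g s := rfl

theorem fS_mk (σ : F ≃+* F) (s : symplecticGroup (Fin m) F) :
    fS m σ (s : PSp m F) = fieldSp m σ s := rfl

theorem fS_mul_dS (σ : F ≃+* F) (g : GSp m F) :
    fS m σ * dS g = dS (mapGSp σ.toRingHom g) * fS m σ := by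
  change autQ _ _ * autQ _ _ = autQ _ _ * autQ _ _
  rw [← map_mul, ← map_mul]
  refine congrArg _ (MulEquiv.ext fun s => Subtype.ext ?_)
  rw [MulAut.mul_apply, fieldSp_coe, conjSp_coe, Matrix.map_mul, Matrix.map_mul]
  rfl

theorem dS_spToGSp (s : symplecticGroup (Fin m) F) :
    dS (spToGSp s) = MulAut.conj (s : PSp m F) := by
  ext x
  induction x using QuotientGroup.induction_on
  rfl

theorem dS_scalar (c : Fˣ) : dS (scalarGSp (m := m) c) = 1 := by
  rw [← map_one (autQ _)]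
  refine congrArg (autQ _) (MulEquiv.ext fun s => Subtype.ext ?_)
  rw [conjSp_coe, Units.mul_inv_eq_iff_eq_mul]
  change (GeneralLinearGroup.scalar _ c).1 * _ = _ * (GeneralLinearGroup.scalar _ c).1
  rw [scalar_coe, smul_mul_assoc, mul_smul_comm, one_mul, mul_one]
  rfl

theorem eq_autQ_Sp {β : MulAut (PSp m F)} {e : MulAut (symplecticGroup (Fin m) F)} :
    (∀ s s' : symplecticGroup (Fin m) F, s'.1 = (e s).1 →
      β (QuotientGroup.mk s) = QuotientGroup.mk s') ↔ β = autQ _ e :=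
  (eq_autQ_iff (G := symplecticGroup (Fin m) F) (f := fun s => s.1)
    fun _ _ h => Subtype.ext h).symm

theorem isStdField_iff {β : MulAut (PSp m F)} {σ : F ≃+* F} :
    IsStdFieldAutPSp σ β ↔ β = fS m σ := eq_autQ_Sp (e := fieldSp m σ)

theorem isInduced_iff {β : MulAut (PSp m F)} {g : GSp m F} {σ : F ≃+* F} :
    IsInducedBySemilinearPSp g.1 σ β ↔ β = dS g * fS m σ := by
  change _ ↔ β = autQ _ _ * autQ _ _
  rw [← map_mul]
  exact eq_autQ_Sp (e := conjSp g * fieldSp _ σ)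

theorem isInnerDiagonal_iff {β : MulAut (PSp m F)} : IsInnerDiagonalAutPSp β ↔ ∃ g, β = dS g :=
  ⟨fun ⟨g, hg, h⟩ => ⟨⟨g, hg⟩, (eq_autQ_Sp (e := conjSp ⟨g, hg⟩)).1 h⟩,
    fun ⟨g, h⟩ => ⟨g.1, g.2, (eq_autQ_Sp (e := conjSp g)).2 h⟩⟩

theorem inndiag_eq : inndiagPSp m F = (dS : GSp m F →* _).range := by
  rw [← Subgroup.closure_eq (MonoidHom.range _), inndiagPSp, autSubgroupOf]
  congr 1
  ext β
  exact isInnerDiagonal_iff.trans (exists_congr fun _ => eq_comm)

/-! ### Transvections in matrix form -/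

/-- The symplectic transvection as a matrix. -/
noncomputable def tvM (v : Fin m ⊕ Fin m → F) (c : F) : symplecticGroup (Fin m) F :=
  (spEquiv _ F).symm (tv sB_alt v c)

theorem tvM_mulVec (v : Fin m ⊕ Fin m → F) (c : F) (x : Fin m ⊕ Fin m → F) :
    (tvM v c).1 *ᵥ x = x + (c * sB _ F x v) • v := by
  rw [tvM, spEquiv_symm_mulVec, tv_apply]

/-- The identification with the coordinate free group. -/
noncomputable def pspEquiv : PSp m F ≃* PG (sB (Fin m) F) := Congr.centerQuotCongr (spEquiv _ F)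

theorem pspEquiv_mk (s : symplecticGroup (Fin m) F) :
    pspEquiv (s : PSp m F) = (spEquiv _ F s :) := rfl

theorem pspEquiv_tvM (v : Fin m ⊕ Fin m → F) (c : F) :
    pspEquiv (tvM v c : PSp m F) = (tv sB_alt v c :) := by
  rw [pspEquiv_mk, tvM, MulEquiv.apply_symm_apply]

theorem tv_eq_of_mk {v w : Fin m ⊕ Fin m → F} {c d : F} (h : (tvM v c : PSp m F) = tvM w d) :
    tv sB_alt v c = tv sB_alt w d :=
  tv_eq_of_mk_eq sB_nondeg sB_alt (by rw [← pspEquiv_tvM, h, pspEquiv_tvM])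

theorem sB_comp {K : Type*} [Field K] (φ : K →+* F) (u v : Fin m ⊕ Fin m → K) :
    sB _ F (φ ∘ u) (φ ∘ v) = φ (sB _ K u v) := by
  simp [sB_eq_sum]

theorem fieldSp_tvM (σ : F ≃+* F) (v : Fin m ⊕ Fin m → F) (c : F) :
    fieldSp m σ (tvM v c) = tvM (σ ∘ v) (σ c) := by
  refine sp_ext fun x => ?_
  obtain ⟨x, rfl⟩ : ∃ y, x = σ ∘ y := ⟨σ.symm ∘ x, by ext; simp⟩
  rw [tvM_mulVec]
  funext i
  have := RingHom.map_mulVec σ.toRingHom (tvM v c).1 x i
  rw [tvM_mulVec] at this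
  refine this.symm.trans ?_
  simp [show sB _ F (σ ∘ x) (σ ∘ v) = σ (sB _ F x v) from sB_comp σ.toRingHom x v]

theorem conjSp_tvM (g : GSp m F) {a : Fˣ}
    (ha : g.1.1ᵀ * J (Fin m) F * g.1.1 = (a : F) • J (Fin m) F) (v : Fin m ⊕ Fin m → F) (c : F) :
    conjSp g (tvM v c) = tvM (g.1.1 *ᵥ v) (c / a) := by
  refine sp_ext fun x => ?_
  obtain ⟨x, rfl⟩ : ∃ y, x = g.1.1 *ᵥ y := ⟨(g.1⁻¹).1 *ᵥ x, by simp [mulVec_mulVec]⟩
  rw [conjSp_coe, mulVec_mulVec, Units.inv_mul_cancel_right, ← mulVec_mulVec, tvM_mulVec,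
    tvM_mulVec, sim_iff.2 ha, mulVec_add, mulVec_smul]
  congr 2
  field_simp

theorem mem_center_of_fix {g : GSp m F} {σ : F ≃+* F}
    (h : ∀ v : Fin m ⊕ Fin m → F, (∀ i, v i = 0 ∨ v i = 1) →
      (dS g * fS m σ) (tvM v 1 :) = (tvM v 1 :)) : g.1 ∈ Subgroup.center (GL _ F) := by
  obtain ⟨a, ha⟩ := mem_GSp_iff.1 g.2
  have h1 : ∀ v : Fin m ⊕ Fin m → F, v ≠ 0 → (∀ i, v i = 0 ∨ v i = 1) →
      ∃ s : F, s • v = g.1.1 *ᵥ v := fun v hv0 hv => by
    have h2 := h v hv
    have h3 : σ ∘ v = v := funext fun i => by rcases hv i with h | h <;> simp [h]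
    rw [MulAut.mul_apply, fS_mk, fieldSp_tvM, h3, dS_mk, conjSp_tvM g ha] at h2
    exact SpSimple.exists_of_tv_eq sB_nondeg sB_alt (Transv.gl_mulVec_ne_zero _ hv0) (by simp)
      (tv_eq_of_mk h2)
  have h2 : ∀ i j, i ≠ j → g.1.1 i j = 0 := fun i j hij => by
    obtain ⟨s, hs⟩ := h1 (Pi.single j 1) (by simp) fun k => by
      by_cases hk : k = j <;> simp [hk]
    simpa [hij] using (congrFun hs i).symm
  have h3 : ∀ i j, g.1.1 i i = g.1.1 j j := fun i j => by
    by_cases hij : i = j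
    · rw [hij]
    obtain ⟨s, hs⟩ := h1 (Pi.single i 1 + Pi.single j 1) (fun h => by
      simpa [hij] using congrFun h i) fun k => by
      by_cases hk : k = i
      · simp [hk, hij]
      · by_cases hk' : k = j <;> simp [hk, hk', Ne.symm hij]
    have h4 := congrFun hs i
    have h5 := congrFun hs j
    simp [mulVec_add, hij, Ne.symm hij, h2 i j hij, h2 j i (Ne.symm hij)] at h4 h5
    rw [← h4, h5]
  refine AutPSL2.mem_center_of_commute fun i j hij => ?_
  ext k l
  by_cases hl : l = j <;> by_cases hk : k = i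
  · simp [hk, hl, h3 i j]
  · simp [hk, hl, h2 k i hk]
  · simp [hk, hl, h2 j l (Ne.symm hl)]
  · simp [hk, hl]

theorem dS_eq_one_iff {g : GSp m F} : dS g = 1 ↔ ∃ c, g = scalarGSp c := by
  refine ⟨fun h => ?_, by rintro ⟨c, rfl⟩; exact dS_scalar c⟩
  have := mem_center_of_fix (g := g) (σ := 1) fun v _ => by rw [h, map_one]; rfl
  rw [GeneralLinearGroup.center_eq_range_scalar] at this
  obtain ⟨c, hc⟩ := this
  exact ⟨c, Subtype.ext hc.symm⟩

theorem dS_eq_dS_iff {g h : GSp m F} : dS g = dS h ↔ ∃ c : Fˣ, g = h * scalarGSp c := by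
  rw [eq_comm, ← inv_mul_eq_one, ← map_inv, ← map_mul, dS_eq_one_iff]
  exact exists_congr fun c => by rw [inv_mul_eq_iff_eq_mul]

theorem dS_mul_scalar (g : GSp m F) (c : Fˣ) : dS (g * scalarGSp c) = dS g := by
  rw [map_mul, dS_scalar, mul_one]

theorem ker_dS : (dS : GSp m F →* _).ker = (Geo.scalars _ F).subgroupOf (GSp m F) := by
  ext g
  rw [MonoidHom.mem_ker, dS_eq_one_iff, Subgroup.mem_subgroupOf]
  exact exists_congr fun c => by rw [Subtype.ext_iff, eq_comm]; rfl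

/-- `PGSp` is the group of inner-diagonal automorphisms. -/
noncomputable def pgspEquiv : (dS : GSp m F →* _).range ≃* PGSp m F :=
  (QuotientGroup.quotientKerEquivRange _).symm.trans (QuotientGroup.quotientMulEquivOfEq ker_dS)

theorem tv_coeff_inj {v : Fin m ⊕ Fin m → F} (hv : v ≠ 0) {c d : F}
    (h : (tvM v c : PSp m F) = tvM v d) : c = d := by
  have h1 := tv_eq_of_mk h
  rw [← mul_inv_eq_one, ← tv_neg, ← tv_add, tv_eq_one_iff sB_nondeg, or_iff_right hv] at h1
  linear_combination h1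

theorem fS_injective [NeZero m] : Function.Injective (fS m : (F ≃+* F) →* _) := by
  rw [injective_iff_map_eq_one]
  intro σ h
  ext t
  have h1 : fS m σ (tvM (m := m) 1 t :) = (tvM (m := m) 1 t :) := by rw [h]; rfl
  rw [fS_mk, fieldSp_tvM, show σ ∘ (1 : Fin m ⊕ Fin m → F) = 1 from funext fun _ => map_one σ] at h1
  exact tv_coeff_inj one_ne_zero h1

theorem eq_one_of_dS_mul_fS [NeZero m] {g : GSp m F} {σ : F ≃+* F} (h : dS g * fS m σ = 1) :
    σ = 1 := by
  have h1 := mem_center_of_fix (g := g) (σ := σ) fun v _ => by rw [h]; rfl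
  rw [GeneralLinearGroup.center_eq_range_scalar] at h1
  obtain ⟨c, hc⟩ := h1
  rw [show g = scalarGSp c from Subtype.ext hc.symm, dS_scalar, one_mul] at h
  exact fS_injective (h.trans (map_one _).symm)

theorem exists_decomp_of_mapsTv [Finite F] (hm : 2 ≤ m) {β : MulAut (PSp m F)}
    (h : MapsTv sB_alt (MulAut.congr pspEquiv β)) : ∃ g σ, β = dS g * fS m σ := by
  obtain ⟨σ, T, μ, hμ, h1, h2⟩ := h.exists_semilinear sB_nondeg sB_alt
    (by rw [finrank_eq, Fintype.card_fin]; omega)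
  let τ := RingEquiv.ofBijective σ (Finite.injective_iff_bijective.1 σ.injective)
  let A : Matrix (Fin m ⊕ Fin m) (Fin m ⊕ Fin m) F := of fun i j => T (Pi.single j 1) i
  have hA : ∀ x, T x = A *ᵥ (σ ∘ x) := fun x => by
    conv_lhs => rw [pi_eq_sum_univ' x]
    ext i
    simp [A, map_sum, map_smulₛₗ, mulVec, dotProduct, mul_comm]
  have hs : ∀ y : Fin m ⊕ Fin m → F, ∃ x, y = σ ∘ x := fun y =>
    ⟨τ.symm ∘ y, funext fun i => (τ.apply_symm_apply _).symm⟩
  have h3 : Aᵀ * J _ F * A = μ • J _ F := sim_iff.1 fun u v => by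
    obtain ⟨u, rfl⟩ := hs u
    obtain ⟨v, rfl⟩ := hs v
    rw [← hA, ← hA, h1, sB_comp]
  have h4 : A.det ≠ 0 := fun h0 => by
    have := congrArg det h3
    rw [det_mul, h0, mul_zero, det_smul] at this
    exact mul_ne_zero (pow_ne_zero _ hμ) (isUnit_det_J _ F).ne_zero this.symm
  let g : GSp m F := ⟨GeneralLinearGroup.mkOfDetNeZero A h4, mem_GSp_iff.2 ⟨Units.mk0 μ hμ, h3⟩⟩
  refine ⟨g, τ, MulEquiv.ext fun x => ?_⟩
  induction x using QuotientGroup.induction_on with | H s =>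
  apply pspEquiv.injective
  have := h2 (spEquiv _ F s) (spEquiv _ F (conjSp g (fieldSp m τ s))) fun x => by
    rw [spEquiv_apply, spEquiv_apply, hA, hA, conjSp_coe]
    change _ *ᵥ g.1.1 *ᵥ _ = g.1.1 *ᵥ _
    rw [mulVec_mulVec, Units.inv_mul_cancel_right, ← mulVec_mulVec]
    congr 1
    funext i
    exact (RingHom.map_mulVec σ _ _ i).symm
  rw [← pspEquiv_mk, MulAut.congr_apply] at this
  simp only [MulEquiv.trans_apply, MulEquiv.symm_apply_apply] at this
  exact this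

theorem exists_decomp [Finite F] (hm : 2 ≤ m) (h : (2 : F) ≠ 0 ∨ 3 ≤ m) (β : MulAut (PSp m F)) :
    ∃ g σ, β = dS g * fS m σ :=
  exists_decomp_of_mapsTv hm (mapsTv_of sB_nondeg sB_alt (h.imp_right fun h => by
    rw [finrank_eq, Fintype.card_fin]; omega) _)

theorem conj_dS (g : GSp m F) (σ : F ≃+* F) (x : GSp m F) :
    dS g * fS m σ * dS x * (dS g * fS m σ)⁻¹ = dS (g * mapGSp σ.toRingHom x * g⁻¹) := by
  rw [mul_assoc (dS g), fS_mul_dS]; simp [mul_assoc]

/-! ### The multiplier -/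

theorem J_ne_zero [NeZero m] : J (Fin m) F ≠ 0 := fun h => by
  simpa [J] using congrFun (congrFun h (Sum.inr 0)) (Sum.inl 0)

theorem mult_unique [NeZero m] {M : Matrix (Fin m ⊕ Fin m) (Fin m ⊕ Fin m) F} {c d : Fˣ}
    (h : M = (c : F) • J (Fin m) F) (h' : M = (d : F) • J (Fin m) F) : c = d :=
  Units.ext (smul_left_injective F J_ne_zero (h.symm.trans h'))

/-- The multiplier of a symplectic similarity. -/
noncomputable def mult [NeZero m] : GSp m F →* Fˣ :=
  MonoidHom.mk' (fun g => (mem_GSp_iff.1 g.2).choose) fun g h =>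
    mult_unique (mem_GSp_iff.1 (g * h).2).choose_spec (by
      have h1 := (mem_GSp_iff.1 g.2).choose_spec
      have h2 := (mem_GSp_iff.1 h.2).choose_spec
      generalize (mem_GSp_iff.1 g.2).choose = a at h1 ⊢
      generalize (mem_GSp_iff.1 h.2).choose = b at h2 ⊢
      calc _ = h.1.1ᵀ * (g.1.1ᵀ * J _ F * g.1.1) * h.1.1 := by
            simp only [Subgroup.coe_mul, Units.val_mul, transpose_mul, mul_assoc]
        _ = _ := by rw [h1, mul_smul_comm, smul_mul_assoc, h2, smul_smul, Units.val_mul])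

variable [NeZero m]

theorem mult_spec (g : GSp m F) : g.1.1ᵀ * J (Fin m) F * g.1.1 = (mult g : F) • J (Fin m) F :=
  (mem_GSp_iff.1 g.2).choose_spec

theorem mult_eq {g : GSp m F} {c : Fˣ}
    (h : g.1.1ᵀ * J (Fin m) F * g.1.1 = (c : F) • J (Fin m) F) : mult g = c :=
  mult_unique (mult_spec g) h

theorem mult_scalar (c : Fˣ) : mult (scalarGSp (m := m) c) = c ^ 2 :=
  mult_eq (scalar_sim c)

theorem mult_mapGSp {K : Type*} [Field K] (φ : K →+* F) (g : GSp m K) :
    mult (mapGSp φ g) = Units.map φ.toMonoidHom (mult g) :=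
  mult_eq (map_mem_GSp φ (mult_spec g))

theorem ker_mult : (mult : GSp m F →* _).ker = spToGSp.range := by
  ext g
  constructor
  · intro h
    have := mult_spec g
    rw [h, Units.val_one, one_smul] at this
    exact ⟨⟨g.1.1, SymplecticGroup.mem_iff'.2 this⟩, Subtype.ext (Units.ext rfl)⟩
  · rintro ⟨s, rfl⟩
    exact mult_eq ((SymplecticGroup.mem_iff'.1 s.2).trans (one_smul _ _).symm)

theorem mult_surjective : Function.Surjective (mult : GSp m F →* _) := fun c => by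
  have h : (GLBasic.diagGL (Sum.elim (fun _ => c) fun _ => 1 : Fin m ⊕ Fin m → Fˣ)).1ᵀ *
      J (Fin m) F * (GLBasic.diagGL (Sum.elim (fun _ => c) fun _ => 1 : Fin m ⊕ Fin m → Fˣ)).1 =
      (c : F) • J (Fin m) F := by
    rw [GLBasic.diagGL_coe, diagonal_transpose]
    ext (i | i) (j | j) <;> simp [J, mul_comm]
  exact ⟨⟨_, mem_GSp_iff.2 ⟨c, h⟩⟩, mult_eq h⟩

omit [NeZero m] in
theorem inn_le : Inn (PSp m F) ≤ (dS : GSp m F →* _).range := by
  rintro _ ⟨x, rfl⟩
  induction x using QuotientGroup.induction_on with | H s => exact ⟨_, dS_spToGSp s⟩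

theorem dS_mem_inn_iff {g : GSp m F} : dS g ∈ Inn (PSp m F) ↔ ∃ c : Fˣ, mult g = c ^ 2 := by
  constructor
  · rintro ⟨x, hx⟩
    induction x using QuotientGroup.induction_on with | H s =>
    obtain ⟨c, rfl⟩ := dS_eq_dS_iff.1 (hx.symm.trans (dS_spToGSp s).symm)
    exact ⟨c, by rw [map_mul, mult_scalar, ker_mult.ge ⟨s, rfl⟩, one_mul]⟩
  · rintro ⟨c, hc⟩
    obtain ⟨s, hs⟩ : g * scalarGSp c⁻¹ ∈ spToGSp.range := by
      rw [← ker_mult, MonoidHom.mem_ker, map_mul, mult_scalar, hc]; simp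
    exact ⟨s, by rw [← dS_spToGSp, hs, dS_mul_scalar]⟩

theorem card_range_dS [Finite F] : Nat.card (dS : GSp m F →* _).range =
    Nat.gcd 2 (Nat.card F - 1) * Nat.card (PSp m F) := by
  have h1 := card_of_hom (mult : GSp m F →* _) mult_surjective
  have h2 := Subgroup.card_mul_index (dS : GSp m F →* _).ker
  have h3 : (dS : GSp m F →* _).ker = scalarGSp.range :=
    Subgroup.ext fun g => dS_eq_one_iff.trans (exists_congr fun _ => eq_comm)
  rw [Subgroup.index_ker, h3, ← Nat.card_congr (MonoidHom.ofInjective (f := scalarGSp)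
    fun a b h => SLBasic.scalar_injective (congrArg Subtype.val h)).toEquiv, h1, ker_mult,
    ← Nat.card_congr (MonoidHom.ofInjective (f := spToGSp)
      fun a b h => Subtype.ext (congrArg (fun x => x.1.1) h)).toEquiv] at h2
  rw [Nat.eq_of_mul_eq_mul_left Nat.card_pos h2, ← card_center (ι := Fin m), mul_comm]
  exact Subgroup.card_eq_card_quotient_mul_card_subgroup _

end Cfsg.Agent.Classical.AutSp2
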