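import Mathlib
import Cfsg.Agent.Classical.AutSp2

/-! Field automorphisms of `PSp_2m(q)`: Lang's theorem, centralisers and class splitting. -/

set_option autoImplicit false
set_option backward.isDefEq.respectTransparency false

namespace Cfsg.Agent.Classical.AutSp3

open Matrix Cfsg.Agent.Classical.SpWitt Cfsg.Agent.Classical.SpMat Cfsg.Agent.Classical.AutSp
  Cfsg.Agent.Classical.AutPSL Cfsg.Agent.Classical.AutPSL2 Cfsg.Agent.Classical.AutPSL3
  Cfsg.Agent.Classical.Lang Cfsg.Agent.Classical.SplitCount Cfsg.Agent.Classical.AutSp2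
open scoped MatrixGroups

variable {m : ℕ} {F : Type*} [Field F]

theorem tr_mul {ι : Type*} [Fintype ι] (a b M : Matrix ι ι F) :
    (a * b)ᵀ * M * (a * b) = bᵀ * (aᵀ * M * a) * b := by
  simp only [transpose_mul, Matrix.mul_assoc]

theorem exists_basis_of_alt {ι : Type*} [Fintype ι] [DecidableEq ι] {M : Matrix ι ι F}
    (hA : ∀ v, v ⬝ᵥ M *ᵥ v = 0) (hM : M.det ≠ 0) :
    ∃ (m : ℕ) (b : Module.Basis (Fin m ⊕ Fin m) F (ι → F)), Fintype.card ι = 2 * m ∧
      ∀ i j, b i ⬝ᵥ M *ᵥ b j = J (Fin m) F i j := by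
  simpa [Matrix.toBilin'_apply'] using SpSimple.exists_basis_J (B := Matrix.toBilin' M)
    (LinearMap.BilinForm.nondegenerate_toBilin'_of_det_ne_zero' _ hM)
    (fun v => by rw [Matrix.toBilin'_apply', hA])

/-- A non-singular alternating matrix is congruent to `J`. -/
theorem exists_congr_J {ι : Type*} [Fintype ι] [DecidableEq ι] {M : Matrix ι ι F}
    (hA : ∀ v, v ⬝ᵥ M *ᵥ v = 0) (hM : M.det ≠ 0) (e : ι ≃ Fin m ⊕ Fin m) :
    ∃ k : GL ι F, k.1ᵀ * M * k.1 = (J (Fin m) F).submatrix e e := by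
  obtain ⟨m', b, h, hb⟩ := exists_basis_of_alt hA hM
  obtain rfl : m = m' := by have := Fintype.card_congr e; simp at this; omega
  let X : Matrix ι ι F := of fun i j => b (e j) i
  have hX : Xᵀ * M * X = (J (Fin m) F).submatrix e e := by
    ext i j
    rw [mul_mul_apply, submatrix_apply, ← hb]
    rfl
  have h1 : X.det ≠ 0 := fun h0 => by
    have := congrArg det hX
    rw [det_mul, h0, mul_zero, det_submatrix_equiv_self] at this
    exact (isUnit_det_J _ F).ne_zero this.symm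
  exact ⟨GeneralLinearGroup.mkOfDetNeZero X h1, hX⟩

theorem normal_range_dS [Finite F] (hm : 2 ≤ m) : (dS : GSp m F →* _).range.Normal := by
  haveI : NeZero m := ⟨by omega⟩
  by_cases h2 : (2 : F) = 0
  · haveI : CharP F 2 := CharTwo.of_one_ne_zero_of_two_eq_zero one_ne_zero h2
    rw [le_antisymm (b := Inn _) ?_ AutSp2.inn_le]
    · infer_instance
    rintro _ ⟨g, rfl⟩
    obtain ⟨c, hc⟩ := (frobeniusEquiv F 2).surjective (mult g)
    have hc0 : c ≠ 0 := by rintro rfl; exact (mult g).ne_zero (by simpa using hc.symm)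
    exact dS_mem_inn_iff.2 ⟨Units.mk0 c hc0, Units.ext hc.symm⟩
  · constructor
    rintro _ ⟨x, rfl⟩ β
    obtain ⟨g, σ, rfl⟩ := exists_decomp hm (Or.inl h2) β
    exact ⟨_, (conj_dS g σ x).symm⟩

/-- The twisted norm inside the conformal group. -/
def nrmS (σ : F ≃+* F) (g : GSp m F) : ℕ → GSp m F
  | 0 => 1
  | k + 1 => g * mapGSp σ.toRingHom (nrmS σ g k)

theorem nrmS_coe (σ : F ≃+* F) (g : GSp m F) (k : ℕ) : (nrmS σ g k).1 = nrm σ g.1 k := by
  induction k with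
  | zero => rfl
  | succ k ih => rw [nrmS, nrm, ← ih]; rfl

theorem pow_dS_mul_fS (g : GSp m F) (σ : F ≃+* F) (k : ℕ) :
    (dS g * fS m σ) ^ k = dS (nrmS σ g k) * fS m (σ ^ k) := by
  induction k with
  | zero => simp [nrmS]
  | succ k ih =>
    rw [pow_succ', ih, nrmS, mul_assoc, ← mul_assoc (fS m σ), fS_mul_dS, pow_succ', map_mul, map_mul]
    simp only [mul_assoc]

theorem conj_fS (x : GSp m F) (σ : F ≃+* F) : dS x * fS m σ * (dS x)⁻¹ =
    dS (x * (mapGSp σ.toRingHom x)⁻¹) * fS m σ := by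
  rw [← map_inv, mul_assoc, fS_mul_dS, map_mul, ← map_inv, mul_assoc]

theorem orderOf_fS [NeZero m] (σ : F ≃+* F) : orderOf (fS m σ) = orderOf σ :=
  orderOf_injective _ fS_injective σ

theorem exists_eq_smul_map {ι : Type*} {φ : F →+* F} {M : Matrix ι ι F} {c : F} (h0 : M ≠ 0)
    (h : M.map φ = c • M) : ∃ (e : F) (N : Matrix ι ι (Herm.fixF φ)), e ≠ 0 ∧
      M = e • N.map (Herm.fixF φ).subtype := by
  obtain ⟨i, j, hij⟩ : ∃ i j, M i j ≠ 0 := by
    by_contra hc; push Not at hc; exact h0 (Matrix.ext hc)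
  have h1 : ∀ k l, φ (M k l) = c * M k l := fun k l => congrFun (congrFun h k) l
  have hc : c ≠ 0 := fun hc => hij (by simpa [hc] using h1 i j)
  refine ⟨M i j, of fun k l => ⟨M k l / M i j, ?_⟩, hij, ?_⟩
  · change φ _ = M k l / M i j
    rw [map_div₀, h1, h1, mul_div_mul_left _ _ hc]
  · ext k l
    simp [mul_div_cancel₀ _ hij]

/-- Lang's theorem for the conformal symplectic group. -/
theorem hilbert90_GSp [Finite F] [NeZero m] {σ : F ≃+* F} {r : ℕ} (hr : r ≠ 0) (hσ : orderOf σ = r)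
    {g : GSp m F} (hg : dS (nrmS σ g r) = 1) : ∃ (x : GSp m F) (a : Fˣ),
      g * scalarGSp a * mapGSp σ.toRingHom x = x := by
  obtain ⟨c, hc⟩ := dS_eq_one_iff.1 hg
  obtain ⟨x, a, hx⟩ := hilbert90_proj hr hσ (g := g.1) (by
    rw [← nrmS_coe, hc, GeneralLinearGroup.center_eq_range_scalar]; exact ⟨c, rfl⟩)
  have hdet : (x.1ᵀ * J (Fin m) F * x.1).det ≠ 0 := by
    rw [det_mul, det_mul, det_transpose]
    exact mul_ne_zero (mul_ne_zero x.det_ne_zero (isUnit_det_J _ F).ne_zero) x.det_ne_zero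
  obtain ⟨e, N, he, hN⟩ := exists_eq_smul_map (φ := σ.toRingHom) (M := x.1ᵀ * J (Fin m) F * x.1)
    (c := ((mult (g * scalarGSp a))⁻¹ : Fˣ)) (fun h => hdet (by rw [h, det_zero])) (by
      have h1 := mult_spec (g * scalarGSp a)
      have h2 : x.1 = (g * scalarGSp a).1.1 * x.1.map σ.toRingHom := congrArg Units.val hx.symm
      conv_rhs => rw [h2]
      rw [tr_mul, h1, mul_smul_comm, smul_mul_assoc, smul_smul, Units.inv_mul, one_smul,
        Matrix.map_mul, Matrix.map_mul, J_map, transpose_map])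
  obtain ⟨k, hk⟩ := exists_congr_J (M := N) (fun v => by
      apply (Herm.fixF σ.toRingHom).subtype.injective
      apply mul_left_cancel₀ he
      have := sB_alt (F := F) (x.1 *ᵥ ((Herm.fixF σ.toRingHom).subtype ∘ v))
      rw [sB_mulVec', hN, smul_mulVec, dotProduct_smul, smul_eq_mul] at this
      rw [map_zero, mul_zero, ← this, RingHom.map_dotProduct]
      congr 2
      funext i; exact RingHom.map_mulVec _ _ _ i)
    (fun h => hdet (by
      rw [hN, det_smul, ← RingHom.mapMatrix_apply, ← RingHom.map_det, h, map_zero, mul_zero]))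
    (Equiv.refl _)
  replace hk : k.1ᵀ * N * k.1 = J _ _ := hk
  refine ⟨⟨x * GeneralLinearGroup.map (Herm.fixF σ.toRingHom).subtype k,
    mem_GSp_iff.2 ⟨Units.mk0 e he, ?_⟩⟩, a, Subtype.ext ?_⟩
  · rw [Units.val_mul, tr_mul, hN, mul_smul_comm, smul_mul_assoc,
      ← J_map (Herm.fixF σ.toRingHom).subtype, ← hk, Matrix.map_mul, Matrix.map_mul]
    rfl
  · change g.1 * GeneralLinearGroup.scalar _ a * GeneralLinearGroup.map σ.toRingHom (x * _) = x * _
    rw [map_mul, map_map_fixF, ← mul_assoc, hx]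

theorem isConjUnder_fS [Finite F] [NeZero m] {σ : F ≃+* F} {r : ℕ} (hr : r ≠ 0)
    (hσ : orderOf σ = r) {g : GSp m F} (h : (dS g * fS m σ) ^ r = 1) :
    IsConjUnder (dS : GSp m F →* _).range (fS m σ) (dS g * fS m σ) := by
  rw [pow_dS_mul_fS, ← hσ, pow_orderOf_eq_one, map_one, mul_one, hσ] at h
  obtain ⟨x, a, hx⟩ := hilbert90_GSp hr hσ h
  exact ⟨dS x, ⟨x, rfl⟩, by rw [conj_fS, ← eq_mul_inv_iff_mul_eq.2 hx, dS_mul_scalar]⟩

theorem dS_commute_fS_iff {g : GSp m F} {σ : F ≃+* F} : dS g ∈ Subgroup.centralizer {fS m σ} ↔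
    ∃ c : Fˣ, mapGSp σ.toRingHom g = g * scalarGSp c := by
  rw [Subgroup.mem_centralizer_singleton_iff, fS_mul_dS, mul_left_inj, eq_comm, dS_eq_dS_iff]

theorem mem_of_map_mem [NeZero m] {K : Type*} [Field K] {φ : K →+* F} {k : GL (Fin m ⊕ Fin m) K}
    (h : GeneralLinearGroup.map φ k ∈ GSp m F) : k ∈ GSp m K := by
  obtain ⟨c, hc⟩ := mem_GSp_iff.1 h
  have h1 : (k.1ᵀ * J (Fin m) K * k.1).map φ = (c : F) • J (Fin m) F := by
    rw [Matrix.map_mul, Matrix.map_mul, J_map, ← hc]; rfl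
  have h2 : φ ((k.1ᵀ * J (Fin m) K * k.1) (Sum.inr 0) (Sum.inl 0)) = c := by
    simpa [J] using congrFun (congrFun h1 (Sum.inr 0)) (Sum.inl 0)
  have h3 : (k.1ᵀ * J (Fin m) K * k.1) (Sum.inr 0) (Sum.inl 0) ≠ 0 := fun h0 =>
    c.ne_zero (by rw [← h2, h0, map_zero])
  refine mem_GSp_iff.2 ⟨Units.mk0 _ h3, ?_⟩
  apply Matrix.map_injective φ.injective
  change Matrix.map _ _ = Matrix.map _ _
  rw [h1, ← J_map φ]
  ext i j
  simp only [Matrix.smul_apply, map_apply, smul_eq_mul, map_mul, Units.val_mk0, h2]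

theorem inf_centralizer_fS [NeZero m] (σ : F ≃+* F) :
    (dS : GSp m F →* _).range ⊓ Subgroup.centralizer {fS m σ} =
      (dS.comp (mapGSp (Herm.fixF σ.toRingHom).subtype)).range := by
  ext β
  constructor
  · rintro ⟨⟨g, rfl⟩, h⟩
    obtain ⟨c, hc⟩ := dS_commute_fS_iff.1 h
    obtain ⟨k, a, hk⟩ := exists_map_of_proj_fixed (congrArg Subtype.val hc)
    have h1 : k ∈ GSp m _ := mem_of_map_mem (by
      rw [← mul_inv_eq_iff_eq_mul.2 hk]; exact mul_mem g.2 (inv_mem (scalar_mem_GSp a)))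
    refine ⟨⟨k, h1⟩, ?_⟩
    rw [MonoidHom.comp_apply, ← dS_mul_scalar _ a]
    exact congrArg dS (Subtype.ext hk.symm)
  · rintro ⟨k, rfl⟩
    exact ⟨⟨_, rfl⟩, dS_commute_fS_iff.2 ⟨1, by
      rw [map_one, mul_one]; exact Subtype.ext (map_map_fixF _ k.1)⟩⟩

theorem ker_dS_comp {K : Type*} [Field K] (φ : K →+* F) :
    (dS.comp (mapGSp (m := m) φ)).ker = (Geo.scalars _ K).subgroupOf (GSp m K) := by
  ext g
  rw [← MonoidHom.comap_ker, ker_dS, Subgroup.mem_comap, Subgroup.mem_subgroupOf,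
    Subgroup.mem_subgroupOf, scalars_eq, scalars_eq, ← ker_dA_comp φ, ← ker_dA]
  rfl

/-- The image of the conformal group over a subfield. -/
noncomputable def rangeCompEquiv {K : Type*} [Field K] (φ : K →+* F) :
    (dS.comp (mapGSp (m := m) φ)).range ≃* PGSp m K :=
  (QuotientGroup.quotientKerEquivRange _).symm.trans
    (QuotientGroup.quotientMulEquivOfEq (ker_dS_comp _))

theorem range_comp_equiv {K : Type*} [Field K] (e : K ≃+* F) :
    (dS.comp (mapGSp (m := m) e.toRingHom)).range = (dS : GSp m F →* _).range := by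
  rw [MonoidHom.range_comp, MonoidHom.range_eq_top.2, ← MonoidHom.range_eq_map]
  intro g
  exact ⟨mapGSp e.symm.toRingHom g, Subtype.ext (Units.ext (Matrix.ext fun i j =>
    e.apply_symm_apply _))⟩

/-- Transport of `PGSp` along a field isomorphism. -/
noncomputable def pgspCongr {K : Type*} [Field K] (e : K ≃+* F) : PGSp m K ≃* PGSp m F :=
  (rangeCompEquiv e.toRingHom).symm.trans
    ((MulEquiv.subgroupCongr (range_comp_equiv e)).trans pgspEquiv)

theorem splitClassCount_fS [Finite F] [NeZero m] (σ : F ≃+* F) :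
    splitClassCount (dS : GSp m F →* _).range (Inn _) (fS m σ) = Nat.gcd 2
      ((Nat.card F - 1) / (Nat.card (Herm.fixF σ.toRingHom) - 1)) := by
  rw [splitClassCount_eq AutSp2.inn_le, inf_centralizer_fS, MonoidHom.range_eq_map dS,
    ← Subgroup.relIndex_comap, Subgroup.relIndex_top_right, ← index_units_subfield,
    ← index_range_pow_sup, ← Subgroup.index_comap_of_surjective _ (mult_surjective (m := m))]
  congr 1
  ext g
  simp only [Subgroup.mem_comap, Subgroup.mem_sup_of_normal_left]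
  constructor
  · rintro ⟨y, hy, _, ⟨k, rfl⟩, e⟩
    obtain rfl : y = dS (g * (mapGSp (Herm.fixF σ.toRingHom).subtype k)⁻¹) := by
      rw [map_mul, map_inv, ← e]; simp
    obtain ⟨c, hc⟩ := dS_mem_inn_iff.1 hy
    exact ⟨_, ⟨c, hc.symm⟩, _, ⟨mult k, rfl⟩, by simp [mult_mapGSp]⟩
  · rintro ⟨_, ⟨c, rfl⟩, _, ⟨a, rfl⟩, e⟩
    obtain ⟨k, rfl⟩ := mult_surjective (m := m) a
    exact ⟨dS (g * (mapGSp (Herm.fixF σ.toRingHom).subtype k)⁻¹),
      dS_mem_inn_iff.2 ⟨c, by rw [map_mul, ← e]; simp [mult_mapGSp]⟩, _, ⟨k, rfl⟩, by simp⟩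

theorem gcd_two_geom {q r : ℕ} (hq : 2 ≤ q) (hr : r ≠ 0) :
    Nat.gcd 2 ((q ^ r - 1) / (q - 1)) = Nat.gcd (Nat.gcd 2 (q ^ r - 1)) r := by
  rw [← Nat.geomSum_eq hq]
  have h0 : 1 ≤ q ^ r := Nat.one_le_pow _ _ (by omega)
  rcases Nat.even_or_odd q with h | h
  · have h1 : Odd (q ^ r - 1) := Nat.Even.sub_odd h0 (h.pow_of_ne_zero hr) odd_one
    obtain ⟨r, rfl⟩ := Nat.exists_eq_succ_of_ne_zero hr
    rw [(Nat.coprime_two_left.2 h1).gcd_eq_one, Nat.gcd_one_left, ← Nat.coprime_iff_gcd_eq_one,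
      Nat.coprime_two_left, Finset.sum_range_succ']
    exact Even.add_odd (Finset.even_sum _ fun i _ => h.pow_of_ne_zero (by omega)) (by simp)
  · rw [Nat.gcd_eq_left (Nat.Odd.sub_odd h.pow odd_one).two_dvd, Nat.gcd_rec 2, Nat.gcd_rec 2 r,
      Finset.sum_nat_mod, Finset.sum_congr rfl fun i _ => Nat.odd_iff.1 h.pow]
    simp

end Cfsg.Agent.Classical.AutSp3
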