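import Mathlib
import Cfsg.Agent.Classical.AutSp3

/-! The exceptional automorphism of `Sp_4(2^f)`. -/

set_option autoImplicit false
set_option backward.isDefEq.respectTransparency false

namespace Cfsg.Agent.Classical.AutSp4

open Matrix Cfsg.Agent.Classical.SpWitt Cfsg.Agent.Classical.SpMat Cfsg.Agent.Classical.AutSp
  Cfsg.Agent.Classical.AutPSL Cfsg.Agent.Classical.AutPSL2 Cfsg.Agent.Classical.AutSp2
  Cfsg.Agent.Classical.AutSp3 Sum
open scoped MatrixGroups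

variable {F : Type*} [Field F]

/-- First index of the pairs. -/
def pI : Fin 2 ⊕ Fin 2 → Fin 2 ⊕ Fin 2 := Sum.elim (fun _ => inl 0) ![inr 0, inl 1]

/-- Second index of the pairs. -/
def qI : Fin 2 ⊕ Fin 2 → Fin 2 ⊕ Fin 2 := Sum.elim ![inl 1, inr 1] ![inr 1, inr 0]

/-- Four of the Plücker coordinates. -/
def wd (x y : Fin 2 ⊕ Fin 2 → F) : Fin 2 ⊕ Fin 2 → F :=
  fun a => x (pI a) * y (qI a) - x (qI a) * y (pI a)

theorem sB_four (x y : Fin 2 ⊕ Fin 2 → F) : sB _ F x y = x (inr 0) * y (inl 0) -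
    x (inl 0) * y (inr 0) + (x (inr 1) * y (inl 1) - x (inl 1) * y (inr 1)) := by
  rw [sB_eq_sum, Fin.sum_univ_two]

theorem dot_four (x y : Fin 2 ⊕ Fin 2 → F) : x ⬝ᵥ y = x (inl 0) * y (inl 0) +
    x (inl 1) * y (inl 1) + (x (inr 0) * y (inr 0) + x (inr 1) * y (inr 1)) := by
  simp [dotProduct]

theorem wd0 (x y : Fin 2 ⊕ Fin 2 → F) :
    wd x y (inl 0) = x (inl 0) * y (inl 1) - x (inl 1) * y (inl 0) := rfl

theorem wd1 (x y : Fin 2 ⊕ Fin 2 → F) :
    wd x y (inl 1) = x (inl 0) * y (inr 1) - x (inr 1) * y (inl 0) := rfl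

theorem wd2 (x y : Fin 2 ⊕ Fin 2 → F) :
    wd x y (inr 0) = x (inr 0) * y (inr 1) - x (inr 1) * y (inr 0) := rfl

theorem wd3 (x y : Fin 2 ⊕ Fin 2 → F) :
    wd x y (inr 1) = x (inl 1) * y (inr 0) - x (inr 0) * y (inl 1) := rfl

theorem four_cases {P : Fin 2 ⊕ Fin 2 → Prop} (h0 : P (inl 0)) (h1 : P (inl 1)) (h2 : P (inr 0))
    (h3 : P (inr 1)) : ∀ a, P a := by
  simp [Fin.forall_fin_two, h0, h1, h2, h3]

theorem wd_single (a : Fin 2 ⊕ Fin 2) :
    wd (Pi.single (pI a) (1 : F)) (Pi.single (qI a) 1) = Pi.single a 1 := by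
  funext b
  revert a b
  refine four_cases ?_ ?_ ?_ ?_ <;> refine four_cases ?_ ?_ ?_ ?_ <;> simp [wd, pI, qI]

theorem sB_pq (a : Fin 2 ⊕ Fin 2) :
    sB _ F (Pi.single (pI a) (1 : F)) (Pi.single (qI a) 1) = 0 := by
  revert a
  refine four_cases ?_ ?_ ?_ ?_ <;> simp [sB_four, pI, qI]

theorem zpowers_frobenius [Finite F] (p : ℕ) [Fact p.Prime] [CharP F p] :
    Subgroup.zpowers (frobeniusEquiv F p) = ⊤ := by
  letI := ZMod.algebra F p
  rw [eq_top_iff]
  intro σ _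
  obtain ⟨k, hk⟩ := (FiniteField.bijective_frobeniusAlgEquivOfAlgebraic_pow (ZMod p) F).2
    (ringAutEquiv p σ)
  refine ⟨(k : ℕ), (ringAutEquiv p).injective ?_⟩
  simp only [zpow_natCast, map_pow]
  rw [← hk]
  congr 1
  ext x
  change x ^ p = x ^ Fintype.card (ZMod p)
  rw [ZMod.card]

/-- The matrix of the induced map on the four dimensional section of the exterior square. -/
def thM (g : Matrix (Fin 2 ⊕ Fin 2) (Fin 2 ⊕ Fin 2) F) : Matrix (Fin 2 ⊕ Fin 2) (Fin 2 ⊕ Fin 2) F :=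
  of fun a => wd (g (pI a)) (g (qI a))

variable [CharP F 2]

theorem h2 : (2 : F) = 0 := CharTwo.two_eq_zero

theorem wd_dot {u v x y : Fin 2 ⊕ Fin 2 → F} (h : sB _ F u v = 0) (h' : sB _ F x y = 0) :
    wd u v ⬝ᵥ wd x y = (u ⬝ᵥ x) * (v ⬝ᵥ y) - (u ⬝ᵥ y) * (v ⬝ᵥ x) := by
  simp only [sB_four, dot_four, wd0, wd1, wd2, wd3] at *
  linear_combination (x (inl 1) * y (inr 1) - x (inr 1) * y (inl 1)) * h -
    (u (inl 0) * v (inr 0) - u (inr 0) * v (inl 0)) * h' - (u (inl 0) * v (inr 0) -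
      u (inr 0) * v (inl 0)) * (x (inl 0) * y (inr 0) - x (inr 0) * y (inl 0)) * (h2 (F := F))

theorem sB_wd {u v x y : Fin 2 ⊕ Fin 2 → F} (h : sB _ F u v = 0) (h' : sB _ F x y = 0) :
    sB _ F (wd u v) (wd x y) = sB _ F u x * sB _ F v y - sB _ F u y * sB _ F v x := by
  simp only [sB_four, wd0, wd1, wd2, wd3] at *
  grind

theorem wd_wd {v x y : Fin 2 ⊕ Fin 2 → F} (h : sB _ F v x = 0) (h' : sB _ F v y = 0) :
    wd (wd v x) (wd v y) = fun a => sB _ F x y * v a ^ 2 := by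
  funext a
  revert a
  refine four_cases ?_ ?_ ?_ ?_ <;> simp only [sB_four, wd0, wd1, wd2, wd3] at * <;> grind

theorem thM_wd (g : symplecticGroup (Fin 2) F) {x y : Fin 2 ⊕ Fin 2 → F} (h : sB _ F x y = 0) :
    thM g.1 *ᵥ wd x y = wd (g.1 *ᵥ x) (g.1 *ᵥ y) := by
  funext a
  have := sB_mulVec ⟨_, SymplecticGroup.transpose_mem g.2⟩ (Pi.single (pI a) 1) (Pi.single (qI a) 1)
  rw [sB_pq, mulVec_single_one, mulVec_single_one] at this
  exact (wd_dot this h).trans (congrArg (_ - ·) (mul_comm _ _))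

theorem thM_single (g : symplecticGroup (Fin 2) F) (a : Fin 2 ⊕ Fin 2) :
    thM g.1 *ᵥ Pi.single a 1 = wd (g.1 *ᵥ Pi.single (pI a) 1) (g.1 *ᵥ Pi.single (qI a) 1) := by
  rw [← thM_wd g (sB_pq a), wd_single]

theorem thM_mem (g : symplecticGroup (Fin 2) F) : thM g.1 ∈ symplecticGroup (Fin 2) F := by
  rw [SymplecticGroup.mem_iff']
  ext a b
  have h : ∀ a, sB _ F (g.1 *ᵥ Pi.single (pI a) 1) (g.1 *ᵥ Pi.single (qI a) 1) = 0 := fun a => by
    rw [sB_mulVec, sB_pq]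
  have := sB_mulVec' (thM g.1) (Pi.single a 1) (Pi.single b 1)
  rw [thM_single, thM_single, sB_wd (h a) (h b)] at this
  simp only [sB_mulVec] at this
  rw [← sB_wd (sB_pq a) (sB_pq b), wd_single, wd_single, sB_single] at this
  simpa using this.symm

/-- The exceptional endomorphism of `Sp_4` in characteristic two. -/
def theta : symplecticGroup (Fin 2) F →* symplecticGroup (Fin 2) F :=
  MonoidHom.mk' (fun g => ⟨thM g.1, thM_mem g⟩) fun g h =>
    Subtype.ext (Matrix.ext_of_mulVec_single fun a => by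
      change _ = (thM g.1 * thM h.1) *ᵥ _
      rw [thM_single, ← mulVec_mulVec, thM_single, thM_wd _ (by rw [sB_mulVec, sB_pq]),
        mulVec_mulVec, mulVec_mulVec]
      rfl)

theorem theta_coe (g : symplecticGroup (Fin 2) F) : (theta g).1 = thM g.1 := rfl

theorem theta_theta (g : symplecticGroup (Fin 2) F) :
    (theta (theta g)).1 = g.1.map (frobenius F 2) := by
  have key : ∀ v x y : Fin 2 ⊕ Fin 2 → F, sB _ F v x = 0 → sB _ F v y = 0 → sB _ F x y = 1 →
      (theta (theta g)).1 *ᵥ (fun a => v a ^ 2) = fun a => (g.1 *ᵥ v) a ^ 2 := by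
    intro v x y h1 h2 h3
    have h4 := wd_wd h1 h2
    have h5 := wd_wd ((sB_mulVec g _ _).trans h1) ((sB_mulVec g _ _).trans h2)
    simp only [sB_mulVec, h3, one_mul] at h4 h5
    rw [← h4, ← h5, theta_coe, thM_wd _ (by rw [sB_wd h1 h2, sB_alt, sB_alt.isRefl _ _ h1]; simp),
      theta_coe, thM_wd _ h1, thM_wd _ h2]
  have h : ∀ a, ∃ b c, sB _ F (Pi.single a (1 : F)) (Pi.single b 1) = 0 ∧
      sB _ F (Pi.single a (1 : F)) (Pi.single c 1) = 0 ∧
      sB (Fin 2) F (Pi.single b (1 : F)) (Pi.single c 1) = 1 :=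
    four_cases ⟨inr 1, inl 1, by simp [sB_four]⟩ ⟨inr 0, inl 0, by simp [sB_four]⟩
      ⟨inr 1, inl 1, by simp [sB_four]⟩ ⟨inr 0, inl 0, by simp [sB_four]⟩
  ext i a
  obtain ⟨b, c, h1, h2, h3⟩ := h a
  have := congrFun (key _ _ _ h1 h2 h3) i
  rw [show (fun b => (Pi.single a (1 : F) : _ → F) b ^ 2) = Pi.single a 1 from
    funext fun b => by simp [Pi.single_apply]] at this
  simpa [frobenius_def] using this

theorem theta_injective : Function.Injective (theta (F := F)) := fun g h e =>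
  Subtype.ext (Matrix.map_injective (frobenius F 2).injective (by
    change Matrix.map _ _ = Matrix.map _ _
    rw [← theta_theta, e, theta_theta]))

theorem theta_tvM : spEquiv _ F (theta (tvM (Pi.single (inl 0) 1) 1)) =
    eich sB_alt (Pi.single (inl 0) 1) (Pi.single (inl 1) 1) 0 := by
  rw [← MulEquiv.eq_symm_apply]
  refine Subtype.ext (Matrix.ext_of_mulVec_single fun a => ?_)
  rw [spEquiv_symm_mulVec, eich_apply _ (by simp [sB_four]), theta_coe, thM_single, tvM_mulVec,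
    tvM_mulVec]
  funext b
  revert a b
  refine four_cases ?_ ?_ ?_ ?_ <;> refine four_cases ?_ ?_ ?_ ?_ <;>
    simp [wd, pI, qI, sB_four, CharTwo.neg_eq]

theorem eich_ne_tv (w : Fin 2 ⊕ Fin 2 → F) (d : F) :
    eich sB_alt (Pi.single (inl 0) 1) (Pi.single (inl 1) 1) 0 ≠ tv (sB_alt (ι := Fin 2)) w d := by
  intro h
  have h1 := fun a b => congrArg (fun g : SG (sB (Fin 2) F) => g.1 (Pi.single a 1) b) h
  simp only [eich_apply _ (show sB (Fin 2) F (Pi.single (inl 0) 1) (Pi.single (inl 1) 1) = 0 by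
    simp [sB_four]), tv_apply] at h1
  have h2 := h1 (inr 0) (inl 0)
  have h3 := h1 (inr 0) (inl 1)
  simp [sB_four] at h2 h3
  rcases h2 with h2 | h2 <;> simp [h2] at h3

variable [Finite F]

variable (F) in
/-- The exceptional automorphism of `PSp_4(2^f)`. -/
noncomputable def tS : MulAut (PSp 2 F) :=
  autQ _ (MulEquiv.ofBijective theta (Finite.injective_iff_bijective.1 theta_injective))

theorem tS_mk (s : symplecticGroup (Fin 2) F) : tS F (s : PSp 2 F) = (theta s :) := rfl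

theorem tS_sq : tS F ^ 2 = fS 2 (frobeniusEquiv F 2) := by
  ext x
  induction x using QuotientGroup.induction_on with | H s =>
  exact congrArg QuotientGroup.mk (Subtype.ext (theta_theta s))

theorem tS_ne (g : GSp 2 F) (σ : F ≃+* F) : tS F ≠ dS g * fS 2 σ := by
  intro h
  have h1 := congrArg (fun β : MulAut (PSp 2 F) =>
    pspEquiv (β (tvM (m := 2) (Pi.single (inl 0) (1 : F)) 1 :))) h
  simp only [tS_mk, MulAut.mul_apply, fS_mk, dS_mk, fieldSp_tvM, conjSp_tvM g (mult_spec g),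
    pspEquiv_tvM] at h1
  rw [pspEquiv_mk, theta_tvM] at h1
  exact eich_ne_tv _ _ ((mk_bijective sB_nondeg sB_alt h2).1 h1)

theorem dS_mem_inn (g : GSp 2 F) : dS g ∈ Inn (PSp 2 F) := by
  obtain ⟨c, hc⟩ := (frobeniusEquiv F 2).surjective (mult g)
  have hc0 : c ≠ 0 := by rintro rfl; exact (mult g).ne_zero (by simpa using hc.symm)
  exact dS_mem_inn_iff.2 ⟨Units.mk0 c hc0, Units.ext hc.symm⟩

theorem exists_decomp_four (β : MulAut (PSp 2 F)) : (∃ g σ, β = dS g * fS 2 σ) ∨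
    ∃ x g σ, β = MulAut.conj x * tS F * (dS g * fS 2 σ) := by
  have hv : (Pi.single (inl 0) 1 : Fin 2 ⊕ Fin 2 → F) ≠ 0 := by simp
  rcases image_tv_or sB_nondeg sB_alt (MulAut.congr pspEquiv β) hv one_ne_zero with
    h | ⟨-, -, w, e, h1, h3, h4⟩
  · exact Or.inl (exists_decomp_of_mapsTv le_rfl (mapsTv_of_one sB_nondeg sB_alt h2 hv h))
  · obtain ⟨g, -, rfl, rfl⟩ := witt_two sB_nondeg sB_alt ⊤ (fun _ _ => trivial)
      (u := Pi.single (inl 0) 1) (v := Pi.single (inl 1) 1)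
      (LinearIndependent.pair_iff.2 fun a b h =>
        ⟨by simpa using congrFun h (inl 0), by simpa using congrFun h (inl 1)⟩)
      (LinearIndependent.pair_iff.2 h1) (by rw [h3]; simp [sB_four])
    obtain ⟨k, σ, hk⟩ := exists_decomp_of_mapsTv le_rfl
      (β := (MulAut.conj (pspEquiv.symm (g :)) * tS F)⁻¹ * β)
      (mapsTv_of_one sB_nondeg sB_alt h2 hv ⟨Pi.single (inl 0) 1, 1, by
        rw [map_mul, MulAut.mul_apply, h4, map_inv, MulAut.inv_apply, MulEquiv.symm_apply_eq,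
          ← conj_eich, ← theta_tvM, ← pspEquiv_tvM]
        simp [← pspEquiv_mk, tS_mk]⟩)
    exact Or.inr ⟨_, k, σ, by rw [← hk, mul_inv_cancel_left]⟩

theorem zpowers_tS : Subgroup.zpowers (tS F : Out (PSp 2 F)) = ⊤ := by
  have h : ∀ g σ, ((dS g * fS 2 σ : MulAut (PSp 2 F)) : Out (PSp 2 F)) ∈
      Subgroup.zpowers (tS F : Out (PSp 2 F)) := fun g σ => by
    obtain ⟨k, rfl⟩ := (zpowers_frobenius (F := F) 2).ge (Subgroup.mem_top σ)
    rw [QuotientGroup.mk_mul, (QuotientGroup.eq_one_iff _).2 (dS_mem_inn g), one_mul, map_zpow,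
      ← tS_sq, QuotientGroup.mk_zpow, QuotientGroup.mk_pow]
    exact zpow_mem (pow_mem (Subgroup.mem_zpowers _) _) _
  rw [eq_top_iff]
  intro x _
  induction x using QuotientGroup.induction_on with | H β =>
  rcases exists_decomp_four β with ⟨g, σ, rfl⟩ | ⟨x, g, σ, rfl⟩
  · exact h g σ
  · rw [QuotientGroup.mk_mul, QuotientGroup.mk_mul,
      (QuotientGroup.eq_one_iff (N := Inn _) (MulAut.conj x)).2 ⟨x, rfl⟩, one_mul]
    exact mul_mem (Subgroup.mem_zpowers _) (h g σ)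

theorem orderOf_tS : orderOf (tS F : Out (PSp 2 F)) = 2 * Nat.card (F ≃+* F) := by
  rw [← Subgroup.card_top, ← zpowers_frobenius 2, Nat.card_zpowers]
  have h : ∀ k, (tS F : Out (PSp 2 F)) ^ (2 * k) = 1 ↔ frobeniusEquiv F 2 ^ k = 1 := fun k => by
    rw [← QuotientGroup.mk_pow, pow_mul, tS_sq, ← map_pow, QuotientGroup.eq_one_iff]
    refine ⟨fun h => ?_, fun h => by rw [h, map_one]; exact one_mem _⟩
    obtain ⟨g, hg⟩ := AutSp2.inn_le h
    exact eq_one_of_dS_mul_fS (g := g⁻¹) (by rw [← hg, map_inv, inv_mul_cancel])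
  apply Nat.dvd_antisymm (orderOf_dvd_of_pow_eq_one ((h _).2 (pow_orderOf_eq_one _)))
  have h1 := pow_orderOf_eq_one (tS F : Out (PSp 2 F))
  rcases Nat.even_or_odd' (orderOf (tS F : Out (PSp 2 F))) with ⟨k, hk | hk⟩
  · rw [hk] at h1 ⊢
    exact Nat.mul_dvd_mul_left _ (orderOf_dvd_of_pow_eq_one ((h k).1 h1))
  · rw [hk, ← QuotientGroup.mk_pow, QuotientGroup.eq_one_iff, pow_succ', pow_mul, tS_sq,
      ← map_pow] at h1
    obtain ⟨g, hg⟩ := AutSp2.inn_le h1
    exact absurd (by rw [hg, map_inv, mul_inv_cancel_right])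
      (tS_ne g (frobeniusEquiv F 2 ^ k)⁻¹)

theorem card_out : Nat.card (Out (PSp 2 F)) = 2 * Nat.card (F ≃+* F) := by
  rw [← orderOf_tS, ← Nat.card_zpowers, zpowers_tS, Subgroup.card_top]

end Cfsg.Agent.Classical.AutSp4
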