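import Mathlib
import Cfsg.Agent.Classical.AutSp4
import Cfsg.Agent.Classical.Balance

/-! The `p'`-core of the centraliser of a field automorphism of `PSp_2m(q)`. -/

set_option autoImplicit false
set_option backward.isDefEq.respectTransparency false

namespace Cfsg.Agent.Classical.AutSp5

open Matrix Cfsg.Agent.Classical.SpWitt Cfsg.Agent.Classical.SpMat Cfsg.Agent.Classical.AutSp
  Cfsg.Agent.Classical.AutSp2 Cfsg.Agent.Classical.AutSp3 Cfsg.Agent.Classical.AutSp4
  Cfsg.Agent.Classical.Congr Cfsg.Agent.Classical.Balance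
open scoped MatrixGroups

variable {m : ℕ} {F : Type*} [Field F]

theorem orderOf_dvd_of_fix [Finite F] {σ τ : F ≃+* F} (h : ∀ a, σ a = a → τ a = a) :
    orderOf τ ∣ orderOf σ := by
  obtain ⟨k, -, hk⟩ := exists_card_eq_pow_of_ringHom
    (Subfield.inclusion (S := Herm.fixF σ.toRingHom) (T := Herm.fixF τ.toRingHom) h)
  have := Lang.card_eq_pow_orderOf σ
  rw [Lang.card_eq_pow_orderOf τ, ← hk, ← pow_mul] at this
  exact ⟨k, (Nat.pow_right_injective Finite.one_lt_card this).symm.trans (mul_comm _ _)⟩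

theorem pow_mem_commutator {G : Type*} [Group G] {r : ℕ}
    (h : ∀ H : Subgroup G, (∀ g, g ^ r = 1 → g ∈ H) → H = ⊤) (s : G) : s ^ r ∈ commutator G := by
  have := h ((powMonoidHom r).comp Abelianization.of).ker fun g hg => by
    rw [MonoidHom.mem_ker, MonoidHom.comp_apply, powMonoidHom_apply, ← map_pow, hg, map_one]
  rw [← Abelianization.ker_of, MonoidHom.mem_ker, map_pow]
  exact this.ge (Subgroup.mem_top s)

theorem tvM_add (v : Fin m ⊕ Fin m → F) (c d : F) : tvM v (c + d) = tvM v c * tvM v d := by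
  rw [tvM, tv_add, map_mul, tvM, tvM]

theorem tvM_pow (v : Fin m ⊕ Fin m → F) (c : F) (k : ℕ) : tvM v c ^ k = tvM v (k * c) := by
  induction k with
  | zero => simp [tvM, tv_zero]
  | succ k ih => rw [pow_succ, ih, ← tvM_add]; congr 1; push_cast; ring

theorem normal_cases (r : ℕ) [CharP F r] (M : Subgroup (symplecticGroup (Fin m) F)) [M.Normal] :
    M ≤ Subgroup.center _ ∨ ∀ s, s ^ r ∈ M :=
  (normal_le_center_or M).imp_right fun h s => h (pow_mem_commutator (fun H hH =>
    eq_top_of_transvection m H fun A ⟨w, c, hA⟩ => hH _ (by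
      rw [show A = tvM w c from Subtype.ext (hA.trans (spEquiv_symm_tv m w c).symm), tvM_pow]
      simp [tvM, tv_zero])) s)

theorem spMap_tvM {K : Type*} [Field K] (φ : K →+* F) (v : Fin m ⊕ Fin m → K) (c : K) :
    spMap φ (tvM v c) = tvM (φ ∘ v) (φ c) := by
  refine Subtype.ext (Matrix.ext_of_mulVec_single fun j => ?_)
  have h : (Pi.single j 1 : Fin m ⊕ Fin m → F) = φ ∘ (Pi.single j 1 : Fin m ⊕ Fin m → K) :=
    funext fun k => by simp [Pi.single_apply]
  rw [tvM_mulVec, h, sB_comp]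
  funext i
  refine (RingHom.map_mulVec φ (tvM v c).1 _ i).symm.trans ?_
  rw [tvM_mulVec]
  simp

theorem mapGSp_spToGSp {K : Type*} [Field K] (φ : K →+* F) (s : symplecticGroup (Fin m) K) :
    mapGSp φ (spToGSp s) = spToGSp (spMap φ s) := Subtype.ext (Units.ext rfl)

theorem spToGSp_conjSp (g : GSp m F) (s : symplecticGroup (Fin m) F) :
    spToGSp (conjSp g s) = g * spToGSp s * g⁻¹ := Subtype.ext (Units.ext rfl)

theorem dS_mapGSp_scalar {K : Type*} [Field K] (φ : K →+* F) (c : Kˣ) :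
    dS (mapGSp φ (scalarGSp (m := m) c)) = 1 :=
  (ker_dS_comp φ).ge (Subgroup.mem_subgroupOf.2 ⟨c, rfl⟩)

theorem spMap_negOne {K : Type*} [Field K] (φ : K →+* F) :
    spMap φ (negOne (Fin m) K) = negOne _ F :=
  Subtype.ext (Matrix.ext fun i j => by simp [spMap, negOne, one_apply, apply_ite φ])

theorem conj_injective : Function.Injective (MulAut.conj : PSp m F →* _) := by
  rw [injective_iff_map_eq_one]
  intro x hx
  induction x using QuotientGroup.induction_on with | H s =>
  obtain ⟨c, hc⟩ := dS_eq_one_iff.1 ((dS_spToGSp s).trans hx)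
  refine (QuotientGroup.eq_one_iff _).2 (Subgroup.mem_center_iff.2 fun t => Subtype.ext ?_)
  have : s.1 = (c : F) • 1 := (congrArg (fun g => g.1.1) hc).trans (AutPSL3.scalar_coe c)
  simp [this]

theorem exists_decomp_of_fix [Finite F] (hm : 2 ≤ m) {β : MulAut (PSp m F)}
    (h : β (tvM (m := m) 1 (1 : F) :) = (tvM (m := m) 1 (1 : F) :)) : ∃ g σ, β = dS g * fS m σ := by
  haveI : NeZero m := ⟨by omega⟩
  by_cases h2 : (2 : F) = 0
  · exact exists_decomp_of_mapsTv hm (mapsTv_of_one sB_nondeg sB_alt h2 one_ne_zero ⟨1, 1, by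
      rw [← pspEquiv_tvM]; simp [h]⟩)
  · exact exists_decomp hm (Or.inl h2) β

theorem exists_decomp_sq [Finite F] (hm : 2 ≤ m) (β : MulAut (PSp m F)) :
    ∃ g σ, β ^ 2 = dS g * fS m σ := by
  by_cases h : (2 : F) ≠ 0 ∨ 3 ≤ m
  · exact exists_decomp hm h _
  push Not at h
  obtain rfl : m = 2 := by omega
  haveI : CharP F 2 := CharTwo.of_one_ne_zero_of_two_eq_zero one_ne_zero h.1
  obtain ⟨k, hk⟩ := zpowers_tS.ge (Subgroup.mem_top (β : Out (PSp 2 F)))
  have h1 : β ^ 2 * (fS 2 (frobeniusEquiv F 2 ^ k))⁻¹ ∈ Inn (PSp 2 F) := by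
    rw [← QuotientGroup.eq_one_iff, QuotientGroup.mk_mul, QuotientGroup.mk_inv, mul_inv_eq_one,
      map_zpow, ← tS_sq, QuotientGroup.mk_pow, ← hk, QuotientGroup.mk_zpow, QuotientGroup.mk_pow,
      ← zpow_natCast, ← zpow_natCast, ← _root_.zpow_mul, ← _root_.zpow_mul, mul_comm]
  obtain ⟨g, hg⟩ := inn_le h1
  exact ⟨g, _, by rw [hg, inv_mul_cancel_right]⟩

/-- An automorphism of prime order different from the characteristic. -/
theorem exists_decomp_prime [Finite F] (hm : 2 ≤ m) {r p : ℕ} [CharP F r] (hp : p.Prime)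
    (hpr : p ≠ r) {β : MulAut (PSp m F)} (h : orderOf β = p) : ∃ g σ, β = dS g * fS m σ := by
  by_cases h2 : (2 : F) = 0
  · haveI : CharP F 2 := CharTwo.of_one_ne_zero_of_two_eq_zero one_ne_zero h2
    obtain ⟨k, hk⟩ := hp.odd_of_ne_two (hpr.trans_eq (CharP.eq F ‹_› ‹_›))
    have := exists_decomp_sq hm (β ^ (k + 1))
    rwa [← pow_mul, show (k + 1) * 2 = p + 1 by omega, pow_succ, ← h, pow_orderOf_eq_one,
      one_mul] at this
  · exact exists_decomp hm (Or.inl h2) β

theorem core_eq_bot_fS [Finite F] (hm : 2 ≤ m) {r p : ℕ} [Fact r.Prime] [CharP F r] (hp : p.Prime)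
    (hpr : p ≠ r) {σ : F ≃+* F} (hσ : orderOf σ = p) {A : Subgroup (MulAut (PSp m F))}
    (hinn : ∀ k, MulAut.conj k ∈ A) {k : PSp m F} (hk : fS m σ k = k) (hkp : orderOf k = p) :
    pPrimeCore p (A ⊓ Subgroup.centralizer {fS m σ} : Subgroup _) = ⊥ := by
  haveI : NeZero m := ⟨by omega⟩
  let K := Herm.fixF σ.toRingHom
  let φ : symplecticGroup (Fin m) K →* PSp m F := (QuotientGroup.mk' _).comp (spMap K.subtype)
  have h0 : ∀ k, fS m σ k = k → ∃ g : GSp m K, dS (mapGSp K.subtype g) = MulAut.conj k :=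
    fun k hk => (inf_centralizer_fS σ).le ⟨inn_le ⟨k, rfl⟩, conj_mem_of_fix hk⟩
  have h1 : ∀ s, dS (mapGSp K.subtype (spToGSp s)) = MulAut.conj (φ s) := fun s => by
    rw [mapGSp_spToGSp, dS_spToGSp]; rfl
  refine core_eq_bot conj_injective hinn φ (fun l => congrArg QuotientGroup.mk
    (Subtype.ext (Matrix.ext fun i j => (l.1 i j).2))) (fun k hk l => ?_) (fun M hM h => ?_)
    fun α h hα => ?_
  · obtain ⟨g, hg⟩ := h0 k hk
    refine ⟨conjSp g l, conj_injective ?_⟩
    rw [map_mul, map_mul, map_inv, ← hg, ← h1, ← h1, spToGSp_conjSp]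
    simp only [map_mul, map_inv]
  · rcases normal_cases r M with h2 | h2
    · intro l hl
      refine (QuotientGroup.eq_one_iff _).2 (mem_center_iff.2 ?_)
      rcases mem_center_iff.1 (h2 hl) with rfl | rfl
      · exact Or.inl (map_one _)
      · exact Or.inr (spMap_negOne _)
    have h3 : ∃ s, p ∣ orderOf (φ s) := by
      rcases hp.eq_two_or_odd' with rfl | h3
      · refine ⟨SymplecticGroup.symJ _ _, (orderOf_eq_prime ?_ ?_).symm.dvd⟩
        · rw [← map_pow]
          refine (QuotientGroup.eq_one_iff _).2 (mem_center_iff.2 (Or.inr (Subtype.ext ?_)))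
          change Matrix.map (J _ _ ^ 2) _ = -1
          rw [pow_two, Matrix.map_mul, J_map, J_squared]
        · intro h
          have h4 : ∀ A : symplecticGroup (Fin m) F, A ∈ Subgroup.center _ →
              A.1 (Sum.inr 0) (Sum.inl 0) = 0 := fun A hA => by
            rcases mem_center_iff.1 hA with rfl | rfl <;> simp [negOne]
          simpa [spMap, J] using h4 _ ((QuotientGroup.eq_one_iff _).1 h)
      · obtain ⟨g, hg⟩ := h0 k hk
        obtain ⟨s, hs⟩ : g ^ 2 * scalarGSp (mult g)⁻¹ ∈ spToGSp.range := by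
          rw [← ker_mult, MonoidHom.mem_ker, map_mul, mult_scalar]; simp
        have : φ s = k ^ 2 := conj_injective (by
          rw [← h1, hs, map_mul, map_mul, map_pow, map_pow, hg, map_pow,
            dS_mapGSp_scalar, mul_one])
        exact ⟨s, by
          rw [this, Nat.Coprime.orderOf_pow (by rw [hkp]; exact Nat.coprime_two_right.2 h3), hkp]⟩
    obtain ⟨s, hs⟩ := h3
    exact (not_coprime_of_pow hp ((Nat.coprime_primes hp Fact.out).2 hpr) h2 hs h).elim
  · have h2 : ∀ (v : Fin m ⊕ Fin m → K) (c : K),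
        α (tvM (K.subtype ∘ v) c :) = (tvM (K.subtype ∘ v) c :) := fun v c => by
      have := h (tvM v c)
      rwa [MonoidHom.comp_apply, spMap_tvM] at this
    obtain ⟨g, τ, rfl⟩ := exists_decomp_of_fix hm (h2 1 1)
    have h3 := mem_center_of_fix (g := g) (σ := τ) fun v hv =>
      h2 (fun i => ⟨v i, show σ (v i) = v i by rcases hv i with h | h <;> simp [h]⟩) 1
    rw [GeneralLinearGroup.center_eq_range_scalar] at h3
    obtain ⟨c, hc⟩ := h3
    rw [show g = scalarGSp c from Subtype.ext hc.symm, dS_scalar, one_mul] at h2 hα ⊢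
    rw [orderOf_fS] at hα
    rw [orderOf_eq_one_iff.1 (hα.eq_one_of_dvd (hσ ▸ orderOf_dvd_of_fix fun a ha => ?_)), map_one]
    have := h2 1 ⟨a, ha⟩
    rw [fS_mk, fieldSp_tvM, show τ ∘ K.subtype ∘ (1 : Fin m ⊕ Fin m → K) = 1 from
      funext fun _ => map_one τ] at this
    exact tv_coeff_inj one_ne_zero this

end Cfsg.Agent.Classical.AutSp5
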