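import Mathlib
import Cfsg.Agent.Classical.GamO8
import Cfsg.Agent.Classical.AutSp5

/-! The `p'`-core of the centraliser of a field automorphism of `PΩ`. -/

set_option autoImplicit false
set_option backward.isDefEq.respectTransparency false

namespace Cfsg.Agent.Classical.GamO

open QuadraticMap Module Cfsg.Agent.Orth Cfsg.Agent.Classical.AutO Cfsg.Agent.Classical.Balance

theorem core_eq_bot' {P L : Type*} [Group P] [Group L] {B : Subgroup (MulAut P)} {x : MulAut P}
    {p : ℕ} (hinj : Function.Injective (MulAut.conj : P →* _)) (hinn : ∀ k, MulAut.conj k ∈ B)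
    (ψ : L →* MulAut P) (h0 : ∀ l, ψ l ∈ Inn P) (h1 : ∀ l, Commute x (ψ l))
    (hn : ∀ k ∈ Inn P, Commute x k → ∀ l, ∃ l', k * ψ l * k⁻¹ = ψ l')
    (hL : ∀ M : Subgroup L, M.Normal → (∀ l ∈ M, (orderOf (ψ l)).Coprime p) → ∀ l ∈ M, ψ l = 1)
    (hC : ∀ α : MulAut P, (∀ l, Commute α (ψ l)) → (orderOf α).Coprime p → α = 1) :
    pPrimeCore p (B ⊓ Subgroup.centralizer {x} : Subgroup _) = ⊥ := by
  let φ : L →* P := (MonoidHom.ofInjective hinj).symm.toMonoidHom.comp (ψ.codRestrict _ h0)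
  have h2 : ∀ l, MulAut.conj (φ l) = ψ l := fun l => MonoidHom.apply_ofInjective_symm hinj _
  have h3 : ∀ (α : MulAut P) k, α k = k ↔ Commute α (MulAut.conj k) := fun α k => by
    rw [← hinj.eq_iff, ← conj_mul_conj, mul_inv_eq_iff_eq_mul]; rfl
  refine core_eq_bot hinj hinn φ (fun l => (h3 _ _).2 (h2 l ▸ h1 l)) (fun k hk l => ?_)
    (fun M hM h l hl => hinj ?_) fun α h => hC α fun l => h2 l ▸ (h3 _ _).1 (h l)
  · exact (hn _ ⟨k, rfl⟩ ((h3 _ _).1 hk) l).imp fun l' h => hinj (by simp only [map_mul, map_inv, h2, h])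
  · rw [h2, map_one]
    exact hL M hM (fun l hl => by rw [← h2, orderOf_injective _ hinj]; exact h l hl) l hl

variable {K F V₀ V P : Type*} [Field K] [Field F] [AddCommGroup V₀] [Module K V₀]
  [AddCommGroup V] [Module F V] {φ : K →+* F} {Q₀ : QuadraticForm K V₀} {Q : QuadraticForm F V}
  {j : V₀ →ₛₗ[φ] V} {e : F} [Group P]

theorem Model.commute_of_perfect {A : Gam Q →* MulAut P} (hA : Model A) {L : Type*} [Group L]
    (hL : commutator L = ⊤) (ψ : L →* OG Q) {b : Gam Q} (h : ∀ l, Commute (A b) (A (og (ψ l))))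
    (l : L) : Commute b (og (ψ l)) := by
  have h1 : ∀ l, ∃ c, b * og (ψ l) * b⁻¹ = sc Q c * og (ψ l) := fun l => hA.eq_iff.1 (by
    rw [map_mul, map_mul, (h l).eq, map_inv, mul_inv_cancel_right])
  have h2 : commutator L ≤ (Subgroup.centralizer {b}).comap (og.comp ψ) := by
    rw [commutator_def, Subgroup.commutator_le]
    intro s _ t _
    obtain ⟨c, hc⟩ := h1 s
    obtain ⟨d, hd⟩ := h1 t
    have h3 : ∀ c (o : OG Q), Commute (sc Q c) (og o) := fun c o => (mul_sc' rfl c).symm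
    rw [Subgroup.mem_comap, Subgroup.mem_centralizer_singleton_iff, eq_comm, ← mul_inv_eq_iff_eq_mul,
      map_commutatorElement, ← MulAut.conj_apply, map_commutatorElement, MulAut.conj_apply,
      MulAut.conj_apply, MonoidHom.comp_apply, MonoidHom.comp_apply, hc, hd, commutatorElement_def,
      commutatorElement_def, mul_inv_rev, mul_inv_rev]
    have h4 : Commute (sc Q c) (sc Q d) := (Commute.all c d).map _
    calc _ = sc Q c * (og (ψ s) * sc Q d) * og (ψ t) * (og (ψ s))⁻¹ * ((sc Q c)⁻¹ * (og (ψ t))⁻¹) *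
      (sc Q d)⁻¹ := by simp only [mul_assoc]
      _ = _ := by
        rw [← (h3 d _).eq, (h3 c _).inv_inv.eq]
        have h5 : ∀ o : OG Q, sc Q c * (sc Q d * og o) * (sc Q c)⁻¹ * (sc Q d)⁻¹ = og o := fun o => by
          rw [(h4.mul_right (h3 c o)).eq, mul_inv_cancel_right, (h3 d o).eq, mul_inv_cancel_right]
        simpa [mul_assoc] using h5 (ψ s * ψ t * (ψ s)⁻¹ * (ψ t)⁻¹)
  exact (Subgroup.mem_centralizer_singleton_iff.1 (h2 (hL ▸ Subgroup.mem_top l))).symm

theorem eich_pow {u v : V} (hu : Q u = 0) (huv : polar Q u v = 0) (k : ℕ) :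
    eich Q u v ^ k = eich Q u ((k : F) • v) := by
  induction k with
  | zero => simp
  | succ k ih => rw [pow_succ, ih, eich_mul hu (by simp [huv]) huv, Nat.cast_succ, add_smul, one_smul]

theorem weyl {u y v : V} (hu : Q u = 0) (hy : Q y = 0) (huy : polar Q u y = 1)
    (huv : polar Q u v = 0) (hyv : polar Q y v = 0) (hv : Q v ≠ 0) :
    eich Q u v * eich Q y ((Q v)⁻¹ • v) * eich Q u v = refl Q v * refl Q (Q v • u + y) := by
  have h1 : Q (Q v • u + y) = Q v := by simp [q_add, q_smul, hu, hy, huy]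
  refine OG.ext fun x => ?_
  simp only [OG.mul_apply, eich_apply hu huv, eich_apply hy (show polar Q y ((Q v)⁻¹ • v) = 0 by
    simp [hyv]), refl_apply, h1, q_smul]
  simp [huv, hyv, huy, hu, hy, polar_comm Q v u, polar_comm Q v y, polar_comm Q y u]
  match_scalars <;> field_simp <;> ring

variable [Finite F]

theorem odd_normal [FiniteDimensional F V] (hQ : ND Q) (h2 : (2 : F) ≠ 0)
    (hn : finrank F V = 1 ∨ finrank F V = 3 ∨ 5 ≤ finrank F V) (M : Subgroup (OG Q))
    (hM : ∀ u v, ∀ m ∈ M, eich Q u v * m * (eich Q u v)⁻¹ ∈ M)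
    (ho : ∀ m ∈ M, ∃ k, Odd k ∧ (m ^ k = 1 ∨ m ^ k = negOne Q)) {m : OG Q} (hm : m ∈ M) :
    m = 1 ∨ m = negOne Q := by
  by_contra h0
  rcases hn with hn | hn
  · obtain ⟨v, hv, h1⟩ := finrank_eq_one_iff'.1 hn
    obtain ⟨c, hc⟩ := h1 (m.1 v)
    have h3 : Q v ≠ 0 := fun h3 => hv (hQ v fun y => by
      obtain ⟨d, rfl⟩ := h1 y; simp [h3])
    have h4 := m.2 v
    rw [← hc, q_smul, mul_eq_right₀ h3, sq_eq_one_iff] at h4
    exact h0 (h4.imp (fun h => OG.ext fun y => by obtain ⟨d, rfl⟩ := h1 y; simp [← hc, h])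
      fun h => OG.ext fun y => by obtain ⟨d, rfl⟩ := h1 y; simp [← hc, h])
  have h3 : 3 ≤ finrank F V := by omega
  obtain ⟨x, hx0, hx⟩ := exists_singular Q h3
  obtain ⟨g, hg, u, hu, h4⟩ : ∃ g ∈ M, ∃ u, Q u = 0 ∧ polar Q u (g.1 u) ≠ 0 := by
    rcases hn with hn | hn
    · by_contra! h4
      refine h0 (hQ.one_or_negOne h3 hx0 hx m fun u hu0 hu => by_contra fun h5 => ?_)
      have := hQ.two_mul_finrank_le (singular_of_mem_span_pair hu (by simp [hu]) (h4 m hm u hu))
      rw [finrank_span_pair_eq (linearIndependent_pair_of_notMem hu0 h5)] at this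
      omega
    · obtain ⟨y, h5, hy⟩ := hQ.exists_hyp hx0 hx
      obtain ⟨g, hg, c, hc, h6⟩ := ((hQ.scalar_or_trans hn M hM).resolve_left fun h => h0 (h m hm))
        x y hx0 hx (by rintro rfl; simp at h5) hy
      exact ⟨g, hg, x, hx, by simp [h6, h5, hc]⟩
  obtain ⟨p, hp⟩ := CharP.exists F
  have hp2 : Odd p := (CharP.char_is_prime F p).odd_of_ne_two (by
    rintro rfl; exact h2 (CharP.cast_eq_zero F 2))
  let H : Subgroup (OG Q) :=
    { carrier := {s | ∃ v, polar Q u v = 0 ∧ s * (eich Q u v)⁻¹ ∈ M}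
      one_mem' := ⟨0, by simp, by simp⟩
      mul_mem' := fun {a b} ⟨v, h5, h6⟩ ⟨w, h7, h8⟩ => ⟨v + w, by simp [h5, h7], by
        rw [← eich_mul hu h5 h7]
        convert mul_mem h6 (hM u v _ h8) using 1
        group⟩
      inv_mem' := fun {a} ⟨v, h5, h6⟩ => ⟨-v, by simp [h5], by
        have := hM u (-v) _ (inv_mem h6)
        rw [← eich_inv hu h5] at this ⊢
        convert this using 1
        group⟩ }
  have h5 : ∀ s ∈ H, s ^ p ∈ M := by
    rintro s ⟨v, h5, h6⟩
    have : ∀ k : ℕ, s ^ k * (eich Q u v ^ k)⁻¹ ∈ M := fun k => by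
      induction k with
      | zero => simp
      | succ k ih =>
        convert mul_mem h6 (hM u v _ ih) using 1
        group
    simpa [eich_pow hu h5] using this p
  let y := (polar Q u (g.1 u))⁻¹ • g.1 u
  have hy : Q y = 0 := by simp [y, q_smul, hu]
  have huy : polar Q u y = 1 := by simp [y, h4]
  haveI : Nontrivial (perp Q (Submodule.span F {u, y})) :=
    Module.nontrivial_of_finrank_pos (R := F) (by have := hQ.finrank_perp_hyp hu hy huy; omega)
  obtain ⟨⟨v, hv⟩, h6⟩ := (hQ.nd_perp_hyp hu hy huy).exists_nonsingular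
  rw [mem_perp_pair] at hv
  replace h6 : Q v ≠ 0 := h6
  have h7 : eich Q u v ∈ H := ⟨v, hv.1, by simp⟩
  have h8 : ∀ w, polar Q y w = 0 → eich Q y w ∈ H := fun w hw => by
    have h8 : polar Q u ((g⁻¹).1 ((polar Q u (g.1 u))⁻¹ • w)) = 0 := by
      rw [OG.polar_inv_right]; simpa [y] using hw
    refine ⟨_, h8, ?_⟩
    rw [eich_smul_left (by simp [hu]) (by simpa [y, h4] using hw), ← OG.apply_inv_self g (_ • w),
      ← eich_conj, OG.inv_apply_self, mul_assoc, mul_assoc, ← mul_assoc (eich _ _ _)]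
    exact mul_mem hg (hM _ _ _ (inv_mem hg))
  have h9 := h5 _ (mul_mem (mul_mem h7 (h8 ((Q v)⁻¹ • v) (by simp [hv.2]))) h7)
  have h10 : polar Q v (Q v • u + y) = 0 := by simp [polar_comm Q v, hv.1, hv.2]
  have h11 : (refl Q v * refl Q (Q v • u + y)) ^ 2 = 1 := by
    have := refl_conj (refl Q v) (Q v • u + y)
    rw [refl_apply_of_orth h10, refl_inv] at this
    rw [pow_two, ← mul_assoc, this, refl_mul_self]
  rw [weyl hu hy huy hv.1 hv.2 h6] at h9
  obtain ⟨k, ⟨k, rfl⟩, hk⟩ := ho _ h9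
  obtain ⟨l, rfl⟩ := hp2
  rw [pow_succ _ (2 * l), pow_mul, h11, one_pow, one_mul, pow_succ, pow_mul, h11, one_pow,
    one_mul] at hk
  have h12 : polar Q u ((refl Q v * refl Q (Q v • u + y)).1 u) ≠ 0 := by
    simp [refl_apply, q_add, q_smul, hu, hy, huy, polar_comm Q v u, polar_comm Q v y,
      polar_comm Q y u, hv.1, hv.2, h6]
  rcases hk with hk | hk <;> simp [hk, hu] at h12

namespace IsForm

variable [FiniteDimensional K V₀] (hj : IsForm φ Q₀ Q j e) (h : Big Q)
include hj h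

omit [Finite F] [FiniteDimensional K V₀] h in
theorem og_ext {s t : OG Q} (h1 : ∀ v, s.1 (j v) = t.1 (j v)) : s = t :=
  OG.ext (hj.T_ext (a := og s) (b := og t) rfl h1)

omit [Finite F] in
theorem exists_extO : ∃ ε : OG Q₀ →* OG Q, ∀ s v, (ε s).1 (j v) = j (s.1 v) := by
  have : ∀ s : OG Q₀, ∃ t : OG Q, ∀ v, t.1 (j v) = j (s.1 v) := fun s => by
    obtain ⟨g, h1, h2⟩ := hj.exists_ext h.nd (og_σ s)
    obtain ⟨t, rfl⟩ := exists_og h1 (Units.ext (by simpa using hj.ext_μ h h1 rfl h2))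
    exact ⟨t, h2⟩
  choose f hf using this
  exact ⟨MonoidHom.mk' f fun s t => hj.og_ext fun v => by simp [hf], hf⟩

omit [Finite F] h in
theorem indep {v w : V₀} (hv : v ≠ 0) (hw : w ∉ Submodule.span K {v}) {a b : F}
    (h1 : a • j v + b • j w = 0) : a = 0 ∧ b = 0 := by
  have hb : b = 0 := by_contra fun hb => by
    have h2 : j w = (-a / b) • j v := smul_right_injective V hb (by
      simp only [smul_smul, mul_div_cancel₀ _ hb]; linear_combination (norm := module) h1)
    obtain ⟨d, hd⟩ := hj.exists_of_smul hv h2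
    exact hw (Submodule.mem_span_singleton.2 ⟨d, hj.injective (by rw [h2, map_smulₛₗ, hd])⟩)
  exact ⟨by simpa [hb, (map_ne_zero_iff j hj.injective).2 hv] using h1, hb⟩

theorem exists_ratio {T : V₀ →+ V} (h' : ∀ v, Q₀ v = 0 → T v ∈ Submodule.span F {j v}) :
    ∃ l : F, ∀ v, T v = l • j v := by
  haveI : Finite K := Finite.of_injective _ φ.injective
  have h₀ := hj.big_iff.1 h
  choose! s hs using fun v hv => Submodule.mem_span_singleton.1 (h' v hv)
  obtain ⟨x, hx0, hx⟩ := exists_singular Q₀ h₀.three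
  exact ⟨s x, h₀.nd.singular_induction hx0 hx _
    (fun v hv => by
      by_cases h0 : v = 0
      · simp [h0]
      rw [← hs v hv, conn h₀.nd h₀.dim s (fun v w h1 h2 h3 h4 h5 => ?_) h0 hv hx0 hx]
      have h6 := hs (v + w) (by rw [q_add, h2, h3, h4]; simp)
      rw [map_add, map_add, ← hs v h2, ← hs w h3] at h6
      obtain ⟨h7, h8⟩ := hj.indep h1 h5 (a := s (v + w) - s v)
        (b := s (v + w) - s w) (by linear_combination (norm := module) h6)
      linear_combination h8 - h7)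
    fun v w hv hw => by rw [map_add, map_add, hv, hw, smul_add]⟩

theorem mem_span_of_fixed {u : V₀} (hu0 : u ≠ 0) (hu : Q₀ u = 0) {x : V} {c : F} (hc : c ≠ 0)
    (h1 : ∀ v, QuadraticMap.polar Q₀ u v = 0 → (eich Q (j u) (c • j v)).1 x = x) :
    x ∈ Submodule.span F {j u} := by
  haveI : Finite K := Finite.of_injective _ φ.injective
  have h₀ := hj.big_iff.1 h
  have h2 : Q (j u) = 0 := by simp [hj.q, hu]
  have h3 : ∀ v, QuadraticMap.polar Q₀ u v = 0 → (QuadraticMap.polar Q (c • j v) x - Q (c • j v) *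
      QuadraticMap.polar Q (j u) x) • j u + (-QuadraticMap.polar Q (j u) x * c) • j v = 0 :=
    fun v hv => by
      have := h1 v hv
      rw [eich_apply h2 (by simp [hj.polar, hv])] at this
      linear_combination (norm := module) this
  obtain ⟨y, huy, hy⟩ := h₀.nd.exists_hyp hu0 hu
  obtain ⟨z, hz0, -, huz, hyz⟩ := exists_sing_orth h₀.nd h₀.dim hu hy (by simp [huy])
  have h4 := neg_eq_zero.1 (eq_zero_of_ne_zero_of_mul_right_eq_zero hc (hj.indep hu0
    (fun h4 => hz0 (eq_zero_of_mem_span (by simp [huy]) hyz h4)) (h3 z huz)).2)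
  have h5 : ∀ v, QuadraticMap.polar Q₀ u v = 0 → QuadraticMap.polar Q (j v) x = 0 := fun v hv => by
    simpa [h4, hc, (map_ne_zero_iff j hj.injective).2 hu0] using h3 v hv
  refine Submodule.mem_span_singleton.2 ⟨QuadraticMap.polar Q (j y) x / e, sub_eq_zero.1
    (h.nd _ fun w => hj.induction w (fun v => ?_) (fun v w hv hw => by rw [polar_add_right, hv, hw,
      add_zero]) fun c v hv => by rw [p_smul_right, hv, mul_zero])⟩
  have := h5 (v - QuadraticMap.polar Q₀ u v • y) (by simp [huy])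
  simp only [map_sub, map_smulₛₗ, polar_sub_left, p_smul_left] at this
  rw [polar_sub_left, p_smul_left, hj.polar, polar_comm Q x]
  have h6 := hj.ne
  field_simp
  linear_combination -this

theorem eich_eq {s : OG Q} {u v : V₀} (hu : Q₀ u = 0) (huv : QuadraticMap.polar Q₀ u v = 0)
    (h1 : ∀ x, s.1 (j x) = j ((eich Q₀ u v).1 x)) : s = eich Q (j u) (e⁻¹ • j v) :=
  hj.og_ext fun x => by
    have := hj.ne
    rw [h1, eich_apply hu huv, eich_apply (by simp [hj.q, hu]) (by simp [hj.polar, huv])]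
    simp only [map_add, map_sub, map_smulₛₗ, p_smul_left, q_smul, hj.polar, hj.q, map_mul]
    match_scalars <;> field_simp

end IsForm

theorem pow_four_mem [FiniteDimensional F V] (h : Big Q) {g : Gam Q} (hg : g.σ = 1) :
    g ^ 4 ∈ NO Q := by
  rw [← pi_eq_one, show 4 = 2 + 2 from rfl, pow_add, map_mul]
  exact pi_sq h ⟨by simp [hg], g.μ, by simp [pow_two, hg]⟩

theorem exists_invol [FiniteDimensional F V] (h : Big Q) (h2 : (2 : F) ≠ 0) :
    ∃ s ∈ Om Q, s * s = 1 ∧ ∃ v w, v ≠ 0 ∧ s.1 v = -v ∧ w ≠ 0 ∧ s.1 w = w := by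
  obtain ⟨u, hu⟩ := exists_refl h
  have h0 : Q u ≠ 0 := by simp [hu]
  have h1 := h.nd.finrank_perp_singleton (ne_zero_of_Q_ne_zero h0)
  have h3 := h.dim
  obtain ⟨⟨v, hv⟩, h4⟩ := (h.nd.nd_perp (span_inf_perp_of_nonsingular h2 h0)).exists_Q_eq
    (by omega) 1
  replace h4 : Q v = 1 := h4
  rw [mem_perp_singleton] at hv
  obtain ⟨w, h5, h6, h7⟩ := h.nd.exists_nonsingular_perp_pair (u := u) (v := v) (by omega)
  refine ⟨refl Q u * refl Q v, h.nd.refl_mul_refl_mem_commutator h0 (hu.trans h4.symm), ?_, v, w,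
    ne_zero_of_Q_ne_zero (Q := Q) (by simp [h4]), by
      simp [refl_apply_self (Q := Q) (v := v) (by simp [h4]), refl_apply_of_orth hv],
    ne_zero_of_Q_ne_zero h7, by simp [refl_apply_of_orth h5, refl_apply_of_orth h6]⟩
  have := refl_conj (refl Q u) v
  rw [refl_apply_of_orth hv, refl_inv] at this
  rw [← mul_assoc, this, refl_mul_self]

theorem Model.core_field {A : Gam Q →* MulAut P} (hA : Model A) (hZ : Subgroup.center P = ⊥)
    [FiniteDimensional K V₀] (hj : IsForm φ Q₀ Q j e) {a : Gam Q} (ha : ∀ v, a.T (j v) = j v)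
    (hφ : ∀ c, a.σ c = c ↔ ∃ d, φ d = c) {p : ℕ} (hp : p.Prime) (hσ : orderOf a.σ = p)
    (hpF : (p : F) ≠ 0) {B : Subgroup (MulAut P)} (hinn : ∀ k, MulAut.conj k ∈ B) {k : P}
    (hk : A a k = k) (hkp : orderOf k = p) (hs : ∀ α : MulAut P, (∀ u v, Q₀ u = 0 →
      polar Q₀ u v = 0 → Commute α (A (og (eich Q (j u) (e⁻¹ • j v))))) → α ∈ A.range) :
    pPrimeCore p (B ⊓ Subgroup.centralizer {A a} : Subgroup _) = ⊥ := by
  haveI := hj.finiteDimensional
  haveI : Finite K := Finite.of_injective _ φ.injective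
  have h := hA.big
  have h₀ := hj.big_iff.1 h
  obtain ⟨ε, hε⟩ := hj.exists_extO h
  have h0 : ∀ k ∈ Inn P, Commute (A a) k → ∃ g x, ∃ g₀ : Gam Q₀, g₀.σ = 1 ∧ g.σ = 1 ∧ k = A g ∧
      ∀ v, (sc Q x * g).T (j v) = j (g₀.T v) := fun k hk h1 => by
    obtain ⟨g, hg, rfl⟩ := hA.inn.le hk
    obtain ⟨x, g₀, h2, h3⟩ := (hA.mem_centralizer hj ha hφ (σ_of_mem_NO h hg)).1
      (Subgroup.mem_centralizer_singleton_iff.2 h1.symm)
    exact ⟨g, x, g₀, h2, σ_of_mem_NO h hg, rfl, h3⟩
  have h1 : ∀ c, A (og (ε (negOne Q₀))) = A (sc Q c) := fun c => by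
    rw [show ε (negOne Q₀) = negOne Q from hj.og_ext fun v => by simp [hε], og_negOne, hA.sc_eq,
      hA.sc_eq]
  refine core_eq_bot' (conj_injective hZ) hinn (((A.comp og).comp ε).comp (Om Q₀).subtype)
    (fun l => hA.mem_inn.2 (og_mem_NO_of h (map_mem_commutator ε l.2)))
    (fun l => Commute.map (gam_ext h (hj.T_ext (by simp) fun v => by simp [hε, ha])) A)
    (fun k hk h2 l => ?_) (fun M hM h2 l hl => ?_) fun α h2 h3 => ?_
  · obtain ⟨g, x, g₀, -, -, rfl, h3⟩ := h0 k hk h2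
    refine ⟨cOm g₀ l, ?_⟩
    rw [← hA.sc_mul x]
    refine ((map_mul A _ _).trans (congrArg₂ _ (map_mul A _ _) (map_inv A _))).symm.trans
      (congrArg A (mul_inv_eq_iff_eq_mul.2 (gam_ext h (hj.T_ext (by simp) fun v => ?_))))
    rw [Gam.mul_T, Gam.mul_T _ (sc Q x * g), h3, og_T, og_T, hε, hε, h3]
    exact congrArg j (cO_apply _ _ _).symm
  · rcases h₀.nd.normal_commutator_cases h₀.dim M hM with h3 | rfl
    · rcases (h₀.nd.mem_center_commutator_iff (good h₀) h₀.three l).1 (h3 hl) with h4 | h4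
      · simp [h4]
      · exact (congrArg (fun s => A (og (ε s))) h4).trans ((h1 1).trans (hA.sc_eq 1))
    obtain ⟨s, hs⟩ : ∃ s : Om Q₀, p ∣ orderOf (A (og (ε s))) := by
      rcases hp.eq_two_or_odd' with rfl | h3
      · obtain ⟨s, h4, h5, v, w, h6, h7, h8, h9⟩ := exists_invol h₀ (hj.two_ne h hpF)
        refine ⟨⟨s, h4⟩, (orderOf_eq_prime (by simp [pow_two, ← map_mul, h5]) fun h10 => ?_).symm.dvd⟩
        obtain ⟨c, hc⟩ := hA.ker.1 h10
        have h11 := fun v => (hε s v).symm.trans (congrArg (fun a : Gam Q => a.T (j v)) hc)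
        have h12 := h11 v
        have h13 := h11 w
        rw [h9, sc_T] at h13
        rw [h7, sc_T, smul_left_injective F ((map_ne_zero_iff j hj.injective).2 h8)
          (h13.symm.trans (one_smul _ _).symm), one_smul, map_neg, neg_eq_iff_add_eq_zero,
          ← two_smul F] at h12
        exact smul_ne_zero hpF ((map_ne_zero_iff j hj.injective).2 h6) h12
      · obtain ⟨g, x, g₀, h4, h5, h6, h7⟩ := h0 _ ⟨k, rfl⟩
          (Subgroup.mem_centralizer_singleton_iff.1 (conj_mem_of_fix hk)).symm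
        obtain ⟨c, s, h8, h9⟩ := (mem_NO h₀).1 (pow_four_mem h₀ h4)
        refine ⟨⟨s, h8⟩, ?_⟩
        have : (sc Q x * g) ^ 4 = sc Q (Units.map φ.toMonoidHom c) * og (ε s) :=
          gam_ext h (hj.T_ext (by simp [h5]) fun v => by
            rw [IsForm.pow_apply h7, h9]; simp [hε])
        rw [← hA.sc_mul, ← this, map_pow, hA.sc_mul, ← h6, Nat.Coprime.orderOf_pow (by
          rw [orderOf_injective _ (conj_injective hZ), hkp]
          exact (Nat.coprime_two_right.2 h3).pow_right 2), orderOf_injective _ (conj_injective hZ), hkp]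
    exact (hp.one_lt.ne' ((h2 s trivial).symm.eq_one_of_dvd hs)).elim
  · have h4 : ∀ u v, Q₀ u = 0 → polar Q₀ u v = 0 →
        ε (eich Q₀ u v) = eich Q (j u) (e⁻¹ • j v) := fun u v hu hv => hj.eich_eq h hu hv (hε _)
    obtain ⟨b, rfl⟩ := hs α fun u v hu hv => h4 u v hu hv ▸ h2 (h₀.E u v)
    have h5 := hA.commute_of_perfect (h₀.nd.commutator_perfect h₀.dim) (ε.comp (Om Q₀).subtype) h2
    obtain ⟨l, hl⟩ := hj.exists_ratio h (T := b.T.toAddMonoidHom.comp j.toAddMonoidHom) fun u hu => by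
      by_cases h6 : u = 0
      · simp [h6]
      refine hj.mem_span_of_fixed h h6 hu (inv_ne_zero hj.ne) fun v hv => ?_
      have := congrArg (fun a : Gam Q => a.T (j u)) (h5 (h₀.E u v)).eq
      rw [← h4 u v hu hv]
      exact this.symm.trans (congrArg b.T ((hε _ _).trans (congrArg j (eich_apply_left hu hv))))
    haveI := nontrivial h₀
    obtain ⟨v, hv⟩ := exists_ne (0 : V₀)
    have h6 := (map_ne_zero_iff j hj.injective).2 hv
    have h7 : l ≠ 0 := fun h7 => h6 (by simpa [h7] using hl v)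
    have h8 : ∀ v, (sc Q (Units.mk0 l h7)⁻¹ * b).T (j v) = j v := fun v => by
      rw [Gam.mul_T, show b.T (j v) = l • j v from hl v, sc_T]; simp [smul_smul, h7]
    have h9 : orderOf b.σ ∣ p := hσ ▸ AutSp5.orderOf_dvd_of_fix fun c hc => by
      obtain ⟨d, rfl⟩ := (hφ c).1 hc
      have := h8 (d • v)
      rw [map_smulₛₗ, Gam.smul, h8] at this
      exact smul_left_injective F h6 this
    refine orderOf_eq_one_iff.1 (h3.eq_one_of_dvd (dvd_trans (orderOf_dvd_of_pow_eq_one ?_) h9))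
    rw [← hA.sc_mul, ← map_pow]
    exact (congrArg A (hj.pow_eq_one h h8)).trans (map_one _)

/-- The criterion for a field automorphism. -/
theorem Model.balance {A : Gam Q →* MulAut P} (hA : Model A) (hZ : Subgroup.center P = ⊥)
    [Finite P] [FiniteDimensional F V] (hs : Function.Surjective A) {b : Gam Q} (hb : b.σ ≠ 1)
    {p : ℕ} (hp : p.Prime) (h1 : orderOf (A b) = p) (hpF : (p : F) ≠ 0)
    {B : Subgroup (MulAut P)} (hinn : ∀ k, MulAut.conj k ∈ B) :
    pPrimeCore p (B ⊓ Subgroup.centralizer {A b} : Subgroup _) ≠ ⊥ ↔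
      p.Coprime (Nat.card ((A b).toMonoidHom.eqLocus (MonoidHom.id P))) := by
  have h := hA.big
  obtain ⟨c, hc⟩ := hA.exists_pow hb hp h1
  obtain ⟨φ, hφ⟩ := exists_fix_hom (σ := b.σ) rfl
  have h2 := hA.orderOf_σ hp h1 hb
  obtain ⟨n, Q₀, j, e, hj, h3, -⟩ := GamO.exists_form (a := sc Q c * b) hp.ne_zero (h2 :) hc hφ
  rw [← hA.sc_mul c]
  refine ⟨fun h4 => by_contra fun h5 => ?_, fun h4 => ?_⟩
  · obtain ⟨k, hk, hkp⟩ := exists_fix_orderOf hp 1 h5
    exact h4 (hA.core_field hZ hj h3 hφ hp h2 hpF hinn (by simpa using hk) hkp fun α _ => hs α)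
  have h₀ := hj.big_iff.1 h
  obtain ⟨u, hu0, hu⟩ := exists_singular Q₀ h₀.three
  obtain ⟨y, huy, hy⟩ := h₀.nd.exists_hyp hu0 hu
  have huy' := huy.trans_ne one_ne_zero
  obtain ⟨z, hz0, -, huz, hyz⟩ := exists_sing_orth h₀.nd h₀.dim hu hy huy'
  obtain ⟨ε, hε⟩ := hj.exists_extO h
  obtain ⟨k, hk⟩ := hA.mem_inn.2 (og_mem_NO_of h (map_mem_commutator ε (h₀.E u z).2))
  refine core_ne_bot (conj_injective hZ) hinn (k := k) (fix_of_conj_mem (conj_injective hZ) ?_)
    (fun h5 => hz0 (eq_zero_of_mem_span huy' hyz ?_)) h4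
  · rw [hk, Subgroup.mem_centralizer_singleton_iff, ← map_mul, ← map_mul]
    exact congrArg A (gam_ext h (hj.T_ext (by simp) fun v => by
      rw [Gam.mul_T, h3, Gam.mul_T (sc Q c * b), og_T, hε, h3]))
  · obtain ⟨d, hd⟩ := hA.ker.1 (hk.symm.trans (by rw [h5, map_one]))
    have h6 := fun v => (hε _ v).symm.trans (congrArg (fun a : Gam Q => a.T (j v)) hd)
    have h7 := h6 u
    rw [show (h₀.E u z).1.1 u = u from eich_apply_left hu huz, sc_T] at h7
    refine (eich_eq_one_iff h₀.nd hu0 hu huz).1 (OG.ext fun v => hj.injective ((h6 v).trans ?_))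
    rw [sc_T, smul_left_injective F ((map_ne_zero_iff j hj.injective).2 hu0)
      (h7.symm.trans (one_smul _ _).symm), one_smul]; rfl

end Cfsg.Agent.Classical.GamO
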