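import Mathlib
import Cfsg.Agent.Classical.GamO9

/-! Involutory graph automorphisms of `PΩ`. -/

set_option autoImplicit false
set_option backward.isDefEq.respectTransparency false

namespace Cfsg.Agent.Classical.GamO

open QuadraticMap Module Cfsg.Agent.Orth Cfsg.Agent.Classical.AutO QuadraticAlgebra

variable {F V P : Type*} [Field F] [AddCommGroup V] [Module F V] {Q : QuadraticForm F V} [Group P]

theorem exists_mod {g : V →ₗ[F] V} {d : F} (hg : ∀ v, g (g v) = d • v) :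
    ∃ _ : Module (QuadraticAlgebra F d 0) V, IsScalarTower F (QuadraticAlgebra F d 0) V ∧
      ∀ (z : QuadraticAlgebra F d 0) (v : V), z • v = z.re • v + z.im • g v := by
  letI : Module (QuadraticAlgebra F d 0) V := Module.compHom V
    (lift ⟨g, LinearMap.ext fun v => by simp [hg]⟩ : _ →ₐ[F] Module.End F V).toRingHom
  have h : ∀ (z : QuadraticAlgebra F d 0) (v : V), z • v = z.re • v + z.im • g v := fun _ _ => rfl
  exact ⟨this, ⟨fun c z v => by simp [h, smul_smul]⟩, h⟩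

theorem fact_of {d : F} (hd : ¬ IsSquare d) : Fact (∀ r : F, r ^ 2 ≠ d + 0 * r) :=
  ⟨fun r hr => hd ⟨r, by linear_combination -hr⟩⟩

theorem det_of_sq [FiniteDimensional F V] {g : V →ₗ[F] V} {d : F} (hg : ∀ v, g (g v) = d • v)
    (hd : ¬ IsSquare d) {M : ℕ} (hn : finrank F V = 2 * M) : LinearMap.det g = (-d) ^ M := by
  obtain ⟨_, _, h⟩ := exists_mod hg
  haveI := fact_of hd
  haveI : Module.Free F (QuadraticAlgebra F d 0) := Module.Free.of_basis (QuadraticAlgebra.basis _ _)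
  haveI : Module.Finite (QuadraticAlgebra F d 0) V := Module.Finite.of_restrictScalars_finite F _ _
  have h1 := Module.finrank_mul_finrank F (QuadraticAlgebra F d 0) V
  rw [QuadraticAlgebra.finrank_eq_two, hn] at h1
  rw [show g = ((ω : QuadraticAlgebra F d 0) • (LinearMap.id : V →ₗ[QuadraticAlgebra F d 0] V)
    ).restrictScalars F from
    LinearMap.ext fun v => by simp [h], LinearMap.det_restrictScalars, LinearMap.det_smul,
    LinearMap.det_id, mul_one, map_pow, show finrank _ V = M by omega]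
  exact congrArg (· ^ M) ((det_toLinearMap_eq_norm ω).trans (by simp [norm_def]))

theorem mov_eq (h2 : (2 : F) ≠ 0) {o : OG Q} (ho : o * o = 1) : mov o = fix (negOne Q * o) := by
  have h1 : ∀ v, o.1 (o.1 v) = v := fun v => congrArg (fun s : OG Q => s.1 v) ho
  refine Submodule.ext fun v => mem_mov.trans (Iff.trans ⟨?_, fun h => ⟨-(2 : F)⁻¹ • v, ?_⟩⟩ mem_fix.symm)
  · rintro ⟨w, rfl⟩; simp [h1]
  · rw [map_smul, show o.1 v = -v from neg_eq_iff_eq_neg.1 h]
    match_scalars; field_simp; norm_num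

theorem neg_mul_self {o : OG Q} (ho : o * o = 1) : negOne Q * o * (negOne Q * o) = 1 :=
  OG.ext fun v => by simpa using congrArg (fun s : OG Q => s.1 v) ho

theorem fix_inf [FiniteDimensional F V] (hQ : ND Q) (h2 : (2 : F) ≠ 0) {o : OG Q} (ho : o * o = 1) :
    fix o ⊓ perp Q (fix o) = ⊥ := by
  rw [hQ.perp_fix, mov_eq h2 ho, eq_bot_iff]
  rintro v ⟨h3, h4⟩
  have h5 : -o.1 v = v := mem_fix.1 h4
  rw [mem_fix.1 h3, neg_eq_iff_add_eq_zero, ← two_smul F] at h5
  exact (smul_eq_zero.1 h5).resolve_left h2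

theorem rk_cO [FiniteDimensional F V] (a : Gam Q) (o : OG Q) : rk (cO a o) = rk o := by
  rw [rk, rk, ← a.finrank_map (mov o), show mov (cO a o) = (mov o).map a.semi from ?_]
  ext v
  rw [mem_mov, Submodule.mem_map]
  constructor
  · rintro ⟨w, rfl⟩
    obtain ⟨w, rfl⟩ := a.T.surjective w
    exact ⟨o.1 w - w, sub_mem_mov o w, by simp [cO_apply]⟩
  · rintro ⟨v, hv, rfl⟩
    obtain ⟨w, rfl⟩ := mem_mov.1 hv
    exact ⟨a.T w, by simp [cO_apply]⟩

theorem Model.cO_cases {A : Gam Q →* MulAut P} (hA : Model A) {k : Gam Q} {o : OG Q}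
    (h : Commute (A k) (A (og o))) : cO k o = o ∨ cO k o = negOne Q * o := by
  obtain ⟨c, hc⟩ := hA.eq_iff.1 (show A (og (cO k o)) = A (og o) by
    rw [og_cO, map_mul, map_mul, h.eq, map_inv, mul_inv_cancel_right])
  have := congrArg (fun a : Gam Q => (a.μ : F)) hc
  rcases (by simpa using this.symm : c = 1 ∨ c = -1) with rfl | rfl
  · exact Or.inl (og_injective (by simpa using hc))
  · exact Or.inr (og_injective (by rw [hc, map_mul, og_negOne]))

section

variable {g : Gam Q} {d : Fˣ} (hσ : g.σ = 1) (hg : g * g = sc Q d)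
include hσ hg

theorem sq_cases : (g.μ : F) = d ∨ (g.μ : F) = -d :=
  mul_self_eq_mul_self_iff.1 (by simpa [hσ, pow_two] using congrArg (fun a : Gam Q => (a.μ : F)) hg)

omit hσ in
theorem T_T (v : V) : g.T (g.T v) = (d : F) • v := congrArg (fun a : Gam Q => a.T v) hg

theorem polar_T (u v : V) : g.μ * polar Q (g.T u) v = d * polar Q u (g.T v) := by
  have := g.polar (g.T u) v
  rw [T_T hg, p_smul_left, hσ] at this
  exact this.symm

theorem polar_eq_zero (h2 : (2 : F) ≠ 0) (h : (g.μ : F) = -d) (v : V) : polar Q v (g.T v) = 0 := by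
  have := polar_T hσ hg v v
  rw [h, polar_comm Q (g.T v)] at this
  exact mul_left_cancel₀ (mul_ne_zero h2 d.ne_zero) (by linear_combination -this)

variable [FiniteDimensional F V] [Finite F] (h : Big Q) (h2 : (2 : F) ≠ 0)
include h h2

omit [Finite F] in
theorem isPlus_of_neg (h1 : (g.μ : F) = -d) (hd : IsSquare (d : F)) : IsPlus Q := by
  obtain ⟨a, ha⟩ := hd
  have key : ∀ a : F, d = a * a → Sing Q (LinearMap.range ((g.lin hσ).toLinearMap + a • LinearMap.id)) ∧
      LinearMap.ker ((g.lin hσ).toLinearMap + a • LinearMap.id) ≤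
        LinearMap.range ((g.lin hσ).toLinearMap + (-a) • LinearMap.id) := fun a ha =>
    ⟨by
      rintro _ ⟨v, rfl⟩
      simp [q_add, q_smul, g.q, hσ, h1, ha, polar_comm Q (g.T v), polar_eq_zero hσ hg h2 h1, pow_two],
    fun v hv => ⟨(-(2 * a))⁻¹ • v, by
      have h3 : a ≠ 0 := by rintro rfl; simp at ha
      have h4 : g.T v = -(a • v) := eq_neg_of_add_eq_zero_left hv
      simp only [map_smul, LinearMap.add_apply, LinearEquiv.coe_coe, Gam.lin_apply, h4,
        LinearMap.smul_apply, LinearMap.id_apply]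
      match_scalars; field_simp; ring⟩⟩
  have h3 := LinearMap.finrank_range_add_finrank_ker ((g.lin hσ).toLinearMap + a • LinearMap.id)
  have h4 := Submodule.finrank_mono (key a ha).2
  have h5 := h.nd.two_mul_finrank_le (key a ha).1
  have h6 := h.nd.two_mul_finrank_le (key (-a) (by simp [ha])).1
  exact ⟨_, (key a ha).1, by omega⟩

theorem mem_DO_of_neg (hn : Even (finrank F V)) (h1 : (g.μ : F) = -d)
    (h3 : IsSquare (g.μ : F)) : g ∈ DO Q := by
  obtain ⟨a, ha⟩ := h3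
  have h4 : a ≠ 0 := by rintro rfl; simp at ha
  let k := ofLin h.nd ((g.lin hσ).toLinearMap + a • LinearMap.id)
    (Units.mk0 (2 * a ^ 2) (by simp [h2, h4])) fun v => by
      simp [q_add, q_smul, g.q, hσ, ha, polar_comm Q (g.T v), polar_eq_zero hσ hg h2 h1]; ring
  have h5 : k * k = sc Q (Units.mk0 (2 * a) (by simp [h2, h4])) * g := gam_ext h fun v => by
    change g.T (g.T v + a • v) + a • (g.T v + a • v) = (2 * a) • g.T v
    rw [map_add, T_T hg, g.smul, hσ, show (d : F) = -(a * a) by rw [← ha, h1, neg_neg]]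
    simp only [RingAut.one_apply]; module
  rw [← mul_mem_cancel_left (sc_mem_DO h _), ← h5, mul_mem_DO h hn rfl rfl]

theorem invol_of_sq (hn : Even (finrank F V)) (hD : g ∉ DO Q) (h3 : IsSquare (g.μ : F)) :
    ∃ c o, g = sc Q c * og o ∧ o * o = 1 ∧ ¬ Even (rk o) := by
  have h4 := (sq_cases hσ hg).resolve_right fun h4 => hD (mem_DO_of_neg hσ hg h h2 hn h4 h3)
  obtain ⟨c, o, rfl⟩ := exists_sc_og hσ h3
  refine ⟨c, o, rfl, og_injective (mul_left_cancel (a := sc Q c * sc Q c) ?_),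
    fun h5 => hD ((sc_mul_og_mem_DO h).2 fun _ => h5)⟩
  rw [map_mul, map_one, mul_one, mul_assoc, ← mul_assoc (sc Q c) (og o), ← mul_sc' (og_σ o),
    mul_assoc, ← mul_assoc, hg, ← map_mul]
  exact congrArg _ (Units.ext (by simpa [pow_two] using h4.symm))

theorem invol_of_not_sq (hp : ¬ IsPlus Q) {M : ℕ} (hn : finrank F V = 2 * M) (hD : g ∉ DO Q)
    (h3 : ¬ IsSquare (g.μ : F)) : g.μ = d ∧ Odd M := by
  have h4 : ¬ IsSquare (d : F) := fun h4 => (sq_cases hσ hg).elim (fun h5 => h3 (h5 ▸ h4))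
    fun h5 => hp (isPlus_of_neg hσ hg h h2 h5 h4)
  have h5 : g.det = (-d) ^ M := (det_eq hσ).trans (det_of_sq (T_T hg) h4 hn)
  rcases sq_cases hσ hg with h6 | h6
  · exact ⟨Units.ext h6, Nat.not_even_iff_odd.1 ((t_mem_DO h2 hn hσ (h6 ▸ h5)).not.1 hD)⟩
  · exact (hD ((mem_DO_odd h2).2 ⟨hσ, fun _ => by rw [h5, h6, hn]; simp⟩)).elim

omit h2 in
theorem exists_orth (h3 : ¬ IsSquare (g.μ : F)) : ∃ u, Q u ≠ 0 ∧ polar Q u (g.T u) = 0 := by
  have h2 : (2 : F) ≠ 0 := fun h2 => h3 (isSquare_of_two_eq_zero h2 _)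
  rcases sq_cases hσ hg with h4 | h4
  swap
  · exact (exists_refl h).imp fun u hu => ⟨by simp [hu], polar_eq_zero hσ hg h2 h4 u⟩
  obtain ⟨x, hx0, hx⟩ := exists_singular (LinearMap.BilinMap.toQuadraticMap
    (Q.polarBilin.compl₂ (g.lin hσ).toLinearMap)) h.three
  replace hx : polar Q x (g.T x) = 0 := hx
  by_cases h5 : Q x = 0
  swap
  · exact ⟨x, h5, hx⟩
  have h6 : ∀ u v, polar Q (g.T u) v = polar Q u (g.T v) := fun u v =>
    mul_left_cancel₀ d.ne_zero (h4 ▸ polar_T hσ hg u v)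
  have h11 : x ∉ Submodule.span F {g.T x} := fun h7 => by
    obtain ⟨c, hc⟩ := Submodule.mem_span_singleton.1 h7
    have h8 := congrArg g.T hc
    rw [g.smul, T_T hg, hσ, smul_smul] at h8
    rw [← h8, smul_smul] at hc
    exact h3 ⟨c * d, by
      have := smul_left_injective F hx0 (hc.trans (one_smul _ _).symm)
      simp only [RingAut.one_apply] at this
      linear_combination h4 - d * this⟩
  obtain ⟨r, h7, h8, h9⟩ := h.nd.exists_singular_polar_pair (u := g.T x) (by simpa using hx0) h5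
    ((polar_comm _ _ _).trans hx) h11 0
  · refine ⟨r + x + (-polar Q r (g.T r) / (2 * d)) • g.T x, ?_, ?_⟩
    · simp [q_add, q_smul, g.q, h5, h7, hx, polar_comm Q r, h8, h9]
    · have h10 := h6 x r
      simp only [map_add, g.smul, hσ, T_T hg, polar_add_left, polar_add_right, p_smul_left,
        p_smul_right, RingAut.one_apply, ← h10, h8, polar_comm Q r (g.T x), polar_comm Q r x, h9, hx,
        polar_comm Q (g.T x) x, p_self, g.q, h5, g.polar x r]
      field_simp; simp [h4]; ring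

theorem exists_z (h1 : negOne Q ∈ Om Q) (hD : g ∉ DO Q) :
    ∃ z, Commute g (og z) ∧ Even (rk z) ∧ og z ∉ NO Q := by
  have key : ∀ u w, Q u ≠ 0 → Q w ≠ 0 → ¬ IsSquare (Q u * Q w) → Commute g (og (refl Q u * refl Q w)) →
      ∃ z, Commute g (og z) ∧ Even (rk z) ∧ og z ∉ NO Q := fun u w hu hw h3 h4 => by
    have h5 : ∀ v ∈ [u, w], Q v ≠ 0 := by simp [hu, hw]
    refine ⟨_, h4, by simpa using (h.nd.even_rk_list _ h5).2 (by simp), ?_⟩
    rw [og_mem_NO' h h1]
    simpa [h3] using (h.nd.list_mem_commutator_iff (good h) _ h5).not.2 (by simp [h3])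
  by_cases h3 : IsSquare (g.μ : F)
  · obtain ⟨c, o, rfl, h4, -⟩ := invol_of_sq hσ hg h h2
      ((h.nd.negOne_mem_iff h2 (finBasis F V)).1 h1).1 hD h3
    have h5 : ∀ o' : OG Q, o' * o' = 1 → 2 ≤ finrank F (fix o') → ∃ u w, Q u ≠ 0 ∧ Q w ≠ 0 ∧
        ¬ IsSquare (Q u * Q w) ∧ Commute (og o') (og (refl Q u * refl Q w)) := fun o' h5 h6 => by
      have h7 := (nd_restrict_iff _).2 (fix_inf h.nd h2 h5)
      obtain ⟨c, hc⟩ := exists_not_isSquare h2
      obtain ⟨⟨u, hu⟩, (h8 : Q u = 1)⟩ := h7.exists_Q_eq h6 1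
      obtain ⟨⟨w, hw⟩, (h9 : Q w = c)⟩ := h7.exists_Q_eq h6 c
      have hu' : (og o').T u = u := mem_fix.1 hu
      have hw' : (og o').T w = w := mem_fix.1 hw
      exact ⟨u, w, by simp [h8], by rintro h10; simp [← h9, h10] at hc, by simpa [h8, h9] using hc,
        by rw [map_mul]; exact Commute.mul_right (commute_refl hu') (commute_refl hw')⟩
    have h6 := rk_add_finrank_fix o
    have h7 := h.dim
    have h8 : ∀ c (o : OG Q), Commute (sc Q c) (og o) := fun c o => (mul_sc' rfl c).symm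
    by_cases h9 : 2 ≤ finrank F (fix o)
    · obtain ⟨u, w, hu, hw, h10, h11⟩ := h5 o h4 h9
      exact key u w hu hw h10 ((h8 _ _).mul_left h11)
    · obtain ⟨u, w, hu, hw, h10, h11⟩ := h5 _ (neg_mul_self h4) (by rw [← mov_eq h2 h4, ← rk]; omega)
      rw [map_mul, og_negOne] at h11
      exact key u w hu hw h10 ((h8 _ _).mul_left (by
        simpa using (h8 (-1) _).inv_left.mul_left h11))
  · obtain ⟨u, hu, h4⟩ := exists_orth hσ hg h h3
    refine key u (g.T u) hu (by simp [g.q, hu]) (by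
      rwa [g.q, hσ, mul_left_comm, mul_comm, RingAut.one_apply, ← pow_two, isSquare_sq_mul_iff hu]) ?_
    have := refl_conj (refl Q u) (g.T u)
    rw [refl_apply_of_orth h4, mul_inv_eq_iff_eq_mul] at this
    rw [Commute, SemiconjBy, ← mul_inv_eq_iff_eq_mul, ← og_cO, map_mul, cO_refl, cO_refl, T_T hg,
      refl_smul d.ne_zero, this]

end

variable [FiniteDimensional F V] [Finite F] {A : Gam Q →* MulAut P} (hA : Model A)
  (h2 : (2 : F) ≠ 0) {M : ℕ} (hn : finrank F V = 2 * M) {g : Gam Q} (hσ : g.σ = 1) (hD : g ∉ DO Q)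
  (hg : orderOf (A g) = 2)
include hA h2 hn hσ hD hg

omit h2 hn hσ hD [FiniteDimensional F V] [Finite F] in
theorem Model.exists_sq : ∃ d, g * g = sc Q d :=
  hA.ker.1 (by rw [← pow_two, map_pow, ← hg, pow_orderOf_eq_one])

theorem Model.cent_ZO (h1 : negOne Q ∈ Om Q ∨ ¬ IsPlus Q ∧ Even M) {k : Gam Q} (hk : k ∈ DO Q)
    (h3 : Commute (A k) (A g)) : k ∈ ZO Q := by
  have h := hA.big
  have h4 := σ_of_mem_DO h hk
  refine ⟨h4, by_contra fun h5 => ?_⟩
  rcases h1 with h1 | ⟨h1, hM⟩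
  · have key : ∀ g ∈ ZO Q, g ∉ DO Q → ¬ Commute (A k) (A g) := fun g h6 h7 h8 => by
      obtain ⟨c, o, rfl⟩ := mem_ZO.1 h6
      rw [hA.sc_mul] at h8
      have h9 := h.nd.sq_mem_commutator (good h) o
      refine h7 ((sc_mul_og_mem_DO h).2 fun _ => ((cO_mul_mem h k o).1 ?_).resolve_left h5)
      rcases hA.cO_cases h8 with h10 | h10 <;> rw [h10]
      · exact h9
      · exact mul_assoc _ o o ▸ mul_mem h1 h9
    by_cases h6 : g ∈ ZO Q
    · exact key g h6 hD h3
    · exact key (k * g) ((Subgroup.mul_mem_iff_of_index_two (relIndex_ZO h4 h5) (a := ⟨k, h4⟩)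
        (b := ⟨g, hσ⟩)).2 (iff_of_false (fun h => h5 h.2) h6)) ((mul_mem_cancel_left hk).not.2 hD)
        (map_mul A k g ▸ (Commute.refl _).mul_right h3)
  obtain ⟨d, hd⟩ := hA.exists_sq hg
  obtain ⟨c, o, rfl, h6, h7⟩ := invol_of_sq hσ hd h h2 (even_of_eq hn) hD (by_contra fun h6 =>
    Nat.not_odd_iff_even.2 hM (invol_of_not_sq hσ hd h h2 h1 hn hD h6).2)
  rw [hA.sc_mul] at h3
  have h8 := rk_add_finrank_fix o
  rcases hA.cO_cases h3 with h9 | h9
  · have h10 := (nd_restrict_iff _).2 (fix_inf h.nd h2 h6)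
    have h11 : ∀ v ∈ fix o, (k.lin h4).toLinearMap v ∈ fix o := fun v hv =>
      mem_fix.2 ((h9 ▸ cO_apply k o v :).trans (congrArg _ (mem_fix.1 hv)))
    refine h5 (isSquare_μ h10 (a := ofLin h10 ((k.lin h4).toLinearMap.restrict h11) k.μ
      fun v => by simpa [h4] using k.q v) ?_ rfl)
    simp only [Nat.even_iff, Nat.odd_iff] at h7 ⊢; omega
  · have h10 := rk_add_finrank_fix (negOne Q * o)
    rw [← mov_eq h2 h6, ← rk, ← h9, rk_cO] at h10
    exact h7 ((show rk o = M by omega) ▸ hM)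

theorem Model.split_graph (h1 : negOne Q ∈ Om Q ∨ ¬ IsPlus Q ∧ Even M) :
    splitClassCount ((DO Q).map A) (Inn P) (A g) = 2 := by
  have h := hA.big
  have h3 := Subgroup.relIndex_mul_relIndex _ _ _ (NO_le_SZ h) (inf_le_left (b := ZO Q))
  rw [relIndex_DO_eq h h2 hn] at h3
  rw [hA.splitClassCount_eq, show NO Q ⊔ DO Q ⊓ (Subgroup.centralizer {A g}).comap A = DO Q ⊓ ZO Q
    from le_antisymm (sup_le (NO_le_SZ h) fun k hk => ⟨hk.1, hA.cent_ZO h2 hn hσ hD hg h1 hk.1
      (Subgroup.mem_centralizer_singleton_iff.1 hk.2)⟩) fun k hk => ?_]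
  · by_cases h4 : negOne Q ∈ Om Q
    · rw [relIndex_SZ_of_mem h h2 h4] at h3; omega
    · rw [Subgroup.relIndex_eq_one.2 (SZ_le h (even_of_eq hn) h4)] at h3; omega
  by_cases h5 : k ∈ NO Q
  · exact Subgroup.mem_sup_left h5
  have h4 : negOne Q ∈ Om Q := by_contra fun h4 => h5 (SZ_le h (even_of_eq hn) h4 hk)
  obtain ⟨d, hd⟩ := hA.exists_sq hg
  obtain ⟨z, h6, h7, h8⟩ := exists_z hσ hd h h2 h4 hD
  have h9 := (og_mem_DO h).2 fun _ => h7
  rw [← mul_mem_cancel_right (Subgroup.mem_sup_right (Subgroup.mem_inf.2 ⟨h9,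
    Subgroup.mem_comap.2 (Subgroup.mem_centralizer_singleton_iff.2 (h6.map A).symm)⟩))]
  exact Subgroup.mem_sup_left ((Subgroup.mul_mem_iff_of_index_two (relIndex_SZ_of_mem h h2 h4)
    (a := ⟨k, hk⟩) (b := ⟨_, h9, og_mem_ZO z⟩)).2 (iff_of_false h5 h8))

theorem Model.split_graph_or : splitClassCount ((DO Q).map A) (Inn P) (A g) = 1 ∨
    splitClassCount ((DO Q).map A) (Inn P) (A g) = 2 := by
  by_cases h4 : negOne Q ∈ Om Q
  · exact Or.inr (hA.split_graph h2 hn hσ hD hg (Or.inl h4))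
  refine (Nat.dvd_prime Nat.prime_two).1 ?_
  rw [hA.splitClassCount_eq]
  exact (Subgroup.relIndex_dvd_of_le_left _ le_sup_left).trans (by rw [relIndex_DO_eq hA.big h2 hn,
    Subgroup.relIndex_eq_one.2 (SZ_le hA.big (even_of_eq hn) h4)])

end Cfsg.Agent.Classical.GamO
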