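import Mathlib
import Cfsg.Agent.Classical.GamO10

/-! The `2'`-core of the centraliser of an involutory graph automorphism of `PΩ`. -/

set_option autoImplicit false
set_option backward.isDefEq.respectTransparency false

namespace Cfsg.Agent.Classical.GamO

open QuadraticMap Module Cfsg.Agent.Orth Cfsg.Agent.Classical.AutO QuadraticAlgebra

variable {F V P : Type*} [Field F] [AddCommGroup V] [Module F V] {Q : QuadraticForm F V} [Group P]
  {A : Gam Q →* MulAut P} (hA : Model A)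
include hA

theorem Model.odd_pm {s : OG Q} (h : (orderOf (A (og s))).Coprime 2) :
    ∃ k, Odd k ∧ (s ^ k = 1 ∨ s ^ k = negOne Q) := by
  obtain ⟨c, hc⟩ := hA.ker.1 (show A (og (s ^ orderOf (A (og s)))) = 1 by
    rw [map_pow, map_pow, pow_orderOf_eq_one])
  have := congrArg (fun a : Gam Q => (a.μ : F)) hc
  refine ⟨_, Nat.coprime_two_right.1 h, ?_⟩
  rw [og_μ] at this
  rcases (by simpa using this.symm : c = 1 ∨ c = -1) with rfl | rfl
  · exact Or.inl (og_injective (by rw [hc, map_one, map_one]))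
  · exact Or.inr (og_injective (by rw [hc, og_negOne]))

theorem Model.comm_conj {g : Gam Q} {s l : OG Q} (h : Commute (A g) (A (og s)))
    (hl : Commute g (og l)) : Commute g (og (s * l * s⁻¹)) := by
  obtain ⟨c, hc⟩ := hA.eq_iff.1 (show A ((og s)⁻¹ * g * og s) = A g by
    rw [map_mul, map_mul, mul_assoc, h.eq, map_inv, inv_mul_cancel_left])
  have := (hc ▸ (show Commute (sc Q c) (og l) from (mul_sc' rfl c).symm).mul_left hl :
    Commute ((og s)⁻¹ * g * og s) (og l)).map (MulAut.conj (og s))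
  simpa [mul_assoc] using this

omit hA in
theorem eq_one_of_sq {G : Type*} [Group G] {a : G} (h : a * a = 1) (h1 : (orderOf a).Coprime 2) :
    a = 1 :=
  orderOf_eq_one_iff.1 (h1.eq_one_of_dvd (orderOf_dvd_of_pow_eq_one ((pow_two a).trans h)))

variable [Finite F] [FiniteDimensional F V] (hZ : Subgroup.center P = ⊥)
  (hs : Function.Surjective A) (h2 : (2 : F) ≠ 0) {B : Subgroup (MulAut P)}
  (hinn : ∀ k, MulAut.conj k ∈ B)

theorem Model.exists_om {k : MulAut P} (hk : k ∈ Inn P) : ∃ s ∈ Om Q, k = A (og s) := by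
  obtain ⟨g, hg, rfl⟩ := hA.inn.le hk
  obtain ⟨c, s, h1, rfl⟩ := (mem_NO hA.big).1 hg
  exact ⟨s, h1, hA.sc_mul _ _⟩

include hZ hs h2 hinn

theorem Model.core_refl {o : OG Q} (ho : o * o = 1) (h1 : Odd (rk o))
    (h3 : 5 ≤ finrank F (fix o)) :
    pPrimeCore 2 (B ⊓ Subgroup.centralizer {A (og o)} : Subgroup _) = ⊥ := by
  have h := hA.big
  have hW := fix_inf h.nd h2 ho
  have h₁ : Big (Q.restrict (fix o)) := ⟨(nd_restrict_iff _).2 hW, h3⟩
  have h₂ := h.nd.nd_perp hW
  have d₂ : finrank F (perp Q (fix o)) = 1 ∨ finrank F (perp Q (fix o)) = 3 ∨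
      5 ≤ finrank F (perp Q (fix o)) := by
    rw [h.nd.perp_fix, ← rk]; have := Nat.odd_iff.1 h1; omega
  let e := splitIso (h.nd.isCompl_perp hW)
  let S := sumHom e
  have h4 : o = S (1, negOne _) := sum_ext e fun x y => by
    have : y.1 ∈ fix (negOne Q * o) := by rw [← mov_eq h2 ho, ← h.nd.perp_fix]; exact y.2
    rw [sumHom_apply]
    simp [e, mem_fix.1 x.2, show o.1 y = -y from neg_eq_iff_eq_neg.1 (mem_fix.1 this)]
  have h5 : ∀ l, Commute (og o) (og (S l)) := fun l => by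
    have : Commute (1, negOne _) l := Prod.ext (by simp) (negOne_comm _).symm
    simpa only [← h4] using (this.map S).map og
  have h6 : ∀ t : OG Q, (∀ v ∈ fix o, t.1 v ∈ fix o) → t ∈ S.range := fun t ht =>
    (h.nd.range_sumHom_splitIso hW).ge (mem_stab_of_le ht)
  have h7 : ∀ l, (orderOf (A (og (S l)))).Coprime 2 → ∃ k, Odd k ∧
      (l ^ k = 1 ∨ l ^ k = (negOne _, negOne _)) := fun l hl => (hA.odd_pm hl).imp fun k hk =>
    ⟨hk.1, hk.2.imp (fun h => sumHom_injective e (by rw [map_pow, h, map_one]))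
      fun h => sumHom_injective e (by rw [map_pow, h, sumHom_negOne])⟩
  have E1 : ∀ u v, S (eich _ u v, 1) ∈ Om Q := fun u v =>
    sumHom_mem_commutator e (h₁.E u v).2 (one_mem _)
  have E2 : ∀ u v, S (1, eich _ u v) ∈ Om Q := fun u v => sumHom_mem_commutator e (one_mem _)
    (h₂.eich_mem_commutator (good_of_two_ne_zero h2) u v)
  have sq : ∀ {W : Submodule F V} {m : OG (Q.restrict W)}, m = 1 ∨ m = negOne _ → m * m = 1 := by
    rintro _ _ (rfl | rfl)
    exacts [mul_one 1, negOne_mul_self]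
  refine core_eq_bot' (conj_injective hZ) hinn (((A.comp og).comp S).comp ((Om Q).comap S).subtype)
    (fun l => hA.mem_inn.2 (og_mem_NO_of h l.2)) (fun l => (h5 l).map A)
    (fun k hk h8 l => ?_) (fun M hM h8 l hl => eq_one_of_sq ?_ (h8 l hl)) fun α h8 h9 => ?_
  · obtain ⟨s, hs, rfl⟩ := hA.exists_om hk
    obtain ⟨l', hl'⟩ := h6 (s * S l * s⁻¹) fun v hv => mem_fix.2
      ((congrArg (fun a : Gam Q => a.T v) (hA.comm_conj h8 (h5 l)).eq).trans
        (congrArg (s * S l * s⁻¹).1 (mem_fix.1 hv)))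
    exact ⟨⟨l', by rw [Subgroup.mem_comap, hl']; exact mul_mem (mul_mem hs l.2) (inv_mem hs)⟩,
      by simp [hl']⟩
  · have m1 := odd_normal h₁.nd h2 (Or.inr (Or.inr h3))
      (M.map ((MonoidHom.fst _ _).comp (Subgroup.subtype _)))
      (by rintro u v _ ⟨m, hm, rfl⟩; exact ⟨_, hM.conj_mem m hm ⟨_, E1 u v⟩, rfl⟩)
      (by rintro _ ⟨m, hm, rfl⟩; exact (h7 _ (h8 m hm)).imp fun k hk =>
        ⟨hk.1, hk.2.imp (congrArg Prod.fst) (congrArg Prod.fst)⟩) ⟨l, hl, rfl⟩
    have m2 := odd_normal h₂ h2 d₂ (M.map ((MonoidHom.snd _ _).comp (Subgroup.subtype _)))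
      (by rintro u v _ ⟨m, hm, rfl⟩; exact ⟨_, hM.conj_mem m hm ⟨_, E2 u v⟩, rfl⟩)
      (by rintro _ ⟨m, hm, rfl⟩; exact (h7 _ (h8 m hm)).imp fun k hk =>
        ⟨hk.1, hk.2.imp (congrArg Prod.snd) (congrArg Prod.snd)⟩) ⟨l, hl, rfl⟩
    rw [← map_mul, show l * l = 1 from Subtype.ext (Prod.ext (sq m1) (sq m2)), map_one]
  obtain ⟨b, rfl⟩ := hs α
  have h10 := fun l v => congrArg (fun a : Gam Q => a.T v) (hA.commute_of_perfect
    (h₁.nd.commutator_perfect h3) ((S.comp (MonoidHom.inl _ _)).comp (Om _).subtype)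
    (fun l => h8 ⟨(l.1, 1), sumHom_mem_commutator e l.2 (one_mem _)⟩) l).eq
  obtain ⟨c, hc⟩ := exists_ratio h₁.nd h3 (T := (fix o).subtype.toAddMonoidHom)
    (T' := b.T.toAddMonoidHom.comp (fix o).subtype.toAddMonoidHom) Subtype.val_injective
    (fun v _ c => Submodule.mem_span_singleton.2 ⟨c, rfl⟩) fun u hu => by
      by_cases h11 : u = 0
      · simp [h11]
      have h12 : ∀ (l : Om (Q.restrict (fix o))) (x : fix o) (y : perp Q (fix o)),
          (S (l.1, 1)).1 (x.1 + y.1) = l.1.1 x + y.1 := fun l x y => sumHom_apply e _ x y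
      replace h10 : ∀ (l : Om (Q.restrict (fix o))) v,
          b.T ((S (l.1, 1)).1 v) = (S (l.1, 1)).1 (b.T v) := h10
      obtain ⟨y, huy, hy⟩ := h₁.nd.exists_hyp h11 hu
      have huy' := huy.trans_ne one_ne_zero
      obtain ⟨z, hz0, hz, huz, hyz⟩ := exists_sing_orth h₁.nd h3 hu hy huy'
      obtain ⟨r, -, h13, h14⟩ := h₁.nd.exists_singular_polar_pair h11 hz huz
        (fun h13 => hz0 (eq_zero_of_mem_span huy' hyz h13)) 0
      obtain ⟨⟨x, w⟩, h15⟩ := e.surjective (b.T r)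
      have h16 := h10 (h₁.E u z) r
      have h17 := h12 (h₁.E u z) r 0
      have h18 := h12 (h₁.E u z) x w
      have h19 : (h₁.E u z).1.1 r = r + u := by
        rw [show (h₁.E u z).1 = eich _ u z from rfl, eich_apply hu huz, h13, h14]; simp
      have h20 : b.T u = ((h₁.E u z).1.1 x - x :) := by
        replace h15 : x.1 + w.1 = b.T r := h15
        rw [Submodule.coe_zero, add_zero, add_zero] at h17
        rw [h17, h19, ← h15, h18, Submodule.coe_add, map_add, ← h15] at h16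
        rw [Submodule.coe_sub]
        linear_combination (norm := module) h16
      obtain ⟨t, ht⟩ := Submodule.mem_span_singleton.1 (h₁.nd.mem_span_of_fixed h₁.three h11 hu
        (x := (h₁.E u z).1.1 x - x) fun v hv => Subtype.ext (by
          have h21 := h10 (h₁.E u v) u
          have h22 := fun x => h12 (h₁.E u v) x 0
          simp only [Submodule.coe_zero, add_zero] at h22
          rwa [h20, h22, h22, show (h₁.E u v).1.1 u = u from eich_apply_left hu hv, h20,
            eq_comm] at h21))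
      exact Submodule.mem_span_singleton.2 ⟨t, (congrArg Subtype.val ht).trans h20.symm⟩
  replace hc : ∀ v ∈ fix o, b.T v = c • v := fun v hv => hc ⟨v, hv⟩
  obtain ⟨⟨v, hv⟩, (h11 : Q v = 1)⟩ := exists_refl h₁
  have h12 := ne_zero_of_Q_ne_zero (h11.trans_ne one_ne_zero)
  have h13 : c ≠ 0 := fun h13 => h12 (by simpa [h13] using hc v hv)
  have h14 : b.σ = 1 := RingEquiv.ext fun d => smul_left_injective F (smul_ne_zero h13 h12) (by
    simp only [← hc v hv, ← b.smul]
    rw [hc _ (Submodule.smul_mem _ d hv), hc v hv, smul_comm]; rfl)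
  obtain ⟨t, ht⟩ := exists_og (a := sc Q (Units.mk0 c h13)⁻¹ * b) h14 (Units.ext (by
    have := b.q v
    rw [hc v hv, q_smul, h11, map_one] at this
    simp [← mul_right_cancel₀ one_ne_zero this, pow_two]; field_simp))
  have h15 : ∀ v ∈ fix o, t.1 v = v := fun v hv => by
    rw [← og_T, ← ht, Gam.mul_T, hc v hv, sc_T]; simp [smul_smul, h13]
  obtain ⟨⟨a₁, a₂⟩, rfl⟩ := h6 t fun v hv => (h15 v hv).symm ▸ hv
  obtain rfl : a₁ = 1 := OG.ext fun x => Subtype.ext (by
    simpa [e] using (sumHom_apply e (a₁, a₂) x 0).symm.trans (h15 _ (by simp [e])))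
  rw [← hA.sc_mul, ht] at h8 h9 ⊢
  refine eq_one_of_sq ?_ h9
  have := odd_normal h₂ h2 d₂ ((Subgroup.zpowers (A (og (S (1, a₂))))).comap
    (((A.comp og).comp S).comp (MonoidHom.inr _ _))) (fun u v m ⟨k, hk⟩ => ⟨k, ?_⟩)
    (fun m hm => (h7 (1, m) (h9.coprime_dvd_left (orderOf_dvd_of_mem_zpowers hm))).imp fun k hk =>
      ⟨hk.1, hk.2.imp (congrArg Prod.snd) (congrArg Prod.snd)⟩) (Subgroup.mem_zpowers _)
  · rw [← map_mul, ← map_mul, ← map_mul, Prod.mk_mul_mk, sq this, mul_one]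
    simp [← Prod.one_eq_mk]
  · rw [map_mul, map_mul, map_inv, ← hk]
    exact (mul_inv_eq_iff_eq_mul.2 ((h8 ⟨_, E2 u v⟩).zpow_left k).symm.eq).symm

theorem Model.core_ext {g : Gam Q} (hσ : g.σ = 1) (hg : g * g = sc Q g.μ)
    (h3 : ¬ IsSquare (g.μ : F)) (hn : 10 ≤ finrank F V) :
    pPrimeCore 2 (B ⊓ Subgroup.centralizer {A g} : Subgroup _) = ⊥ := by
  have h := hA.big
  obtain ⟨_, _, hm⟩ := exists_mod (g := (g.lin hσ).toLinearMap) (T_T hg)
  haveI := fact_of h3
  let E := QuadraticAlgebra F (g.μ : F) 0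
  haveI : Module.Finite E V := Module.Finite.of_restrictScalars_finite F _ _
  haveI : Finite E := Module.finite_of_finite F
  have h4 := Module.finrank_mul_finrank F E V
  rw [QuadraticAlgebra.finrank_eq_two] at h4
  have h5 : ∀ u v, polar Q (g.T u) v = polar Q u (g.T v) := fun u v =>
    mul_left_cancel₀ g.μ.ne_zero (polar_T hσ hg u v)
  have h6 := g.μ.ne_zero
  let R : QuadraticForm E V := LinearMap.BilinMap.toQuadraticMap (LinearMap.mk₂ E
    (fun u v => ⟨polar Q u v / 2, polar Q u (g.T v) / (2 * g.μ)⟩)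
    (fun _ _ _ => by ext <;> simp [E, add_div]) (fun c u v => by
      ext <;> simp [E, hm, h5, T_T hg] <;> field_simp <;> ring)
    (fun _ _ _ => by ext <;> simp [E, add_div]) fun c u v => by
      ext <;> simp [E, hm, T_T hg, g.smul, hσ] <;> field_simp <;> ring)
  have r0 : ∀ v, R v = ⟨polar Q v v / 2, polar Q v (g.T v) / (2 * g.μ)⟩ := fun _ => rfl
  have r1 : ∀ v, (R v).re = Q v := fun v => by simp [R]; field_simp
  have r2 : ∀ u v, (polar R u v).re = polar Q u v := fun u v => by simp [E, QuadraticMap.polar, r1]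
  have hR : Big R := ⟨fun x hx => h.nd x fun y => by rw [← r2, hx]; rfl, by omega⟩
  have hω : ∀ v, (ω : E) • v = g.T v := fun v => by simp [E, hm]
  let ι : OG R →* OG Q := MonoidHom.mk' (fun s => ⟨s.1.restrictScalars F, fun v =>
    (r1 _).symm.trans ((congrArg re (s.2 v)).trans (r1 v))⟩) fun _ _ => rfl
  have i1 : ∀ s v, (ι s).1 v = s.1 v := fun _ _ => rfl
  have i2 : Function.Injective ι := fun s t h => OG.ext fun v => by rw [← i1, h, i1]
  have h7 : ∀ l, Commute g (og (ι l)) := fun l => gam_ext h fun v => by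
    rw [Gam.mul_T, Gam.mul_T, og_T, og_T, i1, i1, ← hω, ← hω, map_smul]
  have h2' : (2 : E) ≠ 0 := fun h => h2 (congrArg re h)
  refine core_eq_bot' (conj_injective hZ) hinn (((A.comp og).comp ι).comp ((Om Q).comap ι).subtype)
    (fun l => hA.mem_inn.2 (og_mem_NO_of h l.2)) (fun l => (h7 l).map A)
    (fun k hk h8 l => ?_) (fun M hM h8 l hl => eq_one_of_sq ?_ (h8 l hl)) fun α h8 h9 => ?_
  · obtain ⟨s, hs, rfl⟩ := hA.exists_om hk
    have h9 := fun v => congrArg (fun a : Gam Q => a.T v) (hA.comm_conj h8 (h7 l)).eq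
    have h10 := mul_mem (mul_mem hs l.2) (inv_mem hs)
    set t := s * ι l * s⁻¹ with ht
    replace h9 : ∀ v, g.T (t.1 v) = t.1 (g.T v) := h9
    let l' : OG R := ⟨{ t.1 with map_smul' := fun c v => by simp [E, hm, h9] }, fun v => by
      change R (t.1 v) = R v
      rw [r0, r0, h9, OG.map_polar, OG.map_polar]⟩
    refine ⟨⟨l', h10⟩, ?_⟩
    change _ = A (og t)
    simp only [ht, map_mul, map_inv]; rfl
  · have m1 := odd_normal hR.nd h2' (Or.inr (Or.inr hR.dim)) (M.map (Subgroup.subtype _))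
      (by rintro u v _ ⟨m, hm, rfl⟩
          exact ⟨_, hM.conj_mem m hm ⟨_, map_mem_commutator ι (hR.E u v).2⟩, rfl⟩)
      (by rintro _ ⟨m, hm, rfl⟩; exact (hA.odd_pm (h8 m hm)).imp fun k hk =>
        ⟨hk.1, hk.2.imp (fun h => i2 (by rw [map_pow, map_one]; exact h))
          fun h => i2 (by rw [map_pow]; exact h)⟩) ⟨l, hl, rfl⟩
    rw [← map_mul, show l * l = 1 from Subtype.ext (m1.elim (fun h => by simp_all)
      fun h => (congrArg₂ _ h h).trans negOne_mul_self), map_one]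
  obtain ⟨b, rfl⟩ := hs α
  have h10 := fun l v => congrArg (fun a : Gam Q => a.T v) (hA.commute_of_perfect
    (hR.nd.commutator_perfect hR.dim) (ι.comp (Om R).subtype)
    (fun l => h8 ⟨l.1, map_mem_commutator ι l.2⟩) l).eq
  obtain ⟨c, hc⟩ := exists_ratio hR.nd hR.dim (T := AddMonoidHom.id V) (T' := b.T.toAddMonoidHom)
    Function.injective_id (fun v _ c => Submodule.mem_span_singleton.2 ⟨c, rfl⟩) fun u hu => by
      by_cases h11 : u = 0
      · simp [h11]
      exact hR.nd.mem_span_of_fixed hR.three h11 hu fun v hv =>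
        (h10 (hR.E u v) u).symm.trans (congrArg b.T (eich_apply_left hu hv))
  replace hc : ∀ v, b.T v = c • v := hc
  obtain ⟨u, hu⟩ := exists_refl hR
  obtain ⟨w, hw⟩ := hR.nd.exists_Q_eq (by omega) ω
  have h11 : b.T u ≠ 0 := by simpa using ne_zero_of_Q_ne_zero (hu.trans_ne one_ne_zero)
  have h12 : b.σ = 1 := RingEquiv.ext fun d => smul_left_injective F h11 (by
    simp only [← b.smul]
    rw [hc, hc, smul_comm]; rfl)
  have h13 : ∀ v, (c ^ 2 * R v).re = b.μ * (R v).re := fun v => by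
    rw [← q_smul, r1, r1, ← hc, b.q, h12]; rfl
  have h14 := h13 u
  have h15 := h13 w
  rw [hu] at h14
  rw [hw] at h15
  refine eq_one_of_sq ?_ h9
  rw [← map_mul, show b * b = sc Q b.μ from gam_ext h fun v => ?_, hA.sc_eq]
  rw [Gam.mul_T, hc, hc, smul_smul, ← pow_two, hm]
  simp [E] at h14 h15
  simp [h14, h15]

theorem Model.core_graph (hp : ¬ IsPlus Q) {M : ℕ} (hn : finrank F V = 2 * M) (hM : 4 ≤ M)
    {g : Gam Q} (hσ : g.σ = 1) (hD : g ∉ DO Q) (hg : orderOf (A g) = 2) :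
    pPrimeCore 2 (B ⊓ Subgroup.centralizer {A g} : Subgroup _) = ⊥ := by
  have h := hA.big
  obtain ⟨d, hd⟩ := hA.exists_sq hg
  by_cases h3 : IsSquare (g.μ : F)
  · obtain ⟨c, o, rfl, h4, h5⟩ := invol_of_sq hσ hd h h2 (even_of_eq hn) hD h3
    have h6 := rk_add_finrank_fix o
    have h7 := rk_add_finrank_fix (negOne Q * o)
    rw [Nat.even_iff] at h5
    rw [hA.sc_mul]
    by_cases h8 : 5 ≤ finrank F (fix o)
    · exact hA.core_refl hZ hs h2 hinn h4 (Nat.odd_iff.2 (by omega)) h8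
    · rw [← hA.sc_mul (-1), ← og_negOne, ← map_mul]
      rw [rk, mov_eq h2 h4] at h5 h6
      exact hA.core_refl hZ hs h2 hinn (neg_mul_self h4) (Nat.odd_iff.2 (by omega)) (by omega)
  · obtain ⟨rfl, h4⟩ := invol_of_not_sq hσ hd h h2 hp hn hD h3
    exact hA.core_ext hZ hs h2 hinn hσ hd h3 (by have := Nat.odd_iff.1 h4; omega)

end Cfsg.Agent.Classical.GamO
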