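import Mathlib
import Cfsg.Agent.Classical.LS2
import Cfsg.Agent.Classical.Transv

/-!
# The smallest degree of a non-trivial complex representation of `SL_n(q)`: tools
-/

set_option autoImplicit false
set_option backward.isDefEq.respectTransparency false

namespace Cfsg.Agent.Classical.LS

open Module Matrix Cfsg.Agent.Classical.Transv Cfsg.Agent.Classical.SLBasic

section general
variable {G V : Type*} [Group G] [AddCommGroup V] [Module ℂ V] {ρ : Representation ℂ G V}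

theorem card_le_finrank_of_wt [Finite G] [FiniteDimensional ℂ V] {I J : Type*} {x : I → G}
    (hx : ∀ i j, Commute (x i) (x j)) (U : Submodule ℂ V) [Fintype J] (f : J → I → ℂ)
    (hf : Function.Injective f) (h : ∀ j, ∃ v ∈ U, v ≠ 0 ∧ v ∈ Wt ρ x (f j)) :
    Fintype.card J ≤ finrank ℂ U := by
  choose v hU h0 hv using h
  have := ((indep (ρ := ρ) hx).comp hf).linearIndependent _ hv h0
  have h2 : LinearIndependent ℂ fun j => (⟨v j, hU j⟩ : U) :=
    LinearIndependent.of_comp U.subtype this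
  exact h2.fintype_card_le_finrank

theorem eq_zero_of_wt {I : Type*} {x : I → G} {β γ : I → ℂ} (h : β ≠ γ) {v : V}
    (h1 : v ∈ Wt ρ x β) (h2 : v ∈ Wt ρ x γ) : v = 0 := by
  obtain ⟨i, hi⟩ := Function.ne_iff.1 h
  have : (β i - γ i) • v = 0 := by rw [sub_smul, ← mem_Wt.1 h1, ← mem_Wt.1 h2, sub_self]
  exact (smul_eq_zero.1 this).resolve_left (sub_ne_zero.2 hi)

/-- Weight vectors of a subfamily decompose into weight vectors of the whole group. -/
theorem fix_of_ext {A I : Type*} [AddCommGroup A] [Fintype A] {x : A → G}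
    (hx : ∀ a b, x (a + b) = x a * x b) (j : I → A) {μ : I → ℂ} {v : V}
    (hv : v ∈ Wt ρ (x ∘ j) μ) {g : G}
    (h : ∀ l : AddChar A ℂ, l ∘ j = μ → ∀ w ∈ Wt ρ x l, ρ g w = w) : ρ g v = v := by
  have e : v = ∑ l : AddChar A ℂ, P ρ x l v := by
    rw [← LinearMap.sum_apply, sum_P hx]; rfl
  rw [e, map_sum]
  refine Finset.sum_congr rfl fun l _ => ?_
  by_cases hl : l ∘ j = μ
  · exact h l hl _ (P_mem hx l v)
  · have h1 : P ρ x l v ∈ Wt ρ (x ∘ j) μ := by
      simp only [P, LinearMap.smul_apply, LinearMap.sum_apply]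
      refine Submodule.smul_mem _ _ (Submodule.sum_mem _ fun a _ => Submodule.smul_mem _ _ ?_)
      exact apply_mem_Wt (π := id) (fun i => x_comm hx _ _) hv
    have h2 : P ρ x l v ∈ Wt ρ (x ∘ j) (l ∘ j) := mem_Wt.2 fun i => mem_Wt.1 (P_mem hx l v) _
    rw [eq_zero_of_wt hl h2 h1, map_zero]

theorem comm_of_finrank_le_one [FiniteDimensional ℂ V] {U : Submodule ℂ V} (hU : finrank ℂ U ≤ 1)
    {g h : G} (hg : ∀ v ∈ U, ρ g v ∈ U) (hh : ∀ v ∈ U, ρ h v ∈ U) {v : V} (hv : v ∈ U) :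
    ρ (g * h) v = ρ (h * g) v := by
  obtain ⟨w, hw⟩ := finrank_le_one_iff.1 hU
  obtain ⟨a, ha⟩ := hw ⟨_, hg w w.2⟩
  obtain ⟨b, hb⟩ := hw ⟨_, hh w w.2⟩
  obtain ⟨c, hc⟩ := hw ⟨v, hv⟩
  have ha' : ρ g w = a • (w : V) := (congrArg Subtype.val ha).symm
  have hb' : ρ h w = b • (w : V) := (congrArg Subtype.val hb).symm
  have hc' : v = c • (w : V) := (congrArg Subtype.val hc).symm
  simp only [map_mul, End.mul_apply, hc', map_smul, ha', hb', smul_smul]
  congr 1; ring

theorem fix_of_comm [FiniteDimensional ℂ V] {U : Submodule ℂ V} (hU : finrank ℂ U ≤ 1)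
    {g h t : G} (hg : ∀ v ∈ U, ρ g v ∈ U) (hh : ∀ v ∈ U, ρ h v ∈ U) (e : g * h = h * g * t)
    (ht : ∀ v ∈ U, ρ t v ∈ U) {v : V} (hv : v ∈ U) : ρ t v = v := by
  have := comm_of_finrank_le_one hU hg hh hv
  rw [e, map_mul, End.mul_apply] at this
  exact apply_injective _ this

end general

section lin
variable {F : Type*} [Field F] {ι : Type*} [Fintype ι] [DecidableEq ι]

theorem exists_dot_zero_one {x y : ι → F} (h : y ∉ Submodule.span F {x}) :
    ∃ χ : ι → F, χ ⬝ᵥ x = 0 ∧ χ ⬝ᵥ y = 1 := by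
  obtain ⟨f, hf, hf0⟩ := Submodule.exists_dual_map_eq_bot_of_notMem h inferInstance
  have h0 : f x = 0 := by
    have : f x ∈ (Submodule.span F {x}).map f :=
      Submodule.mem_map_of_mem (Submodule.mem_span_singleton_self _)
    rwa [hf0] at this
  have e : ∀ z, (fun i => f (Pi.single i 1)) ⬝ᵥ z = f z := fun z => by
    conv_rhs => rw [pi_eq_sum_univ' z]
    simp [dotProduct, mul_comm]
  exact ⟨(f y)⁻¹ • fun i => f (Pi.single i 1), by simp [e, h0], by simp [e, hf]⟩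

omit [DecidableEq ι] in
theorem exists_ker_not_mem {k : ℕ} (φ : Fin k → ι → F) (h : k + 2 ≤ Fintype.card ι) (x : ι → F) :
    ∃ y, (∀ i, φ i ⬝ᵥ y = 0) ∧ y ∉ Submodule.span F {x} := by
  by_contra H
  push Not at H
  let L := Matrix.mulVecLin (Matrix.of φ)
  have h1 : LinearMap.ker L ≤ Submodule.span F {x} := fun y hy => H y fun i => congrFun hy i
  have h2 := Submodule.finrank_mono h1
  have h3 := LinearMap.finrank_range_add_finrank_ker L
  have h4 := Submodule.finrank_le (LinearMap.range L)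
  have h5 : finrank F (Submodule.span F {x}) ≤ 1 := by
    simpa using finrank_span_le_card (R := F) ({x} : Set (ι → F))
  simp only [finrank_fintype_fun_eq_card, Fintype.card_fin] at h3 h4
  omega

theorem tv_smul_left (c : F) {u φ : ι → F} (h : φ ⬝ᵥ (c • u) = 0) (h' : (c • φ) ⬝ᵥ u = 0) :
    tv (c • u) φ h = tv u (c • φ) h' := tv_eq_iff.2 (by rw [smul_vecMulVec, vecMulVec_smul])

theorem tv_congr {u φ u' φ' : ι → F} (h : φ ⬝ᵥ u = 0) (h' : φ' ⬝ᵥ u' = 0) (e1 : u = u')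
    (e2 : φ = φ') : tv u φ h = tv u' φ' h' := by subst e1 e2; rfl

theorem exists_SL_pair (hι : 3 ≤ Fintype.card ι) {u φ u' φ' : ι → F} (hu : u ≠ 0) (hφ : φ ≠ 0)
    (hu' : u' ≠ 0) (hφ' : φ' ≠ 0) (h : φ ⬝ᵥ u = 0) (h' : φ' ⬝ᵥ u' = 0) :
    ∃ g : SpecialLinearGroup ι F, g.1 *ᵥ u = u' ∧ φ' ᵥ* g.1 = φ := by
  obtain ⟨g, h1, h2⟩ := exists_GL_pair hu hφ hu' hφ' (h.trans h'.symm)
  obtain ⟨y, hy, hyu⟩ := exists_ker_not_mem ![φ] hι u
  obtain ⟨χ, hχ, hχy⟩ := exists_dot_zero_one hyu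
  have hd : g.1.det ≠ 0 := (Matrix.isUnits_det_units g).ne_zero
  have hy0 : φ ⬝ᵥ y = 0 := hy 0
  refine ⟨⟨g.1 * (1 + vecMulVec ((g.1.det⁻¹ - 1) • y) χ), ?_⟩, ?_, ?_⟩
  · rw [det_mul, det_one_add_vecMulVec]; simp [hχy, hd]
  · dsimp only
    rw [← mulVec_mulVec, add_mulVec, vecMulVec_mulVec', hχ]; simp [h1]
  · dsimp only
    rw [← vecMul_vecMul, h2, vecMul_add, vecMul_vecMulVec]; simp [hy0]

theorem isConj_tv (hι : 3 ≤ Fintype.card ι) {u φ u' φ' : ι → F} (hu : u ≠ 0) (hφ : φ ≠ 0)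
    (hu' : u' ≠ 0) (hφ' : φ' ≠ 0) (h : φ ⬝ᵥ u = 0) (h' : φ' ⬝ᵥ u' = 0) :
    ∃ g, g * tv u φ h * g⁻¹ = tv u' φ' h' := by
  obtain ⟨g, h1, h2⟩ := exists_SL_pair hι hu hφ hu' hφ' h h'
  refine ⟨g, ?_⟩
  rw [conj_tv]
  refine tv_congr _ _ h1 ?_
  rw [← h2, vecMul_vecMul, show g.1 * (g⁻¹).1 = 1 from congrArg Subtype.val (mul_inv_cancel g),
    vecMul_one]

/-- The kernel of a covector. -/
def Kr (φ : ι → F) : Submodule F (ι → F) where
  carrier := {u | φ ⬝ᵥ u = 0}
  zero_mem' := by simp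
  add_mem' {a b} ha hb := by
    simp only [Set.mem_setOf_eq, dotProduct_add] at *; rw [ha, hb, add_zero]
  smul_mem' c a ha := by
    simp only [Set.mem_setOf_eq, dotProduct_smul] at *; rw [ha, smul_zero]

/-- The transvections with a given axis. -/
def ax (φ : ι → F) (u : Kr φ) : SpecialLinearGroup ι F := tv u.1 φ u.2

theorem ax_add (φ : ι → F) (u v : Kr φ) : ax φ (u + v) = ax φ u * ax φ v :=
  (tv_mul_tv' u.2 v.2).symm

variable [Fintype F]

theorem exists_eq_ψ_pi (l : AddChar (ι → F) ℂ) : ∃ a : ι → F, ∀ u, l u = ψ F (a ⬝ᵥ u) := by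
  have : ∀ i, ∃ a, ∀ b, l (Pi.single i b) = ψ F (a * b) := fun i =>
    exists_eq_ψ' _ (by simp) fun a b => by rw [Pi.single_add, AddChar.map_add_eq_mul]
  choose a ha using this
  refine ⟨a, fun u => ?_⟩
  conv_lhs => rw [← Finset.univ_sum_single u]
  rw [dotProduct]
  induction (Finset.univ : Finset ι) using Finset.induction_on with
  | empty => simp
  | insert i s hi ih => rw [Finset.sum_insert hi, Finset.sum_insert hi, AddChar.map_add_eq_mul,
      ψ_add, ih, ha]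

theorem exists_eq_ψ_sub (K : Submodule F (ι → F)) (l : AddChar K ℂ) :
    ∃ a : ι → F, ∀ u : K, l u = ψ F (a ⬝ᵥ u) := by
  obtain ⟨π, hπ⟩ := K.subtype.exists_leftInverse_of_injective (Submodule.ker_subtype K)
  obtain ⟨a, ha⟩ := exists_eq_ψ_pi (l.compAddMonoidHom π.toAddMonoidHom)
  refine ⟨a, fun u => ?_⟩
  rw [← ha]
  exact congrArg l (LinearMap.congr_fun hπ u).symm

/-- The characters of the column space. -/
noncomputable def chr (a : ι → F) : AddChar (ι → F) ℂ where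
  toFun u := ψ F (a ⬝ᵥ u)
  map_zero_eq_one' := by simp
  map_add_eq_mul' u v := by rw [dotProduct_add, ψ_add]

omit [DecidableEq ι] in
theorem chr_apply (a u : ι → F) : chr a u = ψ F (a ⬝ᵥ u) := rfl

theorem chr_bijective : Function.Bijective (chr : (ι → F) → _) :=
  ⟨fun a b h => funext fun i => eq_of_ψ fun c => by
    simpa [chr_apply] using DFunLike.congr_fun h (Pi.single i c),
   fun l => (exists_eq_ψ_pi l).imp fun a ha => by ext u; exact (ha u).symm⟩

theorem sum_ψ_dot {u : ι → F} (hu : u ≠ 0) : ∑ a : ι → F, ψ F (a ⬝ᵥ u) = 0 := by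
  have : chr u ≠ 0 := fun h => hu (chr_bijective.1 (h.trans (by ext; simp [chr_apply])))
  simpa [chr_apply, dotProduct_comm] using AddChar.sum_eq_zero_iff_ne_zero.2 this

theorem card_Kr {φ : ι → F} (hφ : φ ≠ 0) :
    Nat.card (Kr φ) = Fintype.card F ^ (Fintype.card ι - 1) := by
  obtain ⟨χ, hχ⟩ := exists_dot_ne_zero hφ
  have := card_ker (f := (dotProductBilin F F φ : Dual F (ι → F)))
    (fun h => hχ (by rw [dotProduct_comm]; exact LinearMap.congr_fun h χ))
  rwa [finrank_fintype_fun_eq_card] at this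

open scoped Classical in
/-- The number of transvections. -/
theorem card_tv [DecidableEq F] : (Fintype.card F - 1) * Finset.card {g : SpecialLinearGroup ι F |
      ∃ u φ h, u ≠ 0 ∧ φ ≠ 0 ∧ g = tv u φ h} =
    (Fintype.card F ^ Fintype.card ι - 1) * (Fintype.card F ^ (Fintype.card ι - 1) - 1) := by
  have := fun φ : ι → F => Fintype.ofFinite (Kr φ)
  let S : Finset (Σ φ : ι → F, Kr φ) := {z | z.1 ≠ 0 ∧ z.2 ≠ 0}
  have h1 : S.card = (Fintype.card F ^ Fintype.card ι - 1) *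
      (Fintype.card F ^ (Fintype.card ι - 1) - 1) := by
    have : S = (Finset.univ.erase 0).sigma fun φ => Finset.univ.erase 0 := by
      ext z; simp [S]
    rw [this, Finset.card_sigma, Finset.sum_const_nat (m := Fintype.card F ^ (Fintype.card ι - 1) - 1)
      fun φ hφ => by
        rw [Finset.card_erase_of_mem (Finset.mem_univ _), Finset.card_univ,
          ← Nat.card_eq_fintype_card, card_Kr (Finset.ne_of_mem_erase hφ)],
      Finset.card_erase_of_mem (Finset.mem_univ _)]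
    simp
  rw [← h1, Finset.card_eq_sum_card_fiberwise (s := S) (f := fun z => ax z.1 z.2)
    (t := {g : SpecialLinearGroup ι F | ∃ u φ h, u ≠ 0 ∧ φ ≠ 0 ∧ g = tv u φ h})
    (fun z hz => by
      have := (Finset.mem_filter.1 hz).2
      simp only [Finset.coe_filter, Finset.mem_univ, true_and, Set.mem_setOf_eq]
      exact ⟨z.2.1, z.1, z.2.2, fun h => this.2 (Subtype.ext h), this.1, rfl⟩),
    Finset.sum_const_nat (m := Fintype.card F - 1), mul_comm]
  intro g hg
  obtain ⟨u, φ, h, hu, hφ, rfl⟩ := (Finset.mem_filter.1 hg).2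
  rw [← Finset.card_univ, ← Finset.card_erase_of_mem (Finset.mem_univ (0 : F))]
  symm
  refine Finset.card_bij (fun c _ => ⟨c • φ, ⟨c⁻¹ • u, by simp [Kr, h]⟩⟩) (fun c hc => ?_)
    (fun c _ d _ e => smul_left_injective F hφ (congrArg Sigma.fst e)) fun z hz => ?_
  · have hc := Finset.ne_of_mem_erase hc
    simp only [S, Finset.mem_filter, Finset.mem_univ, true_and]
    refine ⟨⟨smul_ne_zero hc hφ, fun e => smul_ne_zero (inv_ne_zero hc) hu (congrArg Subtype.val e)⟩,
      tv_eq_iff.2 ?_⟩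
    simp [smul_vecMulVec, vecMulVec_smul, smul_smul, hc]
  · obtain ⟨φ', u', h'⟩ := z
    simp only [S, Finset.mem_filter, Finset.mem_univ, true_and] at hz
    obtain ⟨⟨h1, h2⟩, h3⟩ := hz
    have h3 := tv_eq_iff.1 h3
    have h2' : u' ≠ 0 := fun e => h2 (Subtype.ext e)
    obtain ⟨c, rfl⟩ := (par_of_eq' h3 h2').exists_smul hφ
    have hc : c ≠ 0 := by rintro rfl; simp at h1
    refine ⟨c, by simp [hc], ?_⟩
    have : u' = c⁻¹ • u := by
      obtain ⟨j, hj⟩ := Function.ne_iff.1 hφ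
      ext i
      have := congrFun (congrFun h3 i) j
      simp only [vecMulVec_apply, Pi.smul_apply, smul_eq_mul] at this ⊢
      field_simp
      exact mul_right_cancel₀ hj (by linear_combination this)
    subst this; rfl

end lin

section blk
variable {F : Type*} [Field F] {ι ι' : Type*} [Fintype ι] [DecidableEq ι] [Fintype ι']
  [DecidableEq ι'] (e : ι' ⊕ Unit ≃ ι)

/-- The block embedding. -/
def blk : SpecialLinearGroup ι' F →* SpecialLinearGroup ι F where
  toFun A := ⟨reindex e e (fromBlocks A.1 0 0 1), by simp [det_fromBlocks_zero₂₁]⟩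
  map_one' := Subtype.ext (by simp)
  map_mul' A B := Subtype.ext (by
    change reindex e e _ = reindex e e _ * reindex e e _
    simp [fromBlocks_multiply])

theorem blk_coe (A : SpecialLinearGroup ι' F) :
    (blk e A).1 = reindex e e (fromBlocks A.1 0 0 1) := rfl

/-- Extension by zero. -/
def ex (u : ι' → F) : ι → F := Sum.elim u 0 ∘ e.symm

/-- The extra coordinate. -/
def ε0 : ι → F := Sum.elim (0 : ι' → F) 1 ∘ e.symm

omit [DecidableEq ι] [DecidableEq ι'] in
theorem dot_eq (a b : ι → F) : a ⬝ᵥ b = (a ∘ e ∘ Sum.inl) ⬝ᵥ (b ∘ e ∘ Sum.inl) +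
    a (e (Sum.inr ())) * b (e (Sum.inr ())) := by
  rw [dotProduct, ← e.sum_comp, Fintype.sum_sum_type]; simp [dotProduct]

omit [DecidableEq ι] [DecidableEq ι'] in
theorem dot_ex (a : ι → F) (u : ι' → F) : a ⬝ᵥ ex e u = (a ∘ e ∘ Sum.inl) ⬝ᵥ u := by
  rw [dot_eq e]; simp [ex, Function.comp_def]

omit [DecidableEq ι] [DecidableEq ι'] in
theorem ex_dot_ex (a u : ι' → F) : ex e a ⬝ᵥ ex e u = a ⬝ᵥ u := by
  rw [dot_ex e]; simp [ex, Function.comp_def]

omit [DecidableEq ι] [DecidableEq ι'] in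
theorem ε0_dot_ex (u : ι' → F) : ε0 e ⬝ᵥ ex e u = 0 := by
  rw [dot_ex e]; simp [ε0, Function.comp_def]

omit [Fintype ι] [Fintype ι'] [DecidableEq ι] [DecidableEq ι'] in
theorem ex_add (u v : ι' → F) : ex e (u + v) = ex e u + ex e v := by
  ext i; obtain ⟨i | i, rfl⟩ := e.surjective i <;> simp [ex]

omit [Fintype ι] [Fintype ι'] [DecidableEq ι] [DecidableEq ι'] in
theorem ex_smul (c : F) (u : ι' → F) : ex e (c • u) = c • ex e u := by
  ext i; obtain ⟨i | i, rfl⟩ := e.surjective i <;> simp [ex]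

omit [Fintype ι] [Fintype ι'] [DecidableEq ι] [DecidableEq ι'] in
theorem ex_ne_zero {u : ι' → F} (hu : u ≠ 0) : ex e u ≠ 0 := fun h =>
  hu (funext fun i => by simpa [ex] using congrFun h (e (Sum.inl i)))

omit [Fintype ι] [Fintype ι'] [DecidableEq ι] [DecidableEq ι'] in
theorem ε0_ne_zero : (ε0 e : ι → F) ≠ 0 := fun h => by
  simpa [ε0] using congrFun h (e (Sum.inr ()))

omit [DecidableEq ι] [DecidableEq ι'] in
theorem exists_ex {u : ι → F} (h : ε0 e ⬝ᵥ u = 0) : ∃ v, u = ex e v := by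
  rw [dot_eq e] at h
  refine ⟨u ∘ e ∘ Sum.inl, funext fun i => ?_⟩
  obtain ⟨i | i, rfl⟩ := e.surjective i
  · simp [ex]
  · simpa [ε0, ex, Function.comp_def] using h

theorem blk_tv {u φ : ι' → F} (h : φ ⬝ᵥ u = 0) :
    blk e (tv u φ h) = tv (ex e u) (ex e φ) (by rw [ex_dot_ex, h]) := by
  refine Subtype.ext (Matrix.ext fun i j => ?_)
  obtain ⟨i | i, rfl⟩ := e.surjective i <;> obtain ⟨j | j, rfl⟩ := e.surjective j <;>
    simp [blk_coe, tv_coe, ex, vecMulVec_apply, one_apply]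

theorem blk_mulVec (A : SpecialLinearGroup ι' F) (u : ι' → F) :
    (blk e A).1 *ᵥ ex e u = ex e (A.1 *ᵥ u) := by
  ext i
  rw [mulVec, dot_ex]
  obtain ⟨i | i, rfl⟩ := e.surjective i <;> simp [blk_coe, ex, Function.comp_def, mulVec, dotProduct]

theorem vecMul_blk (A : SpecialLinearGroup ι' F) : ε0 e ᵥ* (blk e A).1 = ε0 e := by
  ext i
  rw [vecMul, dot_eq e]
  obtain ⟨i | i, rfl⟩ := e.surjective i <;> simp [blk_coe, ε0, Function.comp_def]

/-- The unipotent radical of the hyperplane stabiliser. -/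
def xq (u : ι' → F) : SpecialLinearGroup ι F := tv (ex e u) (ε0 e) (ε0_dot_ex e u)

omit [DecidableEq ι'] in
theorem xq_add (u v : ι' → F) : xq e (u + v) = xq e u * xq e v := by
  rw [xq, xq, xq, tv_mul_tv']; exact tv_congr _ _ (ex_add e u v) rfl

theorem xq_mul_blk (A : SpecialLinearGroup ι' F) (u : ι' → F) :
    xq e u * blk e A = blk e A * xq e ((A⁻¹).1 *ᵥ u) := by
  have : blk e A⁻¹ * xq e u * (blk e A⁻¹)⁻¹ = xq e ((A⁻¹).1 *ᵥ u) := by
    rw [xq, conj_tv]
    exact tv_congr _ _ (blk_mulVec e _ u) (by rw [← map_inv, vecMul_blk])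
  rw [← this, map_inv]; group

end blk

end Cfsg.Agent.Classical.LS
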