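import Mathlib
import Cfsg.Agent.Classical.AutU4
import Cfsg.Agent.Herm.Conj

/-! Field automorphisms of `PSU_n(q)`: centralisers and conjugacy. -/

set_option autoImplicit false
set_option backward.isDefEq.respectTransparency false

namespace Cfsg.Agent.Classical.AutU

open Matrix Cfsg.Agent.Herm Cfsg.Agent.Classical.Transv Cfsg.Agent.Classical.AutPSL
  Cfsg.Agent.Classical.AutPSL2 Cfsg.Agent.Classical.Lang Cfsg.Agent.Classical.SplitCount
open scoped MatrixGroups

variable {n q q₀ : ℕ} {F K : Type*} [Field F] [Field K]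

theorem pow_dU_mul_fU (g : GU n F q) (σ : F ≃+* F) (k : ℕ) : ∃ h : GU n F q,
    h.1 = nrm σ g.1 k ∧ (dU g * fU n q σ) ^ k = dU h * fU n q (σ ^ k) := by
  induction k with
  | zero => exact ⟨1, rfl, by simp⟩
  | succ k ih =>
    obtain ⟨h, h1, h2⟩ := ih
    refine ⟨g * fGU σ h, by rw [nrm, ← h1]; rfl, ?_⟩
    rw [pow_succ', h2, mul_assoc, ← mul_assoc (fU n q σ), fU_mul_dU, pow_succ', map_mul, map_mul]
    simp only [mul_assoc]

theorem conj_fU (x : GU n F q) (σ : F ≃+* F) :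
    dU x * fU n q σ * (dU x)⁻¹ = dU (x * (fGU σ x)⁻¹) * fU n q σ := by
  rw [← map_inv, mul_assoc, fU_mul_dU, map_mul, ← map_inv, mul_assoc]

theorem exists_map_fix {ι : Type*} [Fintype ι] [DecidableEq ι] {σ : F ≃+* F} {φ : K →+* F}
    (hφ : ∀ c, σ c = c ↔ ∃ d, φ d = c) {g : GL ι F} (h : g.1.map σ = g.1) :
    ∃ k : GL ι K, GeneralLinearGroup.map φ k = g := by
  choose M hM using fun i j => (hφ _).1 (congrFun (congrFun h i) j)
  have h1 : (of M).map φ = g.1 := Matrix.ext hM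
  exact ⟨GeneralLinearGroup.mkOfDetNeZero (of M) fun h0 => g.det_ne_zero (by
    rw [← h1, ← RingHom.mapMatrix_apply, ← RingHom.map_det, h0, map_zero]), Units.ext h1⟩

theorem scalar_mul_coe {ι : Type*} [Fintype ι] [DecidableEq ι] (g : GL ι F) (c : Fˣ) :
    (g * GeneralLinearGroup.scalar ι c).1 = (c : F) • g.1 := by
  rw [Units.val_mul, AutPSL3.scalar_coe, mul_smul_comm, mul_one]

variable [Finite F] [Finite K] (hF : Nat.card F = q ^ 2) (hK : Nat.card K = q₀ ^ 2)

theorem pow_odd {r : ℕ} (hr : Odd r) (a : K) : a ^ q₀ ^ r = frob hK a := by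
  obtain ⟨j, rfl⟩ := hr
  induction j with
  | zero => simp [frob_apply]
  | succ j ih =>
    rw [show 2 * (j + 1) + 1 = 2 + (2 * j + 1) by ring, pow_add, pow_mul, ← hK, pow_card_eq, ih]

include hF in
theorem exists_sub {σ : F ≃+* F} (hσ : Odd (orderOf σ)) :
    ∃ q₀, Nat.card (fixF σ.toRingHom) = q₀ ^ 2 ∧ q = q₀ ^ orderOf σ := by
  obtain ⟨p, f, hp, _, rfl⟩ := exists_char_pow hF
  haveI := Fact.mk hp
  obtain ⟨h1, h2⟩ := AutPSL3.card_fixF (f := f * 2) (by rw [hF, pow_mul]) (σ := σ) rfl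
  obtain ⟨k, hk⟩ := (Nat.coprime_two_right.2 hσ).dvd_of_dvd_mul_right h1
  refine ⟨p ^ k, ?_, by rw [← pow_mul, mul_comm, ← hk]⟩
  rw [h2, hk, mul_assoc, Nat.mul_div_cancel_left _ hσ.pos, pow_mul]

variable {φ : K →+* F} (h0 : ∀ a, φ (frob hK a) = frob hF (φ a))

include h0 in
theorem ct_map {ι : Type*} [Fintype ι] [DecidableEq ι] (A : Matrix ι ι K) :
    ct (frob hF) (A.map φ) = (ct (frob hK) A).map φ := Matrix.ext fun _ _ => (h0 _).symm

/-- Change of field for unitary groups. -/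
def mapGU : GU n K q₀ →* GU n F q :=
  ((GeneralLinearGroup.map φ).comp (GU n K q₀).subtype).codRestrict _ fun g =>
    (mem_GU_iff hF _).2 (by
      change ct _ (g.1.1.map φ) * g.1.1.map φ = 1
      rw [ct_map hF hK h0, ← Matrix.map_mul, (mem_GU_iff hK _).1 g.2, Matrix.map_one] <;> simp)

theorem mapGU_coe (g : GU n K q₀) : (mapGU hF hK h0 g).1 = GeneralLinearGroup.map φ g.1 := rfl

variable (hn : 3 ≤ n) (h32 : ¬ (n = 3 ∧ q = 2)) {σ : F ≃+* F} (hφ : ∀ c, σ c = c ↔ ∃ d, φ d = c)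
include hF hn h32

theorem orderOf_fU (σ : F ≃+* F) : orderOf (fU n q σ) = orderOf σ :=
  orderOf_injective _ (fU_injective hF hn h32) σ

theorem dU_commute_iff {g : GU n F q} : dU g ∈ Subgroup.centralizer {fU n q σ} ↔
    ∃ c : Fˣ, GeneralLinearGroup.map σ.toRingHom g.1 = g.1 * GeneralLinearGroup.scalar _ c := by
  rw [Subgroup.mem_centralizer_singleton_iff, fU_mul_dU, mul_left_inj, eq_comm,
    dU_eq_dU_iff hF hn h32]; rfl

theorem ker_dU_comp :
    (dU.comp (mapGU (n := n) hF hK h0)).ker = (Geo.scalars _ K).subgroupOf (GU n K q₀) := by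
  ext g
  rw [MonoidHom.mem_ker, MonoidHom.comp_apply, dU_eq_one_iff hF hn h32, Subgroup.mem_subgroupOf,
    AutPSL3.scalars_eq, ← AutPSL3.ker_dA_comp φ, ← dA_eq_one_iff]; rfl

theorem splitClassCount_eq_index (x : MulAut (PSU n F q)) {H : Type*} [Group H]
    (ψ : H →* GU n F q) (h : (dU : GU n F q →* _).range ⊓ Subgroup.centralizer {x} =
      (dU.comp ψ).range) : splitClassCount (dU : GU n F q →* _).range (Inn _) x =
      Nat.gcd n ((detN hF).comp ψ).range.index := by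
  haveI : NeZero n := ⟨by omega⟩
  rw [← index_range_pow_sup, splitClassCount_eq inn_le, h, MonoidHom.range_eq_map dU,
    ← Subgroup.relIndex_comap, Subgroup.relIndex_top_right,
    ← Subgroup.index_comap_of_surjective _ (detN_surjective (n := n) hF)]
  congr 1
  ext g
  simp only [Subgroup.mem_comap, Subgroup.mem_sup_of_normal_left]
  constructor
  · rintro ⟨y, hy, _, ⟨k, rfl⟩, e⟩
    obtain rfl : y = dU (g * (ψ k)⁻¹) := by rw [map_mul, map_inv, ← e]; simp
    obtain ⟨c, hc⟩ := (dU_mem_inn_iff hF hn h32).1 hy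
    exact ⟨_, ⟨c, hc.symm⟩, _, ⟨k, rfl⟩, by simp⟩
  · rintro ⟨_, ⟨c, rfl⟩, _, ⟨k, rfl⟩, e⟩
    exact ⟨dU (g * (ψ k)⁻¹), (dU_mem_inn_iff hF hn h32).2 ⟨c, by rw [map_mul, ← e]; simp⟩, _,
      ⟨k, rfl⟩, by simp⟩

include hφ

theorem inf_centralizer_fU : (dU : GU n F q →* _).range ⊓ Subgroup.centralizer {fU n q σ} =
    (dU.comp (mapGU hF hK h0)).range := by
  haveI : NeZero n := ⟨by omega⟩
  ext β
  constructor
  · rintro ⟨⟨g, rfl⟩, h⟩
    obtain ⟨c, hc⟩ := (dU_commute_iff hF hn h32).1 h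
    obtain ⟨k, a, e⟩ := exists_map_of_proj_fixed hc
    obtain ⟨k, hk⟩ := exists_map_fix hφ (congrArg Units.val (map_map_fixF _ k))
    have h1 := (mem_GU_iff hF _).1 g.2
    rw [e, ← hk, scalar_mul_coe, ct_smul, smul_mul_smul_comm,
      show (GeneralLinearGroup.map φ k).1 = k.1.map φ from rfl, ct_map hF hK h0,
      ← Matrix.map_mul] at h1
    have h2 := congrFun (congrFun h1 0) 0
    simp only [Matrix.smul_apply, map_apply, one_apply_eq, smul_eq_mul] at h2
    generalize (ct (frob hK) k.1 * k.1) 0 0 = s at h2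
    have h3 : φ s ≠ 0 := right_ne_zero_of_mul_eq_one h2
    obtain ⟨b, hb⟩ := (inv_frob hK).exists_norm (μ := s⁻¹) (φ.injective (by
      rw [h0, map_inv₀, ← eq_inv_of_mul_eq_one_left h2, map_mul, (inv_frob hF).invol, mul_comm]))
    have hb0 : b ≠ 0 := by rintro rfl; simp [eq_comm] at hb; simp [hb] at h3
    refine ⟨⟨k * GeneralLinearGroup.scalar _ (Units.mk0 b hb0), (mem_GU_iff hK _).2
      (Matrix.map_injective φ.injective ?_)⟩, ((dU_eq_dU_iff hF hn h32).2
        ⟨a / Units.map φ.toMonoidHom (Units.mk0 b hb0), ?_⟩).symm⟩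
    · rw [scalar_mul_coe, ct_smul, smul_mul_smul_comm, Units.val_mk0, hb]
      rw [eq_inv_of_mul_eq_one_left h2] at h1
      ext i j
      simpa [one_apply, apply_ite φ, -Matrix.map_mul] using congrFun (congrFun h1 i) j
    · rw [e, ← hk, mapGU_coe, map_mul, GeneralLinearGroup.map_scalar, mul_assoc, ← map_mul]
      congr 2
      exact (mul_div_cancel _ _).symm
  · rintro ⟨k, rfl⟩
    exact ⟨⟨_, rfl⟩, (dU_commute_iff hF hn h32).2 ⟨1, by
      rw [map_one, mul_one]; exact Units.ext (Matrix.ext fun i j => (hφ _).2 ⟨_, rfl⟩)⟩⟩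

include h0 in
theorem splitClassCount_fU : splitClassCount (dU : GU n F q →* _).range (Inn _) (fU n q σ) =
    Nat.gcd n ((q + 1) / (q₀ + 1)) := by
  haveI : NeZero n := ⟨by omega⟩
  rw [splitClassCount_eq_index hF hn h32 _ _ (inf_centralizer_fU hF hK h0 hn h32 hφ)]
  let ι : normOne (frob hK) →* normOne (frob hF) :=
    ((Units.map φ.toMonoidHom).comp (Subgroup.subtype _)).codRestrict _ fun c => by
      change frob hF (φ c.1) * φ c.1 = 1
      rw [← h0, ← map_mul, c.2, map_one]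
  have h1 : (detN hF).comp (mapGU (n := n) hF hK h0) = ι.comp (detN hK) :=
    MonoidHom.ext fun g => Subtype.ext (Units.ext (RingHom.map_det _ _).symm)
  have h2 := Subgroup.card_mul_index ι.range
  rw [← Nat.card_congr (MonoidHom.ofInjective (f := ι) fun a b e => Subtype.ext
    (Units.map_injective φ.injective (congrArg Subtype.val e))).toEquiv,
    (inv_frob hF).card_normOne hF, (inv_frob hK).card_normOne hK] at h2
  rw [h1, MonoidHom.range_comp, MonoidHom.range_eq_top.2 (detN_surjective hK),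
    ← MonoidHom.range_eq_map, ← h2, Nat.mul_div_cancel_left _ (Nat.succ_pos _)]

include h0 in
/-- Lang's theorem for the coset of a field automorphism. -/
theorem isConjUnder_fU {r : ℕ} (hr : r ≠ 0) (hσ : orderOf σ = r) {g : GU n F q}
    (h : (dU g * fU n q σ) ^ r = 1) :
    IsConjUnder (dU : GU n F q →* _).range (fU n q σ) (dU g * fU n q σ) := by
  haveI : NeZero n := ⟨by omega⟩
  have hτ := inv_frob hF
  obtain ⟨k, h1, h2⟩ := pow_dU_mul_fU g σ r
  rw [h2] at h
  obtain ⟨x, a, hx⟩ := hilbert90_proj hr hσ (h1 ▸ (eq_one_of_dU_mul_fU hF hn h32 h).1)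
  have h3 : ∀ c, σ (frob hF c) = frob hF (σ c) := comm_inv hτ σ.toRingHom
  let G : GL (Fin n) F := (isUnit_ct (σ := frob hF) x.isUnit).unit * x
  have hG : G.1 = ct (frob hF) x.1 * x.1 := rfl
  have h4 : (frob hF a * a) • G.1.map σ = G.1 := by
    have e : x.1 = (a : F) • (g.1.1 * x.1.map σ) := by
      rw [← smul_mul_assoc, ← scalar_mul_coe]; exact congrArg Units.val hx.symm
    conv_rhs => rw [hG, e, ct_smul, ct_mul, smul_mul_smul_comm, mul_assoc, ← mul_assoc (ct _ g.1.1),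
      (mem_GU_iff hF _).1 g.2, one_mul]
    rw [hG, show Matrix.map _ σ = _ from Matrix.map_mul (f := σ.toRingHom)]
    congr 2
    exact Matrix.ext fun _ _ => h3 _
  obtain ⟨b, hb0, hb1, hb2⟩ : ∃ b : F, b ≠ 0 ∧ frob hF b = b ∧ (frob hF a * a) * σ b = b := by
    obtain ⟨j, hj⟩ := GLGeom.exists_row_ne_zero G 0
    have e1 : (frob hF a * a) * σ (G 0 j) = G 0 j := congrFun (congrFun h4 0) j
    have e2 := congrArg (frob hF) e1
    rw [map_mul, map_mul, hτ.invol, ← h3] at e2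
    obtain ⟨θ, hθ⟩ := (inv_frob hK).ne
    have e3 : ∀ θ, σ (φ θ) = φ θ := fun θ => (hφ _).2 ⟨θ, rfl⟩
    have key : ∀ θ, φ θ * G 0 j + frob hF (φ θ * G 0 j) ≠ 0 → ∃ b : F, b ≠ 0 ∧ frob hF b = b ∧
        (frob hF a * a) * σ b = b := fun θ h => ⟨_, h, by rw [map_add, hτ.invol, add_comm], by
      rw [map_mul (frob hF), ← h0, map_add, map_mul, map_mul, e3, e3]
      linear_combination φ θ * e1 + φ (frob hK θ) * e2⟩
    by_contra hc
    have e4 := not_not.1 fun h => hc (key 1 h)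
    have e5 := not_not.1 fun h => hc (key θ h)
    rw [map_mul, ← h0] at e4 e5
    simp only [map_one] at e4
    exact hθ (φ.injective (mul_right_cancel₀ hj (by linear_combination φ (frob hK θ) * e4 - e5)))
  obtain ⟨k, hk⟩ := exists_map_fix hφ (g := G * GeneralLinearGroup.scalar _ (Units.mk0 b hb0)⁻¹) (by
    rw [scalar_mul_coe]
    ext i j
    have := (map_ne_zero σ).2 hb0
    have e : (frob hF a * a) * σ (G i j) = G i j := congrFun (congrFun h4 i) j
    simp only [map_apply, Matrix.smul_apply, smul_eq_mul, map_mul, Units.val_inv_eq_inv_val,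
      Units.val_mk0, map_inv₀]
    field_simp
    linear_combination σ b * e - σ (G i j) * hb2)
  have h5 : k.1.map φ = b⁻¹ • G.1 := (congrArg Units.val hk).trans (by
    rw [scalar_mul_coe, Units.val_inv_eq_inv_val, Units.val_mk0])
  obtain ⟨y, hy⟩ := AutPSL3.exists_herm (inv_frob hK) (g := k) (Matrix.map_injective φ.injective (by
    change (ct _ k.1).map φ = k.1.map φ
    rw [← ct_map hF hK h0, h5, ct_smul, map_inv₀, hb1, hG, ct_mul, hτ.ct_ct]))
  obtain ⟨e, he⟩ := hτ.exists_norm hb1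
  have he0 : e ≠ 0 := by rintro rfl; simp [← he] at hb0
  let z : GU n F q := ⟨x * GeneralLinearGroup.map φ y * GeneralLinearGroup.scalar _
    (Units.mk0 e he0)⁻¹, (mem_GU_iff hF _).2 (by
      have := congrArg (Matrix.map · φ) hy
      simp only [Matrix.map_mul, h5, hG] at this
      rw [scalar_mul_coe, ct_smul, smul_mul_smul_comm, Units.val_mul, ct_mul,
        show (GeneralLinearGroup.map φ y).1 = y.1.map φ from rfl, ct_map hF hK h0,
        Units.val_inv_eq_inv_val, Units.val_mk0, map_inv₀, ← mul_inv, he]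
      simpa [mul_assoc, ct_apply] using this)⟩
  refine ⟨dU z, ⟨z, rfl⟩, ?_⟩
  rw [conj_fU, mul_left_inj, eq_comm, dU_eq_dU_iff hF hn h32]
  refine ⟨a * (Units.map σ.toMonoidHom (Units.mk0 e he0) / Units.mk0 e he0), ?_⟩
  have h6 : GeneralLinearGroup.map σ.toRingHom (GeneralLinearGroup.map φ y) =
      GeneralLinearGroup.map φ y := Units.ext (Matrix.ext fun i j => (hφ _).2 ⟨_, rfl⟩)
  change x * _ * _ * (GeneralLinearGroup.map σ.toRingHom (x * _ * _))⁻¹ = _
  rw [map_mul, map_mul, h6, GeneralLinearGroup.map_scalar, mul_inv_eq_iff_eq_mul]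
  conv_lhs => rw [← hx]
  apply Units.ext
  simp only [scalar_mul_coe, Units.val_mul, AutPSL3.scalar_coe, mul_smul_comm, smul_mul_assoc,
    mul_one, smul_smul, mul_assoc]
  congr 1
  have := (map_ne_zero σ).2 he0
  simp
  field_simp

omit hφ in
theorem isConjUnder_fU' {r : ℕ} (hr : Odd r) (hσ : orderOf σ = r) {g : GU n F q}
    (h : (dU g * fU n q σ) ^ r = 1) :
    IsConjUnder (dU : GU n F q →* _).range (fU n q σ) (dU g * fU n q σ) := by
  obtain ⟨q₀, h1, h2⟩ := exists_sub hF (hσ ▸ hr)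
  exact isConjUnder_fU hF h1 (φ := (fixF σ.toRingHom).subtype) (fun a => by
    rw [← pow_odd h1 hr, map_pow, ← hσ, ← h2, frob_apply]) hn h32
    (fun c => ⟨fun h => ⟨⟨c, h⟩, rfl⟩, by rintro ⟨d, rfl⟩; exact d.2⟩) hr.pos.ne' hσ h

end Cfsg.Agent.Classical.AutU
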