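import Mathlib
import Cfsg.Agent.Classical.AutSp2
import Cfsg.Agent.Classical.GamO4
import Cfsg.Agent.Orth.Char2
import Cfsg.Agent.Orth.Wall

/-! Similarity classes of symmetric and alternating forms and their similarity groups. -/

set_option autoImplicit false
set_option backward.isDefEq.respectTransparency false

namespace Cfsg.Agent.Classical.GrF

open Matrix Module Cfsg.Agent.Orth Cfsg.Agent.Classical.SpWitt Cfsg.Agent.Classical.SpMat
open LinearMap (BilinForm)

variable {K V V' V'' : Type*} [Field K] [AddCommGroup V] [Module K V] [AddCommGroup V']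
  [Module K V'] [AddCommGroup V''] [Module K V''] {B : BilinForm K V} {B' : BilinForm K V'}
  {B'' : BilinForm K V''} {ι κ : Type} [Fintype ι] [DecidableEq ι] [Fintype κ] [DecidableEq κ]

/-- Similar forms. -/
def Eqv (B : BilinForm K V) (B' : BilinForm K V') : Prop :=
  ∃ (e : V ≃ₗ[K] V') (c : Kˣ), ∀ u v, B' (e u) (e v) = c * B u v

theorem Eqv.symm (h : Eqv B B') : Eqv B' B := by
  obtain ⟨e, c, h⟩ := h
  refine ⟨e.symm, c⁻¹, fun u v => ?_⟩
  have := h (e.symm u) (e.symm v)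
  simp only [LinearEquiv.apply_symm_apply] at this
  rw [this]; simp

theorem Eqv.trans (h : Eqv B B') (h' : Eqv B' B'') : Eqv B B'' := by
  obtain ⟨e, c, h⟩ := h
  obtain ⟨e', c', h'⟩ := h'
  exact ⟨e.trans e', c' * c, fun u v => by simp [h, h', mul_assoc]⟩

/-- Multiplier and determinant of a similarity. -/
def Pr (B : BilinForm K V) (c d : Kˣ) : Prop :=
  ∃ k : V ≃ₗ[K] V, (∀ u v, B (k u) (k v) = c * B u v) ∧ LinearMap.det (k : V →ₗ[K] V) = d

theorem Eqv.pr (h : Eqv B B') {c d : Kˣ} (hp : Pr B c d) : Pr B' c d := by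
  obtain ⟨e, a, h⟩ := h
  obtain ⟨k, h1, h2⟩ := hp
  refine ⟨(e.symm.trans k).trans e, fun u v => ?_, ?_⟩
  · obtain ⟨u, rfl⟩ := e.surjective u
    obtain ⟨v, rfl⟩ := e.surjective v
    simp [h, h1]; ring
  · rw [← h2, ← LinearMap.det_conj (k : V →ₗ[K] V) e]; rfl

theorem Eqv.pr_iff (h : Eqv B B') {c d : Kˣ} : Pr B c d ↔ Pr B' c d := ⟨h.pr, h.symm.pr⟩

theorem Pr.mul {c d c' d' : Kˣ} (h : Pr B c d) (h' : Pr B c' d') : Pr B (c * c') (d * d') := by
  obtain ⟨k, h1, h2⟩ := h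
  obtain ⟨k', h1', h2'⟩ := h'
  exact ⟨k * k', fun u v => by simp [h1, h1', mul_assoc], by
    rw [Units.val_mul, ← h2, ← h2', ← map_mul]; rfl⟩

theorem Pr.inv {c d : Kˣ} (h : Pr B c d) : Pr B c⁻¹ d⁻¹ := by
  obtain ⟨k, h1, h2⟩ := h
  refine ⟨k⁻¹, fun u v => ?_, ?_⟩
  · have := h1 (k⁻¹ u) (k⁻¹ v)
    simp only [LinearEquiv.coe_inv, LinearEquiv.apply_symm_apply] at this ⊢
    rw [this]; simp
  · rw [Units.val_inv_eq_inv_val, ← h2]; exact LinearEquiv.det_coe_symm k

/-- Non-degenerate symmetric or antisymmetric forms. -/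
structure EF (B : BilinForm K V) : Prop where
  nd : ∀ x, (∀ y, B x y = 0) → x = 0
  sy : (∀ x y, B x y = B y x) ∨ ∀ x y, B x y = - B y x

theorem EF.nondeg (h : EF B) : B.Nondegenerate :=
  ⟨h.nd, fun x hx => h.nd x fun y => by rcases h.sy with h1 | h1 <;> simp [h1 x y, hx]⟩

theorem Eqv.ef (h : Eqv B B') (hB : EF B') : EF B := by
  obtain ⟨e, c, h⟩ := h
  refine ⟨fun x hx => e.map_eq_zero_iff.1 (hB.nd _ fun y => ?_), hB.sy.imp (fun h1 x y => ?_)
    fun h1 x y => ?_⟩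
  · obtain ⟨y, rfl⟩ := e.surjective y
    rw [h, hx, mul_zero]
  · exact c.mul_right_inj.1 (by rw [← h, ← h, h1])
  · exact c.mul_right_inj.1 (by rw [mul_neg, ← h, ← h, h1])

theorem Eqv.isAlt (h : Eqv B B') (hB : B'.IsAlt) : B.IsAlt := by
  obtain ⟨e, c, h⟩ := h
  exact fun x => c.mul_right_eq_zero.1 (by rw [← h, hB])

theorem exists_model [FiniteDimensional K V'] (B' : BilinForm K V') {n : ℕ}
    (hn : finrank K V' = n) : ∃ B : BilinForm K (Fin n → K), Eqv B B' := by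
  let e : (Fin n → K) ≃ₗ[K] V' := LinearEquiv.ofFinrankEq _ _ (by simp [hn])
  exact ⟨B'.comp e e, e, 1, fun u v => by simp⟩

theorem eqv_of_basis {α : Type*} (b : Basis α K V) (b' : Basis α K V')
    (h : ∀ i j, B' (b' i) (b' j) = B (b i) (b j)) : Eqv B B' := by
  refine ⟨b.equiv b' (Equiv.refl _), 1, fun u v => ?_⟩
  have : B'.comp (b.equiv b' (Equiv.refl _)) (b.equiv b' (Equiv.refl _)) = B :=
    LinearMap.BilinForm.ext_basis b fun i j => by simp [h]
  rw [← this]; simp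

theorem Pr.sq [FiniteDimensional K V] (hB : EF B) {c d : Kˣ} (h : Pr B c d) :
    d ^ 2 = c ^ finrank K V := by
  classical
  obtain ⟨k, h1, h2⟩ := h
  let b := finBasis K V
  have h3 := LinearMap.BilinForm.toMatrix_comp b b B (k : V →ₗ[K] V) (k : V →ₗ[K] V)
  have h4 : B.comp (k : V →ₗ[K] V) (k : V →ₗ[K] V) = (c : K) • B := by
    ext u v; simp [h1]
  have h5 := congrArg Matrix.det h3
  rw [h4, map_smul, det_smul, det_mul, det_mul, det_transpose, LinearMap.det_toMatrix, h2] at h5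
  refine Units.ext (mul_right_cancel₀ 
    ((LinearMap.BilinForm.nondegenerate_iff_det_ne_zero b).1 hB.nondeg) ?_)
  simp only [Fintype.card_fin] at h5
  rw [Units.val_pow_eq_pow_val, Units.val_pow_eq_pow_val, h5]; ring

/-! ### Matrix groups -/

/-- The similarity group of a bilinear form. -/
abbrev sim (B : BilinForm K (ι → K)) : Subgroup (GL ι K) := Geo.similarityGroup fun u v => B u v

/-- Conjugation by a linear isomorphism. -/
noncomputable def cjG (e : (ι → K) ≃ₗ[K] (κ → K)) : GL ι K ≃* GL κ K :=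
  (glEquiv ι K).trans (MulEquiv.trans
    { toFun g := (e.symm.trans g).trans e
      invFun g := (e.trans g).trans e.symm
      left_inv g := LinearEquiv.ext fun x => by simp
      right_inv g := LinearEquiv.ext fun x => by simp
      map_mul' g h := LinearEquiv.ext fun x => by simp } (glEquiv κ K).symm)

theorem glEquiv_symm_mulVec (g : (ι → K) ≃ₗ[K] (ι → K)) (v : ι → K) :
    ((glEquiv ι K).symm g).1 *ᵥ v = g v := by
  rw [← glEquiv_apply, MulEquiv.apply_symm_apply]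

theorem cjG_mulVec (e : (ι → K) ≃ₗ[K] (κ → K)) (g : GL ι K) (v : ι → K) :
    (cjG e g).1 *ᵥ e v = e (g.1 *ᵥ v) := by
  simp [cjG, glEquiv_symm_mulVec]

theorem nonempty_pq_congr {L : Type*} [Field L] {H : Subgroup (GL ι K)} {H' : Subgroup (GL κ L)}
    (φ : GL ι K ≃* GL κ L) (h : ∀ g, φ g ∈ H' ↔ g ∈ H) : Nonempty (projQuot H ≃* projQuot H') := by
  have h1 : H.map φ.toMonoidHom = H' := by
    ext g
    obtain ⟨g, rfl⟩ := φ.surjective g
    rw [h]; exact Subgroup.mem_map_iff_mem φ.injective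
  refine ⟨QuotientGroup.congr _ _ ((φ.subgroupMap H).trans (MulEquiv.subgroupCongr h1)) ?_⟩
  ext g
  obtain ⟨g, rfl⟩ := ((φ.subgroupMap H).trans (MulEquiv.subgroupCongr h1)).surjective g
  refine (Subgroup.mem_map_iff_mem (MulEquiv.injective _)).trans ?_
  simp only [Subgroup.mem_subgroupOf, AutPSL3.scalars_eq]
  exact (mem_center_congr φ).symm

theorem Eqv.pq {B : BilinForm K (ι → K)} {B' : BilinForm K (κ → K)} (h : Eqv B B') :
    Nonempty (projQuot (sim B) ≃* projQuot (sim B')) := by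
  obtain ⟨e, a, h⟩ := h
  refine nonempty_pq_congr (cjG e) fun g => exists_congr fun c => ⟨fun h1 u v => ?_, fun h1 u v => ?_⟩
  · have := h1 (e u) (e v)
    simp only [cjG_mulVec, h] at this
    exact a.mul_right_inj.1 (by rw [this]; ring)
  · obtain ⟨u, rfl⟩ := e.surjective u
    obtain ⟨v, rfl⟩ := e.surjective v
    simp only [cjG_mulVec, h, h1]; ring

theorem scalar_mulVec (c : Kˣ) (v : ι → K) :
    (GeneralLinearGroup.scalar ι c).1 *ᵥ v = (c : K) • v := by
  rw [AutPSL3.scalar_coe, smul_mulVec, one_mulVec]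

theorem mem_scalars {g : GL ι K} : g ∈ Geo.scalars ι K ↔ ∃ c, g = GeneralLinearGroup.scalar ι c := by
  rw [AutPSL3.scalars_eq, GeneralLinearGroup.center_eq_range_scalar]
  exact exists_congr fun _ => eq_comm

theorem nonempty_pq {H : Subgroup (GL ι K)} {S : Subgroup ((ι → K) ≃ₗ[K] (ι → K))}
    (h1 : ∀ g, glEquiv ι K g ∈ S → g ∈ H)
    (h2 : ∀ g ∈ H, ∃ c, glEquiv ι K (g * GeneralLinearGroup.scalar ι c) ∈ S)
    (h3 : ∀ c, glEquiv ι K (GeneralLinearGroup.scalar ι c) ∈ S → c = 1)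
    (h4 : ∀ c, GeneralLinearGroup.scalar ι c ∈ H) : Nonempty (projQuot H ≃* S) := by
  let f : S →* H := ((glEquiv ι K).symm.toMonoidHom.comp S.subtype).codRestrict _ fun g =>
    h1 _ (by simp)
  refine ⟨(MulEquiv.ofBijective ((QuotientGroup.mk' _).comp f) ⟨?_, fun x => ?_⟩).symm⟩
  · refine (injective_iff_map_eq_one _).2 fun g hg => ?_
    obtain ⟨c, hc⟩ := mem_scalars.1 ((QuotientGroup.eq_one_iff (f g)).1 hg)
    have h5 : g.1 = glEquiv ι K (GeneralLinearGroup.scalar ι c) := by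
      rw [← hc]; exact ((glEquiv ι K).apply_symm_apply _).symm
    obtain rfl := h3 c (h5 ▸ g.2)
    exact Subtype.ext (by rw [h5]; simp)
  · induction x using QuotientGroup.induction_on with | H g =>
    obtain ⟨c, hc⟩ := h2 g.1 g.2
    refine ⟨⟨_, hc⟩, QuotientGroup.eq.2 (mem_scalars.2 ⟨c⁻¹, ?_⟩)⟩
    simp [f]

theorem scalar_mem_sim (B : BilinForm K (ι → K)) (c : Kˣ) :
    GeneralLinearGroup.scalar ι c ∈ sim B :=
  ⟨c ^ 2, fun u v => by simp [scalar_mulVec]; ring⟩

theorem pr_iff {B : BilinForm K (ι → K)} {c d : Kˣ} : Pr B c d ↔ ∃ k : GL ι K,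
    (∀ u v, B (k.1 *ᵥ u) (k.1 *ᵥ v) = c * B u v) ∧ GeneralLinearGroup.det k = d := by
  rw [Pr, (glEquiv ι K).surjective.exists]
  refine exists_congr fun k => and_congr Iff.rfl ?_
  rw [← Units.val_inj, GeneralLinearGroup.val_det_apply, ← LinearMap.det_toLin']
  rfl

theorem card_pq [Finite K] [Nonempty ι] {B : BilinForm K (ι → K)} (hB : EF B)
    (h : ∀ c, ∃ d, Pr B c d) : Nat.card (projQuot (sim B)) = Nat.card (SG B) := by
  obtain ⟨u, v, huv⟩ : ∃ u v, B u v ≠ 0 := by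
    by_contra! h0
    exact one_ne_zero (hB.nd 1 (h0 1))
  let μ : sim B →* Kˣ := MonoidHom.mk' (fun g => g.2.choose) fun g k =>
    Units.ext (mul_right_cancel₀ huv (by
      rw [← (g * k).2.choose_spec, Units.val_mul, mul_assoc, ← k.2.choose_spec,
        ← g.2.choose_spec]
      simp))
  have hμ : ∀ (g : sim B) (c : Kˣ), (∀ u v, B (g.1.1 *ᵥ u) (g.1.1 *ᵥ v) = c * B u v) ↔ μ g = c :=
    fun g c => ⟨fun h => Units.ext (mul_right_cancel₀ huv
      ((g.2.choose_spec u v).symm.trans (h u v))), fun h => h ▸ g.2.choose_spec⟩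
  have h1 := AutPSL2.card_of_hom μ fun c => by
    obtain ⟨d, hd⟩ := h c
    obtain ⟨k, hk, -⟩ := pr_iff.1 hd
    exact ⟨⟨k, c, hk⟩, (hμ _ _).1 hk⟩
  have h2 : Nat.card μ.ker = Nat.card (SG B) := Nat.card_congr
    { toFun g := ⟨glEquiv ι K g.1.1, fun u v => by simpa using (hμ _ _).2 g.2 u v⟩
      invFun g := ⟨⟨(glEquiv ι K).symm g.1, 1, fun u v => by
        simp [glEquiv_symm_mulVec, g.2 u v]⟩, (hμ _ _).1 fun u v => by
          simp [glEquiv_symm_mulVec, g.2 u v]⟩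
      left_inv g := by simp
      right_inv g := by simp }
  have h3 : Nat.card ((Geo.scalars ι K).subgroupOf (sim B)) = Nat.card Kˣ := by
    rw [Nat.card_congr (Subgroup.subgroupOfEquivOfLe fun g hg => by
      obtain ⟨c, rfl⟩ := mem_scalars.1 hg; exact scalar_mem_sim B c).toEquiv, AutPSL3.scalars_eq,
      GeneralLinearGroup.center_eq_range_scalar]
    exact (Nat.card_congr (MonoidHom.ofInjective SLBasic.scalar_injective).toEquiv).symm
  have h4 := Subgroup.card_eq_card_quotient_mul_card_subgroup ((Geo.scalars ι K).subgroupOf (sim B))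
  rw [h1, h2, h3, mul_comm] at h4
  exact (Nat.eq_of_mul_eq_mul_right Nat.card_pos h4).symm

/-! ### Quadratic forms -/

section Quad

open QuadraticMap

variable {Q : QuadraticForm K V} {Q' : QuadraticForm K V'}

theorem ef_polar (hQ : ND Q) : EF Q.polarBilin := ⟨hQ, .inl fun x y => polar_comm Q x y⟩

theorem eqv_of_sim (f : V ≃ₗ[K] V') {d : K} (hd : d ≠ 0) (h : ∀ v, Q' (f v) = d * Q v) :
    Eqv Q.polarBilin Q'.polarBilin :=
  ⟨f, Units.mk0 d hd, fun u v => by simp [polar, ← map_add, h, mul_sub]⟩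

theorem polar_sim_iff (h2 : (2 : K) ≠ 0) {f : V → V'} (hf : ∀ u v, f (u + v) = f u + f v) {d : K} :
    (∀ u v, polar Q' (f u) (f v) = d * polar Q u v) ↔ ∀ v, Q' (f v) = d * Q v :=
  ⟨fun h v => mul_left_cancel₀ h2 (by
    have := h v v
    rw [polar_self, polar_self] at this
    simp only [nsmul_eq_mul, Nat.cast_ofNat] at this
    linear_combination this), fun h u v => by simp [polar, ← hf, h, mul_sub]⟩

theorem sim_polar (h2 : (2 : K) ≠ 0) (Q : QuadraticForm K (ι → K)) :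
    sim Q.polarBilin = Geo.quadSimilarityGroup ⇑Q :=
  Subgroup.ext fun g => exists_congr fun _ => polar_sim_iff h2 (mulVec_add g.1)

theorem SG_polar (h2 : (2 : K) ≠ 0) (Q : QuadraticForm K V) : SG Q.polarBilin = OG Q :=
  Subgroup.ext fun g => by
    have := polar_sim_iff (Q := Q) (Q' := Q) (d := 1) h2 (map_add g)
    simp only [one_mul] at this
    exact this

theorem Eqv.isPlus [FiniteDimensional K V] (h2 : (2 : K) ≠ 0) (hQ : ND Q)
    (h : Eqv Q.polarBilin Q'.polarBilin) (hp : IsPlus Q) : IsPlus Q' := by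
  obtain ⟨e, c, h⟩ := h
  have := e.finiteDimensional
  exact GamO.isPlus_of_sim hQ hp e.toLinearMap c.ne_zero ((polar_sim_iff h2 (map_add e)).1 h)
    e.finrank_eq

theorem EF.cases (hB : EF B) (h2 : (2 : K) ≠ 0) :
    B.IsAlt ∨ ∃ Q : QuadraticForm K V, ND Q ∧ Eqv B Q.polarBilin := by
  refine hB.sy.symm.imp (fun h x => mul_left_cancel₀ h2 (by linear_combination h x x)) fun h => ?_
  have h1 : Eqv B (LinearMap.BilinMap.toQuadraticMap B).polarBilin :=
    ⟨LinearEquiv.refl _ _, Units.mk0 2 h2, fun u v => by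
      simp [LinearMap.BilinMap.polar_toQuadraticMap, h v u, two_mul]⟩
  exact ⟨_, (h1.symm.ef hB).nd, h1⟩

theorem not_isAlt [Nontrivial V] (h2 : (2 : K) ≠ 0) (hQ : ND Q) : ¬ Q.polarBilin.IsAlt := fun h => by
  have h1 : ∀ v, Q v = 0 := fun v => mul_left_cancel₀ h2 (by
    have : polar Q v v = 0 := h v
    rw [polar_self] at this
    simpa using this)
  obtain ⟨x, hx⟩ := exists_ne (0 : V)
  exact hx (hQ x fun y => by simp [polar, h1])

theorem pr_polar [Finite K] [FiniteDimensional K V] (h2 : (2 : K) ≠ 0) (hQ : ND Q) {m : ℕ}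
    (hm : m ≠ 0) (hn : finrank K V = 2 * m) (c d : Kˣ) :
    Pr Q.polarBilin c d ↔ d = c ^ m ∨ d = -c ^ m := by
  have h0 : ∀ d, Pr Q.polarBilin c d → d = c ^ m ∨ d = -c ^ m := fun d h => by
    have := congrArg Units.val (h.sq (ef_polar hQ))
    rw [hn, mul_comm, pow_mul] at this
    simpa [← Units.val_inj] using sq_eq_sq_iff_eq_or_eq_neg.1 this
  refine ⟨h0 d, fun h => ?_⟩
  obtain ⟨f⟩ := (nd_smul hQ c.ne_zero).iso_of_isPlus_iff hQ rfl ⟨m, by omega⟩
    (isPlus_smul_iff c.ne_zero)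
  have h1 : Pr Q.polarBilin c (LinearEquiv.det f.toLinearEquiv) := ⟨f.toLinearEquiv,
    (polar_sim_iff h2 (map_add f.toLinearEquiv)).2 f.map_app, (LinearEquiv.coe_det _).symm⟩
  obtain ⟨v, hv⟩ := hQ.exists_Q_eq (by omega) 1
  have h3 : Pr Q.polarBilin 1 (-1) := ⟨(refl Q v).1, fun x y => by
    simpa using OG.map_polar (refl Q v) x y, detO_refl (by simp [hv])⟩
  have h4 := h1.mul h3
  rw [mul_one, mul_neg_one] at h4
  rcases h0 _ h1 with h5 | h5 <;> rcases h with rfl | rfl <;> simp_all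

end Quad

/-! ### Alternating forms -/

theorem ef_sB (m : ℕ) : EF (sB (Fin m) K) :=
  ⟨sB_nondeg.1, .inr fun x y => (sB_alt.neg_eq y x).symm⟩

theorem EF.alt_eqv [FiniteDimensional K V] (hB : EF B) (hA : B.IsAlt) :
    ∃ m, finrank K V = 2 * m ∧ Eqv B (sB (Fin m) K) := by
  obtain ⟨m, b, h1, h2⟩ := SpSimple.exists_basis_J hB.nondeg hA
  exact ⟨m, h1, eqv_of_basis b (Pi.basisFun K _) fun i j => by rw [h2, sB_basisFun]⟩

theorem sim_sB (m : ℕ) : sim (sB (Fin m) K) = GSp m K :=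
  Subgroup.ext fun _ => exists_congr fun _ => by simp only [sympForm_eq]

theorem pr_sB (m : ℕ) (c d : Kˣ) : Pr (sB (Fin m) K) c d ↔ d = c ^ m := by
  have h0 : ∀ c : Kˣ, Pr (sB (Fin m) K) c (c ^ m) := fun c =>
    pr_iff.2 ⟨GLBasic.diagGL (Sum.elim (fun _ => c) fun _ => 1), AutSp2.sim_iff.2 (by
      rw [GLBasic.diagGL_coe, diagonal_transpose]
      ext (i | i) (j | j) <;> simp [J, mul_comm]), Units.ext (by simp [GLBasic.diagGL_coe])⟩
  refine ⟨fun h => ?_, fun h => h ▸ h0 c⟩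
  obtain ⟨k, h1, h2⟩ := pr_iff.1 (h.mul (h0 c).inv)
  have := SymplecticGroup.det_eq_one (mem_iff_sB.2 fun u v => by simpa using h1 u v)
  rw [← GeneralLinearGroup.val_det_apply, h2, Units.val_eq_one] at this
  exact mul_inv_eq_one.1 this

theorem card_PGSp [Finite K] {m : ℕ} (hm : m ≠ 0) :
    Nat.card (PGSp m K) = Nat.card (SG (sB (Fin m) K)) := by
  have : NeZero m := ⟨hm⟩
  rw [← card_pq (ef_sB m) fun c => ⟨_, (pr_sB m c _).2 rfl⟩, sim_sB]

theorem pr_root [Finite K] [FiniteDimensional K V] (hB : EF B)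
    (h : Odd (finrank K V) ∨ (2 : K) = 0) {c d : Kˣ} (hp : Pr B c d) :
    ∃ e, c = e ^ 2 ∧ d = e ^ finrank K V := by
  have h1 := hp.sq hB
  rcases h with ⟨m, hm⟩ | h2
  · rw [hm] at h1 ⊢
    have h3 : c = (d / c ^ m) ^ 2 := by
      rw [div_pow, h1, ← pow_mul, mul_comm m, pow_succ', mul_div_cancel_right]
    exact ⟨_, h3, by rw [pow_succ, pow_mul, ← h3]; simp⟩
  · have h3 := sqrt2_sq h2 (c : K)
    refine ⟨Units.mk0 (sqrt2 h2 c) fun h => c.ne_zero (by rw [← h3, h]; simp),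
      Units.ext h3.symm, Units.ext (sq_inj_two h2 ?_)⟩
    rw [← Units.val_pow_eq_pow_val, h1, Units.val_pow_eq_pow_val, Units.val_pow_eq_pow_val,
      ← pow_mul, mul_comm _ 2, pow_mul, Units.val_mk0, h3]

/-! ### Characteristic two -/

theorem EF.symm2 (hB : EF B) (h2 : (2 : K) = 0) (x y : V) : B x y = B y x :=
  hB.sy.elim (fun h => h x y) fun h => by linear_combination h x y - B y x * h2

theorem eqv_of_not_alt [Finite K] [FiniteDimensional K V] [FiniteDimensional K V']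
    (h2 : (2 : K) = 0) (hB : EF B) (hB' : EF B') (h : ¬ B.IsAlt) (h' : ¬ B'.IsAlt)
    (hd : finrank K V = finrank K V') : Eqv B B' := by
  obtain ⟨b, hb⟩ := exists_orthonormal h2 (hB.symm2 h2) hB.nd (not_forall.1 h) rfl
  obtain ⟨b', hb'⟩ := exists_orthonormal h2 (hB'.symm2 h2) hB'.nd (not_forall.1 h') hd.symm
  exact eqv_of_basis b b' fun i j => by rw [hb, hb']

theorem exists_sqrt [Finite K] (h2 : (2 : K) = 0) (c : Kˣ) : ∃ e : Kˣ, (e : K) ^ 2 * c = 1 :=
  ⟨Units.mk0 (sqrt2 h2 (c : K)⁻¹) fun h => inv_ne_zero c.ne_zero (by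
    rw [← sqrt2_sq h2 (c : K)⁻¹, h]; simp), by simp [sqrt2_sq]⟩

theorem pq_two [Finite K] [Nonempty ι] (h2 : (2 : K) = 0) {B : BilinForm K (ι → K)} (hB : EF B) :
    Nonempty (projQuot (sim B) ≃* SG B) := by
  refine nonempty_pq (fun g hg => ⟨1, fun u v => (hg u v).trans (one_mul _).symm⟩)
    (fun g ⟨c, hc⟩ => ?_) (fun c hc => ?_) (scalar_mem_sim B)
  · obtain ⟨e, he⟩ := exists_sqrt h2 c
    refine ⟨e, fun u v => ?_⟩
    simp only [glEquiv_apply, Units.val_mul, ← mulVec_mulVec, scalar_mulVec, hc, map_smul,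
      LinearMap.smul_apply, smul_eq_mul]
    linear_combination B u v * he
  · obtain ⟨v, hv⟩ := not_forall.1 fun h => one_ne_zero (hB.nd 1 h)
    have := hc 1 v
    simp only [glEquiv_apply, scalar_mulVec, map_smul, LinearMap.smul_apply, smul_eq_mul] at this
    exact Units.ext (sq_inj_two h2 (mul_right_cancel₀ hv (by simp; linear_combination this)))

theorem pgo_two [Finite K] (h2 : (2 : K) = 0) {Q : QuadraticForm K (ι → K)} {v : ι → K}
    (hv : Q v ≠ 0) : Nonempty (PGO K ⇑Q ≃* OG Q) := by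
  refine nonempty_pq (fun g hg => ⟨1, fun u => (hg u).trans (one_mul _).symm⟩)
    (fun g ⟨c, hc⟩ => ?_) (fun c hc => ?_) fun c => ⟨c ^ 2, fun v => by simp [scalar_mulVec, q_smul]⟩
  · obtain ⟨e, he⟩ := exists_sqrt h2 c
    refine ⟨e, fun u => ?_⟩
    simp only [glEquiv_apply, Units.val_mul, ← mulVec_mulVec, scalar_mulVec, hc, q_smul]
    linear_combination Q u * he
  · have := hc v
    simp only [glEquiv_apply, scalar_mulVec, q_smul] at this
    exact Units.ext (sq_inj_two h2 (mul_right_cancel₀ hv (by simpa using this)))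

theorem Eqv.sg [Finite K] (h2 : (2 : K) = 0) (h : Eqv B B') : Nonempty (SG B ≃* SG B') := by
  obtain ⟨e, c, h⟩ := h
  obtain ⟨a, ha⟩ := exists_sqrt h2 c
  refine ⟨sgCongr (e.trans (LinearEquiv.smulOfUnit a)) fun x y => ?_⟩
  change B' ((a : K) • e x) ((a : K) • e y) = _
  simp only [map_smul, LinearMap.smul_apply, smul_eq_mul, h]
  linear_combination B x y * ha

/-- The orthogonal sum with a one-dimensional space. -/
def oB (B : BilinForm K V) : BilinForm K (V × K) :=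
  B.comp (.fst K V K) (.fst K V K) +
    LinearMap.BilinForm.comp (LinearMap.mul K K) (.snd K V K) (.snd K V K)

theorem oB_apply (x y : V × K) : oB B x y = B x.1 y.1 + x.2 * y.2 := rfl

theorem ef_oB (h2 : (2 : K) = 0) (hB : EF B) : EF (oB B) :=
  ⟨fun x hx => Prod.ext (hB.nd _ fun y => by simpa [oB_apply] using hx (y, 0))
    (by simpa [oB_apply] using hx (0, 1)),
    .inl fun x y => by rw [oB_apply, oB_apply, hB.symm2 h2, mul_comm]⟩

theorem sg_oB (h2 : (2 : K) = 0) (hB : EF B) (hA : B.IsAlt) : Nonempty (SG (oB B) ≃* SG B) := by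
  have h1 : ∀ (g : SG (oB B)) x, (g.1 x).2 = x.2 := fun g x => sq_inj_two h2 (by
    have := SG.map g x x
    rwa [oB_apply, oB_apply, hA, hA, zero_add, zero_add, ← pow_two, ← pow_two] at this)
  have h3 : ∀ (g : SG (oB B)) x, g.1 x = ((g.1 (x.1, 0)).1, x.2) := fun g x => by
    have h4 : g.1 (0, 1) = (0, 1) := sub_eq_zero.1 ((ef_oB h2 hB).nd _ fun y => by
      obtain ⟨y, rfl⟩ := g.1.surjective y
      rw [map_sub, LinearMap.sub_apply, g.2]; simp [oB_apply, h1])
    refine Prod.ext ?_ (h1 g x)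
    conv_lhs => rw [show x = (x.1, 0) + x.2 • ((0 : V), (1 : K)) by simp, map_add, map_smul, h4]
    simp
  let f : SG B →* SG (oB B) := MonoidHom.mk' (fun g => ⟨g.1.prodCongr (LinearEquiv.refl K K),
    fun x y => by simp [oB_apply, g.2 _ _]⟩) fun _ _ => rfl
  refine ⟨(MulEquiv.ofBijective f ⟨fun g k h => SG.ext fun x =>
    congrArg (fun g : SG (oB B) => (g.1 (x, 0)).1) h, fun g => ?_⟩).symm⟩
  let r : SG (oB B) → V →ₗ[K] V := fun g =>
    .fst K V K ∘ₗ (g.1 : V × K →ₗ[K] V × K) ∘ₗ .inl K V K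
  have hr : ∀ g k : SG (oB B), k * g = 1 → r k ∘ₗ r g = .id := fun g k h => LinearMap.ext fun x => by
    have := congrArg (fun g : SG (oB B) => (g.1 (x, 0)).1) h
    simp only [SG.mul_apply] at this
    rw [h3 g] at this
    exact this
  refine ⟨⟨LinearEquiv.ofLinear (r g) (r g⁻¹) (hr _ _ (by simp)) (hr _ _ (by simp)),
    fun u v => ?_⟩, SG.ext fun x => (h3 g x).symm⟩
  have := SG.map g (u, 0) (v, 0)
  rwa [oB_apply, oB_apply, h1, h1, add_left_inj] at this

/-- A non-alternating form attached to a vector of a symplectic space. -/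
def nB (B : BilinForm K V) (j : V) : BilinForm K V :=
  B + LinearMap.BilinForm.comp (LinearMap.mul K K) (B.flip j) (B.flip j)

theorem nB_apply (j x y : V) : nB B j x y = B x y + B x j * B y j := rfl

theorem ef_nB (h2 : (2 : K) = 0) (hB : EF B) (hA : B.IsAlt) (j : V) : EF (nB B j) :=
  ⟨fun x hx => hB.nd _ fun y => by
    have h1 : B x j = 0 := by simpa [nB_apply, hA.self_eq_zero] using hx j
    simpa [nB_apply, h1] using hx y,
    .inl fun x y => by rw [nB_apply, nB_apply, hB.symm2 h2, mul_comm]⟩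

theorem not_alt_nB (hB : EF B) (hA : B.IsAlt) {j : V} (hj : j ≠ 0) : ¬ (nB B j).IsAlt := fun h =>
  hj (hB.nondeg.2 _ fun x => by simpa [nB_apply, hA.self_eq_zero] using h x)

theorem sg_nB (h2 : (2 : K) = 0) (hB : EF B) (hA : B.IsAlt) (j : V) :
    Nonempty (SG (nB B j) ≃* Subgroup.centralizer {tv hA j 1}) := by
  have : SG (nB B j) = (Subgroup.centralizer {tv hA j 1}).map (SG B).subtype := by
    ext g
    constructor
    · intro hg
      have h1 : ∀ x, B (g x) j = B x j := fun x => sq_inj_two h2 (by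
        simpa [nB_apply, hA.self_eq_zero, pow_two] using hg x x)
      have h3 : g ∈ SG B := fun x y => by simpa [nB_apply, h1] using hg x y
      have h4 : g j = j := sub_eq_zero.1 (hB.nondeg.2 _ fun y => by
        obtain ⟨y, rfl⟩ := g.surjective y
        rw [map_sub, h3, h1, sub_self])
      refine ⟨⟨g, h3⟩, Subgroup.mem_centralizer_singleton_iff.2 ?_, rfl⟩
      rw [← mul_inv_eq_iff_eq_mul, conj_tv, h4]
    · rintro ⟨g, hg, rfl⟩
      have h1 := Subgroup.mem_centralizer_singleton_iff.1 hg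
      rw [← mul_inv_eq_iff_eq_mul, conj_tv] at h1
      have h3 : ∀ x, B x (g.1 j) = B x j := fun x => sq_inj_two h2 (by
        have := congrArg (fun k : SG B => B x (k.1 x)) h1
        simpa [tv_apply, pow_two] using this)
      exact fun x y => by simp [nB_apply, g.2 _ _, ← h3 (g.1 _)]
  exact ⟨(MulEquiv.subgroupCongr this).trans (Subgroup.equivMapOfInjective _ _
    Subtype.val_injective).symm⟩

theorem centralizer_congr {G H : Type*} [Group G] [Group H] (e : G ≃* H) (x : G) :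
    Nonempty (Subgroup.centralizer {x} ≃* Subgroup.centralizer {e x}) := by
  refine ⟨(e.subgroupMap _).trans (MulEquiv.subgroupCongr ?_)⟩
  ext g
  obtain ⟨g, rfl⟩ := e.surjective g
  refine (Subgroup.mem_map_iff_mem e.injective).trans ?_
  simp only [Subgroup.mem_centralizer_singleton_iff, ← map_mul, e.injective.eq_iff]

/-! ### Odd dimension -/

variable [Finite K] [FiniteDimensional K V] [FiniteDimensional K V']

theorem EF.not_alt (hB : EF B) (h : Odd (finrank K V)) : ¬ B.IsAlt := fun hA => by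
  obtain ⟨m, hm, -⟩ := hB.alt_eqv hA
  exact Nat.not_even_iff_odd.2 h ⟨m, by omega⟩

theorem eqv_of_odd (hB : EF B) (hB' : EF B') (h : Odd (finrank K V))
    (hd : finrank K V = finrank K V') : Eqv B B' := by
  by_cases h2 : (2 : K) = 0
  · exact eqv_of_not_alt h2 hB hB' (hB.not_alt h) (hB'.not_alt (hd ▸ h)) hd
  obtain ⟨Q, hQ, e⟩ := (hB.cases h2).resolve_left (hB.not_alt h)
  obtain ⟨Q', hQ', e'⟩ := (hB'.cases h2).resolve_left (hB'.not_alt (hd ▸ h))
  have h1 : ∀ Q : QuadraticForm K V, ¬ IsPlus Q := fun Q ⟨W, _, hW⟩ =>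
    Nat.not_even_iff_odd.2 h ⟨_, hW.symm.trans (two_mul _)⟩
  have h1' : ∀ Q : QuadraticForm K V', ¬ IsPlus Q := fun Q ⟨W, _, hW⟩ =>
    Nat.not_even_iff_odd.2 (hd ▸ h) ⟨_, hW.symm.trans (two_mul _)⟩
  obtain ⟨f, d, hd, hf⟩ := GamO.exists_sim_of hQ hQ' hd (iff_of_false (h1 _) (h1' _))
  exact e.trans ((eqv_of_sim f hd hf).trans e'.symm)

theorem pq_odd {B : BilinForm K (ι → K)} (hB : EF B) {m : ℕ} (h : Fintype.card ι = 2 * m + 1) :
    Nonempty (projQuot (sim B) ≃* PGO K (quadFormOdd m K)) := by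
  have : Nonempty ι := Fintype.card_pos_iff.1 (by omega)
  have ho : Odd (finrank K (ι → K)) := ⟨m, by simpa⟩
  by_cases h2 : (2 : K) = 0
  · obtain ⟨e1⟩ := pq_two h2 hB
    obtain ⟨e2⟩ := (eqv_of_odd hB (ef_oB h2 (ef_sB m)) ho (by simp [h, two_mul])).sg h2
    obtain ⟨e3⟩ := sg_oB h2 (ef_sB (K := K) m) sB_alt
    obtain ⟨e4⟩ := pgo_two h2 (Q := oddQ m K) (v := Pi.single (.inl ()) 1) (by simp [oddQ_apply])
    have e5 := oddEquiv (nd_plusQ (F := K) m) h2
    rw [polarBilin_plusQ h2] at e5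
    exact ⟨e1.trans (e2.trans (e3.trans (e5.trans ((ogCongr (oddIso m)).trans e4.symm))))⟩
  · obtain ⟨e⟩ := (eqv_of_odd hB (ef_polar (nd_oddQ m h2)) ho (by simp [h]; omega)).pq
    rw [sim_polar h2] at e
    exact ⟨e⟩

/-! ### Even dimension -/

theorem three_cases (hB : EF B) (h2 : (2 : K) ≠ 0) {m : ℕ} (h : finrank K V = 2 * (m + 1)) {a b : K}
    (hab : Aniso a b) : Eqv B (sB (Fin (m + 1)) K) ∨ Eqv B (plusQ (m + 1) K).polarBilin ∨
      Eqv B (minusQ m K a b).polarBilin := by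
  refine (hB.cases h2).imp (fun hA => ?_) fun ⟨Q, hQ, e⟩ => ?_
  · obtain ⟨k, hk, e⟩ := hB.alt_eqv hA
    obtain rfl : k = m + 1 := by omega
    exact e
  · refine (em (IsPlus Q)).imp (fun hp => ?_) fun hp => ?_
    · obtain ⟨f⟩ := hQ.iso_plusQ hp h
      exact e.trans (eqv_of_sim f.toLinearEquiv one_ne_zero (by simp [f.map_app])).symm
    · obtain ⟨f⟩ := hQ.iso_minusQ hp h hab
      exact e.trans (eqv_of_sim f.toLinearEquiv one_ne_zero (by simp [f.map_app])).symm

theorem card_ne (h2 : (2 : K) ≠ 0) {Q : QuadraticForm K (ι → K)} (hQ : ND Q) {m : ℕ}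
    (h : Fintype.card ι = 2 * (m + 1)) :
    Nat.card (projQuot (sim Q.polarBilin)) ≠ Nat.card (PGSp (m + 1) K) := by
  have : Nonempty ι := Fintype.card_pos_iff.1 (by omega)
  have hn : finrank K (ι → K) = 2 * (m + 1) := by simpa
  rw [card_pq (ef_polar hQ) fun c => ⟨_, (pr_polar h2 hQ m.succ_ne_zero hn c _).2 (.inl rfl)⟩,
    card_PGSp m.succ_ne_zero, SG_polar h2, card_SG sB_nondeg sB_alt (m := m + 1) (by simp [two_mul]),
    Finset.prod_range_succ]
  have hq : 3 ≤ Nat.card K := by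
    have := Fintype.ofFinite K
    have h1 := odd_card_of_two_ne_zero h2
    have h3 := Fintype.one_lt_card (α := K)
    rw [Nat.card_eq_fintype_card]
    obtain ⟨k, hk⟩ := h1
    omega
  have hP : 0 < ∏ i ∈ Finset.range m, (Nat.card K ^ (2 * (i + 1)) - 1) := Finset.prod_pos fun i _ =>
    Nat.sub_pos_of_lt (Nat.one_lt_pow (by omega) (by omega))
  have key : ∀ x ≤ Nat.card K ^ (m + 1) + 1, 2 * Nat.card K ^ ((m + 1) * m) * x <
      Nat.card K ^ (m + 1) ^ 2 * (Nat.card K ^ (2 * (m + 1)) - 1) := fun x hx => by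
    have h3 : 3 ≤ Nat.card K ^ (m + 1) := hq.trans (Nat.le_self_pow (by omega) _)
    rw [show (m + 1) ^ 2 = (m + 1) * m + (m + 1) by ring, pow_add _ ((m + 1) * m), mul_comm 2 (m + 1),
      pow_mul _ (m + 1) 2, mul_comm 2, mul_assoc, mul_assoc]
    refine Nat.mul_lt_mul_of_pos_left ?_ (by positivity)
    generalize Nat.card K ^ (m + 1) = y at *
    have : 8 ≤ y ^ 2 - 1 := by have : 3 ^ 2 ≤ y ^ 2 := by gcongr
                               omega
    nlinarith
  obtain ⟨b, hab⟩ := exists_aniso (F := K)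
  by_cases hp : IsPlus Q
  · obtain ⟨f⟩ := hQ.iso_plusQ hp hn
    rw [← card_OG_iso f, card_OG_plusQ, mul_comm (∏ i ∈ _, _), ← mul_assoc]
    exact (Nat.mul_lt_mul_of_pos_right (key _ (by omega)) hP).ne
  · obtain ⟨f⟩ := hQ.iso_minusQ hp hn hab
    rw [← card_OG_iso f, card_OG_minusQ _ hab, mul_comm (∏ i ∈ _, _), ← mul_assoc]
    exact (Nat.mul_lt_mul_of_pos_right (key _ le_rfl) hP).ne

end Cfsg.Agent.Classical.GrF
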