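import Mathlib
import Cfsg.Agent.Classical.GrF
import Cfsg.Agent.Classical.AutU5
import Cfsg.Agent.Classical.GamO7

/-! Involutory graph automorphisms of `PSL_n(q)` and `PSU_n(q)`. -/

set_option autoImplicit false
set_option backward.isDefEq.respectTransparency false

namespace Cfsg.Agent.Classical.GrF

open Matrix Module Cfsg.Agent.Orth Cfsg.Agent.Classical.SpWitt Cfsg.Agent.Classical.SpMat
open LinearMap (BilinForm)

/-- A dictionary between graph involutions and forms. -/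
structure GI {A : Type*} [Group A] (n : ℕ) (K : Type*) [Field K] (D I : Subgroup A) (Gr : A → Prop)
    (N : ℕ) (R : A → BilinForm K (Fin n → K) → Prop) : Prop where
  ex : ∀ {γ}, Gr γ → orderOf γ = 2 → ∃ B, EF B ∧ R γ B
  ex' : ∀ {B}, EF B → ∃ γ, Gr γ ∧ orderOf γ = 2 ∧ R γ B
  conj : ∀ {γ γ' B B'}, R γ B → R γ' B' → (IsConjUnder D γ γ' ↔ Eqv B B')
  cent : ∀ {γ B}, R γ B →
    Nonempty ((D ⊓ Subgroup.centralizer {γ} : Subgroup A) ≃* projQuot (sim B))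
  sa : ∀ {γ B}, R γ B → (∀ c d, Pr B c d → ∃ e, c = e ^ 2 ∧ d = e ^ n) →
    splitClassCount D I γ = Nat.gcd n N
  sb : ∀ {γ B m}, R γ B → n = 2 * m → (∀ c d, Pr B c d ↔ d = c ^ m) →
    splitClassCount D I γ = Nat.gcd m N
  sc : ∀ {γ B m}, R γ B → n = 2 * m → (2 : K) ≠ 0 → (∀ c d, Pr B c d ↔ d = c ^ m ∨ d = -c ^ m) →
    splitClassCount D I γ = Nat.gcd n N / 2

namespace GI

variable {A : Type*} [Group A] {n : ℕ} {K : Type*} [Field K] [Finite K] {D I : Subgroup A}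
  {Gr : A → Prop} {N : ℕ} {R : A → BilinForm K (Fin n → K) → Prop} (h : GI n K D I Gr N R)
include h

theorem odd {m : ℕ} (hn : n = 2 * m + 1) {γ γ' : A} (h1 : Gr γ) (h2 : orderOf γ = 2) (h1' : Gr γ')
    (h2' : orderOf γ' = 2) : Nonempty ((D ⊓ Subgroup.centralizer {γ} : Subgroup A) ≃*
      PGO K (quadFormOdd m K)) ∧ IsConjUnder D γ γ' := by
  obtain ⟨B, hB, hR⟩ := h.ex h1 h2
  obtain ⟨B', hB', hR'⟩ := h.ex h1' h2'
  obtain ⟨e⟩ := h.cent hR
  obtain ⟨e'⟩ := pq_odd hB (m := m) (by simpa)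
  exact ⟨⟨e.trans e'⟩, (h.conj hR hR').2 (eqv_of_odd hB hB' ⟨m, by simpa⟩ rfl)⟩

omit [Finite K] in
theorem model {κ : Type} [Fintype κ] [DecidableEq κ] {B' : BilinForm K (κ → K)} (hB : EF B')
    (hn : Fintype.card κ = n) : ∃ γ B, Gr γ ∧ orderOf γ = 2 ∧ R γ B ∧ Eqv B B' ∧
      Nonempty ((D ⊓ Subgroup.centralizer {γ} : Subgroup A) ≃* projQuot (sim B')) := by
  obtain ⟨B, e⟩ := exists_model B' (n := n) (by simpa)
  obtain ⟨γ, h1, h2, h3⟩ := h.ex' (e.ef hB)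
  obtain ⟨f⟩ := h.cent h3
  obtain ⟨f'⟩ := e.pq
  exact ⟨γ, B, h1, h2, h3, e, ⟨f.trans f'⟩⟩

theorem three (h2 : (2 : K) ≠ 0) {m : ℕ} (hm : 2 ≤ m) (hn : n = 2 * m) :
    ∃ (γ₁ γ₂ γ₃ : A) (a b : K), Aniso a b ∧ Gr γ₁ ∧ orderOf γ₁ = 2 ∧ Gr γ₂ ∧ orderOf γ₂ = 2 ∧
      Gr γ₃ ∧ orderOf γ₃ = 2 ∧ ¬ IsConjUnder D γ₁ γ₂ ∧ ¬ IsConjUnder D γ₁ γ₃ ∧
      ¬ IsConjUnder D γ₂ γ₃ ∧ (∀ γ, Gr γ → orderOf γ = 2 →
        IsConjUnder D γ₁ γ ∨ IsConjUnder D γ₂ γ ∨ IsConjUnder D γ₃ γ) ∧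
      Nonempty ((D ⊓ Subgroup.centralizer {γ₁} : Subgroup A) ≃* PGSp m K) ∧
      Nonempty ((D ⊓ Subgroup.centralizer {γ₂} : Subgroup A) ≃* PGO K (quadFormPlus m K)) ∧
      Nonempty ((D ⊓ Subgroup.centralizer {γ₃} : Subgroup A) ≃*
        PGO K (quadFormMinus (m - 1) K a b)) := by
  obtain ⟨m, rfl⟩ : ∃ k, m = k + 1 := ⟨m - 1, by omega⟩
  obtain ⟨b, hb⟩ := exists_aniso (F := K)
  have n2 := nd_plusQ (F := K) (m + 1)
  have n3 := nd_minusQ (F := K) m (aniso_disc_ne_zero hb)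
  obtain ⟨γ₁, B₁, a1, a2, a3, a4, a5⟩ := h.model (ef_sB (m + 1)) (by simp; omega)
  obtain ⟨γ₂, B₂, b1, b2, b3, b4, b5⟩ := h.model (ef_polar n2) (by simp; omega)
  obtain ⟨γ₃, B₃, c1, c2, c3, c4, c5⟩ := h.model (ef_polar n3) (by simp; omega)
  rw [sim_sB] at a5
  rw [sim_polar h2] at b5 c5
  refine ⟨γ₁, γ₂, γ₃, 1, b, hb, a1, a2, b1, b2, c1, c2, ?_, ?_, ?_, fun γ h1 h3 => ?_, a5, b5, c5⟩
  · exact fun e => not_isAlt h2 n2
      ((b4.symm.trans (((h.conj a3 b3).1 e).symm.trans a4)).isAlt sB_alt)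
  · exact fun e => not_isAlt h2 n3
      ((c4.symm.trans (((h.conj a3 c3).1 e).symm.trans a4)).isAlt sB_alt)
  · exact fun e => not_isPlus_minusQ m hb
      ((b4.symm.trans (((h.conj b3 c3).1 e).trans c4)).isPlus h2 n2 (isPlus_plusQ _))
  · obtain ⟨B, hB, hR⟩ := h.ex h1 h3
    rw [h.conj a3 hR, h.conj b3 hR, h.conj c3 hR]
    exact (three_cases hB h2 (by simpa) hb).imp (fun e => a4.trans e.symm)
      (Or.imp (fun e => b4.trans e.symm) fun e => c4.trans e.symm)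

theorem two (h2 : (2 : K) = 0) {m : ℕ} (hm : 2 ≤ m) (hn : n = 2 * m) :
    ∃ (γ₁ γ₃ : A) (t : symplecticGroup (Fin m) K), IsTransvection t.1 ∧ Gr γ₁ ∧ orderOf γ₁ = 2 ∧
      Gr γ₃ ∧ orderOf γ₃ = 2 ∧ ¬ IsConjUnder D γ₁ γ₃ ∧ (∀ γ, Gr γ → orderOf γ = 2 →
        IsConjUnder D γ₁ γ ∨ IsConjUnder D γ₃ γ) ∧
      Nonempty ((D ⊓ Subgroup.centralizer {γ₁} : Subgroup A) ≃* symplecticGroup (Fin m) K) ∧
      Nonempty ((D ⊓ Subgroup.centralizer {γ₃} : Subgroup A) ≃* Subgroup.centralizer {t}) := by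
  have : NeZero m := ⟨by omega⟩
  have n1 := ef_sB (K := K) m
  have n3 := ef_nB h2 n1 sB_alt 1
  have n4 := not_alt_nB n1 sB_alt one_ne_zero
  obtain ⟨γ₁, B₁, a1, a2, a3, a4, ⟨a5⟩⟩ := h.model n1 (by simp; omega)
  obtain ⟨γ₃, B₃, c1, c2, c3, c4, ⟨c5⟩⟩ := h.model n3 (by simp; omega)
  obtain ⟨e1⟩ := pq_two h2 n1
  obtain ⟨e3⟩ := pq_two h2 n3
  obtain ⟨e4⟩ := sg_nB h2 n1 sB_alt 1
  obtain ⟨e5⟩ := centralizer_congr (spEquiv (Fin m) K).symm (tv sB_alt 1 1)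
  refine ⟨γ₁, γ₃, _, GLGeom.isTransvection_iff.2 ⟨1, J _ K *ᵥ 1, one_ne_zero, fun h0 => ?_, ?_, ?_⟩,
    a1, a2, c1, c2, fun e => n4 ((c4.symm.trans (((h.conj a3 c3).1 e).symm.trans a4)).isAlt sB_alt),
    fun γ h1 h3 => ?_, ⟨a5.trans (e1.trans (spEquiv _ K).symm)⟩,
    ⟨c5.trans (e3.trans (e4.trans e5))⟩⟩
  · exact one_ne_zero (n1.nondeg.2 _ fun x => by rw [sB_apply, h0, dotProduct_zero])
  · rw [dotProduct_comm, ← sB_apply, sB_alt]
  · refine mat_ext fun x => ?_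
    rw [spEquiv_symm_mulVec, tv_apply, add_mulVec, one_mulVec, vecMulVec_mulVec', sB_apply,
      dotProduct_comm, one_mul]
  · obtain ⟨B, hB, hR⟩ := h.ex h1 h3
    rw [h.conj a3 hR, h.conj c3 hR]
    refine (em B.IsAlt).imp (fun hA => ?_) fun hA =>
      c4.trans (eqv_of_not_alt h2 n3 hB n4 hA (by simp; omega))
    obtain ⟨k, hk, e⟩ := hB.alt_eqv hA
    obtain rfl : k = m := by simp at hk; omega
    exact a4.trans e.symm

theorem split (hn : n ≠ 0) {P : Prop} (hP : P ↔ (2 : K) ≠ 0) {γ : A} (h1 : Gr γ)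
    (h3 : orderOf γ = 2) :
    ((Even n ∧ P ∧ Nonempty ((D ⊓ Subgroup.centralizer {γ} : Subgroup A) ≃* PGSp (n / 2) K)) →
      splitClassCount D I γ = Nat.gcd (n / 2) N) ∧
    ((Even n ∧ P ∧ ¬ Nonempty ((D ⊓ Subgroup.centralizer {γ} : Subgroup A) ≃* PGSp (n / 2) K)) →
      splitClassCount D I γ = Nat.gcd n N / 2) ∧
    (¬ (Even n ∧ P) → splitClassCount D I γ = Nat.gcd n N) := by
  obtain ⟨B, hB, hR⟩ := h.ex h1 h3
  obtain ⟨f⟩ := h.cent hR
  refine ⟨fun ⟨⟨m, hm⟩, h2, ⟨e⟩⟩ => ?_, fun ⟨⟨m, hm⟩, h2, e⟩ => ?_, fun h4 => h.sa hR fun c d hp => ?_⟩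
  · rcases hB.cases (hP.1 h2) with hA | ⟨Q, hQ, e'⟩
    · obtain ⟨k, hk, e'⟩ := hB.alt_eqv hA
      obtain rfl : k = n / 2 := by simp at hk; omega
      exact h.sb hR (by omega) fun c d => e'.pr_iff.trans (pr_sB _ c d)
    · obtain ⟨f'⟩ := e'.pq
      obtain ⟨k, hk⟩ : ∃ k, n / 2 = k + 1 := ⟨m - 1, by omega⟩
      rw [hk] at e
      exact absurd (Nat.card_congr ((f.trans f').symm.trans e).toEquiv)
        (card_ne (hP.1 h2) hQ (by simp; omega))
  · rcases hB.cases (hP.1 h2) with hA | ⟨Q, hQ, e'⟩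
    · obtain ⟨k, hk, e'⟩ := hB.alt_eqv hA
      obtain rfl : k = n / 2 := by simp at hk; omega
      obtain ⟨f'⟩ := e'.pq
      rw [sim_sB] at f'
      exact absurd ⟨f.trans f'⟩ e
    · exact h.sc hR (m := m) (by omega) (hP.1 h2) fun c d => e'.pr_iff.trans
        (pr_polar (hP.1 h2) hQ (by omega) (by simp; omega) c d)
  · simpa using pr_root hB (by simpa [hP, or_iff_not_imp_left] using h4) hp

theorem one (h2 : (2 : K) ≠ 0) {m : ℕ} (hm : 2 ≤ m) (hn : n = 2 * m) {γ : A}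
    (hR : R γ (toBilin' 1)) : (IsSquare ((-1 : K) ^ m) →
      Nonempty ((D ⊓ Subgroup.centralizer {γ} : Subgroup A) ≃* PGO K (quadFormPlus m K))) ∧
    (¬ IsSquare ((-1 : K) ^ m) → ∃ a b : K, Aniso a b ∧
      Nonempty ((D ⊓ Subgroup.centralizer {γ} : Subgroup A) ≃*
        PGO K (quadFormMinus (m - 1) K a b))) := by
  obtain ⟨f⟩ := h.cent hR
  let Q : QuadraticForm K (Fin n → K) :=
    LinearMap.BilinMap.toQuadraticMap (toBilin' (1 : Matrix (Fin n) (Fin n) K))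
  have hg : Orth.gram Q (Pi.basisFun K _) = (2 : K) • 1 := by
    ext i j
    simp [Orth.gram, Q, LinearMap.BilinMap.polar_toQuadraticMap, toBilin'_single, one_apply, eq_comm]
    split_ifs <;> norm_num
  have hd : (Orth.gram Q (Pi.basisFun K _)).det = (2 ^ m) ^ 2 := by
    rw [hg, det_smul, det_one, mul_one, Fintype.card_fin, hn, mul_comm, pow_mul]
  have hQ : ND Q := nd_of_det_gram_ne_zero (Pi.basisFun K _) (by rw [hd]; simp [h2])
  have e : Eqv (toBilin' (1 : Matrix (Fin n) (Fin n) K)) Q.polarBilin :=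
    ⟨LinearEquiv.refl _ _, Units.mk0 2 h2, fun u v => by
      simp [Q, LinearMap.BilinMap.polar_toQuadraticMap, toBilin'_apply', dotProduct_comm v, two_mul]⟩
  have hp := hQ.isPlus_iff_disc h2 (m := m) (by simpa) (Pi.basisFun K _)
  rw [hd, isSquare_sq_mul_iff (by simp [h2])] at hp
  refine ⟨fun h3 => ?_, fun h3 => ?_⟩
  · obtain ⟨g⟩ := hQ.iso_plusQ (hp.2 h3) (m := m) (by simpa)
    obtain ⟨f'⟩ := (e.trans (eqv_of_sim (Q := plusQ m K) g.toLinearEquiv one_ne_zero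
      (by simp [g.map_app])).symm).pq
    rw [sim_polar h2] at f'
    exact ⟨f.trans f'⟩
  · obtain ⟨b, hb⟩ := exists_aniso (F := K)
    obtain ⟨g⟩ := hQ.iso_minusQ (mt hp.1 h3) (m := m - 1) (by simp; omega) hb
    obtain ⟨f'⟩ := (e.trans (eqv_of_sim (Q := minusQ (m - 1) K 1 b) g.toLinearEquiv one_ne_zero
      (by simp [g.map_app])).symm).pq
    rw [sim_polar h2] at f'
    exact ⟨1, b, hb, ⟨f.trans f'⟩⟩

end GI

/-! ### Cyclic groups -/

section Cyc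

variable {C : Type*} [CommGroup C] [IsCyclic C] [Finite C] {U : Subgroup C} {n m : ℕ}

theorem index_pow (n : ℕ) : (powMonoidHom n : C →* C).range.index = Nat.gcd n (Nat.card C) := by
  rw [← Subgroup.index_bot, ← Lang.index_range_pow_sup, sup_bot_eq]

theorem cyc_a (h : ∀ u ∈ U, ∃ e, u = e ^ n) : Nat.gcd n U.index = Nat.gcd n (Nat.card C) := by
  rw [← Lang.index_range_pow_sup, sup_eq_left.2 fun u hu => (h u hu).imp fun _ => Eq.symm,
    index_pow]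

theorem cyc_b (h : ∀ u, u ∈ U ↔ ∃ e, u = e ^ m) :
    Nat.gcd (2 * m) U.index = Nat.gcd m (Nat.card C) := by
  rw [show U = (powMonoidHom m).range from Subgroup.ext fun u => (h u).trans
    (exists_congr fun _ => eq_comm), index_pow, ← Nat.gcd_assoc, Nat.gcd_mul_left_left]

theorem cyc_c {z : C} (hz : orderOf z = 2) (h : ∀ u, u ∈ U ↔ ∃ e, u = e ^ m ∨ u = z * e ^ m) :
    Nat.gcd (2 * m) U.index = Nat.gcd (2 * m) (Nat.card C) / 2 := by
  have h1 : U = (powMonoidHom m).range ⊔ Subgroup.zpowers z := by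
    refine le_antisymm (fun u hu => ?_) (sup_le ?_ ?_)
    · obtain ⟨e, rfl | rfl⟩ := (h u).1 hu
      · exact Subgroup.mem_sup_left ⟨e, rfl⟩
      · exact mul_mem (Subgroup.mem_sup_right (Subgroup.mem_zpowers z))
          (Subgroup.mem_sup_left ⟨e, rfl⟩)
    · rintro _ ⟨e, rfl⟩; exact (h _).2 ⟨e, .inl rfl⟩
    · exact Subgroup.zpowers_le.2 ((h _).2 ⟨1, .inr (by simp)⟩)
  have h2 := Subgroup.card_mul_index (Subgroup.zpowers z)
  rw [Nat.card_zpowers, hz] at h2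
  rw [h1, Lang.index_range_pow_sup, ← h2, Nat.gcd_mul_left, ← Nat.gcd_assoc, Nat.gcd_mul_left_left,
    Nat.mul_div_cancel_left _ two_pos]

end Cyc

/-! ### Matrices -/

variable {ι : Type} [Fintype ι] [DecidableEq ι] {K : Type*} [Field K]

theorem sim_iff {S S' k : Matrix ι ι K} {c : K} :
    (∀ u v, toBilin' S' (k *ᵥ u) (k *ᵥ v) = c * toBilin' S u v) ↔ kᵀ * S' * k = c • S := by
  rw [← toBilin'.injective.eq_iff, ← toBilin'_comp, map_smul]
  exact ⟨fun h => LinearMap.ext₂ h, fun h u v => LinearMap.congr_fun₂ h u v⟩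

theorem eqv_iff {S S' : Matrix ι ι K} : Eqv (toBilin' S) (toBilin' S') ↔
    ∃ (k : GL ι K) (c : Kˣ), k.1ᵀ * S' * k.1 = (c : K) • S := by
  rw [Eqv, (glEquiv ι K).surjective.exists]
  exact exists_congr fun k => exists_congr fun c => sim_iff

theorem pr_iff' {S : Matrix ι ι K} {c d : Kˣ} : Pr (toBilin' S) c d ↔
    ∃ k : GL ι K, k.1ᵀ * S * k.1 = (c : K) • S ∧ GeneralLinearGroup.det k = d :=
  pr_iff.trans (exists_congr fun _ => and_congr sim_iff Iff.rfl)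

theorem mem_sim {S : Matrix ι ι K} {k : GL ι K} : k ∈ sim (toBilin' S) ↔
    ∃ c : Kˣ, k.1ᵀ * S * k.1 = (c : K) • S := exists_congr fun _ => sim_iff

theorem ef_of {S : GL ι K} {e : K} (h : S.1ᵀ = e • S.1) : EF (toBilin' S.1) := by
  refine ⟨(LinearMap.BilinForm.nondegenerate_toBilin'_of_det_ne_zero' _ S.det_ne_zero).1, ?_⟩
  have h1 : ∀ x y, toBilin' S.1 x y = e * toBilin' S.1 y x := fun x y => by
    rw [toBilin'_apply', toBilin'_apply', dotProduct_mulVec, ← mulVec_transpose, h, smul_mulVec,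
      smul_dotProduct, dotProduct_comm, smul_eq_mul]
  by_cases h0 : ∀ x y, toBilin' S.1 x y = 0
  · exact .inl fun x y => by rw [h0, h0]
  push Not at h0
  obtain ⟨x, y, h0⟩ := h0
  have h2 : e ^ 2 = 1 := mul_right_cancel₀ h0 (by linear_combination -h1 x y - e * h1 y x)
  exact (sq_eq_one_iff.1 h2).imp (fun h x y => by rw [h1, h, one_mul])
    fun h x y => by rw [h1, h, neg_one_mul]

theorem EF.exists_GL {B : BilinForm K (ι → K)} (hB : EF B) :
    ∃ (S : GL ι K) (e : Kˣ), B = toBilin' S.1 ∧ e ^ 2 = 1 ∧ S.1ᵀ = (e : K) • S.1 := by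
  obtain ⟨S, rfl⟩ := toBilin'.surjective B
  have h1 := LinearMap.BilinForm.nondegenerate_toBilin'_iff_det_ne_zero.1 hB.nondeg
  rcases hB.sy with h | h
  · exact ⟨.mkOfDetNeZero S h1, 1, rfl, by simp, Matrix.ext fun i j => by
      simpa [toBilin'_single] using h (Pi.single j 1) (Pi.single i 1)⟩
  · exact ⟨.mkOfDetNeZero S h1, -1, rfl, by simp, Matrix.ext fun i j => by
      simpa [toBilin'_single] using h (Pi.single j 1) (Pi.single i 1)⟩

/-! ### The linear groups -/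

section PSL

open AutPSL AutPSL2 AutPSL3 GLGeom

theorem conj_dA_gA_iff {S S' x : GL ι K} : dA S'⁻¹ * gA ι K = dA x * (dA S⁻¹ * gA ι K) * (dA x)⁻¹ ↔
    ∃ c : Kˣ, x.1ᵀ * S'.1 * x.1 = (c : K) • S.1 := by
  rw [mul_assoc, mul_assoc, ← map_inv, gA_mul_dA, ← mul_assoc, ← mul_assoc, mul_left_inj,
    ← map_mul, ← map_mul, eq_comm, dA_eq_dA_iff]
  refine exists_congr fun c => ?_
  have h1 : (invTranspose x⁻¹).1 = x.1ᵀ := rfl
  rw [← h1, ← AutU.scalar_mul_coe, ← Units.val_mul, ← Units.val_mul, Units.val_inj]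
  have h2 := fun g : GL ι K => (Subgroup.mem_center_iff.1
    (GeneralLinearGroup.center_eq_range_scalar (n := ι) (R := K) ▸ ⟨c, rfl⟩ :
      GeneralLinearGroup.scalar ι c ∈ _) g)
  generalize invTranspose x⁻¹ = y, GeneralLinearGroup.scalar ι c = z at *
  constructor
  · intro h
    calc y * S' * x = S * x⁻¹ * (x * S⁻¹ * y) * S' * x := by group
      _ = S * x⁻¹ * (S'⁻¹ * z * S') * x := by rw [h]; group
      _ = S * z := by rw [h2, mul_assoc z, inv_mul_cancel, mul_one, mul_assoc, ← h2 x]; group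
  · intro h
    calc x * S⁻¹ * y = x * S⁻¹ * (y * S' * x) * x⁻¹ * S'⁻¹ := by group
      _ = x * z * x⁻¹ * S'⁻¹ := by rw [h]; group
      _ = S'⁻¹ * z := by rw [h2 x, h2]; group

/-- The graph automorphism of `PSL` attached to a form. -/
def RL {n : ℕ} (γ : MulAut (ProjectiveSpecialLinearGroup (Fin n) K)) (B : BilinForm K (Fin n → K)) :
    Prop := ∃ S : GL (Fin n) K, B = toBilin' S.1 ∧ γ = dA S⁻¹ * gA _ K

theorem inf_centralizer_gA (S : GL ι K) : (dA : GL ι K →* _).range ⊓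
    Subgroup.centralizer {dA S⁻¹ * gA ι K} = (dA.comp (sim (toBilin' S.1)).subtype).range := by
  have h : ∀ x : GL ι K, dA x ∈ Subgroup.centralizer {dA S⁻¹ * gA ι K} ↔ x ∈ sim (toBilin' S.1) :=
    fun x => by
      rw [mem_sim, ← conj_dA_gA_iff, Subgroup.mem_centralizer_singleton_iff, eq_mul_inv_iff_mul_eq,
        eq_comm]
  ext β
  exact ⟨fun ⟨⟨x, e⟩, hx⟩ => ⟨⟨x, (h x).1 (e ▸ hx)⟩, e⟩, fun ⟨x, e⟩ => ⟨⟨x, e⟩, e ▸ (h x).2 x.2⟩⟩

theorem sq_dA_gA_iff {S : GL ι K} :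
    (dA S⁻¹ * gA ι K) ^ 2 = 1 ↔ ∃ c : Kˣ, S.1ᵀ = (c : K) • S.1 := by
  rw [pow_two, mul_assoc, ← mul_assoc (gA ι K), gA_mul_dA, mul_assoc, gA_mul_gA, mul_one, ← map_mul,
    ← map_one dA, dA_eq_dA_iff]
  refine exists_congr fun c => ?_
  have h1 : (invTranspose S⁻¹).1 = S.1ᵀ := rfl
  rw [← h1, ← AutU.scalar_mul_coe, Units.val_inj, inv_mul_eq_iff_eq_mul, one_mul]

theorem giL [Finite K] {n : ℕ} (hn : 3 ≤ n) : GI n K (inndiagPSL n K) (Inn _) IsGraphAutClassPSL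
    (Nat.card K - 1) RL := by
  have : NeZero n := ⟨by omega⟩
  have sp : ∀ {γ B}, RL γ B → ∃ U : Subgroup Kˣ, (∀ d, d ∈ U ↔ ∃ c, Pr B c d) ∧
      splitClassCount (inndiagPSL n K) (Inn _) γ = Nat.gcd n U.index := by
    rintro _ _ ⟨S, rfl, rfl⟩
    refine ⟨(GeneralLinearGroup.det.comp (sim (toBilin' S.1)).subtype).range, fun d => ?_,
      by rw [inndiag_eq, AutPSL3.splitClassCount_eq_index _ _
      (inf_centralizer_gA S), Lang.index_range_pow_sup, Fintype.card_fin]⟩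
    simp only [pr_iff]
    exact ⟨fun ⟨k, e⟩ => k.2.imp fun c hc => ⟨k, hc, e⟩, fun ⟨c, k, h, e⟩ => ⟨⟨k, c, h⟩, e⟩⟩
  refine ⟨?_, fun hB => ?_, ?_, ?_, fun hR h => ?_, fun {_ _ m} hR hm h => ?_,
    fun {_ _ m} hR hm h2 h => ?_⟩
  · rintro _ ⟨-, δ, γ, h1, h2, rfl⟩ h3
    obtain ⟨g, rfl⟩ := isInnerDiagonal_iff.1 h1
    obtain rfl := isInverseTranspose_iff.1 h2
    obtain ⟨g, rfl⟩ := inv_surjective g
    obtain ⟨c, hc⟩ := sq_dA_gA_iff.1 (h3 ▸ pow_orderOf_eq_one _)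
    exact ⟨_, ef_of hc, g, rfl, rfl⟩
  · obtain ⟨S, e, rfl, -, h⟩ := hB.exists_GL
    refine ⟨_, ⟨hn, _, _, isInnerDiagonal_iff.2 ⟨_, rfl⟩, isInverseTranspose_iff.2 rfl, rfl⟩,
      orderOf_eq_prime (sq_dA_gA_iff.2 ⟨e, h⟩) ?_, S, rfl, rfl⟩
    simpa using dA_mul_fA_mul_gA_ne_one (by simpa) S⁻¹ 1
  · rintro _ _ _ _ ⟨S, rfl, rfl⟩ ⟨S', rfl, rfl⟩
    rw [eqv_iff, inndiag_eq]
    exact ⟨fun ⟨_, ⟨x, rfl⟩, h⟩ => ⟨x, conj_dA_gA_iff.1 h⟩,
      fun ⟨x, h⟩ => ⟨_, ⟨x, rfl⟩, conj_dA_gA_iff.2 h⟩⟩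
  · rintro _ _ ⟨S, rfl, rfl⟩
    rw [inndiag_eq, inf_centralizer_gA]
    exact ⟨rangeEquivProjQuot _⟩
  · obtain ⟨U, h1, h2⟩ := sp hR
    rw [h2, ← Nat.card_units, cyc_a fun u hu => ?_]
    obtain ⟨c, hc⟩ := (h1 u).1 hu
    exact (h _ _ hc).imp fun _ h => h.2
  · obtain ⟨U, h1, h2⟩ := sp hR
    rw [h2, ← Nat.card_units, hm, cyc_b fun u => (h1 u).trans (exists_congr fun c => h c u)]
  · obtain ⟨U, h1, h3⟩ := sp hR
    rw [h3, ← Nat.card_units, hm, cyc_c (z := -1) (orderOf_eq_prime (by simp) fun e => h2 (by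
      have : (-1 : K) = 1 := congrArg Units.val e
      linear_combination -this)) fun u => (h1 u).trans
        (exists_congr fun c => by rw [h, neg_one_mul])]

end PSL

/-! ### The unitary groups -/

section PSU

open Herm AutU Lang

variable {F : Type*} [Field F] [Finite F] {n q : ℕ} (hF : Nat.card F = q ^ 2) (φ : K →+* F)

/-- The involutory automorphism of a field of square order. -/
noncomputable def fr : F ≃+* F :=
  RingEquiv.ofBijective (frob hF) (Function.Involutive.bijective (inv_frob hF).invol)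

theorem fr_sq : fr hF ^ 2 = 1 := RingEquiv.ext (inv_frob hF).invol

theorem orderOf_fr : orderOf (fr hF) = 2 := orderOf_eq_prime (fr_sq hF) fun h => by
  obtain ⟨a, ha⟩ := (inv_frob hF).ne
  exact ha (congrArg (fun σ : F ≃+* F => σ a) h)

local notation "sc" => GeneralLinearGroup.scalar (Fin n)
local notation "mp" => GeneralLinearGroup.map

/-- A frame for a graph involution of `PSU`. -/
structure Fr (g : GU n F q) (S : GL (Fin n) K) (y : GL (Fin n) F) (l a : Fˣ) : Prop where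
  fix : g.1 * sc a * mp (fr hF).toRingHom y = y
  gram : ct (frob hF) y.1 * y.1 = (l : F) • S.1.map φ

/-- The graph automorphism of `PSU` attached to a form. -/
def RU (γ : MulAut (PSU n F q)) (B : BilinForm K (Fin n → K)) : Prop :=
  ∃ g S y l a, Fr hF φ g S y l a ∧ B = toBilin' S.1 ∧ γ = dU g * fU n q (fr hF)

variable {hF φ} (hφ : ∀ c, fr hF c = c ↔ ∃ d, φ d = c) {g g' : GU n F q} {S S' : GL (Fin n) K}
  {y y' : GL (Fin n) F} {l a l' a' : Fˣ}

omit [Finite F] in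
theorem sc_comm (c : Fˣ) (x : GL (Fin n) F) : x * sc c = sc c * x :=
  Subgroup.mem_center_iff.1
    (GeneralLinearGroup.center_eq_range_scalar (n := Fin n) (R := F) ▸ ⟨c, rfl⟩ : sc c ∈ _) x

include hφ

theorem map_fix (M : Matrix (Fin n) (Fin n) K) : (M.map φ).map (frob hF) = M.map φ :=
  Matrix.ext fun _ _ => (hφ _).2 ⟨_, rfl⟩

theorem exists_of_proj {z : GL (Fin n) F} {c : Fˣ} (h : mp (fr hF).toRingHom z = z * sc c) :
    ∃ k t, z = mp φ k * sc t := by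
  obtain ⟨k, t, e⟩ := exists_map_of_proj_fixed h
  obtain ⟨k, hk⟩ := exists_map_fix hφ (congrArg Units.val (map_map_fixF _ k))
  exact ⟨k, t, hk ▸ e⟩

theorem Fr.mem_iff (h : Fr hF φ g S y l a) (h' : Fr hF φ g' S' y' l' a') {w : GL (Fin n) F}
    {k : GL (Fin n) K} {t : Fˣ} (e : w * y = y' * (mp φ k * sc t)) : w ∈ GU n F q ↔
      (frob hF t * t * l') • (k.1ᵀ * S'.1 * k.1).map φ = (l : F) • S.1.map φ := by
  have h1 : ct (frob hF) (w * y).1 * (w * y).1 =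
      (frob hF t * t * l') • (k.1ᵀ * S'.1 * k.1).map φ := by
    rw [e, ← mul_assoc, scalar_mul_coe, ct_smul, smul_mul_smul_comm, Units.val_mul, ct_mul,
      mul_assoc, ← mul_assoc (ct _ y'.1), h'.gram, ct_apply]
    change _ • (((k.1.map φ).map _)ᵀ * (_ * k.1.map φ)) = _
    rw [map_fix hφ, smul_mul_assoc, mul_smul_comm, smul_smul, Matrix.map_mul, Matrix.map_mul,
      mul_assoc, transpose_map, mul_assoc]
  rw [← h1, ← h.gram, mem_GU_iff hF, Units.val_mul, ct_mul, mul_assoc, ← mul_assoc (ct _ w.1),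
    (isUnit_ct y.isUnit).mul_right_inj]
  exact ⟨fun h => by rw [h, one_mul], fun h => y.mul_left_inj.1 (by rw [h, one_mul])⟩

theorem Fr.herm (h : Fr hF φ g S y l a) : frob hF l • (S.1.map φ)ᵀ = (l : F) • S.1.map φ := by
  have := congrArg (ct (frob hF)) h.gram
  rwa [ct_mul, (inv_frob hF).ct_ct, h.gram, ct_smul, ct_apply, map_fix hφ, eq_comm] at this

omit hφ [Finite F] in
theorem smul_inj [NeZero n] (S : GL (Fin n) K) {b c : F} (h : b • S.1.map φ = c • S.1.map φ) :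
    b = c :=
  smul_left_injective F (mp φ S).ne_zero h

variable [NeZero n]

theorem Fr.exists_lift (h : Fr hF φ g S y l a) (h' : Fr hF φ g' S' y' l' a') {k : GL (Fin n) K}
    {c : Kˣ} (hk : k.1ᵀ * S'.1 * k.1 = (c : K) • S.1) :
    ∃ (w : GU n F q) (t : Fˣ), w.1 * y = y' * (mp φ k * sc t) := by
  have h1 := congrArg (fun M => (k.1.map φ)ᵀ * M * k.1.map φ) (h'.herm hφ)
  have h2 := congrArg transpose hk
  simp only [transpose_mul, transpose_transpose, transpose_smul, ← mul_assoc] at h2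
  simp only [mul_smul_comm, smul_mul_assoc, ← transpose_map, ← Matrix.map_mul, hk, h2,
    Matrix.map_smul' _ _ _ (map_mul φ), smul_smul] at h1
  have h3 : frob hF l' * φ c * l = frob hF l * (l' * φ c) := smul_inj S (by
    rw [mul_smul, ← h.herm hφ, smul_comm, mul_smul _ (l' * φ c), ← h1, transpose_map])
  have h4 : φ c ≠ 0 := by simp
  obtain ⟨t, ht⟩ := (inv_frob hF).exists_norm (μ := l / (l' * φ c)) (by
    rw [map_div₀, map_mul, show frob hF (φ c) = φ c from (hφ _).2 ⟨_, rfl⟩,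
      div_eq_div_iff (by simp) (by simp), ← h3, mul_comm])
  have h5 : t ≠ 0 := by
    rintro rfl
    exact div_ne_zero l.ne_zero (mul_ne_zero l'.ne_zero h4) (by rw [← ht, mul_zero])
  refine ⟨⟨y' * (mp φ k * sc (Units.mk0 t h5)) * y⁻¹,
    (h.mem_iff hφ h' (inv_mul_cancel_right _ _)).2 ?_⟩, _, inv_mul_cancel_right _ _⟩
  rw [hk, Matrix.map_smul' _ _ _ (map_mul φ), smul_smul, Units.val_mk0, ht]
  congr 1
  field_simp

theorem Fr.exists_mult (h : Fr hF φ g S y l a) (h' : Fr hF φ g' S' y' l' a') {w : GU n F q}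
    {k : GL (Fin n) K} {t : Fˣ} (e : w.1 * y = y' * (mp φ k * sc t)) : ∃ c : Kˣ,
      k.1ᵀ * S'.1 * k.1 = (c : K) • S.1 ∧ frob hF t * t * l' * φ c = l := by
  have h1 := (h.mem_iff hφ h' e).1 w.2
  obtain ⟨j, hj⟩ := GLGeom.exists_row_ne_zero S 0
  have h2 := congrFun (congrFun h1 0) j
  simp only [Matrix.smul_apply, map_apply, smul_eq_mul] at h2
  have h3 : φ (S.1 0 j) ≠ 0 := by simpa using hj
  have h4 : (k.1ᵀ * S'.1 * k.1) 0 j ≠ 0 := fun h0 => by simp [h0, h3] at h2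
  have h5 : frob hF t * t * l' * φ ((k.1ᵀ * S'.1 * k.1) 0 j / S.1 0 j) = l := by
    rw [map_div₀, ← mul_div_assoc, h2, mul_div_cancel_right₀ _ h3]
  refine ⟨Units.mk0 _ (div_ne_zero h4 hj), Matrix.map_injective φ.injective ?_, h5⟩
  rw [← h5, mul_smul _ (φ _)] at h1
  beta_reduce
  rw [Matrix.map_smul' _ _ _ (map_mul φ)]
  exact smul_right_injective _ (r := frob hF t * t * l') (by simp) h1

variable (hn : 3 ≤ n) (h32 : ¬ (n = 3 ∧ q = 2))
include hn h32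

theorem Fr.conj_iff (h : Fr hF φ g S y l a) (h' : Fr hF φ g' S' y' l' a') {w : GU n F q} :
    dU g' * fU n q (fr hF) = dU w * (dU g * fU n q (fr hF)) * (dU w)⁻¹ ↔
      ∃ k t, w.1 * y = y' * (mp φ k * sc t) := by
  rw [mul_assoc, mul_assoc, ← map_inv, fU_mul_dU, ← mul_assoc, ← mul_assoc, mul_left_inj,
    ← map_mul, ← map_mul, eq_comm, dU_eq_dU_iff hF hn h32]
  have e1 : g.1 = y * (mp (fr hF).toRingHom y)⁻¹ * sc a⁻¹ := by
    rw [map_inv, eq_mul_inv_iff_mul_eq, eq_mul_inv_iff_mul_eq, h.fix]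
  have e2 : g'.1 = y' * (mp (fr hF).toRingHom y')⁻¹ * sc a'⁻¹ := by
    rw [map_inv, eq_mul_inv_iff_mul_eq, eq_mul_inv_iff_mul_eq, h'.fix]
  have key : ∀ c : Fˣ, (w * g * fGU (fr hF) w⁻¹).1 = g'.1 * sc c ↔
      mp (fr hF).toRingHom (y'⁻¹ * w.1 * y) = y'⁻¹ * w.1 * y * sc (a' / a / c) := fun c => by
    change w.1 * g.1 * mp (fr hF).toRingHom w.1⁻¹ = _ ↔ _
    rw [e1, e2, mul_assoc _ (sc _), ← map_mul, ← mul_assoc, mul_assoc _ (sc _), ← sc_comm,
      ← mul_assoc, ← mul_inv_eq_iff_eq_mul, mul_assoc _ (sc _), ← map_inv sc, ← map_mul,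
      show a⁻¹ * (a'⁻¹ * c)⁻¹ = a' / a / c by simp [div_eq_mul_inv, mul_assoc, mul_comm, mul_left_comm]]
    simp only [map_mul, map_inv]
    have := sc_comm (n := n) (a' / a / c)
    generalize sc (a' / a / c) = z, mp (fr hF).toRingHom y = u, mp (fr hF).toRingHom y' = u',
      mp (fr hF).toRingHom w.1 = v at *
    constructor
    · intro e
      calc u'⁻¹ * v * u = y'⁻¹ * (y' * u'⁻¹) * (v * u) := by group
        _ = y'⁻¹ * w.1 * y * ((v * u)⁻¹ * z) * (v * u) := by rw [← e]; group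
        _ = _ := by rw [this]; group
    · intro e
      calc _ = w.1 * y * ((v * u)⁻¹ * z) := by group
        _ = y' * (y'⁻¹ * w.1 * y * z) * (v * u)⁻¹ := by rw [this]; group
        _ = _ := by rw [← e]; group
  simp only [key]
  constructor
  · rintro ⟨c, hc⟩
    obtain ⟨k, t, e⟩ := exists_of_proj hφ hc
    exact ⟨k, t, by rw [← e]; group⟩
  · rintro ⟨k, t, e⟩
    refine ⟨a' / a / (Units.map (fr hF).toMonoidHom t / t), ?_⟩
    rw [mul_assoc, e, inv_mul_cancel_left, map_mul, GeneralLinearGroup.map_scalar, mul_assoc,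
      ← map_mul, div_div_cancel, mul_div_cancel]
    congr 1
    exact Units.ext (map_fix hφ _)

omit hn h32 hφ [NeZero n] in
variable (S y) in
/-- Pairs of a unitary matrix and a similarity that correspond to each other. -/
def HH : Subgroup (GU n F q × sim (toBilin' S.1)) where
  carrier := {p | ∃ t, p.1.1 * y = y * (mp φ p.2.1 * sc t)}
  one_mem' := ⟨1, by simp⟩
  mul_mem' := by
    rintro p p' ⟨t, h⟩ ⟨t', h'⟩
    refine ⟨t' * t, ?_⟩
    simp only [Prod.fst_mul, Prod.snd_mul, Subgroup.coe_mul, map_mul]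
    rw [mul_assoc, h', ← mul_assoc, h, mul_assoc, mul_assoc, ← sc_comm t]; group
  inv_mem' := by
    rintro p ⟨t, h⟩
    refine ⟨t⁻¹, ?_⟩
    simp only [Prod.fst_inv, Prod.snd_inv, Subgroup.coe_inv, map_inv]
    rw [← _root_.mul_inv_rev, ← sc_comm, inv_mul_eq_iff_eq_mul, ← mul_assoc, h]; group

theorem Fr.inf_centralizer (h : Fr hF φ g S y l a) : (dU : GU n F q →* _).range ⊓
    Subgroup.centralizer {dU g * fU n q (fr hF)} =
      (dU.comp ((MonoidHom.fst _ _).comp (HH (q := q) (φ := φ) S y).subtype)).range := by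
  have h1 : ∀ w : GU n F q, dU w ∈ Subgroup.centralizer {dU g * fU n q (fr hF)} ↔
      ∃ k t, w.1 * y = y * (mp φ k * sc t) := fun w => by
    rw [← h.conj_iff hφ hn h32 h, Subgroup.mem_centralizer_singleton_iff, eq_mul_inv_iff_mul_eq,
      eq_comm]
  ext β
  constructor
  · rintro ⟨⟨w, rfl⟩, hw⟩
    obtain ⟨k, t, e⟩ := (h1 w).1 hw
    obtain ⟨c, hc, -⟩ := h.exists_mult hφ h e
    exact ⟨⟨(w, ⟨k, mem_sim.2 ⟨c, hc⟩⟩), t, e⟩, rfl⟩
  · rintro ⟨⟨⟨w, k⟩, t, e⟩, rfl⟩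
    exact ⟨⟨w, rfl⟩, (h1 w).2 ⟨k, t, e⟩⟩

theorem Fr.cent (h : Fr hF φ g S y l a) : Nonempty (((dU : GU n F q →* _).range ⊓
    Subgroup.centralizer {dU g * fU n q (fr hF)} : Subgroup _) ≃* projQuot (sim (toBilin' S.1))) := by
  rw [h.inf_centralizer hφ hn h32]
  refine ⟨(QuotientGroup.quotientKerEquivRange _).symm.trans ((QuotientGroup.quotientMulEquivOfEq
    ?_).trans (QuotientGroup.quotientKerEquivOfSurjective ((QuotientGroup.mk' _).comp
      ((MonoidHom.snd _ _).comp (HH (q := q) (φ := φ) S y).subtype)) fun x => ?_))⟩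
  · ext ⟨⟨w, k⟩, t, e⟩
    refine (dU_eq_one_iff hF hn h32).trans (Iff.trans ?_ (QuotientGroup.eq_one_iff k).symm)
    rw [Subgroup.mem_subgroupOf, AutPSL3.scalars_eq, ← AutPSL3.ker_dA_comp φ, ← AutPSL2.ker_dA]
    have := congrArg AutPSL.dA e
    simp only [map_mul, AutPSL2.dA_scalar, mul_one] at this
    change AutPSL.dA w.1 = 1 ↔ AutPSL.dA (mp φ k.1) = 1
    rw [eq_mul_inv_of_mul_eq this, conj_eq_one_iff]
  · induction x using QuotientGroup.induction_on with | H k =>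
    obtain ⟨c, hc⟩ := mem_sim.1 k.2
    obtain ⟨w, t, e⟩ := h.exists_lift hφ h hc
    exact ⟨⟨(w, k), t, e⟩, rfl⟩

theorem Fr.split (h : Fr hF φ g S y l a) : ∃ U : Subgroup (normOne (frob hF)),
    (∀ u, u ∈ U ↔ ∃ (c d : Kˣ) (t : Fˣ), Pr (toBilin' S.1) c d ∧ frob hF t * t * φ c = 1 ∧
      (u.1 : F) = t ^ n * φ d) ∧
    splitClassCount (dU : GU n F q →* _).range (Inn _) (dU g * fU n q (fr hF)) =
      Nat.gcd n U.index := by
  refine ⟨_, fun u => ?_, splitClassCount_eq_index hF hn h32 _ _ (h.inf_centralizer hφ hn h32)⟩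
  have hd : ∀ {w : GL (Fin n) F} {k t}, w * y = y * (mp φ k * sc t) →
      w.1.det = (t : F) ^ n * φ k.1.det := fun {w k t} e => by
    have := congrArg (fun x : GL (Fin n) F => x.1.det) e
    simp only [← mul_assoc, scalar_mul_coe, det_smul, Units.val_mul y, Units.val_mul w, det_mul,
      Fintype.card_fin] at this
    refine mul_right_cancel₀ y.det_ne_zero (this.trans ?_)
    rw [RingHom.map_det]
    change _ * _ * (k.1.map φ).det = _ * (k.1.map φ).det * _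
    ring
  constructor
  · rintro ⟨⟨⟨w, k⟩, t, e⟩, rfl⟩
    obtain ⟨c, h1, h2⟩ := h.exists_mult hφ h e
    exact ⟨c, _, t, pr_iff'.2 ⟨k, h1, rfl⟩, mul_right_cancel₀ l.ne_zero (by linear_combination h2),
      hd e⟩
  · rintro ⟨c, d, t, h0, h2, h3⟩
    obtain ⟨k, h1, rfl⟩ := pr_iff'.1 h0
    have e : y * (mp φ k * sc t) * y⁻¹ * y = y * (mp φ k * sc t) := by simp
    refine ⟨⟨(⟨_, (h.mem_iff hφ h e).2 ?_⟩, ⟨k, mem_sim.2 ⟨c, h1⟩⟩), t, e⟩,
      Subtype.ext (Units.ext ((hd e).trans h3.symm))⟩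
    rw [h1, Matrix.map_smul' _ _ _ (map_mul φ), smul_smul]
    congr 1
    linear_combination l * h2

omit hn h32 in
theorem exists_fr (S : GL (Fin n) K) {e : Kˣ} (he : e ^ 2 = 1) (hS : S.1ᵀ = (e : K) • S.1) :
    ∃ g y l a, Fr hF φ g S y l a := by
  have h0 : frob hF (φ e) = φ e := (hφ _).2 ⟨_, rfl⟩
  have h1 : φ e * φ e = 1 := by rw [← map_mul, ← Units.val_mul, ← pow_two, he]; simp
  obtain ⟨l, hl⟩ := hilbert90_units two_ne_zero (orderOf_fr hF) (c := Units.map φ.toMonoidHom e)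
    (Units.ext (by simpa [unitNorm_apply, Finset.prod_range_succ, (hφ _).2 ⟨_, rfl⟩] using h1))
  have h2 : (S.1.map φ)ᵀ = φ e • S.1.map φ := by
    rw [← transpose_map, hS, Matrix.map_smul' _ _ _ (map_mul φ)]
  have h3 : ct (frob hF) (mp φ S * sc l).1 = (mp φ S * sc l).1 := by
    rw [scalar_mul_coe, ct_smul, ct_apply]
    change _ • ((S.1.map φ).map _)ᵀ = _ • S.1.map φ
    rw [map_fix hφ, h2, smul_smul, mul_comm]
    exact congrArg (· • _) hl
  obtain ⟨x, hx⟩ := AutPSL3.exists_herm (inv_frob hF) h3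
  have h4 : ct (frob hF) (x⁻¹).1 * (x⁻¹).1 = (l : F) • S.1.map φ := by
    rw [← mul_one (ct _ _), ← hx, ← ct_apply, ← mul_assoc, ← mul_assoc, ← ct_mul, mul_assoc,
      x.mul_inv, ct_one, one_mul, mul_one, scalar_mul_coe]
    rfl
  generalize x⁻¹ = y at h4
  obtain ⟨a, ha⟩ := (inv_frob hF).exists_norm h0
  have h5 : a ≠ 0 := by rintro rfl; simp [← ha] at h1
  let u := mp (fr hF).toRingHom y
  have h6 : ct (frob hF) u.1 * u.1 = φ e • (ct (frob hF) y.1 * y.1) := by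
    have := congrArg transpose h4
    rw [transpose_mul, transpose_smul, h2, smul_comm, ← h4] at this
    rw [← this]
    congr 1
    exact Matrix.ext fun _ _ => (inv_frob hF).invol _
  refine ⟨⟨y * u⁻¹ * sc (Units.mk0 a h5)⁻¹, (mem_GU_iff hF _).2 ?_⟩, y, l, Units.mk0 a h5, ?_, h4⟩
  · rw [scalar_mul_coe, ct_smul, smul_mul_smul_comm, Units.val_mul, ct_mul, mul_assoc,
      ← mul_assoc (ct _ y.1), ← one_smul F (ct _ y.1 * y.1), ← h1, mul_smul (φ e), ← h6, smul_mul_assoc,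
      mul_assoc, u.mul_inv, mul_one, mul_smul_comm, ← ct_mul, u.mul_inv, ct_one, smul_smul, ← ha]
    have : frob hF a ≠ 0 := by simpa
    simp only [Units.val_inv_eq_inv_val, Units.val_mk0, map_inv₀, smul_smul]
    rw [show (frob hF a)⁻¹ * a⁻¹ * (frob hF a * a) = 1 by field_simp, one_smul]
  · simp [u]

theorem exists_of_sq (h : (dU g * fU n q (fr hF)) ^ 2 = 1) : ∃ (S : GL (Fin n) K) (e : K),
    S.1ᵀ = e • S.1 ∧ ∃ y l a, Fr hF φ g S y l a := by
  obtain ⟨k, h1, h2⟩ := pow_dU_mul_fU g (fr hF) 2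
  have h3 := h1 ▸ (eq_one_of_dU_mul_fU hF hn h32 (h2.symm.trans h)).1
  obtain ⟨y, a, hy⟩ := hilbert90_proj two_ne_zero (orderOf_fr hF) h3
  let θ := (mp (fr hF).toRingHom).comp (GLGeom.invTranspose (ι := Fin n) (R := F)).toMonoidHom
  have hθ : ∀ x, ((θ x)⁻¹).1 = ct (frob hF) x.1 := fun x => rfl
  have hσ : ∀ x, mp (fr hF).toRingHom (θ x) = θ (mp (fr hF).toRingHom x) := fun x => rfl
  have h4 : θ g.1 = g.1 := (AutPSL3.mem_GU_iff' (inv_frob hF) (fun _ => rfl)).1 g.2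
  obtain ⟨b, hb⟩ : ∃ b, θ (sc a) = sc b := ⟨(Units.map (fr hF).toMonoidHom a)⁻¹, by
    rw [map_inv, eq_inv_iff_mul_eq_one, mul_eq_one_iff_inv_eq]
    refine Units.ext ?_
    rw [hθ, AutPSL3.scalar_coe, AutPSL3.scalar_coe, ct_smul, ct_one]; rfl⟩
  have h5 : mp (fr hF).toRingHom ((θ y)⁻¹ * y) = (θ y)⁻¹ * y * sc (b / a) := by
    have h6 : mp (fr hF).toRingHom y = (g.1 * sc a)⁻¹ * y := eq_inv_mul_of_mul_eq hy
    rw [map_mul, map_inv, hσ, h6]
    rw [map_mul θ, map_inv θ, map_mul θ, h4, hb, mul_assoc _ y, sc_comm (b / a)]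
    calc _ = (θ y)⁻¹ * (g.1 * (sc b * (sc a)⁻¹)) * g.1⁻¹ * y := by group
      _ = _ := by rw [← map_inv sc, ← map_mul, sc_comm, div_eq_mul_inv]; group
  obtain ⟨S, l, hS⟩ := exists_of_proj hφ h5
  have h7 : Fr hF φ g S y l a := ⟨hy, by rw [← hθ, ← Units.val_mul, hS, scalar_mul_coe]; rfl⟩
  obtain ⟨j, hj⟩ := GLGeom.exists_row_ne_zero S 0
  have h8 := h7.herm hφ
  refine ⟨S, S.1 j 0 / S.1 0 j, Matrix.ext fun i k => φ.injective ?_, y, l, a, h7⟩
  have h9 := congrFun (congrFun h8 0) j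
  have h10 := congrFun (congrFun h8 i) k
  simp only [Matrix.smul_apply, transpose_apply, map_apply, smul_eq_mul, map_mul, map_div₀] at *
  have h11 : φ (S.1 0 j) ≠ 0 := by simpa using hj
  field_simp
  exact mul_left_cancel₀ (a := frob hF l) (by simp) (by
    linear_combination φ (S.1 0 j) * h10 - φ (S.1 i k) * h9)

theorem giU : GI n K (inndiagPSU n F q) (Inn _) IsGraphAutClassPSU (q + 1) (RU hF φ) := by
  have h0 : ∀ c, frob hF (φ c) = φ c := fun c => (hφ _).2 ⟨_, rfl⟩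
  have key : ∀ {S : GL (Fin n) K} {m : ℕ} (hm : n = 2 * m) {s : Kˣ} (z : normOne (frob hF))
      (hz : (z.1 : F) = φ s) (u : normOne (frob hF)), (∃ (c : Kˣ) (t : Fˣ),
        frob hF t * t * φ c = 1 ∧ (u.1 : F) = t ^ n * φ (s * c ^ m : Kˣ)) ↔ ∃ e, u = z * e ^ m := by
    intro S m hm s z hz u
    have h1 : ∀ {c : Kˣ} {t : Fˣ}, frob hF t * t * φ c = 1 →
        (t : F) ^ n * φ (s * c ^ m : Kˣ) = φ s * (t / frob hF t) ^ m := fun {c t} h => by
      rw [Units.val_mul, map_mul, Units.val_pow_eq_pow_val, map_pow, hm, pow_mul, mul_left_comm,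
        ← mul_pow, eq_inv_of_mul_eq_one_right h]
      congr 2
      field_simp
    constructor
    · rintro ⟨c, t, h2, h3⟩
      refine ⟨⟨t / Units.map (frob hF).toMonoidHom t, ?_⟩, Subtype.ext (Units.ext ?_)⟩
      · simp [Herm.mem_normOne, (inv_frob hF).invol]
      · rw [h3, h1 h2, ← hz]; simp
    · rintro ⟨e, rfl⟩
      obtain ⟨t, ht⟩ := hilbert90_units two_ne_zero (orderOf_fr hF) (c := e.1) (Units.ext (by
        simpa [unitNorm_apply, Finset.prod_range_succ, mul_comm] using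
          (show fr hF e.1 * e.1 = 1 from e.2)))
      obtain ⟨c, hc⟩ := (hφ (frob hF t * t)⁻¹).1 (by
        change frob hF _ = _
        rw [map_inv₀, map_mul, (inv_frob hF).invol, mul_comm])
      have h2 : c ≠ 0 := by rintro rfl; exact inv_ne_zero (by simp) (hc.symm.trans φ.map_zero)
      have h3 : frob hF t * t * φ (Units.mk0 c h2) = 1 := by
        rw [Units.val_mk0, hc, mul_inv_cancel₀ (by simp)]
      refine ⟨_, t, h3, ?_⟩
      rw [h1 h3, ← hz, div_eq_of_eq_mul (by simp) (show _ = _ * frob hF t from ht.symm)]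
      simp
  rw [inndiag_eq]
  refine ⟨?_, fun hB => ?_, ?_, ?_, ?_, ?_, ?_⟩
  · rintro _ ⟨-, δ, γ, σ, h1, h2, h3, rfl⟩ h4
    obtain ⟨g, rfl⟩ := isInnerDiagonal_iff.1 h2
    obtain rfl := isField_iff.1 h3
    have h5 := h4 ▸ pow_orderOf_eq_one (dU g * fU n q σ)
    obtain ⟨k, -, h6⟩ := pow_dU_mul_fU g σ 2
    obtain rfl : σ = fr hF := RingEquiv.ext ((AutPSL3.inv_of_sq (by rintro rfl; simp at h1)
      (eq_one_of_dU_mul_fU hF hn h32 (h6.symm.trans h5)).2).apply_pow hF)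
    obtain ⟨S, e, h7, y, l, a, h8⟩ := exists_of_sq hφ hn h32 h5
    exact ⟨_, ef_of h7, g, S, y, l, a, h8, rfl, rfl⟩
  · obtain ⟨S, e, rfl, h1, h2⟩ := hB.exists_GL
    obtain ⟨g, y, l, a, h⟩ := exists_fr hφ S h1 h2
    refine ⟨_, ⟨hn, _, _, fr hF, by simp [orderOf_fr], isInnerDiagonal_iff.2 ⟨g, rfl⟩,
      isField_iff.2 rfl, rfl⟩, orderOf_eq_prime ?_ fun e => ?_, g, S, y, l, a, h, rfl, rfl⟩
    · obtain ⟨k, h3, h4⟩ := pow_dU_mul_fU g (fr hF) 2
      rw [h4, fr_sq, map_one, mul_one, dU_eq_one_iff hF hn h32, h3]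
      have h5 := congrArg (mp (fr hF).toRingHom) h.fix
      have h6 : mp (fr hF).toRingHom (mp (fr hF).toRingHom y) = y :=
        Units.ext (Matrix.ext fun _ _ => (inv_frob hF).invol _)
      rw [map_mul, map_mul, h6, GeneralLinearGroup.map_scalar] at h5
      have h7 := h.fix
      rw [← h5, ← mul_assoc, mul_eq_right, mul_assoc, ← mul_assoc (sc a), ← sc_comm,
        mul_assoc _ (sc a), ← map_mul, ← mul_assoc, mul_eq_one_iff_eq_inv, ← map_inv] at h7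
      simp only [nrm, map_one, mul_one]
      rw [h7, GeneralLinearGroup.center_eq_range_scalar]
      exact ⟨_, rfl⟩
    · simpa [(eq_one_of_dU_mul_fU hF hn h32 e).2] using orderOf_fr hF
  · rintro _ _ _ _ ⟨g, S, y, l, a, h, rfl, rfl⟩ ⟨g', S', y', l', a', h', rfl, rfl⟩
    rw [eqv_iff]
    constructor
    · rintro ⟨_, ⟨w, rfl⟩, e⟩
      obtain ⟨k, t, e⟩ := (h.conj_iff hφ hn h32 h').1 e
      exact ⟨k, (h.exists_mult hφ h' e).imp fun _ h => h.1⟩
    · rintro ⟨k, c, hk⟩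
      obtain ⟨w, e⟩ := h.exists_lift hφ h' hk
      exact ⟨_, ⟨w, rfl⟩, (h.conj_iff hφ hn h32 h').2 ⟨k, e⟩⟩
  · rintro _ _ ⟨g, S, y, l, a, h, rfl, rfl⟩
    exact h.cent hφ hn h32
  · rintro _ _ ⟨g, S, y, l, a, h, rfl, rfl⟩ h1
    obtain ⟨U, h2, h3⟩ := h.split hφ hn h32
    rw [h3, ← (inv_frob hF).card_normOne hF, cyc_a fun u hu => ?_]
    obtain ⟨c, d, t, h4, h5, h6⟩ := (h2 u).1 hu
    obtain ⟨e, rfl, rfl⟩ := h1 _ _ h4
    refine ⟨⟨t * Units.map φ.toMonoidHom e, ?_⟩, Subtype.ext (Units.ext (by simp [h6, mul_pow]))⟩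
    simp only [Units.val_pow_eq_pow_val, map_pow] at h5
    simp only [Herm.mem_normOne, Units.val_mul, Units.coe_map, RingHom.toMonoidHom_eq_coe,
      MonoidHom.coe_coe, map_mul, h0]
    linear_combination h5
  · rintro _ _ m ⟨g, S, y, l, a, h, rfl, rfl⟩ hm h1
    obtain ⟨U, h2, h3⟩ := h.split hφ hn h32
    rw [h3, ← (inv_frob hF).card_normOne hF, hm, cyc_b fun u => (h2 u).trans ?_]
    simpa [h1] using key (S := S) hm (s := 1) 1 (by simp) u
  · rintro _ _ m ⟨g, S, y, l, a, h, rfl, rfl⟩ hm h4 h1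
    obtain ⟨U, h2, h3⟩ := h.split hφ hn h32
    let z : normOne (frob hF) := ⟨-1, by simp [Herm.mem_normOne]⟩
    rw [h3, ← (inv_frob hF).card_normOne hF, hm, cyc_c (z := z) (orderOf_eq_prime
      (Subtype.ext (by simp [z])) fun e => h4 (φ.injective ?_)) fun u => (h2 u).trans ?_]
    · have : (-1 : F) = 1 := congrArg (fun u : normOne (frob hF) => (u.1 : F)) e
      rw [map_ofNat, map_zero]
      linear_combination -this
    · have k1 := key (S := S) hm (s := 1) 1 (by simp) u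
      have k2 := key (S := S) hm (s := -1) z (by simp [z]) u
      simp only [one_mul, neg_mul] at k1 k2
      simp only [h1, exists_or, ← k1, ← k2, or_and_right, exists_and_left, exists_eq_left]

omit hφ hn h32 in
theorem RU_one : RU hF φ (fU n q (fr hF)) (toBilin' 1) :=
  ⟨1, 1, 1, 1, 1, ⟨by simp, by simp⟩, rfl, by simp⟩

omit hφ hn h32 [NeZero n] in
theorem exists_phi [Finite K] (hK : Nat.card K = q) :
    ∃ φ : K →+* F, ∀ c, fr hF c = c ↔ ∃ d, φ d = c :=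
  GamO.exists_fix_hom (hK.trans ((inv_frob hF).card_fixF hF).symm)

end PSU

end Cfsg.Agent.Classical.GrF
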