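import Mathlib
import Cfsg.Agent.Classical.GrI
import Cfsg.Agent.Classical.GamO9
import Cfsg.Agent.Comp2.Cores

/-! The `p'`-core of centralisers of outer automorphisms: general criteria and rigidity. -/

set_option autoImplicit false
set_option backward.isDefEq.respectTransparency false

namespace Cfsg.Agent.Classical.Bal

open Matrix Module Cfsg.Agent.Classical.Balance Cfsg.Agent.Classical.GrF

theorem core_eq_bot2 {P L : Type*} [Group P] [Finite P] [Group L] {A : Subgroup (MulAut P)}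
    {x : MulAut P} {p : ℕ} (hinn : ∀ k, MulAut.conj k ∈ A) (ψ : L →* MulAut P)
    (h1 : ∀ l, Commute x (ψ l))
    (hn : ∀ k ∈ Inn P, Commute x k → ∀ l, ∃ l', k * ψ l * k⁻¹ = ψ l')
    (hL : ∀ M : Subgroup L, M.Normal → (∀ l ∈ M, (orderOf (ψ l)).Coprime p) → ∀ l ∈ M, ψ l = 1)
    (hC : ∀ α : MulAut P, (∀ l, ψ l ∈ Inn P → Commute α (ψ l)) → (orderOf α).Coprime p → α = 1) :
    pPrimeCore p (A ⊓ Subgroup.centralizer {x} : Subgroup _) = ⊥ := by
  let G := Subgroup.centralizer ({x} : Set (MulAut P))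
  let C := (Inn P).subgroupOf G
  let O := (pPrimeCore p C).map C.subtype
  have hO : O.Normal := inferInstance
  let ψ' : L →* G := ψ.codRestrict G fun l => Subgroup.mem_centralizer_singleton_iff.2 (h1 l).symm
  have h2 : ∀ a ∈ O, (orderOf a.1).Coprime p := fun a ha => by
    rw [Subgroup.orderOf_coe]
    exact (Comp2.pPrimeCore_map_subtype_coprime p C).coprime_dvd_left
      (Subgroup.orderOf_dvd_natCard O ha)
  have h3 : O = ⊥ := eq_bot_iff.2 fun k hk => Subtype.ext (hC _ (fun l _ => by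
    obtain ⟨l', hl⟩ := hn k (Subgroup.map_subtype_le (H := C) _ hk :)
      (Subgroup.mem_centralizer_singleton_iff.1 k.2).symm l
    have h4 : l' * l⁻¹ ∈ O.comap ψ' := by
      have := O.mul_mem hk (hO.conj_mem _ (O.inv_mem hk) (ψ' l))
      refine Subgroup.mem_comap.2 (by
        convert this using 1
        refine Subtype.ext (?_ : ψ (l' * l⁻¹) = k.1 * (ψ l * (k.1)⁻¹ * (ψ l)⁻¹))
        simp only [map_mul, map_inv, ← hl, mul_assoc])
    have h5 := hL _ inferInstance (fun l hl => h2 _ hl) _ h4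
    rw [map_mul, map_inv, mul_inv_eq_one, ← hl, mul_inv_eq_iff_eq_mul] at h5
    exact h5) (h2 k hk))
  refine sSup_eq_bot.2 fun N ⟨hN, hNp⟩ => eq_bot_iff.2 fun a ha => Subtype.ext (hC _ (fun l hl => ?_)
    (by rw [Subgroup.orderOf_coe]; exact hNp.coprime_dvd_left (Subgroup.orderOf_dvd_natCard N ha)))
  have hA : ∀ k ∈ Inn P, k ∈ A := by rintro _ ⟨k, rfl⟩; exact hinn k
  let j : C →* (A ⊓ G : Subgroup _) :=
    (G.subtype.comp C.subtype).codRestrict _ fun c => ⟨hA _ c.2, c.1.2⟩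
  have h4 : N.comap j ≤ pPrimeCore p C := Comp2.le_pPrimeCore (hNp.coprime_dvd_left
    (Subgroup.card_comap_dvd_of_injective N j fun a b h =>
      Subtype.ext (Subtype.ext (congrArg (fun z : (A ⊓ G : Subgroup _) => z.1) h))))
  let c : C := ⟨⟨a.1, a.2.2⟩ * ψ' l * ⟨a.1, a.2.2⟩⁻¹ * (ψ' l)⁻¹,
    mul_mem ((innNormal P).conj_mem _ hl a.1) (inv_mem hl)⟩
  have h5 : c ∈ N.comap j := by
    have := N.mul_mem ha (hN.conj_mem _ (N.inv_mem ha) ⟨ψ l, hA _ hl, (ψ' l).2⟩)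
    refine Subgroup.mem_comap.2 (by
      convert this using 1
      exact Subtype.ext (by simp [j, c, ψ', mul_assoc]))
  have h6 := congrArg Subtype.val (Subgroup.mem_bot.1 (h3.le ⟨c, h4 h5, rfl⟩))
  exact mul_inv_eq_iff_eq_mul.1 (mul_inv_eq_one.1 h6)

variable {ι : Type} [Fintype ι] [DecidableEq ι] {K F : Type*} [Field K] [Field F] {φ : K →+* F}
  {τ : F →+* F} {T : GL ι F} {r p : ℕ}

local notation "sc" => GeneralLinearGroup.scalar ι
local notation "mp" => GeneralLinearGroup.map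
local notation "Z" => Subgroup.center (GL ι _)

variable (φ τ T) in
/-- The matrices commuting with a semilinear map. -/
def Cm : Subring (Matrix ι ι K) where
  carrier := {E | T.1 * (E.map φ).map τ = E.map φ * T.1}
  mul_mem' {a b} ha hb := by
    simp only [Set.mem_setOf_eq, Matrix.map_mul] at *
    rw [← mul_assoc, ha, mul_assoc, hb, mul_assoc]
  one_mem' := by simp
  add_mem' {a b} ha hb := by
    simp only [Set.mem_setOf_eq, Matrix.map_add _ (map_add _)] at *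
    rw [mul_add, add_mul, ha, hb]
  zero_mem' := by simp
  neg_mem' {a} ha := by
    simp only [Set.mem_setOf_eq] at *
    rw [Matrix.map_neg _ (map_neg _), Matrix.map_neg _ (map_neg _), mul_neg, neg_mul, ha]

omit [DecidableEq ι] in
theorem comp_mulVec (φ : K →+* F) (E : Matrix ι ι K) (v : ι → K) :
    φ ∘ (E *ᵥ v) = E.map φ *ᵥ (φ ∘ v) := funext fun i => RingHom.map_mulVec φ E v i

theorem Cm.apply {E : Matrix ι ι K} (h : E ∈ Cm φ τ T) (v : ι → K) :
    T.1 *ᵥ (τ ∘ φ ∘ (E *ᵥ v)) = E.map φ *ᵥ (T.1 *ᵥ (τ ∘ φ ∘ v)) := by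
  rw [comp_mulVec, comp_mulVec, mulVec_mulVec, h, mulVec_mulVec]

omit [Fintype ι] [DecidableEq ι] in
theorem comp_smul (φ : K →+* F) (c : K) (v : ι → K) : φ ∘ (c • v) = φ c • (φ ∘ v) :=
  funext fun _ => map_mul φ _ _

omit [Fintype ι] [DecidableEq ι] in
theorem comp_add (φ : K →+* F) (u v : ι → K) : φ ∘ (u + v) = φ ∘ u + φ ∘ v :=
  funext fun _ => map_add φ _ _

theorem Cm.fix {N : Matrix ι ι K} (h : N ∈ Cm φ τ T) {u y : ι → K}
    (hN : ∀ x, ∃ c : K, N *ᵥ x = c • u) (hy : N *ᵥ y ≠ 0) :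
    ∃ a : F, T.1 *ᵥ (τ ∘ φ ∘ u) = a • (φ ∘ u) := by
  have h1 : ∀ z, N.map φ *ᵥ z ∈ Submodule.span F {φ ∘ u} := fun z => by
    rw [mulVec_eq_sum]
    refine Submodule.sum_mem _ fun i _ => ?_
    obtain ⟨c, hc⟩ := hN (Pi.single i 1)
    rw [mulVec_single_one] at hc
    rw [op_smul_eq_smul, show (N.map φ)ᵀ i = φ ∘ N.col i from rfl, hc, comp_smul, smul_smul]
    exact Submodule.smul_mem _ _ (Submodule.mem_span_singleton_self _)
  obtain ⟨c, hc⟩ := hN y
  obtain ⟨d, hd⟩ := Submodule.mem_span_singleton.1 (h1 (T.1 *ᵥ (τ ∘ φ ∘ y)))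
  have h2 : τ (φ c) ≠ 0 := by simpa using left_ne_zero_of_smul (hc ▸ hy)
  rw [← Cm.apply h, hc, comp_smul, comp_smul, mulVec_smul] at hd
  exact ⟨(τ (φ c))⁻¹ * d, by rw [mul_smul, hd, inv_smul_smul₀ h2]⟩

theorem rigid {u y w₀ : ι → K} (fu fy : (ι → K) →ₗ[K] K) (h1 : fu u = 1) (h2 : fu y = 0)
    (h3 : fy u = 0) (h4 : fy y = 1) (hu : ∃ a : F, T.1 *ᵥ (τ ∘ φ ∘ u) = a • (φ ∘ u))
    (hy : ∃ a : F, T.1 *ᵥ (τ ∘ φ ∘ y) = a • (φ ∘ y))
    (hw : ∀ w, fu w = 0 → fy w = 0 → (∃ E ∈ Cm φ τ T, ∃ l : K, E *ᵥ y = y + w + l • u) ∧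
      ∃ E ∈ Cm φ τ T, ∃ l : K, E *ᵥ u = u + w + l • y)
    (h5 : fu w₀ = 0) (h6 : fy w₀ = 0) (h7 : w₀ ≠ 0) : T ∈ Z ∧ ∀ c, τ (φ c) = φ c := by
  obtain ⟨a, ha⟩ := hu
  obtain ⟨b, hb⟩ := hy
  have ext : ∀ f : (ι → K) →ₗ[K] K, ∃ g : (ι → F) →ₗ[F] F, ∀ v, g (φ ∘ v) = φ (f v) := fun f =>
    ⟨Fintype.linearCombination F fun i => φ (f (Pi.single i 1)), fun v => by
      conv_rhs => rw [pi_eq_sum_univ' v]
      simp [Fintype.linearCombination_apply]⟩
  obtain ⟨gu, hgu⟩ := ext fu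
  obtain ⟨gy, hgy⟩ := ext fy
  have key : ∀ w, fu w = 0 → fy w = 0 → T.1 *ᵥ (τ ∘ φ ∘ w) = a • (φ ∘ w) ∧
      T.1 *ᵥ (τ ∘ φ ∘ w) = b • (φ ∘ w) := fun w hu hy => by
    obtain ⟨⟨E, hE, l, hl⟩, E', hE', l', hl'⟩ := hw w hu hy
    have e1 := Cm.apply hE y
    have e2 := Cm.apply hE' u
    simp only [ha, hb, mulVec_smul, ← comp_mulVec, hl, hl', comp_add, comp_smul, mulVec_add] at e1 e2
    have e3 : T.1 *ᵥ (τ ∘ φ ∘ w) = b • (φ ∘ w) + (b * φ l - τ (φ l) * a) • (φ ∘ u) := by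
      linear_combination (norm := module) e1
    have e4 : T.1 *ᵥ (τ ∘ φ ∘ w) = a • (φ ∘ w) + (a * φ l' - τ (φ l') * b) • (φ ∘ y) := by
      linear_combination (norm := module) e2
    have e5 := congrArg gu (e3.symm.trans e4)
    have e6 := congrArg gy (e3.symm.trans e4)
    simp only [map_add, map_smul, hgu, hgy, h1, h2, h3, h4, hu, hy, map_zero, map_one, smul_zero,
      zero_add, smul_eq_mul, mul_one, mul_zero, add_zero] at e5 e6
    exact ⟨by rw [e4, ← e6, zero_smul, add_zero], by rw [e3, e5, zero_smul, add_zero]⟩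
  have h8 : φ ∘ w₀ ≠ 0 := fun h => h7 (funext fun i => by simpa using congrFun h i)
  obtain rfl : a = b := smul_left_injective F h8 ((key _ h5 h6).1.symm.trans (key _ h5 h6).2)
  have h9 : a • (φ ∘ w₀) ≠ 0 := (key _ h5 h6).1 ▸ Transv.gl_mulVec_ne_zero T fun h =>
    h8 (funext fun i => by simpa using congrFun h i)
  have h10 : ∀ c, τ (φ c) = φ c := fun c => smul_left_injective F h9 (by
    have := (key (c • w₀) (by simp [h5]) (by simp [h6])).1
    simp only [comp_smul, mulVec_smul, (key _ h5 h6).1] at this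
    exact this.trans (smul_comm _ _ _))
  refine ⟨?_, h10⟩
  rw [← AutPSL3.scalars_eq, Geo.mem_scalars_iff]
  refine ⟨Units.mk0 a (left_ne_zero_of_smul h9), Matrix.ext_of_mulVec_single fun i => ?_⟩
  have e : ∀ v : ι → K, T.1 *ᵥ (τ ∘ φ ∘ v) = a • (φ ∘ v) := fun v => by
    rw [show v = fu v • u + fy v • y + (v - fu v • u - fy v • y) by abel]
    simp only [comp_add, comp_smul, mulVec_add, mulVec_smul, ha, hb, h10]
    rw [(key _ (by simp [h1, h2]) (by simp [h3, h4])).1]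
    module
  have := e (Pi.single i 1)
  have h11 : ∀ σ : K →+* F, σ ∘ (Pi.single i 1 : ι → K) = Pi.single i 1 := fun σ =>
    funext fun j => by simp [Pi.single_apply]
  rw [smul_mulVec, one_mulVec]
  exact (congrArg _ (h11 (τ.comp φ)).symm).trans (this.trans (congrArg _ (h11 φ)))

/-- Normal subgroups of `p'`-order modulo scalars consist of scalars. -/
def Nrm (p : ℕ) (L : Subgroup (GL ι K)) : Prop := ∀ M : Subgroup L, M.Normal →
  (∀ m ∈ M, ∃ k : ℕ, k.Coprime p ∧ m.1 ^ k ∈ Z) → ∀ m ∈ M, m.1 ∈ Z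

variable (φ) in
/-- Semilinear maps commuting with the unipotent elements are scalars. -/
def Rig (r : ℕ) (L : Subgroup (GL ι K)) : Prop := ∀ (τ : F →+* F) (T : GL ι F),
  (∀ l ∈ L, l ^ r ^ 2 = 1 → l.1 ∈ Cm φ τ T) → T ∈ Z ∧ ∀ c, τ (φ c) = φ c

theorem nrm_of {L : Subgroup (GL ι K)} (hr : r.Coprime p) (s : GL ι K)
    (hs : ∀ k : ℕ, k.Coprime p → s ^ k ∉ Z) (h : ∀ M : Subgroup L, M.Normal →
      (∀ m ∈ M, m.1 ∈ Z) ∨ ∃ m ∈ M, ∃ z ∈ Z, m.1 * z = s ^ r ^ 2) : Nrm p L :=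
  fun M hM h1 => (h M hM).resolve_right fun ⟨m, h2, z, hz, e⟩ => by
    obtain ⟨k, h3, h4⟩ := h1 _ h2
    refine hs _ ((hr.pow_left 2).mul_left h3) ?_
    rw [pow_mul, ← e, (show Commute _ _ from Subgroup.mem_center_iff.1 hz m.1).mul_pow]
    exact mul_mem h4 (pow_mem hz _)

/-- Diagonal and field automorphisms of a linear or unitary group. -/
structure Dict {P G : Type*} [Group P] [Group G] (ν : G →* GL ι F) (d : G →* MulAut P)
    (f : (F ≃+* F) →* MulAut P) : Prop where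
  eq : ∀ {g h}, d g = d h ↔ ∃ c, ν g = ν h * sc c
  fd : ∀ τ g, ∃ g', f τ * d g = d g' * f τ ∧ ν g' = mp τ.toRingHom (ν g)
  inn : ∀ g, GeneralLinearGroup.det (ν g) = 1 → d g ∈ Inn P
  inn' : Inn P ≤ d.range
  ord : ∀ g τ, orderOf τ ∣ orderOf (d g * f τ)

theorem mem_Z {g : GL ι F} : g ∈ Z ↔ ∃ c, g = sc c := by rw [← AutPSL3.scalars_eq, mem_scalars]

theorem map_mem_Z (φ : K →+* F) {g : GL ι K} : mp φ g ∈ Z ↔ g ∈ Z := by
  rw [← AutPSL3.ker_dA_comp φ, ← AutPSL2.ker_dA]; rfl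

theorem eq_one_of_pow [Fact r.Prime] [CharP F r] {c : Fˣ} (h : c ^ r ^ 2 = 1) : c = 1 :=
  Units.ext (sub_eq_zero.1 (pow_eq_zero_iff (n := r ^ 2) (by simp [NeZero.ne]) |>.1 (by
    rw [sub_pow_char_pow, ← Units.val_pow_eq_pow_val, h]; simp)))

theorem Dict.core {P G : Type*} [Group P] [Finite P] [Group G] {ν : G →* GL ι F}
    {d : G →* MulAut P} {f : (F ≃+* F) →* MulAut P} (D : Dict ν d f) [Nonempty ι] [Fact r.Prime]
    [CharP F r] {A : Subgroup (MulAut P)} {x : MulAut P} (hinn : ∀ k, MulAut.conj k ∈ A)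
    {L : Subgroup (GL ι K)} (y : GL ι F) (θ : L →* G) (hθ : ∀ l, ν (θ l) = y * mp φ l.1 * y⁻¹)
    (h1 : ∀ l, Commute x (d (θ l))) (hn : ∀ g, Commute x (d g) → ∃ k t,
      (∀ l ∈ L, k * l * k⁻¹ ∈ L) ∧ ν g * y = y * (mp φ k * sc t)) (hL : Nrm p L) (hR : Rig φ r L)
    (hτ : ∀ τ : F ≃+* F, (∀ c, τ (φ c) = φ c) → (orderOf τ).Coprime p → τ = 1)
    (hd : ∀ α, (∀ l : L, l ^ r ^ 2 = 1 → Commute α (d (θ l))) → (orderOf α).Coprime p →
      ∃ g τ, α = d g * f τ) :
    pPrimeCore p (A ⊓ Subgroup.centralizer {x} : Subgroup _) = ⊥ := by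
  have h0 : ∀ g, d g = 1 ↔ ν g ∈ Z := fun g => by rw [← map_one d, D.eq, mem_Z]; simp
  have h2 : ∀ l, d (θ l) = 1 ↔ l.1 ∈ Z := fun l => by
    rw [h0, hθ, ← map_mem_Z φ]
    exact ⟨fun h => by simpa [mul_assoc] using Subgroup.Normal.conj_mem inferInstance _ h y⁻¹,
      fun h => Subgroup.Normal.conj_mem inferInstance _ h y⟩
  have hc : ∀ c (g : GL ι F), g * sc c = sc c * g := fun c g =>
    Subgroup.mem_center_iff.1 (mem_Z.2 ⟨c, rfl⟩) g
  refine core_eq_bot2 hinn (d.comp θ) h1 (fun k hk h l => ?_) (fun M hM h l hl => ?_) fun α h hα => ?_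
  · obtain ⟨g, rfl⟩ := D.inn' hk
    obtain ⟨k, t, h3, h4⟩ := hn g h
    refine ⟨⟨_, h3 l l.2⟩, ?_⟩
    rw [MonoidHom.comp_apply, ← map_inv, ← map_mul, ← map_mul]
    refine D.eq.2 ⟨1, ?_⟩
    simp only [map_mul, map_inv, hθ, map_one, mul_one, eq_mul_inv_of_mul_eq h4]
    calc _ = y * mp φ k * (sc t * mp φ l.1) * (sc t)⁻¹ * (mp φ k)⁻¹ * y⁻¹ := by group
      _ = _ := by rw [← hc]; group
  · refine (h2 l).2 (hL M hM (fun m hm => ⟨_, h m hm, (h2 (m ^ _)).1 ?_⟩) l hl)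
    rw [map_pow, map_pow]
    exact pow_orderOf_eq_one _
  · have h3 : ∀ l : L, l ^ r ^ 2 = 1 → Commute α (d (θ l)) := fun l hl => h l (D.inn _
      (eq_one_of_pow (r := r) (by rw [← map_pow, ← map_pow, ← map_pow, hl]; simp)))
    obtain ⟨g, τ, rfl⟩ := hd α h3 hα
    obtain ⟨h4, h5⟩ := hR τ.toRingHom (y⁻¹ * ν g * mp τ.toRingHom y) fun l hl h4 => by
      have h5 := (h3 ⟨l, hl⟩ (Subtype.ext h4)).eq
      obtain ⟨g', h6, h7⟩ := D.fd τ (θ ⟨l, hl⟩)
      rw [mul_assoc, h6, ← mul_assoc, ← mul_assoc, mul_left_inj, ← map_mul, ← map_mul] at h5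
      obtain ⟨c, hc'⟩ := D.eq.1 h5
      simp only [map_mul, h7, hθ, map_inv] at hc'
      generalize mp τ.toRingHom y = z at hc'
      have h8 : y⁻¹ * ν g * z * mp τ.toRingHom (mp φ l) * (y⁻¹ * ν g * z)⁻¹ = mp φ l * sc c := by
        calc _ = y⁻¹ * (ν g * (z * mp τ.toRingHom (mp φ l) * z⁻¹)) * ((ν g)⁻¹ * y) := by group
          _ = mp φ l * (y⁻¹ * ν g * sc c) * ((ν g)⁻¹ * y) := by rw [hc']; group
          _ = _ := by rw [hc]; group
      have h9 := congrArg (· ^ r ^ 2) h8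
      simp only [conj_pow, (show Commute _ _ from hc c (mp φ l)).mul_pow, ← map_pow, h4, map_one,
        mul_one, mul_inv_cancel, one_mul] at h9
      rw [eq_one_of_pow (SLBasic.scalar_injective (h9.symm.trans (map_one _).symm)), map_one,
        mul_one, mul_inv_eq_iff_eq_mul] at h8
      exact congrArg Units.val h8
    obtain rfl := hτ τ h5 (hα.coprime_dvd_left (D.ord g τ))
    rw [map_one, mul_one, h0]
    rw [show mp (RingEquiv.toRingHom 1) y = y from rfl] at h4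
    simpa [mul_assoc] using Subgroup.Normal.conj_mem inferInstance _ h4 y

/-! ### The special linear group -/

theorem rig_SL [Nontrivial ι] [CharP K r] :
    Rig φ r (GeneralLinearGroup.det : GL ι K →* Kˣ).ker := fun τ T h => by
  have h1 : ∀ i j, i ≠ j → ∀ c : K, T.1 * single i j (τ (φ c)) = single i j (φ c) * T.1 :=
    fun i j hij c => by
      have := sub_mem (h (SpecialLinearGroup.toGL (SpecialLinearGroup.transvection hij c))
        (SLBasic.range_toGL_eq_ker.le ⟨_, rfl⟩) (by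
          rw [← map_pow, Transv.transvection_eq, Transv.tv_pow, Transv.tv_eq_one_iff.2 (.inr (by
            simp [pow_two])), map_one])) (one_mem _)
      change T.1 * ((transvection i j c - 1).map φ).map τ = (transvection i j c - 1).map φ * _ at this
      simpa [transvection] using this
  have h2 := AutPSL2.mem_center_of_commute fun i j hij => by simpa using h1 i j hij 1
  refine ⟨h2, fun c => ?_⟩
  obtain ⟨a, rfl⟩ := mem_Z.1 h2
  obtain ⟨i, j, hij⟩ := exists_pair_ne ι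
  simpa [AutPSL3.scalar_coe, mul_comm (φ c)] using congrFun (congrFun (h1 i j hij c) i) j

theorem toGL_mem_Z {s : SpecialLinearGroup ι K} :
    SpecialLinearGroup.toGL s ∈ Z ↔ s ∈ Subgroup.center _ := by
  refine ⟨fun h => Subgroup.mem_center_iff.2 fun g => SpecialLinearGroup.toGL_injective ?_, fun h => ?_⟩
  · rw [map_mul, map_mul, Subgroup.mem_center_iff.1 h]
  · exact AutPSL2.mem_center_of_commute fun i j hij => by
      have := congrArg Subtype.val
        (Subgroup.mem_center_iff.1 h (SpecialLinearGroup.transvection hij 1))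
      change (1 + _) * s.1 = s.1 * (1 + _) at this
      rw [add_mul, mul_add, one_mul, mul_one, add_right_inj] at this
      exact this.symm

open scoped LinearAlgebra.Projectivization in
theorem nrm_SL [Nontrivial ι] [CharP K r] (hr : r.Coprime p) {s : GL ι K}
    (h0 : GeneralLinearGroup.det s = 1) (hs : ∀ k : ℕ, k.Coprime p → s ^ k ∉ Z) :
    Nrm p (GeneralLinearGroup.det : GL ι K →* Kˣ).ker := by
  refine nrm_of hr s hs fun M hM => or_iff_not_imp_left.2 fun h => ?_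
  let π := (QuotientGroup.mk' (Subgroup.center _)).comp (SLBasic.slEquivKer (ι := ι) (R := K)).symm.toMonoidHom
  have hπ : ∀ g, π g = 1 ↔ g.1 ∈ Z := fun g => by
    obtain ⟨g, rfl⟩ := SLBasic.slEquivKer.surjective g
    exact Iff.trans (by simp [π]) toGL_mem_Z.symm
  have := hM.map π ((QuotientGroup.mk'_surjective _).comp SLBasic.slEquivKer.symm.surjective)
  obtain ⟨m, hm, e⟩ := SLBasic.iwasawa.commutator_le (M.map π)
    (fun h1 => h fun m hm => (hπ m).1 (eq_of_smul_eq_smul fun x : ℙ K (ι → K) =>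
      (h1.ge trivial ⟨_, m, hm, rfl⟩).trans (one_smul _ _).symm))
    (AutSp5.pow_mem_commutator (r := r) (fun H hH => eq_top_iff.2 fun g _ => by
      induction g using QuotientGroup.induction_on with | H g =>
      refine (SLBasic.eq_top_of_transvection_mem (H.comap (QuotientGroup.mk' _))
        fun i j hij c => hH _ ?_).ge (Subgroup.mem_top g)
      rw [← map_pow, Transv.transvection_eq, Transv.tv_pow, Transv.tv_eq_one_iff.2 (.inr (by simp)),
        map_one]) (π (⟨s, h0⟩ ^ r)))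
  refine ⟨m, hm, _, (hπ (m⁻¹ * ⟨s, h0⟩ ^ r ^ 2)).1 ?_, by simp⟩
  rw [map_mul, map_inv, e, ← map_pow, ← pow_mul, ← pow_two, inv_mul_cancel]

theorem exists_diag {n : ℕ} (hn : 3 ≤ n) {a : Kˣ} (ha : orderOf a = p) : ∃ v : Fin n → Kˣ,
    (∀ i, v i ∈ Subgroup.zpowers a) ∧ GeneralLinearGroup.det (GLBasic.diagGL v) = 1 ∧
      ∀ k : ℕ, GLBasic.diagGL v ^ k ∈ Subgroup.center _ → p ∣ k := by
  obtain ⟨n, rfl⟩ := Nat.exists_eq_add_of_le' hn
  refine ⟨Fin.cons a (Fin.cons a⁻¹ 1), fun i => ?_, Units.ext (by simp [Fin.prod_univ_succ]),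
    fun k hk => ?_⟩
  · induction i using Fin.cases with
    | zero => simp
    | succ i => induction i using Fin.cases <;> simp
  · obtain ⟨c, hc⟩ := mem_Z.1 hk
    rw [← map_pow] at hc
    have h1 := congrArg (fun g : GL (Fin (n + 3)) K => g.1 0 0) hc
    have h2 := congrArg (fun g : GL (Fin (n + 3)) K => g.1 2 2) hc
    simp only [GLBasic.diagGL_coe, diagonal_apply_eq, AutPSL3.scalar_coe] at h1 h2
    rw [← ha, orderOf_dvd_iff_pow_eq_one]
    exact Units.ext ((h1.trans h2.symm).trans (congrArg Units.val (one_pow k)))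

theorem exists_SL [Finite K] {n : ℕ} (hn : 2 ≤ n) (hp : p.Prime) {k : GL (Fin n) K}
    (hk : ∀ j : ℕ, k ^ j ∈ Subgroup.center _ → p ∣ j) : ∃ s : GL (Fin n) K,
      GeneralLinearGroup.det s = 1 ∧ ∀ j : ℕ, j.Coprime p → s ^ j ∉ Subgroup.center _ := by
  have := Fact.mk hp
  suffices ∃ s : GL (Fin n) K, GeneralLinearGroup.det s = 1 ∧
      ∀ j : ℕ, s ^ j ∈ Subgroup.center _ → p ∣ j from
    this.imp fun s h => ⟨h.1, fun j h1 h2 => hp.coprime_iff_not_dvd.1 h1.symm (h.2 j h2)⟩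
  by_cases h : p ∣ Nat.card Kˣ
  swap
  · exact ⟨k ^ Nat.card Kˣ, by rw [map_pow, pow_card_eq_one'], fun j hj =>
      (hp.dvd_mul.1 (hk _ (by rwa [pow_mul]))).resolve_left h⟩
  obtain ⟨a, ha⟩ := exists_prime_orderOf_dvd_card' p h
  rcases hn.eq_or_lt with rfl | hn
  swap
  · obtain ⟨v, -, h1⟩ := exists_diag hn ha
    exact ⟨_, h1⟩
  rcases hp.eq_two_or_odd' with rfl | h2
  · refine ⟨.mkOfDetNeZero !![0, 1; -1, 0] (by simp), Units.ext (by simp), fun j hj => ?_⟩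
    by_contra h1
    obtain ⟨i, rfl⟩ := Nat.not_even_iff_odd.1 (mt even_iff_two_dvd.1 h1)
    rw [pow_succ, pow_mul, Subgroup.mul_mem_cancel_left _ (pow_mem (mem_Z.2 ⟨-1, Units.ext (by
      ext i j; fin_cases i <;> fin_cases j <;> simp [pow_two])⟩) _)] at hj
    obtain ⟨c, hc⟩ := mem_Z.1 hj
    simpa using congrArg (fun g : GL (Fin 2) K => g.1 0 1) hc
  · refine ⟨GLBasic.diagGL ![a, a⁻¹], Units.ext (by simp), fun j hj => ?_⟩
    obtain ⟨c, hc⟩ := mem_Z.1 hj
    rw [← map_pow] at hc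
    have h1 := congrArg (fun g : GL (Fin 2) K => g.1 0 0) hc
    have h3 := congrArg (fun g : GL (Fin 2) K => g.1 1 1) hc
    simp only [GLBasic.diagGL_coe, diagonal_apply_eq, AutPSL3.scalar_coe] at h1 h3
    have h4 : a ^ j = a⁻¹ ^ j := Units.ext (h1.trans h3.symm)
    refine (Nat.coprime_two_right.2 h2).dvd_of_dvd_mul_right (ha ▸ orderOf_dvd_of_pow_eq_one ?_)
    rw [pow_mul, pow_two]
    nth_rewrite 1 [h4]
    simp

/-! ### Groups of isometries -/

/-- A group of linear maps as a group of matrices. -/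
noncomputable abbrev mat (S : Subgroup ((ι → K) ≃ₗ[K] (ι → K))) : Subgroup (GL ι K) :=
  S.comap (Orth.glEquiv ι K).toMonoidHom

variable {S : Subgroup ((ι → K) ≃ₗ[K] (ι → K))}

/-- The comparison isomorphism. -/
noncomputable def matE (S : Subgroup ((ι → K) ≃ₗ[K] (ι → K))) : mat S ≃* S :=
  ((Orth.glEquiv ι K).subgroupMap _).trans (MulEquiv.subgroupCongr
    (Subgroup.map_comap_eq_self_of_surjective (Orth.glEquiv ι K).surjective _))

theorem matE_apply (g : mat S) (v : ι → K) : (matE S g).1 v = g.1.1 *ᵥ v := rfl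

theorem mem_Z' {g : GL ι K} : g ∈ Z ↔ ∃ c : K, ∀ v, g.1 *ᵥ v = c • v := by
  refine mem_Z.trans ⟨fun ⟨c, h⟩ => ⟨c, fun v => h ▸ scalar_mulVec c v⟩, fun ⟨c, h⟩ => ?_⟩
  rcases isEmpty_or_nonempty ι with hι | hι
  · exact ⟨1, Subsingleton.elim _ _⟩
  have : c ≠ 0 := by
    rintro rfl; exact Transv.gl_mulVec_ne_zero g (one_ne_zero' _) (by simp [h])
  exact ⟨Units.mk0 c this, Units.ext (Orth.mat_ext fun v => by rw [h, scalar_mulVec]; rfl)⟩

theorem nrm_mat (h : ∀ M : Subgroup S, M.Normal → (∀ m ∈ M, ∃ k : ℕ, k.Coprime p ∧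
    ∃ c : K, ∀ v, (m ^ k).1 v = c • v) → ∀ m ∈ M, ∃ c : K, ∀ v, m.1 v = c • v) : Nrm p (mat S) :=
  fun M hM h1 m hm => mem_Z'.2 (h (M.map (matE S).toMonoidHom) (hM.map _ (matE S).surjective) (by
    rintro _ ⟨m, hm, rfl⟩
    exact (h1 m hm).imp fun k hk => ⟨hk.1, by rw [← map_pow]; exact mem_Z'.1 hk.2⟩) _ ⟨m, hm, rfl⟩)

theorem cm_of (h : ∀ l ∈ mat S, l ^ r ^ 2 = 1 → l.1 ∈ Cm φ τ T) (s : S) (hs : s ^ r ^ 2 = 1) :
    ∃ E ∈ Cm φ τ T, ∀ v, E *ᵥ v = s.1 v := by
  obtain ⟨s, rfl⟩ := (matE S).surjective s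
  rw [← map_pow, map_eq_one_iff _ (matE S).injective] at hs
  exact ⟨_, h _ s.2 (congrArg Subtype.val hs), fun _ => rfl⟩

theorem exists_ker (h3 : 3 ≤ Fintype.card ι) (f g : (ι → K) →ₗ[K] K) :
    ∃ w, f w = 0 ∧ g w = 0 ∧ w ≠ 0 := by
  have h1 := (f.prod g).finrank_range_add_finrank_ker
  have h2 := (LinearMap.range (f.prod g)).finrank_le
  obtain ⟨w, h4, h5⟩ := (Submodule.ne_bot_iff (LinearMap.ker (f.prod g))).1 fun h => by
    rw [h] at h1; simp at h1 h2; omega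
  exact ⟨w, congrArg Prod.fst h4, congrArg Prod.snd h4, h5⟩

section Sp

open SpWitt SpSimple

variable {B : LinearMap.BilinForm K (ι → K)} (hB : B.Nondegenerate) (hA : B.IsAlt) [CharP K r]
include hA

theorem tv_pow (v : ι → K) (c : K) : tv hA v c ^ r = 1 := by
  have : ∀ k : ℕ, tv hA v c ^ k = tv hA v (k * c) := fun k => by
    induction k with
    | zero => simp [tv_zero]
    | succ k ih => rw [pow_succ, ih, ← tv_add]; congr 1; push_cast; ring
  simp [this, tv_zero]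

include hB

theorem rig_Sp (h3 : 3 ≤ Fintype.card ι) : Rig φ r (mat (SG B)) := fun τ T h => by
  have : Nonempty ι := Fintype.card_pos_iff.1 (by omega)
  have h1 := fun v c => cm_of h (tv hA v c) (by rw [pow_two, pow_mul, tv_pow, one_pow])
  obtain ⟨y, hy⟩ := exists_one hB hA.isRefl (one_ne_zero' (ι → K))
  generalize (1 : ι → K) = u at hy
  have hy' : B y u = -1 := by rw [← hA.neg_eq, hy]
  have h2 : ∀ u y, B y u ≠ 0 → ∃ a : F, T.1 *ᵥ (τ ∘ φ ∘ u) = a • (φ ∘ u) := fun u y hy => by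
    obtain ⟨E, hE, e⟩ := h1 u 1
    refine Cm.fix (sub_mem hE (one_mem _)) (fun x => ⟨B x u, by simp [sub_mulVec, e, tv_apply]⟩)
      (y := y) ?_
    simp only [sub_mulVec, e, tv_apply, one_mulVec, add_sub_cancel_left, one_mul]
    exact smul_ne_zero hy (by rintro rfl; simp at hy)
  obtain ⟨w, h4, h5, h6⟩ := exists_ker h3 (B.flip y) (B u)
  refine rigid (B.flip y) (B u) hy (hA y) (hA u) hy (h2 u y (by simp [hy'])) (h2 y u (by simp [hy]))
    (fun w hu hw => ⟨?_, ?_⟩) h4 h5 h6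
  · obtain ⟨E, hE, e⟩ := h1 (u + w) (-1)
    exact ⟨E, hE, 1, by
      rw [e, tv_apply, map_add, hy', hA.isRefl _ _ hu]; module⟩
  · obtain ⟨E, hE, e⟩ := h1 (y + w) 1
    exact ⟨E, hE, 1, by rw [e, tv_apply, map_add, hy, hw]; module⟩

theorem nrm_Sp [Nonempty ι] (hr : Odd r) : Nrm 2 (mat (SG B)) := nrm_mat fun M hM h m hm => by
  rcases normal_le_center_or hB hA M with h1 | h1
  · rcases (mem_center_iff hB hA).1 (h1 hm) with rfl | rfl
    exacts [⟨1, fun v => (one_smul _ _).symm⟩, ⟨-1, fun v => (neg_one_smul _ _).symm⟩]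
  obtain ⟨y, hy⟩ := exists_one hB hA.isRefl (one_ne_zero' (ι → K))
  generalize (1 : ι → K) = u at hy
  have hy' : B y u = -1 := by rw [← hA.neg_eq, hy]
  let s := tv hA u 1 * tv hA y 1 * tv hA u 1
  have h2 : ∀ x, s.1 x = x + (B x u - B x y) • u + (B x u + B x y) • y := fun x => by
    simp only [s, SG.mul_apply, tv_apply, map_add, map_smul, LinearMap.add_apply,
      LinearMap.smul_apply, hy, hy', hA.self_eq_zero, smul_eq_mul]
    module
  have h3 : s ^ 4 = 1 := SG.ext fun x => by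
    simp only [pow_succ, pow_zero, one_mul, SG.mul_apply, h2, map_add, map_smul, LinearMap.add_apply,
      LinearMap.smul_apply, hy, hy', hA.self_eq_zero, smul_eq_mul, SG.one_apply]
    module
  obtain ⟨k, h4, c, hc⟩ := h _ (h1 (AutSp5.pow_mem_commutator (r := r) (fun H hH =>
    eq_top_of_tv hB hA H fun v c => hH _ (tv_pow hA v c)) s))
  obtain ⟨j, hj⟩ := hr.mul (Nat.coprime_two_right.1 h4)
  have h5 := congrArg (B u) (hc u)
  rw [← pow_mul, hj, pow_succ', pow_mul] at h5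
  have h6 : ∀ j : ℕ, ((s ^ 2) ^ j).1 u = (-1 : K) ^ j • u := fun j => by
    induction j with
    | zero => simp [SG.one_apply]
    | succ j ih =>
      rw [pow_succ', SG.mul_apply, ih, map_smul, pow_two, SG.mul_apply]
      simp [h2, hy, hy', hA.self_eq_zero, pow_succ]
  rw [SG.mul_apply, h6] at h5
  simp [h2, hy, hA.self_eq_zero] at h5

end Sp

section O

open Orth QuadraticMap GamO

theorem odd_normal_aux {V : Type*} [AddCommGroup V] [Module K V] [FiniteDimensional K V]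
    {Q : QuadraticForm K V} (hQ : ND Q) (h3 : 3 ≤ finrank K V) [CharP K r] (hp2 : Odd r)
    (M : Subgroup (OG Q)) (hM : ∀ u v, ∀ m ∈ M, eich Q u v * m * (eich Q u v)⁻¹ ∈ M)
    (ho : ∀ m ∈ M, ∃ k, Odd k ∧ (m ^ k = 1 ∨ m ^ k = negOne Q)) {g : OG Q} (hg : g ∈ M) {u : V}
    (hu : Q u = 0) : polar Q u (g.1 u) = 0 := by
  by_contra h4
  let H : Subgroup (OG Q) :=
    { carrier := {s | ∃ v, polar Q u v = 0 ∧ s * (eich Q u v)⁻¹ ∈ M}
      one_mem' := ⟨0, by simp, by simp⟩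
      mul_mem' := fun {a b} ⟨v, h5, h6⟩ ⟨w, h7, h8⟩ => ⟨v + w, by simp [h5, h7], by
        rw [← eich_mul hu h5 h7]
        convert mul_mem h6 (hM u v _ h8) using 1
        group⟩
      inv_mem' := fun {a} ⟨v, h5, h6⟩ => ⟨-v, by simp [h5], by
        have := hM u (-v) _ (inv_mem h6)
        rw [← eich_inv hu h5] at this ⊢
        convert this using 1
        group⟩ }
  have h5 : ∀ s ∈ H, s ^ r ∈ M := by
    rintro s ⟨v, h5, h6⟩
    have : ∀ k : ℕ, s ^ k * (eich Q u v ^ k)⁻¹ ∈ M := fun k => by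
      induction k with
      | zero => simp
      | succ k ih =>
        convert mul_mem h6 (hM u v _ ih) using 1
        group
    simpa [eich_pow hu h5] using this r
  let y := (polar Q u (g.1 u))⁻¹ • g.1 u
  have hy : Q y = 0 := by simp [y, q_smul, hu]
  have huy : polar Q u y = 1 := by simp [y, h4]
  haveI : Nontrivial (perp Q (Submodule.span K {u, y})) :=
    Module.nontrivial_of_finrank_pos (R := K) (by have := hQ.finrank_perp_hyp hu hy huy; omega)
  obtain ⟨⟨v, hv⟩, h6⟩ := (hQ.nd_perp_hyp hu hy huy).exists_nonsingular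
  rw [mem_perp_pair] at hv
  replace h6 : Q v ≠ 0 := h6
  have h7 : eich Q u v ∈ H := ⟨v, hv.1, by simp⟩
  have h8 : ∀ w, polar Q y w = 0 → eich Q y w ∈ H := fun w hw => by
    have h8 : polar Q u ((g⁻¹).1 ((polar Q u (g.1 u))⁻¹ • w)) = 0 := by
      rw [OG.polar_inv_right]; simpa [y] using hw
    refine ⟨_, h8, ?_⟩
    rw [eich_smul_left (by simp [hu]) (by simpa [y, h4] using hw), ← OG.apply_inv_self g (_ • w),
      ← eich_conj, OG.inv_apply_self, mul_assoc, mul_assoc, ← mul_assoc (eich _ _ _)]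
    exact mul_mem hg (hM _ _ _ (inv_mem hg))
  have h9 := h5 _ (mul_mem (mul_mem h7 (h8 ((Q v)⁻¹ • v) (by simp [hv.2]))) h7)
  have h10 : polar Q v (Q v • u + y) = 0 := by simp [polar_comm Q v, hv.1, hv.2]
  have h11 : (refl Q v * refl Q (Q v • u + y)) ^ 2 = 1 := by
    have := refl_conj (refl Q v) (Q v • u + y)
    rw [refl_apply_of_orth h10, refl_inv] at this
    rw [pow_two, ← mul_assoc, this, refl_mul_self]
  rw [weyl hu hy huy hv.1 hv.2 h6] at h9
  obtain ⟨k, ⟨k, rfl⟩, hk⟩ := ho _ h9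
  obtain ⟨l, rfl⟩ := hp2
  rw [pow_succ _ (2 * l), pow_mul, h11, one_pow, one_mul, pow_succ, pow_mul, h11, one_pow,
    one_mul] at hk
  have h12 : polar Q u ((refl Q v * refl Q (Q v • u + y)).1 u) ≠ 0 := by
    simp [refl_apply, q_add, q_smul, hu, hy, huy, polar_comm Q v u, polar_comm Q v y,
      polar_comm Q y u, hv.1, hv.2, h6]
  rcases hk with hk | hk <;> simp [hk, hu] at h12

variable [Finite K] {Q : QuadraticForm K (ι → K)} (hQ : ND Q) (h3 : 3 ≤ Fintype.card ι) [CharP K r]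
  (hr : Odd r)
include hQ h3 hr

omit hQ h3 in
theorem two_ne : (2 : K) ≠ 0 := fun h =>
  (CharP.char_is_prime K r |> fun h1 => by
    have := (Nat.prime_dvd_prime_iff_eq h1 Nat.prime_two).1 ((CharP.cast_eq_zero_iff K r 2).1 h)
    rw [this] at hr
    exact absurd hr (by decide))

theorem nrm_O : Nrm 2 (mat (OG Q)) := nrm_mat fun M hM h m hm => by
  have h2 := two_ne (K := K) hr
  have h4 : 3 ≤ finrank K (ι → K) := by simpa
  obtain ⟨e, he0, he⟩ := exists_singular Q h4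
  have ho : ∀ m ∈ M, ∃ k, Odd k ∧ (m ^ k = 1 ∨ m ^ k = negOne Q) := fun m hm =>
    (h m hm).imp fun k ⟨h5, c, hc⟩ => ⟨Nat.coprime_two_right.1 h5, hQ.one_or_negOne h4 he0 he _
      fun u _ _ => Submodule.mem_span_singleton.2 ⟨c, (hc u).symm⟩⟩
  suffices m = 1 ∨ m = negOne Q by
    rcases this with rfl | rfl
    exacts [⟨1, fun v => (one_smul _ _).symm⟩, ⟨-1, fun v => (neg_one_smul _ _).symm⟩]
  rcases h4.eq_or_lt with h5 | h5
  · exact odd_normal hQ h2 (.inr (.inl h5.symm)) M (fun _ _ _ h => hM.conj_mem _ h _) ho hm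
  refine (hQ.mem_center_iff h4 m).1 (Subgroup.mem_center_iff.2 fun g => ?_)
  refine (hQ.top_of_refl (good_of_two_ne_zero h2) (Subgroup.centralizer {m}) fun v hv => ?_).ge
    (Subgroup.mem_top g) m rfl |>.symm
  have hw : Q (m.1 v) ≠ 0 := by rwa [OG.map_Q]
  have h6 : refl Q (m.1 v) * refl Q v ∈ M := by
    rw [← refl_conj, mul_assoc, mul_assoc]
    simpa [mul_assoc] using mul_mem hm (hM.conj_mem _ (inv_mem hm) (refl Q v))
  have hW := span_inf_perp_of_nonsingular h2 hw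
  have h7 := hQ.finrank_perp_singleton (ne_zero_of_Q_ne_zero hw)
  obtain ⟨f, hf0, hf⟩ := exists_singular (Q.restrict (perp Q (Submodule.span K {m.1 v}))) (by omega)
  have h8 := (hQ.nd_perp hW).singular_induction hf0 hf (fun u => polar Q v u.1 = 0) (fun u hu => by
    have h8 := odd_normal_aux hQ h4 hr M (fun _ _ _ h => hM.conj_mem _ h _) ho h6 (u := u.1) hu
    have h9 : polar Q u.1 (m.1 v) = 0 := by
      rw [polar_comm]; exact u.2 _ (Submodule.mem_span_singleton_self _)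
    have h10 : Q u.1 = 0 := hu
    simpa [refl_apply, h9, h10, hv, polar_comm Q u.1 v] using h8) fun a b ha hb => by simp [ha, hb]
  have h9 : v ∈ Submodule.span K {m.1 v} := by
    rw [← hQ.perp_perp (Submodule.span K {m.1 v})]
    exact fun u hu => (polar_comm _ _ _).trans (h8 ⟨u, hu⟩)
  obtain ⟨c, hc⟩ := Submodule.mem_span_singleton.1 h9
  rw [Subgroup.mem_centralizer_singleton_iff, eq_comm, ← mul_inv_eq_iff_eq_mul, refl_conj,
    ← refl_smul (left_ne_zero_of_smul (hc ▸ ne_zero_of_Q_ne_zero hv)), hc]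

theorem rig_O : Rig φ r (mat (OG Q)) := fun τ T h => by
  have h2 := two_ne (K := K) hr
  have h4 : 3 ≤ finrank K (ι → K) := by simpa
  have h1 := fun u v (hu : Q u = 0) (huv : polar Q u v = 0) => cm_of h (eich Q u v) (by
    rw [eich_pow hu huv]; simp [pow_two])
  obtain ⟨u, hu0, hu⟩ := exists_singular Q h4
  obtain ⟨y, huy, hy⟩ := hQ.exists_hyp hu0 hu
  have hyu : polar Q y u = 1 := by rw [polar_comm, huy]
  haveI : Nontrivial (perp Q (Submodule.span K {u, y})) :=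
    Module.nontrivial_of_finrank_pos (R := K) (by have := hQ.finrank_perp_hyp hu hy huy; omega)
  obtain ⟨⟨v, hv⟩, h6⟩ := (hQ.nd_perp_hyp hu hy huy).exists_nonsingular
  rw [mem_perp_pair] at hv
  replace h6 : Q v ≠ 0 := h6
  have h5 : ∀ u y, Q u = 0 → polar Q u y = 1 → polar Q u v = 0 →
      ∃ a : F, T.1 *ᵥ (τ ∘ φ ∘ u) = a • (φ ∘ u) := fun u y hu huy huv => by
    obtain ⟨E, hE, e⟩ := h1 u v hu huv
    have h7 : ∀ x, ((E - 1) * (E - 1)) *ᵥ x = (-(2 * Q v * polar Q u x)) • u := fun x => by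
      simp [← mulVec_mulVec, sub_mulVec, e, eich_apply hu huv, hu, huv, polar_comm Q v u]
      module
    refine Cm.fix (mul_mem (sub_mem hE (one_mem _)) (sub_mem hE (one_mem _))) (fun x => ⟨_, h7 x⟩)
      (y := y) ?_
    rw [h7]
    exact smul_ne_zero (by simp [huy, h2, h6]) (by rintro rfl; simp at huy)
  have h7 : ∀ u y w, Q u = 0 → polar Q u y = 1 → polar Q u w = 0 → polar Q y w = 0 →
      ∃ E ∈ Cm φ τ T, ∃ l : K, E *ᵥ y = y + w + l • u := fun u y w hu huy huw hyw => by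
    obtain ⟨E, hE, e⟩ := h1 u (-w) hu (by simp [huw])
    exact ⟨E, hE, -Q w, by
      simp [e, eich_apply hu (show polar Q u (-w) = 0 by simp [huw]), huy, polar_comm Q w y, hyw]
      module⟩
  exact rigid (Q.polarBilin y) (Q.polarBilin u) hyu (by simp [hy]) (by simp [hu]) huy
    (h5 u y hu huy hv.1) (h5 y u hy hyu hv.2)
    (fun w h8 h9 => ⟨h7 u y w hu huy h9 h8, h7 y u w hy hyu h8 h9⟩) hv.2 hv.1
    (ne_zero_of_Q_ne_zero h6)

end O

theorem nrm_rig_SG [Finite K] {B : LinearMap.BilinForm K (ι → K)} (hB : EF B)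
    (h3 : 3 ≤ Fintype.card ι) [CharP K r] (hr : Odd r) :
    Nrm 2 (mat (SpWitt.SG B)) ∧ Rig φ r (mat (SpWitt.SG B)) := by
  have : Nonempty ι := Fintype.card_pos_iff.1 (by omega)
  have h2 := two_ne (K := K) hr
  rcases hB.sy with h | h
  · have h1 : Eqv B (LinearMap.BilinMap.toQuadraticMap B).polarBilin :=
      ⟨LinearEquiv.refl _ _, Units.mk0 2 h2, fun u v => by
        simp [LinearMap.BilinMap.polar_toQuadraticMap, h v u, two_mul]⟩
    have h4 : SpWitt.SG B = Orth.OG (LinearMap.BilinMap.toQuadraticMap B) := by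
      rw [← SG_polar h2]
      refine Subgroup.ext fun g => forall₂_congr fun u v => ?_
      simp only [QuadraticMap.polarBilin_apply_apply, LinearMap.BilinMap.polar_toQuadraticMap,
        h v u, h (g v) (g u), ← two_mul, mul_right_inj' h2]
    rw [h4]
    exact ⟨nrm_O (h1.symm.ef hB).nd h3 hr, rig_O (h1.symm.ef hB).nd h3 hr⟩
  · have hA : B.IsAlt := fun x => mul_left_cancel₀ h2 (by linear_combination h x x)
    exact ⟨nrm_Sp hB.nondeg hA hr, rig_Sp hB.nondeg hA h3⟩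

section U

open Herm

variable {σ : K →+* K} {B : (ι → K) →ₛₗ[σ] (ι → K) →ₗ[K] K} (hB : HF B) [Fact r.Prime] [CharP K r]
include hB

theorem eich_pow (u v : ι → K) (l : K) : hB.eich u v l ^ r ^ 2 = 1 := by
  by_cases h : B u u = 0 ∧ B u v = 0 ∧ l + σ l = B v v
  swap
  · rw [hB.eich_of_not h, one_pow]
  obtain ⟨hu, huv, hl⟩ := h
  let N : Module.End K (ι → K) := (hB.eich u v l).1.toLinearMap - 1
  have h1 : N ^ 3 = 0 := LinearMap.ext fun x => by
    simp [N, pow_succ, hB.eich_apply hu huv hl, hu, huv, hB.zero_symm huv]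
  have h2 : (1 + N) ^ r ^ 2 = 1 := by
    have : Nontrivial (ι → K) ∨ Subsingleton (ι → K) := (subsingleton_or_nontrivial _).symm
    rcases this with h | h
    · have : CharP (Module.End K (ι → K)) r := charP_of_injective_algebraMap
        (algebraMap K _).injective r
      rw [add_pow_char_pow_of_commute _ _ (Commute.one_left N), one_pow,
        pow_eq_zero_of_le (by nlinarith [(Fact.out : r.Prime).two_le]) h1, add_zero]
    · exact Subsingleton.elim _ _
  refine UG.ext fun x => ?_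
  have := LinearMap.congr_fun h2 x
  rw [add_sub_cancel] at this
  exact (LinearMap.congr_fun (map_pow (LinearEquiv.automorphismGroup.toLinearMapMonoidHom.comp
    (UG B).subtype) _ _) x).trans this

variable [Finite K]

theorem rig_U (h3 : 3 ≤ Fintype.card ι) : Rig φ r (mat (UG B)) := fun τ T h => by
  have h1 := fun u v l => cm_of h (hB.eich u v l) (eich_pow hB u v l)
  obtain ⟨u, y, hu, hy, huy⟩ := hB.exists_hyp_pair (by simp; omega)
  have hyu := hB.one_symm huy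
  obtain ⟨c, hc0, hc⟩ := hB.exists_skew
  have h5 : ∀ u y, B u u = 0 → B u y = 1 →
      ∃ a : F, T.1 *ᵥ (τ ∘ φ ∘ u) = a • (φ ∘ u) := fun u y hu huy => by
    obtain ⟨E, hE, e⟩ := h1 u 0 c
    have h7 : ∀ x, (E - 1) *ᵥ x = (-(c * B u x)) • u := fun x => by
      simp [sub_mulVec, e, hB.eich_apply hu (map_zero _) (by simpa using hc)]
    refine Cm.fix (sub_mem hE (one_mem _)) (fun x => ⟨_, h7 x⟩) (y := y) ?_
    rw [h7]
    exact smul_ne_zero (by simp [huy, hc0]) (ne_zero_of_b (huy ▸ one_ne_zero))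
  have h7 : ∀ u y w, B u u = 0 → B u y = 1 → B u w = 0 → B y w = 0 →
      ∃ E ∈ Cm φ τ T, ∃ l : K, E *ᵥ y = y + w + l • u := fun u y w hu huy huw hyw => by
    obtain ⟨l, hl⟩ := hB.exists_trace (hB.fix (-w))
    obtain ⟨E, hE, e⟩ := h1 u (-w) l
    exact ⟨E, hE, -l, by
      simp [e, hB.eich_apply hu (show B u (-w) = 0 by simp [huw]) hl, huy, hB.zero_symm hyw]
      module⟩
  obtain ⟨w, h4, h6, h8⟩ := exists_ker h3 (B y) (B u)
  exact rigid (B y) (B u) hyu hy hu huy (h5 u y hu huy) (h5 y u hy hyu)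
    (fun w h8 h9 => ⟨h7 u y w hu huy h9 h8, h7 y u w hy hyu h8 h9⟩) h4 h6 h8

theorem nrm_U (h3 : 2 ≤ Fintype.card ι) (hr : r.Coprime p) {s : GL ι K} (h1 : s ∈ mat (UG B))
    (h0 : GeneralLinearGroup.det s = 1) (hs : ∀ k : ℕ, k.Coprime p → s ^ k ∉ Z) :
    Nrm p (mat (UG B)) := by
  refine nrm_of hr s hs fun M hM => ?_
  have hM' := hM.map (matE (UG B)).toMonoidHom (matE (UG B)).surjective
  have hn : 2 ≤ finrank K (ι → K) := by simpa
  refine (hB.scalar_or_trans hn (M.map (matE _).toMonoidHom) fun _ _ _ _ h =>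
    hM'.conj_mem _ h _).imp (fun h m hm => ?_) fun h => ?_
  · obtain ⟨a, ha⟩ := h _ ⟨m, hm, rfl⟩
    exact mem_Z'.2 ⟨a.1, fun v => (congrArg (fun g : UG B => g.1 v) ha :)⟩
  obtain ⟨e, he0, he⟩ := hB.exists_isotropic hn
  let U : Subgroup (UG B) :=
    { carrier := {g | ∃ v l, B e v = 0 ∧ l + σ l = B v v ∧ g = hB.eich e v l}
      one_mem' := ⟨0, 0, by simp, by simp, by simp [hB.eich_zero he]⟩
      mul_mem' := by
        rintro _ _ ⟨v, l, h1, h2, rfl⟩ ⟨w, m, h3, h4, rfl⟩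
        exact ⟨_, _, by simp [h1, h3], hB.trace_add h2 h4, hB.eich_mul he h1 h2 h3 h4⟩
      inv_mem' := by
        rintro _ ⟨v, l, h1, h2, rfl⟩
        exact ⟨_, _, by simp [h1], by simp [hB.invol, ← h2, add_comm], hB.eich_inv he h1 h2⟩ }
  have h2 : hB.eichGroup ≤ M.map (matE _).toMonoidHom ⊔ U := (Subgroup.closure_le _).2 (by
    rintro _ ⟨u, v, l, rfl⟩
    by_cases h4 : B u u = 0 ∧ B u v = 0 ∧ l + σ l = B v v
    swap
    · rw [hB.eich_of_not h4]; exact one_mem _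
    by_cases hu0 : u = 0
    · rw [hu0, hB.eich_zero_left]; exact one_mem _
    obtain ⟨g, hg, c, hc, e1⟩ := h u e hu0 h4.1 he0 he
    have h5 : B e (g.1 v) = 0 := by
      have := UG.map_b g u v
      rw [e1, b_smul_left, h4.2.1] at this
      simpa [hc] using this
    have h6 := hB.eich_conj g u v l
    rw [e1, hB.eich_smul_left he h5 (by simp [h4.2.2]), mul_inv_eq_iff_eq_mul,
      ← eq_inv_mul_iff_mul_eq] at h6
    rw [h6]
    refine mul_mem (Subgroup.mem_sup_left (inv_mem hg)) (mul_mem (Subgroup.mem_sup_right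
      ⟨_, _, by simp [h5], ?_, rfl⟩) (Subgroup.mem_sup_left hg))
    simp [hB.invol, ← h4.2.2]
    ring)
  rw [hB.eichGroup_eq hn] at h2
  obtain ⟨m, hm, _, ⟨v, l, -, -, rfl⟩, e1⟩ := Subgroup.mem_sup_of_normal_left.1
    (h2 (show matE _ ⟨s, h1⟩ ∈ SUG B from by
      rw [mem_SUG, detU_apply]
      exact (LinearMap.det_toLin' s.1).trans (congrArg Units.val h0)))
  obtain ⟨m', hm', e2⟩ : matE _ ⟨s, h1⟩ ^ r ^ 2 ∈ M.map (matE _).toMonoidHom := by
    rw [← QuotientGroup.eq_one_iff, QuotientGroup.mk_pow, ← e1, QuotientGroup.mk_mul,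
      (QuotientGroup.eq_one_iff m).2 hm, one_mul, ← QuotientGroup.mk_pow, eich_pow hB]
    rfl
  exact ⟨m', hm', 1, one_mem _, by
    rw [mul_one, (matE _).injective (e2.trans (map_pow _ _ _).symm)]; rfl⟩

end U

end Cfsg.Agent.Classical.Bal
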