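import Mathlib
import Cfsg.Agent.Classical.Bal2

/-! Local balance for outer automorphisms of `PSL_n(q)` and `PSU_n(q)`. -/

set_option autoImplicit false
set_option backward.isDefEq.respectTransparency false

namespace Cfsg.Agent.Classical.Bal

open Matrix Module Cfsg.Agent.Classical.Balance Cfsg.Agent.Classical.GrF Herm

section General

variable {P : Type*} [Group P] {x : MulAut P} {p : ℕ}

/-- The `p'`-core of the centraliser is trivial in every overgroup of the inner automorphisms. -/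
def Bot (p : ℕ) (x : MulAut P) : Prop := ∀ A : Subgroup (MulAut P), (∀ k, MulAut.conj k ∈ A) →
  pPrimeCore p (A ⊓ Subgroup.centralizer {x} : Subgroup _) = ⊥

/-- The balance criterion. -/
def Crit (p : ℕ) (x : MulAut P) : Prop :=
  (∃ k ≠ 1, x k = k) ∧ ((∃ k, x k = k ∧ orderOf k = p) → Bot p x)

theorem Bot.conj {D : Subgroup (MulAut P)} {y : MulAut P} (h : Bot p x) (e : IsConjUnder D x y) :
    Bot p y := fun A hA => by
  obtain ⟨α, -, rfl⟩ := SplitCount.IsConjUnder.symm e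
  exact core_eq_bot_conj α (h _ (inn_map hA α))

theorem Crit.iff [Finite P] (hp : p.Prime) (hinj : Function.Injective (MulAut.conj : P →* _))
    {D A : Subgroup (MulAut P)} {y : MulAut P} (h : Crit p x) (e : IsConjUnder D x y)
    (hA : ∀ k, MulAut.conj k ∈ A) :
    pPrimeCore p (A ⊓ Subgroup.centralizer {y} : Subgroup _) ≠ ⊥ ↔
      p.Coprime (Nat.card (y.toMonoidHom.eqLocus (MonoidHom.id P))) := by
  refine ⟨fun h1 => by_contra fun h2 => h1 ?_, fun h1 => ?_⟩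
  · obtain ⟨α, -, h3⟩ := SplitCount.IsConjUnder.symm e
    exact (h.2 (h3 ▸ exists_fix_orderOf hp α h2)).conj e A hA
  · obtain ⟨⟨k, h2, h3⟩, -⟩ := h
    obtain ⟨α, -, rfl⟩ := e
    exact core_ne_bot hinj hA (k := α k) (by simp [h3]) (by simpa) h1

end General

variable {ι : Type} [Fintype ι] [DecidableEq ι] {K F : Type*} [Field K] [Field F] {φ : K →+* F}
  {r p : ℕ}

local notation "sc" => GeneralLinearGroup.scalar _
local notation "mp" => GeneralLinearGroup.map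
local notation "Z" => Subgroup.center (GL _ _)

theorem Dict.crit {P G : Type*} [Group P] [Finite P] [Group G] {ν : G →* GL ι F}
    {d : G →* MulAut P} {f : (F ≃+* F) →* MulAut P} (D : Dict ν d f) [Nontrivial ι] [Fact r.Prime]
    [CharP F r] (hinj : Function.Injective (MulAut.conj : P →* _)) {x : MulAut P}
    {L N : Subgroup (GL ι K)} (y : GL ι F) (θ : L →* G) (hθ : ∀ l, ν (θ l) = y * mp φ l.1 * y⁻¹)
    (h1 : ∀ l, Commute x (d (θ l))) (hn : ∀ g, Commute x (d g) → ∃ k ∈ N, ∃ t,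
      ν g * y = y * (mp φ k * sc t)) (hN : ∀ k ∈ N, ∀ l ∈ L, k * l * k⁻¹ ∈ L) (hR : Rig φ r L)
    (hτ : ∀ τ : F ≃+* F, (∀ c, τ (φ c) = φ c) → (orderOf τ).Coprime p → τ = 1)
    (hd : ∀ α, (∀ l : L, l ^ r ^ 2 = 1 → Commute α (d (θ l))) → (orderOf α).Coprime p →
      ∃ g τ, α = d g * f τ) : (Nrm p L → Bot p x) ∧
      ((∀ k ∈ N, (∀ j : ℕ, k ^ j ∈ Z → p ∣ j) → Nrm p L) → Crit p x) := by
  have h0 : ∀ g, d g = 1 ↔ ν g ∈ Z := fun g => by rw [← map_one d, D.eq, mem_Z]; simp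
  have h2 : Nrm p L → Bot p x := fun hL A hA => D.core hA y θ hθ h1 (fun g hg =>
    let ⟨k, hk, t, e⟩ := hn g hg; ⟨k, t, hN k hk, e⟩) hL hR hτ hd
  refine ⟨h2, fun h => ⟨?_, fun ⟨k, h3, h4⟩ => h2 ?_⟩⟩
  · by_contra! h3
    obtain ⟨i, j, hij⟩ := exists_pair_ne ι
    obtain ⟨c, hc⟩ := mem_Z.1 (hR (.id F) (SpecialLinearGroup.toGL
      (SpecialLinearGroup.transvection hij 1)) fun l hl h4 => by
        obtain ⟨k, hk⟩ := D.inn (θ ⟨l, hl⟩) (eq_one_of_pow (r := r) (by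
          rw [← map_pow, ← map_pow, ← map_pow, show (⟨l, hl⟩ : L) ^ r ^ 2 = 1 from Subtype.ext h4]
          simp))
        have h5 : k = 1 := by_contra fun h5 => h3 k h5 (fix_of_conj_mem hinj
          (Subgroup.mem_centralizer_singleton_iff.2 (hk ▸ (h1 _).symm)))
        rw [h5, map_one, eq_comm, h0, hθ] at hk
        have h6 : mp φ l ∈ Z := by
          simpa [mul_assoc] using Subgroup.Normal.conj_mem inferInstance _ hk y⁻¹
        exact congrArg Units.val (Subgroup.mem_center_iff.1 h6 _)).1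
    simpa [SpecialLinearGroup.transvection, transvection, hij] using congrArg (fun g : GL ι F => g.1 i j) hc
  · obtain ⟨g, hg⟩ := D.inn' ⟨k, rfl⟩
    obtain ⟨k', h5, t, e⟩ := hn g (hg ▸ (Subgroup.mem_centralizer_singleton_iff.1
      (conj_mem_of_fix h3)).symm)
    refine h k' h5 fun j hj => ?_
    rw [← h4, ← orderOf_injective _ hinj, ← hg, orderOf_dvd_iff_pow_eq_one, ← map_pow, h0, map_pow,
      eq_mul_inv_of_mul_eq e, conj_pow,
      (show Commute _ _ from Subgroup.mem_center_iff.1 (mem_Z.2 ⟨t, rfl⟩) (mp φ k')).mul_pow,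
      ← map_pow]
    exact Subgroup.Normal.conj_mem inferInstance _ (mul_mem ((map_mem_Z φ).2 hj)
      (pow_mem (mem_Z.2 ⟨t, rfl⟩) _)) y

theorem eq_one_of_fix [Finite F] {σ : F ≃+* F} (hφ : ∀ c, σ c = c ↔ ∃ d, φ d = c)
    (hσ : orderOf σ = p) (τ : F ≃+* F) (h : ∀ c, τ (φ c) = φ c) (h1 : (orderOf τ).Coprime p) :
    τ = 1 := orderOf_eq_one_iff.1 (h1.eq_one_of_dvd (hσ ▸ AutSp5.orderOf_dvd_of_fix fun a ha => by
      obtain ⟨d, rfl⟩ := (hφ a).1 ha; exact h d))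

theorem sim_norm (B : LinearMap.BilinForm K (ι → K)) : ∀ k ∈ sim B, ∀ l ∈ mat (SpWitt.SG B),
    k * l * k⁻¹ ∈ mat (SpWitt.SG B) := fun k ⟨c, hc⟩ l hl u v => by
  change B ((k * l * k⁻¹).1 *ᵥ u) ((k * l * k⁻¹).1 *ᵥ v) = _
  have h1 : ∀ u v, B (l.1 *ᵥ u) (l.1 *ᵥ v) = B u v := hl
  simp only [Units.val_mul, ← mulVec_mulVec, hc, h1]
  rw [← hc]
  simp

section U

variable {n q : ℕ} [Finite K] (hK : Nat.card K = q ^ 2) [Fact r.Prime] [CharP K r]
include hK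

omit [Fact r.Prime] [CharP K r] in
theorem GU_eq : GU n K q = mat (UG (sB hK n)) := Subgroup.ext (mem_GU hK)

theorem rig_GU (hn : 3 ≤ n) : Rig φ r (GU n K q) := GU_eq hK ▸ rig_U (hf_sB hK n) (by simpa)

theorem nrm_GU (hn : 3 ≤ n) (hp : p.Prime) (hr : r.Coprime p) (h : p ∣ q + 1 ∨ ∃ k ∈ GU n K q,
    ∀ j : ℕ, k ^ j ∈ Z → p ∣ j) : Nrm p (GU n K q) := by
  have := Fact.mk hp
  suffices ∃ s ∈ GU n K q, GeneralLinearGroup.det s = 1 ∧ ∀ j : ℕ, s ^ j ∈ Z → p ∣ j by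
    obtain ⟨s, h1, h2, h3⟩ := this
    rw [GU_eq hK] at h1 ⊢
    exact nrm_U (hf_sB hK n) (by simp; omega) hr h1 h2
      fun j h4 h5 => hp.coprime_iff_not_dvd.1 h4.symm (h3 j h5)
  have h0 := (inv_frob hK).card_normOne hK
  by_cases h1 : p ∣ q + 1
  · obtain ⟨a, ha⟩ := exists_prime_orderOf_dvd_card' (G := normOne (frob hK)) p (h0 ▸ h1)
    obtain ⟨v, h2, h3⟩ := exists_diag hn ((Subgroup.orderOf_coe a).trans ha)
    refine ⟨_, (mem_GU_iff hK _).2 ?_, h3⟩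
    have h4 : ∀ i, frob hK (v i) * v i = 1 := fun i => (Subgroup.zpowers_le.2 a.2 (h2 i) :)
    simp [ct_apply, h4]
  · obtain ⟨k, hk, h⟩ := h.resolve_left h1
    refine ⟨k ^ (q + 1), pow_mem hk _, ?_, fun j hj =>
      (hp.dvd_mul.1 (h _ (by rwa [pow_mul]))).resolve_left h1⟩
    rw [map_pow, ← h0]
    exact congrArg Subtype.val (pow_card_eq_one' (x := AutU.detN hK ⟨k, hk⟩))

end U

section L

open AutPSL AutPSL2 AutPSL3

theorem dictL [Nontrivial ι] [Finite F] : Dict (.id _) (dA : GL ι F →* _) (fA ι) where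
  eq := dA_eq_dA_iff
  fd τ g := ⟨_, fA_mul_dA τ g, rfl⟩
  inn g h := dA_mem_inn_iff.2 ⟨1, by rw [one_pow]; exact h⟩
  inn' := inn_le
  ord g τ := orderOf_dvd_of_pow_eq_one (eq_one_of_dA_mul_fA
    ((pow_dA_mul_fA g τ _).symm.trans (pow_orderOf_eq_one _))).2

theorem conj_injL : Function.Injective (MulAut.conj : ProjectiveSpecialLinearGroup ι F →* _) :=
  (injective_iff_map_eq_one _).2 fun x h => by
    induction x using QuotientGroup.induction_on with | H s =>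
    exact (QuotientGroup.eq_one_iff _).2 (toGL_mem_Z.1 (dA_eq_one_iff.1 ((dA_toGL s).trans h)))

variable [Finite F] {n : ℕ} [Fact r.Prime] [CharP F r]

theorem crit_fA (hn : 2 ≤ n) (hp : p.Prime) (hr : r.Coprime p) {σ : F ≃+* F} (hσ : orderOf σ = p) :
    Crit p (fA (Fin n) σ) := by
  have : Nontrivial (Fin n) := Fin.nontrivial_iff_two_le.2 hn
  have h0 := inf_centralizer_fA (ι := Fin n) σ
  refine (dictL.crit (r := r) (φ := (fixF σ.toRingHom).subtype) conj_injL (N := ⊤) 1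
    ((mp _).comp (GeneralLinearGroup.det.ker.subtype)) (by simp) (fun l => (Subgroup.mem_centralizer_singleton_iff.1
      (h0.ge ⟨l.1, rfl⟩).2).symm) (fun g hg => ?_) (fun k _ l hl => Subgroup.Normal.conj_mem
      inferInstance _ hl _) rig_SL (eq_one_of_fix (fun c => ⟨fun h => ⟨⟨c, h⟩, rfl⟩, ?_⟩) hσ)
      fun α h _ => ?_).2 fun k _ h => ?_
  · obtain ⟨k, hk⟩ := h0.le ⟨⟨g, rfl⟩, Subgroup.mem_centralizer_singleton_iff.2 hg.symm⟩
    obtain ⟨t, e⟩ := dA_eq_dA_iff.1 hk.symm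
    exact ⟨k, trivial, t, by simpa using e⟩
  · rintro ⟨d, rfl⟩; exact d.2
  · obtain ⟨g, τ, rfl | rfl⟩ := exists_decomp hn α
    · exact ⟨g, τ, rfl⟩
    rcases hn.eq_or_lt with rfl | h3
    · obtain ⟨w, hw⟩ := exists_gA_eq_dA (F := F)
      exact ⟨_, τ, by rw [hw, mul_assoc, fA_mul_dA, ← mul_assoc, ← map_mul]⟩
    refine (not_fix_gA (by simpa) g τ fun i j hij => fix_of_conj_mem conj_injL ?_).elim
    have := h ⟨SpecialLinearGroup.toGL (SpecialLinearGroup.transvection hij 1),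
      SLBasic.range_toGL_eq_ker.le ⟨_, rfl⟩⟩ (Subtype.ext (by
        rw [Subgroup.coe_pow, ← map_pow, Transv.transvection_eq, Transv.tv_pow,
          Transv.tv_eq_one_iff.2 (.inr (by simp [pow_two])), map_one]; rfl))
    rw [Subgroup.mem_centralizer_singleton_iff, ← dA_toGL]
    convert this.symm.eq using 3 <;>
      exact Units.ext (by
        ext
        simp [SpecialLinearGroup.transvection, transvection, one_apply, single_apply,
          apply_ite Subtype.val])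
  · obtain ⟨s, h1, h2⟩ := exists_SL hn hp h
    exact nrm_SL hr h1 h2

theorem decomp_odd (hn : 3 ≤ n) {α : MulAut (ProjectiveSpecialLinearGroup (Fin n) F)}
    (h : (orderOf α).Coprime 2) : ∃ g τ, α = dA g * fA _ τ := by
  obtain ⟨g, τ, rfl | rfl⟩ := exists_decomp (by omega) α
  · exact ⟨g, τ, rfl⟩
  obtain ⟨ρ, h1, h2, h3⟩ := exists_hom_three (F := F) hn
  have h4 := h.coprime_dvd_left (orderOf_map_dvd ((MonoidHom.snd _ _).comp ρ) _)
  rw [MonoidHom.comp_apply, map_mul ρ, map_mul ρ, h1.ge ⟨g, rfl⟩, h2, h3] at h4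
  simp only [one_mul, Prod.mk_mul_mk, MonoidHom.coe_snd] at h4
  exact absurd h4 (by rw [orderOf_eq_prime (p := 2) (by decide) (by decide)]; decide)

theorem bot_gA (hn : 3 ≤ n) (hr : Odd r) {g : GL (Fin n) F} {σ : F ≃+* F}
    (h : (dA g * (fA _ σ * gA _ F)) ^ 2 = 1) : Bot 2 (dA g * (fA _ σ * gA _ F)) := by
  have : Nontrivial (Fin n) := Fin.nontrivial_iff_two_le.2 (by omega)
  have hτ : ∀ τ : F ≃+* F, (∀ c, τ (RingHom.id F c) = RingHom.id F c) →
    (orderOf τ).Coprime 2 → τ = 1 := fun τ h _ => RingEquiv.ext h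
  have hθ : ∀ (L : Subgroup (GL (Fin n) F)) (l : L),
    MonoidHom.id _ (L.subtype l) = 1 * mp (RingHom.id F) l.1 * 1⁻¹ := by simp
  have key : ∀ {x} {L N : Subgroup (GL (Fin n) F)}, L ≤ N → (dA : GL (Fin n) F →* _).range ⊓
      Subgroup.centralizer {x} = (dA.comp N.subtype).range → (∀ k ∈ N, ∀ l ∈ L, k * l * k⁻¹ ∈ L) →
      Rig (.id F) r L → Nrm 2 L → Bot 2 x := fun {x L N} h1 h0 h2 h3 =>
    (dictL.crit conj_injL 1 _ (hθ L) (fun l => (Subgroup.mem_centralizer_singleton_iff.1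
      (h0.ge ⟨⟨l.1, h1 l.2⟩, rfl⟩).2).symm) (fun g hg => by
        obtain ⟨k, hk⟩ := h0.le ⟨⟨g, rfl⟩, Subgroup.mem_centralizer_singleton_iff.2 hg.symm⟩
        obtain ⟨t, e⟩ := dA_eq_dA_iff.1 hk.symm
        exact ⟨k, k.2, t, by simpa using e⟩) h2 h3 hτ fun α _ => decomp_odd hn).1
  by_cases h1 : σ = 1
  · rw [h1, map_one, one_mul, ← inv_inv g] at h ⊢
    obtain ⟨c, hc⟩ := sq_dA_gA_iff.1 h
    obtain ⟨h2, h3⟩ := nrm_rig_SG (φ := .id F) (ef_of hc) (by simpa) hr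
    refine key (fun l hl => ?_) (inf_centralizer_gA _) (sim_norm _) h3 h2
    exact ⟨1, fun u v => (hl u v).trans (by simp)⟩
  have h2 := (eq_one_of_dA_mul_fA ((sq_dA_mul g σ).symm.trans h)).2
  have h3 := inv_of_sq h1 h2
  have h4 := h3.card_eq_sq
  refine (key le_rfl (inf_centralizer_fA_gA h3 (h3.apply_pow h4)) (fun k hk l hl =>
    mul_mem (mul_mem hk hl) (inv_mem hk)) (rig_GU h4 hn) (nrm_GU h4 hn Nat.prime_two
    (Nat.coprime_two_right.2 hr) (.inl ?_))).conj (isConjUnder_fA_gA h1 h2 h)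
  rw [← h3.card_normOne h4, ← orderOf_eq_prime (p := 2) (x := (⟨-1, by simp [mem_normOne]⟩ :
    normOne σ.toRingHom)) (Subtype.ext (by simp)) fun h => two_ne (K := F) hr (by
      have : (-1 : F) = 1 := congrArg (fun x : normOne σ.toRingHom => (x.1 : F)) h
      linear_combination -this)]
  exact orderOf_dvd_natCard _

end L

section U

open AutU

variable [Finite F] {n q : ℕ} (hF : Nat.card F = q ^ 2) (hn : 3 ≤ n) (h32 : ¬ (n = 3 ∧ q = 2))
  [Fact r.Prime] [CharP F r]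
include hF hn h32

omit [Fact r.Prime] [CharP F r] in
theorem dictU : Dict (GU n F q).subtype dU (fU n q) where
  eq := dU_eq_dU_iff hF hn h32
  fd τ g := ⟨_, fU_mul_dU τ g, rfl⟩
  inn g h := (dU_mem_inn_iff hF hn h32).2 ⟨1, by rw [one_pow]; exact Subtype.ext h⟩
  inn' := inn_le
  ord g τ := by
    obtain ⟨k, -, h⟩ := pow_dU_mul_fU g τ (orderOf (dU g * fU n q τ))
    exact orderOf_dvd_of_pow_eq_one (eq_one_of_dU_mul_fU hF hn h32
      (h.symm.trans (pow_orderOf_eq_one _))).2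

theorem crit_fU (hp : p.Prime) (ho : Odd p) (hr : r.Coprime p) {σ : F ≃+* F} (hσ : orderOf σ = p) :
    Crit p (fU n q σ) := by
  have : Nontrivial (Fin n) := Fin.nontrivial_iff_two_le.2 (by omega)
  obtain ⟨q₀, hK, hq⟩ := exists_sub hF (hσ ▸ ho)
  have hφ : ∀ c, σ c = c ↔ ∃ d, (fixF σ.toRingHom).subtype d = c := fun c =>
    ⟨fun h => ⟨⟨c, h⟩, rfl⟩, by rintro ⟨d, rfl⟩; exact d.2⟩
  have h1 : ∀ a, (fixF σ.toRingHom).subtype (frob hK a) = frob hF ((fixF σ.toRingHom).subtype a) :=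
    fun a => by rw [← pow_odd hK (hσ ▸ ho), map_pow, frob_apply, hq]
  have h0 := inf_centralizer_fU hF hK h1 hn h32 hφ
  refine ((dictU hF hn h32).crit (r := r) (conj_injective hF hn h32) (N := GU n _ q₀) 1
    (mapGU hF hK h1) (by simp [mapGU_coe]) (fun l => (Subgroup.mem_centralizer_singleton_iff.1
      (h0.ge ⟨l, rfl⟩).2).symm) (fun g hg => ?_) (fun k hk l hl =>
      mul_mem (mul_mem hk hl) (inv_mem hk)) (rig_GU hK hn) (eq_one_of_fix hφ hσ)
      fun α _ _ => exists_decomp hF hn h32 α).2 fun k hk h => nrm_GU hK hn hp hr (.inr ⟨k, hk, h⟩)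
  obtain ⟨k, hk⟩ := h0.le ⟨⟨g, rfl⟩, Subgroup.mem_centralizer_singleton_iff.2 hg.symm⟩
  obtain ⟨t, e⟩ := (dU_eq_dU_iff hF hn h32).1 hk.symm
  exact ⟨k, k.2, t, by simpa [mapGU_coe] using e⟩

theorem crit_fr (hr : Odd r) {g : GU n F q} (h : (dU g * fU n q (fr hF)) ^ 2 = 1) :
    Crit 2 (dU g * fU n q (fr hF)) := by
  have : Nontrivial (Fin n) := Fin.nontrivial_iff_two_le.2 (by omega)
  have : NeZero n := ⟨by omega⟩
  obtain ⟨φ, hφ⟩ := GamO.exists_fix_hom (σ := fr hF) rfl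
  obtain ⟨S, e, h1, y, l, a, h2⟩ := exists_of_sq hφ hn h32 h
  obtain ⟨h3, h4⟩ := nrm_rig_SG (φ := φ) (ef_of h1) (by simpa) hr
  have h5 : ∀ k : GL (Fin n) (fixF (fr hF).toRingHom),
    y * mp φ k * y⁻¹ * y = y * (mp φ k * sc 1) := by simp
  let θ : mat (SpWitt.SG (toBilin' S.1)) →* GU n F q :=
    ((MulAut.conj y).toMonoidHom.comp ((mp φ).comp (Subgroup.subtype _))).codRestrict _ fun k =>
      (h2.mem_iff hφ h2 (h5 k.1)).2 (by
        rw [sim_iff.1 fun u v => (k.2 u v).trans (one_mul _).symm]; simp)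
  have h6 : ∀ k, (θ k).1 * y = y * (mp φ k.1 * sc 1) := fun k => h5 k.1
  refine ((dictU hF hn h32).crit (r := r) (conj_injective hF hn h32) (N := sim (toBilin' S.1)) y
    θ (fun _ => rfl) (fun k => (eq_mul_inv_iff_mul_eq.1
      ((h2.conj_iff hφ hn h32 h2).2 ⟨_, _, h6 k⟩) :)) (fun w hw => ?_)
    (sim_norm _) h4 (eq_one_of_fix hφ (orderOf_fr hF))
    fun α _ _ => exists_decomp hF hn h32 α).2 fun _ _ _ => h3
  obtain ⟨k, t, e⟩ := (h2.conj_iff hφ hn h32 h2).1 (eq_mul_inv_of_mul_eq hw.eq)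
  obtain ⟨c, hc, -⟩ := h2.exists_mult hφ h2 e
  exact ⟨k, mem_sim.2 ⟨c, hc⟩, t, e⟩

end U

end Cfsg.Agent.Classical.Bal
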