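import Mathlib
import Cfsg.Agent.Classical.LSL

/-!
# The smallest degree of a non-trivial complex representation of `SL_n(q)`
-/

set_option autoImplicit false
set_option backward.isDefEq.respectTransparency false

namespace Cfsg.Agent.Classical.LS

open Module Matrix Cfsg.Agent.Classical.Transv Cfsg.Agent.Classical.SLBasic

variable {F : Type*} [Field F] [Fintype F] {ι ι' : Type*} [Fintype ι] [DecidableEq ι] [Fintype ι']
  [DecidableEq ι'] {V : Type*} [AddCommGroup V] [Module ℂ V]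

/-- Weight spaces of the transvections with a given axis. -/
noncomputable def E (ρ : Representation ℂ (SpecialLinearGroup ι F) V) (φ a : ι → F) :
    Submodule ℂ V := Wt ρ (ax φ) fun u => ψ F (a ⬝ᵥ u.1)

/-- Transvections fixing a non-trivial weight act trivially on its weight space. -/
def Triv (ρ : Representation ℂ (SpecialLinearGroup ι F) V) : Prop :=
  ∀ φ a x f (h : f ⬝ᵥ x = 0), φ ≠ 0 → (∃ u, φ ⬝ᵥ u = 0 ∧ a ⬝ᵥ u ≠ 0) → φ ⬝ᵥ x = 0 → a ⬝ᵥ x = 0 →
    ∀ v ∈ E ρ φ a, ρ (tv x f h) v = v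

variable {ρ : Representation ℂ (SpecialLinearGroup ι F) V}

omit [Fintype F] in
theorem vecMul_dot_inv (g : SpecialLinearGroup ι F) (u φ : ι → F) :
    (φ ᵥ* g.1) ⬝ᵥ ((g⁻¹).1 *ᵥ u) = φ ⬝ᵥ u := by
  simpa using sl_vecMul_inv_dot g⁻¹ u φ

omit [Fintype F] in
theorem mul_tv (g : SpecialLinearGroup ι F) {u φ u' φ' : ι → F} (h : φ ⬝ᵥ u = 0) (h' : φ' ⬝ᵥ u' = 0)
    (e : vecMulVec (g.1 *ᵥ u) φ = vecMulVec u' (φ' ᵥ* g.1)) : g * tv u φ h = tv u' φ' h' * g := by
  apply Subtype.ext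
  change g.1 * (1 + vecMulVec u φ) = (1 + vecMulVec u' φ') * g.1
  rw [mul_add, add_mul, mul_vecMulVec, vecMulVec_mul, e, mul_one, one_mul]

omit [Fintype F] in
theorem mulVec_inv (g : SpecialLinearGroup ι F) (u : ι → F) : g.1 *ᵥ (g⁻¹).1 *ᵥ u = u := by
  rw [mulVec_mulVec, show g.1 * (g⁻¹).1 = 1 from congrArg Subtype.val (mul_inv_cancel g),
    one_mulVec]

omit [Fintype F] in
theorem vecMul_inv (g : SpecialLinearGroup ι F) (u : ι → F) : u ᵥ* (g⁻¹).1 ᵥ* g.1 = u := by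
  rw [vecMul_vecMul, show (g⁻¹).1 * g.1 = 1 from congrArg Subtype.val (inv_mul_cancel g),
    vecMul_one]

theorem map_E {g : SpecialLinearGroup ι F} {φ a φ' a' : ι → F} {c : F}
    (h1 : φ' ᵥ* g.1 = c • φ) (h2 : a' ᵥ* g.1 = c • a) {v : V} (hv : v ∈ E ρ φ a) :
    ρ g v ∈ E ρ φ' a' := by
  refine mem_Wt.2 fun u => ?_
  have h3 : φ ⬝ᵥ (c • (g⁻¹).1 *ᵥ u.1) = 0 := by
    rw [dotProduct_smul, ← smul_dotProduct, ← h1, vecMul_dot_inv]; exact u.2
  have e : g * ax φ ⟨_, h3⟩ = ax φ' u * g := mul_tv g _ _ (by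
    rw [h1, mulVec_smul, mulVec_inv, smul_vecMulVec, vecMulVec_smul])
  rw [← End.mul_apply, ← map_mul, ← e, map_mul, End.mul_apply, mem_Wt.1 hv, map_smul]
  congr 2
  rw [dotProduct_smul, ← smul_dotProduct, ← h2, vecMul_dot_inv]

theorem tv_mem_E {φ a x f : ι → F} (h : f ⬝ᵥ x = 0) (h1 : φ ⬝ᵥ x = 0) (h2 : a ⬝ᵥ x = 0) {v : V}
    (hv : v ∈ E ρ φ a) : ρ (tv x f h) v ∈ E ρ φ a :=
  map_E (c := 1) (by rw [vecMul_tv, h1]; simp) (by rw [vecMul_tv, h2]; simp) hv

theorem triv_of_torus [FiniteDimensional ℂ V] {φ a x f : ι → F} (h : f ⬝ᵥ x = 0) (h1 : φ ⬝ᵥ x = 0)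
    (h2 : a ⬝ᵥ x = 0) (hE : finrank ℂ (E ρ φ a) ≤ 1) (g : SpecialLinearGroup ι F) {c α γ : F}
    (g1 : φ ᵥ* g.1 = c • φ) (g2 : a ᵥ* g.1 = c • a) (g3 : g.1 *ᵥ x = α • x)
    (g4 : f ᵥ* g.1 = γ • f) (hα : α ≠ 0) (hαγ : α ≠ γ) {v : V} (hv : v ∈ E ρ φ a) :
    ρ (tv x f h) v = v := by
  have hd : α - γ ≠ 0 := sub_ne_zero.2 hαγ
  have hs : ∀ s : F, (s • f) ⬝ᵥ x = 0 := fun s => by simp [h]
  refine fix_of_comm hE (g := g) (h := tv x _ (hs (α / (α - γ)))) (fun w hw => map_E g1 g2 hw)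
    (fun w hw => tv_mem_E (hs _) h1 h2 hw) ?_ (fun w hw => tv_mem_E h h1 h2 hw) hv
  rw [← mul_tv g (hs (γ / (α - γ))) (hs _) (by
    rw [g3, smul_vecMul, g4, smul_vecMulVec, ← vecMulVec_smul, smul_smul, smul_smul]
    congr 2; field_simp), mul_assoc, tv_mul_tv]
  congr 1
  refine tv_congr _ _ rfl ?_
  match_scalars; field_simp; ring

theorem triv_of_comm [FiniteDimensional ℂ V] {φ a x f y : ι → F} (h : f ⬝ᵥ x = 0)
    (h1 : φ ⬝ᵥ x = 0) (h2 : a ⬝ᵥ x = 0) (hE : finrank ℂ (E ρ φ a) ≤ 1) (y1 : φ ⬝ᵥ y = 0)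
    (y2 : a ⬝ᵥ y = 0) (y3 : f ⬝ᵥ y = 0) (hy : y ∉ Submodule.span F {x}) {v : V}
    (hv : v ∈ E ρ φ a) : ρ (tv x f h) v = v := by
  obtain ⟨χ, hχ, hχy⟩ := exists_dot_zero_one hy
  refine fix_of_comm hE (g := tv x χ hχ) (h := tv y f y3) (fun w hw => tv_mem_E _ h1 h2 hw)
    (fun w hw => tv_mem_E _ y1 y2 hw) ?_ (fun w hw => tv_mem_E h h1 h2 hw) hv
  apply Subtype.ext
  change _ = (tv y f y3 * tv x χ hχ).1 * (1 + vecMulVec x f)
  rw [tv_mul_coe, tv_mul_coe]
  simp [add_mul, mul_add, vecMulVec_mul_vecMulVec, h, hχ, hχy]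
  abel

theorem triv_of_le_one [FiniteDimensional ℂ V] (hι : 3 ≤ Fintype.card ι)
    (h3 : Fintype.card ι = 3 → ∃ c : F, c ≠ 0 ∧ c ^ 3 ≠ 1)
    (h4 : Fintype.card ι = 4 → ∃ c : F, c ≠ 0 ∧ c ^ 2 ≠ 1)
    (hE : ∀ φ a, φ ≠ 0 → (∃ u, φ ⬝ᵥ u = 0 ∧ a ⬝ᵥ u ≠ 0) → finrank ℂ (E ρ φ a) ≤ 1) : Triv ρ := by
  intro φ a x f h hφ ha h1 h2 v hv
  have hE := hE φ a hφ ha
  rcases eq_or_ne x 0 with rfl | hx
  · rw [tv_eq_one_iff.2 (Or.inl rfl)]; simp
  by_cases H : ∃ y, φ ⬝ᵥ y = 0 ∧ a ⬝ᵥ y = 0 ∧ f ⬝ᵥ y = 0 ∧ y ∉ Submodule.span F {x}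
  · obtain ⟨y, y1, y2, y3, hy⟩ := H
    exact triv_of_comm h h1 h2 hE y1 y2 y3 hy hv
  have h5 : Fintype.card ι < 5 := by
    by_contra h5
    obtain ⟨y, hy, hy'⟩ := exists_ker_not_mem ![φ, a, f] (by omega) x
    exact H ⟨y, hy 0, hy 1, hy 2, hy'⟩
  by_cases hn : Fintype.card ι = 3
  · obtain ⟨c, hc, hc3⟩ := h3 hn
    obtain ⟨χ, hχ⟩ := exists_dot_eq_one hx
    let g : SpecialLinearGroup ι F := ⟨c • (1 + vecMulVec (((c ^ 3)⁻¹ - 1) • x) χ), by
      rw [det_smul, det_one_add_vecMulVec, hn]; simp [hχ, hc]⟩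
    have hg : ∀ ξ, ξ ⬝ᵥ x = 0 → ξ ᵥ* g.1 = c • ξ := fun ξ hξ => by
      simp only [g]
      rw [vecMul_smul, vecMul_add, vecMul_vecMulVec]; simp [hξ]
    refine triv_of_torus h h1 h2 hE g (hg φ h1) (hg a h2) (α := c * (c ^ 3)⁻¹) ?_ (hg f h)
      (by simp [hc]) (fun e => hc3 ?_) hv
    · simp only [g]
      rw [smul_mulVec, add_mulVec, vecMulVec_mulVec', hχ, one_mulVec]; module
    · exact inv_eq_one.1 (mul_left_cancel₀ hc (e.trans (mul_one c).symm))
  · have hn : Fintype.card ι = 4 := by omega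
    obtain ⟨c, hc, hc2⟩ := h4 hn
    obtain ⟨y, hy, hy'⟩ := exists_ker_not_mem ![φ, a] (by omega) x
    have y1 : φ ⬝ᵥ y = 0 := hy 0
    have y2 : a ⬝ᵥ y = 0 := hy 1
    have y3 : f ⬝ᵥ y ≠ 0 := fun y3 => H ⟨y, y1, y2, y3, hy'⟩
    obtain ⟨χ, hχ, hχx⟩ := exists_dot_zero_one (x := y) (y := x) fun hxy => by
      obtain ⟨s, rfl⟩ := Submodule.mem_span_singleton.1 hxy
      have hs : s = 0 := by simpa [y3] using h
      simp [hs] at hx
    let g : SpecialLinearGroup ι F := ⟨c • ((1 + vecMulVec (((c ^ 3)⁻¹ - 1) • x) χ) *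
        (1 + vecMulVec (((c⁻¹ - 1) * (f ⬝ᵥ y)⁻¹) • y) f)), by
      rw [det_smul, det_mul, det_one_add_vecMulVec, det_one_add_vecMulVec, hn]
      simp only [dotProduct_smul, hχx, smul_eq_mul]
      field_simp; ring⟩
    have hg : ∀ ξ, ξ ⬝ᵥ x = 0 → ξ ᵥ* g.1 =
        c • (ξ + (((c⁻¹ - 1) * (f ⬝ᵥ y)⁻¹) * (ξ ⬝ᵥ y)) • f) := fun ξ hξ => by
      simp only [g]
      rw [vecMul_smul, ← vecMul_vecMul, vecMul_add _ _ ξ, vecMul_vecMulVec]
      simp only [dotProduct_smul, hξ, smul_zero, zero_smul, add_zero, vecMul_one]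
      rw [vecMul_add, vecMul_vecMulVec]; simp
    refine triv_of_torus h h1 h2 hE g (c := c) (by rw [hg φ h1, y1]; simp) (by rw [hg a h2, y2]; simp)
      (α := c * (c ^ 3)⁻¹) (γ := 1) ?_ ?_ (by simp [hc]) (fun e => hc2 ?_) hv
    · simp only [g]
      rw [smul_mulVec, ← mulVec_mulVec, add_mulVec _ _ x, vecMulVec_mulVec', h, zero_smul, add_zero,
        one_mulVec, add_mulVec, vecMulVec_mulVec', hχx, one_mulVec]; module
    · rw [hg f h]; match_scalars; field_simp; ring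
    · field_simp at e; exact e.symm

omit [Fintype F] in
theorem exists_SL_vecMul (hι : 2 ≤ Fintype.card ι) {a b : ι → F} (ha : a ≠ 0) (hb : b ≠ 0) :
    ∃ g : SpecialLinearGroup ι F, a ᵥ* g.1 = b := by
  obtain ⟨_, ⟨g, rfl⟩, h⟩ := trans_of_shear (F := F) (U := ι → F)
    (Γ := Set.range fun g : SpecialLinearGroup ι F => vecMulLinear g.1) (by simpa using hι)
    (by
      rintro _ ⟨g, rfl⟩ _ ⟨h, rfl⟩
      exact ⟨h * g, LinearMap.ext fun z => by simp⟩)
    (fun x f hf => by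
      have e : ∀ z, z ⬝ᵥ (fun i => f (Pi.single i 1)) = f z := fun z => by
        conv_rhs => rw [pi_eq_sum_univ' z]
        simp [dotProduct]
      exact ⟨tv (fun i => f (Pi.single i 1)) x (by rw [e, hf]), LinearMap.ext fun z => by
        simp [vecMul_tv, e]⟩) a b ha hb
  exact ⟨g, h⟩

section step
variable (e : ι' ⊕ Unit ≃ ι)

theorem map_xq (A : SpecialLinearGroup ι' F) (a : ι' → F) {v : V}
    (hv : v ∈ Wt ρ (xq e) (chr a)) : ρ (blk e A) v ∈ Wt ρ (xq e) (chr (a ᵥ* (A⁻¹).1)) := by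
  have := apply_mem_Wt (xq_mul_blk e A) hv
  convert this using 2
  ext u
  simp only [chr_apply, Function.comp, dotProduct_mulVec]

variable (ρ) in
/-- The fixed points of the unipotent radical as a representation of the Levi factor. -/
noncomputable def low : Subrepresentation (ρ.comp (blk e)) :=
  ⟨Wt ρ (xq e) (chr 0), fun A v hv => by simpa using map_xq e A 0 hv⟩

theorem E_eq (a : ι → F) : E ρ (ε0 e) a = Wt ρ (xq e) (chr (a ∘ e ∘ Sum.inl)) := by
  ext v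
  simp only [E, mem_Wt]
  refine ⟨fun h u => ?_, fun h u => ?_⟩
  · rw [chr_apply, ← dot_ex]; exact h ⟨_, ε0_dot_ex e u⟩
  · obtain ⟨u, hu⟩ := u
    obtain ⟨w, rfl⟩ := exists_ex e hu
    rw [dot_ex]; exact h w

theorem Triv.low (h : Triv ρ) : Triv (low ρ e).toRepresentation := by
  intro φ a x f hf hφ ⟨u₀, hu₀, hu₁⟩ h1 h2 v hv
  have := Fintype.ofFinite (Kr (ex e φ))
  apply Subtype.ext
  change ρ (blk e (tv x f hf)) v = v
  rw [blk_tv]
  refine fix_of_ext (x := ax (ex e φ)) (ax_add _)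
    (fun u : Kr φ => ⟨ex e u.1, (ex_dot_ex e _ _).trans u.2⟩) (μ := fun u => ψ F (a ⬝ᵥ u.1))
    (mem_Wt.2 fun u => ?_) fun l hl w hw => ?_
  · have := congrArg Subtype.val (mem_Wt.1 hv u)
    change ρ (blk e (tv u.1 φ u.2)) v = _ at this
    rw [blk_tv] at this; exact this
  · obtain ⟨b, hb⟩ := exists_eq_ψ_sub _ l
    have e1 : ∀ u, φ ⬝ᵥ u = 0 → b ⬝ᵥ ex e u = a ⬝ᵥ u := fun u hu => eq_of_ψ fun c => by
      have := congrFun hl ⟨c • u, (Kr φ).smul_mem c hu⟩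
      simpa [hb, ex_smul, mul_comm] using this
    refine h (ex e φ) b _ _ _ (ex_ne_zero e hφ) ⟨ex e u₀, by rw [ex_dot_ex, hu₀], by
      rwa [e1 _ hu₀]⟩ (by rw [ex_dot_ex, h1]) (by rw [e1 _ h1, h2]) w ?_
    have : (fun u : Kr (ex e φ) => ψ F (b ⬝ᵥ u.1)) = l := funext fun u => (hb u).symm
    rw [E, this]; exact hw

variable [FiniteDimensional ℂ V]

theorem exists_mult (hι : 2 ≤ Fintype.card ι') :
    ∃ m, ∀ a, a ≠ 0 → finrank ℂ (Wt ρ (xq e) (chr a)) = m := by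
  have : Nontrivial ι' := Fintype.one_lt_card_iff_nontrivial.1 hι
  obtain ⟨b, hb⟩ := exists_ne (0 : ι' → F)
  have key : ∀ a b, a ≠ 0 → b ≠ 0 →
      finrank ℂ (Wt ρ (xq e) (chr a)) ≤ finrank ℂ (Wt ρ (xq e) (chr b)) := fun a b ha hb => by
    obtain ⟨g, rfl⟩ := exists_SL_vecMul hι ha hb
    exact finrank_le_of_map (blk e g⁻¹) fun v hv => by simpa using map_xq e g⁻¹ a hv
  exact ⟨_, fun a ha => le_antisymm (key a b ha hb) (key b a hb ha)⟩

variable {e} {m : ℕ} (hm : ∀ a, a ≠ 0 → finrank ℂ (Wt ρ (xq e) (chr a)) = m)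
include hm

theorem finrank_E_le (hι : 2 ≤ Fintype.card ι) {φ a : ι → F} (hφ : φ ≠ 0)
    (ha : ∃ u, φ ⬝ᵥ u = 0 ∧ a ⬝ᵥ u ≠ 0) : finrank ℂ (E ρ φ a) ≤ m := by
  obtain ⟨g, hg⟩ := exists_SL_vecMul hι (ε0_ne_zero e) hφ
  obtain ⟨u, hu, hu'⟩ := ha
  refine (finrank_le_of_map (U' := E ρ (ε0 e) (a ᵥ* (g⁻¹).1)) g fun v hv =>
    map_E (c := 1) (by simpa using hg) (by rw [vecMul_inv, one_smul]) hv).trans ?_
  rw [E_eq, hm]
  intro h0
  obtain ⟨w, hw⟩ := exists_ex e (u := g.1 *ᵥ u) (by rw [dotProduct_mulVec, hg, hu])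
  apply hu'
  rw [← sl_vecMul_inv_dot g, hw, dot_ex, h0, zero_dotProduct]

theorem trace_eq [DecidableEq F] (f : End ℂ V) (c : (ι' → F) → ℂ)
    (hf : ∀ a, a ≠ 0 → LinearMap.trace ℂ V (f * P ρ (xq e) (chr a)) = c a * m) :
    LinearMap.trace ℂ V f = LinearMap.trace ℂ V (f * P ρ (xq e) (chr 0)) +
      (∑ a ∈ Finset.univ.erase 0, c a) * m := by
  rw [trace_eq_sum (ρ := ρ) (xq_add (F := F) e), ← chr_bijective.sum_comp,
    ← Finset.add_sum_erase _ _ (Finset.mem_univ 0), Finset.sum_mul]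
  congr 1
  exact Finset.sum_congr rfl fun a ha => hf a (Finset.ne_of_mem_erase ha)

theorem finrank_step : finrank ℂ V =
    finrank ℂ (low ρ e).toSubmodule + (Fintype.card F ^ Fintype.card ι' - 1) * m := by
  classical
  rw [finrank_eq_sum (ρ := ρ) (xq_add (F := F) e), ← chr_bijective.sum_comp,
    ← Finset.add_sum_erase _ _ (Finset.mem_univ 0),
    Finset.sum_const_nat fun a ha => hm a (Finset.ne_of_mem_erase ha),
    Finset.card_erase_of_mem (Finset.mem_univ _)]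
  simp [low]

theorem trace_xq {u : ι' → F} (hu : u ≠ 0) :
    LinearMap.trace ℂ V (ρ (xq e u)) = finrank ℂ (low ρ e).toSubmodule - m := by
  classical
  rw [trace_eq hm _ (fun a => ψ F (a ⬝ᵥ u)) fun a ha => by
    rw [trace_mul_P_of_smul (xq_add e) fun v hv => mem_Wt.1 hv u, hm a ha]; rfl,
    trace_mul_P_of_smul (xq_add e) fun v hv => mem_Wt.1 hv u,
    Finset.sum_erase_eq_sub (Finset.mem_univ _), sum_ψ_dot hu]
  simp [low, chr_apply, sub_eq_add_neg]

theorem trace_blk (hT : Triv ρ) {x f : ι' → F} (h : f ⬝ᵥ x = 0) (hx : x ≠ 0) (hf : f ≠ 0) :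
    LinearMap.trace ℂ V (ρ (blk e (tv x f h))) =
      LinearMap.trace ℂ _ ((low ρ e).toRepresentation (tv x f h)) +
        (Fintype.card F ^ (Fintype.card ι' - 1) - 1 : ℂ) * m := by
  classical
  rw [trace_eq hm _ (fun a => if a ⬝ᵥ x = 0 then 1 else 0) fun a ha => ?_,
    trace_mul_P_restrict (xq_add e) (f := ρ (blk e (tv x f h)))
      (fun v hv => (low ρ e).apply_mem_toSubmodule (tv x f h) hv)]
  · congr 2
    rw [Finset.sum_erase_eq_sub (Finset.mem_univ _), Finset.sum_boole]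
    have := card_Kr hx
    simp only [zero_dotProduct, if_true, ← Nat.cast_pow, ← this]
    congr 2
    rw [← Nat.card_eq_finsetCard]
    exact Nat.card_congr (Equiv.subtypeEquivRight fun a => by simp [Kr, dotProduct_comm])
  · split_ifs with hax
    · rw [trace_mul_P_of_smul (xq_add e) (c := 1), hm a ha]
      intro v hv
      obtain ⟨u, hu⟩ := exists_dot_ne_zero ha
      rw [blk_tv, one_smul]
      refine hT (ε0 e) (ex e a) _ _ _ (ε0_ne_zero e) ⟨ex e u, ε0_dot_ex e u, by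
        rwa [ex_dot_ex, dotProduct_comm]⟩ (ε0_dot_ex e x) (by rwa [ex_dot_ex]) v ?_
      rw [E_eq]
      simpa [ex, Function.comp_def] using hv
    · rw [trace_mul_P_of_ne (xq_add e) _ fun v hv => map_xq e _ a hv, zero_mul]
      intro h'
      have := chr_bijective.1 h'
      rw [tv_inv, vecMul_tv] at this
      simp [hax, hf] at this

theorem mult_pos (hι : 2 ≤ Fintype.card ι') (hρ : ∃ g, ρ g ≠ 1) : 1 ≤ m := by
  have hc : Fintype.card ι = Fintype.card ι' + 1 := by rw [← Fintype.card_congr e]; simp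
  by_contra H
  have H : ∀ u, ρ (xq e u) = 1 := fun u => by
    by_contra hu
    obtain ⟨β, h1, h2⟩ := exists_wt (x_comm (xq_add e)) hu
    obtain ⟨a, ha⟩ := chr_bijective.2 ⟨β, wt_one h2 (x_zero (xq_add e)),
      fun a b => (wt_mul h2 (xq_add e a b).symm).symm⟩
    obtain rfl : β = chr a := by rw [ha]; rfl
    have := Submodule.nontrivial_iff_ne_bot.2 h2
    have := finrank_pos (R := ℂ) (M := Wt ρ (xq e) (chr a))
    rw [hm a (by rintro rfl; simp [chr_apply] at h1)] at this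
    omega
  obtain ⟨g, hg⟩ := hρ
  apply hg
  have : Nontrivial ι' := Fintype.one_lt_card_iff_nontrivial.1 hι
  obtain ⟨u, hu⟩ := exists_ne (0 : ι' → F)
  have := eq_top_of_transvection_mem (MonoidHom.ker ρ.toHomUnits) fun i j hij c => by
    refine MonoidHom.mem_ker.2 (Units.ext ?_)
    change ρ _ = 1
    rcases eq_or_ne c 0 with rfl | hc0
    · rw [transvection_eq, tv_eq_one_iff.2 (Or.inr (by simp)), map_one]
    obtain ⟨s, hs⟩ := isConj_tv (by omega) (ex_ne_zero e hu) (ε0_ne_zero e) (by simp)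
      (by simpa using hc0) (ε0_dot_ex e u) (single_dot hij c 1)
    rw [transvection_eq, ← hs]
    exact conj_eq_one ρ (H u) s
  exact congrArg Units.val (MonoidHom.mem_ker.1 (this ▸ Subgroup.mem_top g : g ∈ ρ.toHomUnits.ker))

theorem low_ne (hι : 2 ≤ Fintype.card ι') (hT : Triv ρ) (hρ : ∃ g, ρ g ≠ 1) {x f : ι' → F}
    (h : f ⬝ᵥ x = 0) (hx : x ≠ 0) (hf : f ≠ 0) : (low ρ e).toRepresentation (tv x f h) ≠ 1 := by
  have hc : Fintype.card ι = Fintype.card ι' + 1 := by rw [← Fintype.card_congr e]; simp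
  intro H
  have h1 := trace_blk hm hT h hx hf
  obtain ⟨s, hs⟩ := isConj_tv (by omega) (ex_ne_zero e hx) (ε0_ne_zero e) (ex_ne_zero e hx)
    (ex_ne_zero e hf) (ε0_dot_ex e x) (by rw [ex_dot_ex, h])
  have h2 := ρ.char_conj (xq e x) s
  simp only [Representation.character] at h2
  rw [H, blk_tv, ← hs, LinearMap.trace_one] at h1
  rw [xq, h1, ← xq, trace_xq hm hx] at h2
  have h3 : (Fintype.card F : ℂ) ^ (Fintype.card ι' - 1) * m = 0 := by linear_combination h2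
  have := mult_pos hm hι hρ
  simp at h3
  omega

omit hm in
theorem low_two {x f : ι' → F}
    (h : f ⬝ᵥ x = 0) (hx : x ≠ 0) (H : (low ρ e).toRepresentation (tv x f h) ≠ 1) :
    Fintype.card F - 1 ≤ finrank ℂ (low ρ e).toSubmodule := by
  classical
  have hs : ∀ s : F, (s • f) ⬝ᵥ x = 0 := fun s => by simp [h]
  let y : F → SpecialLinearGroup ι F := fun s => blk e (tv x (s • f) (hs s))
  have hy : ∀ s t, y (s + t) = y s * y t := fun s t => by
    simp only [y, ← map_mul, tv_mul_tv, add_smul]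
  obtain ⟨β, h1, v, hv, hv0, hβ⟩ := exists_wt_mem (ρ := ρ) (x_comm hy) (low ρ e).toSubmodule
    (fun s v hv => (low ρ e).apply_mem_toSubmodule _ hv) (i := 1) (by
      by_contra h'
      push Not at h'
      refine H (LinearMap.ext fun v => Subtype.ext ?_)
      have := h' v v.2
      simp only [y, one_smul] at this
      exact this)
  have hb : Wt ρ y β ≠ ⊥ := (Submodule.ne_bot_iff _).2 ⟨v, hβ, hv0⟩
  obtain ⟨b, hb'⟩ := exists_eq_ψ' β (wt_one hb (x_zero hy)) fun s t => (wt_mul hb (hy s t).symm).symm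
  have hb0 : b ≠ 0 := by rintro rfl; simp [hb'] at h1
  obtain ⟨χ, hχ⟩ := exists_dot_eq_one hx
  have z1 : ε0 e ⬝ᵥ ε0 e = (1 : F) := by rw [dot_eq e]; simp [ε0, Function.comp_def]
  have z2 : ∀ a : ι' → F, ex e a ⬝ᵥ ε0 e = 0 := fun a => by rw [dotProduct_comm, ε0_dot_ex]
  rw [← Fintype.card_units]
  refine card_le_finrank_of_wt (ρ := ρ) (x_comm hy) _ (fun c : Fˣ => fun s => ψ F (b * (c * s)))
    (fun c d hcd => Units.ext (mul_left_cancel₀ hb0 (eq_of_ψ fun s => by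
      simpa [mul_assoc] using congrFun hcd s))) fun c => ?_
  let g : SpecialLinearGroup ι F := ⟨(1 + vecMulVec (((c : F)⁻¹ - 1) • ex e x) (ex e χ)) *
      (1 + vecMulVec (((c : F) - 1) • ε0 e) (ε0 e)), by
    rw [det_mul, det_one_add_vecMulVec, det_one_add_vecMulVec]
    simp [ex_dot_ex, hχ, z1]⟩
  have g1 : g.1 *ᵥ ex e x = (c : F)⁻¹ • ex e x := by
    simp only [g]
    rw [← mulVec_mulVec, add_mulVec _ _ (ex e x), vecMulVec_mulVec', ε0_dot_ex, zero_smul, add_zero,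
      one_mulVec, add_mulVec, vecMulVec_mulVec', ex_dot_ex, hχ, one_mulVec]; module
  have g2 : ex e f ᵥ* g.1 = ex e f := by
    simp only [g]
    rw [← vecMul_vecMul, vecMul_add _ _ (ex e f), vecMul_vecMulVec]
    simp only [dotProduct_smul, ex_dot_ex, h, smul_zero, zero_smul, add_zero, vecMul_one]
    rw [vecMul_add, vecMul_vecMulVec]; simp [z2]
  have g3 : ε0 e ᵥ* g.1 = (c : F) • ε0 e := by
    simp only [g]
    rw [← vecMul_vecMul, vecMul_add _ _ (ε0 e), vecMul_vecMulVec]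
    simp only [dotProduct_smul, ε0_dot_ex, smul_zero, zero_smul, add_zero, vecMul_one]
    rw [vecMul_add, vecMul_vecMulVec, dotProduct_smul, z1, vecMul_one]; module
  refine ⟨ρ g v, ?_, fun h0 => hv0 (apply_injective g (by rw [h0, map_zero])), ?_⟩
  · have e0 : E ρ (ε0 e) 0 = (low ρ e).toSubmodule := E_eq e 0
    rw [← e0] at hv ⊢
    exact map_E g3 (by simp) hv
  · have hc : ∀ s, y s * g = g * y (c * s) := fun s => by
      simp only [y, blk_tv]
      refine (mul_tv g _ _ ?_).symm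
      rw [g1, ex_smul, ex_smul, smul_vecMul, g2, smul_vecMulVec, ← vecMulVec_smul, smul_smul]
      simp
    have := apply_mem_Wt (ρ := ρ) (x := y) (π := fun s => c * s) hc hβ
    have e1 : β ∘ (fun s => c * s) = fun s => ψ F (b * (c * s)) := funext fun s => by simp [hb']
    rwa [e1] at this

theorem dvd_of_irr (hι : 2 ≤ Fintype.card ι') (hρ : ρ.IsIrreducible) (h1 : m = 1) {T : ℕ}
    (hT : (Fintype.card F - 1) * T =
      (Fintype.card F ^ (Fintype.card ι' + 1) - 1) * (Fintype.card F ^ Fintype.card ι' - 1)) :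
    finrank ℂ V ∣ T * Fintype.card F ^ Fintype.card ι' := by
  classical
  have hc : Fintype.card ι = Fintype.card ι' + 1 := by rw [← Fintype.card_congr e]; simp
  have h2 := card_tv (F := F) (ι := ι)
  rw [hc, Nat.add_sub_cancel, ← hT] at h2
  have h3 := Nat.eq_of_mul_eq_mul_left (by have := Fintype.one_lt_card (α := F); omega) h2
  have : Nontrivial ι' := Fintype.one_lt_card_iff_nontrivial.1 hι
  obtain ⟨u, hu⟩ := exists_ne (0 : ι' → F)
  have hd := finrank_step hm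
  have hq : 1 ≤ Fintype.card F ^ Fintype.card ι' := Nat.one_le_pow _ _ Fintype.card_pos
  have key := Char.isIrr_isIntegral_sum_div (Char.isIrr_character ρ)
    (f := fun g => if ∃ u φ h, u ≠ 0 ∧ φ ≠ 0 ∧ g = tv u φ h then 1 else 0) (fun g s => by
      have : ∀ g s : SpecialLinearGroup ι F, (∃ u φ h, u ≠ 0 ∧ φ ≠ 0 ∧ g = tv u φ h) →
          ∃ u φ h, u ≠ 0 ∧ φ ≠ 0 ∧ s * g * s⁻¹ = tv u φ h := by
        rintro _ s ⟨u, φ, h, hu, hφ, rfl⟩
        exact ⟨_, _, _, gl_mulVec_ne_zero (SpecialLinearGroup.toGL s) hu,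
          gl_vecMul_ne_zero (SpecialLinearGroup.toGL s⁻¹) hφ, conj_tv s h⟩
      refine if_congr ⟨fun h => ?_, this g s⟩ rfl rfl
      simpa [mul_assoc] using this _ s⁻¹ h)
    (fun g => by split_ifs; exacts [isIntegral_one, isIntegral_zero])
  have e1 : ∑ g : SpecialLinearGroup ι F,
      (if ∃ u φ h, u ≠ 0 ∧ φ ≠ 0 ∧ g = tv u φ h then 1 else 0) * ρ.character g =
      T * (finrank ℂ V - Fintype.card F ^ Fintype.card ι' : ℂ) := by
    rw [← h3, Finset.card_filter, Nat.cast_sum, Finset.sum_mul]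
    refine Finset.sum_congr rfl fun g _ => ?_
    split_ifs with hg
    · obtain ⟨x, φ, h, hx, hφ, rfl⟩ := hg
      obtain ⟨s, hs⟩ := isConj_tv (by omega) (ex_ne_zero e hu) (ε0_ne_zero e) hx hφ
        (ε0_dot_ex e u) h
      rw [← hs, ρ.char_conj, Representation.character, ← xq, trace_xq hm hu, hd, h1]
      push_cast [hq]; ring
    · simp
  have := Char.nontrivial_of_isIrreducible ρ
  have hd0 : finrank ℂ V ≠ 0 := finrank_pos.ne'
  have hd0' : (finrank ℂ V : ℂ) ≠ 0 := by exact_mod_cast hd0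
  rw [e1, ρ.char_one] at key
  refine Char.nat_dvd_of_isIntegral_div hd0 ?_
  have := (Char.isIntegral_natCast' T).sub key
  have e2 : ((T * Fintype.card F ^ Fintype.card ι' : ℕ) : ℂ) / finrank ℂ V =
      T - T * (finrank ℂ V - Fintype.card F ^ Fintype.card ι' : ℂ) / finrank ℂ V := by
    push_cast
    rw [eq_sub_iff_add_eq, ← add_div, div_eq_iff hd0']; ring
  rwa [e2]

end step

theorem exists_pair (hι : 2 ≤ Fintype.card ι) : ∃ (x f : ι → F), f ⬝ᵥ x = 0 ∧ x ≠ 0 ∧ f ≠ 0 := by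
  obtain ⟨i, j, hij⟩ := Fintype.exists_pair_of_one_lt_card hι
  exact ⟨_, _, single_dot hij 1 1, by simp, by simp⟩

variable [FiniteDimensional ℂ V]

theorem chain3 (hι : Fintype.card ι = 3) (hT : Triv ρ) (hρ : ∃ g, ρ g ≠ 1) :
    Fintype.card F - 1 + (Fintype.card F ^ 2 - 1) ≤ finrank ℂ V := by
  let e : Fin 2 ⊕ Unit ≃ ι := Fintype.equivOfCardEq (by simp [hι])
  obtain ⟨m, hm⟩ := exists_mult (ρ := ρ) e (by simp)
  obtain ⟨x, f, h, hx, hf⟩ := exists_pair (F := F) (ι := Fin 2) (by simp)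
  have h1 := low_two h hx (low_ne hm (by simp) hT hρ h hx hf)
  have h2 := mult_pos hm (by simp) hρ
  rw [finrank_step hm, Fintype.card_fin]
  exact add_le_add h1 (Nat.le_mul_of_pos_right _ h2)

theorem chain4 (hι : Fintype.card ι = 4) (hT : Triv ρ) (hρ : ∃ g, ρ g ≠ 1) :
    Fintype.card F - 1 + (Fintype.card F ^ 2 - 1) + (Fintype.card F ^ 3 - 1) ≤ finrank ℂ V := by
  let e : Fin 3 ⊕ Unit ≃ ι := Fintype.equivOfCardEq (by simp [hι])
  obtain ⟨m, hm⟩ := exists_mult (ρ := ρ) e (by simp)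
  obtain ⟨x, f, h, hx, hf⟩ := exists_pair (F := F) (ι := Fin 3) (by simp)
  have h1 := chain3 (by simp) (hT.low e) ⟨_, low_ne hm (by simp) hT hρ h hx hf⟩
  have h2 := mult_pos hm (by simp) hρ
  rw [finrank_step hm, Fintype.card_fin]
  exact add_le_add h1 (Nat.le_mul_of_pos_right _ h2)

theorem geom {q : ℕ} (hq : 1 ≤ q) (k : ℕ) :
    (q - 1) * ∑ j ∈ Finset.range k, q ^ j = q ^ k - 1 := by
  have := Nat.one_le_pow k q hq
  zify [hq, this]
  exact mul_geom_sum _ _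

theorem exists_pow_ne {k : ℕ} (h : ¬ Fintype.card F - 1 ∣ k) : ∃ c : F, c ≠ 0 ∧ c ^ k ≠ 1 := by
  classical
  obtain ⟨g, hg⟩ := IsCyclic.exists_ofOrder_eq_natCard (α := Fˣ)
  refine ⟨g, g.ne_zero, fun e => h ?_⟩
  rw [← Fintype.card_units, ← Nat.card_eq_fintype_card, ← hg]
  exact orderOf_dvd_of_pow_eq_one (Units.ext (by simpa using e))

theorem arith1 {q B d k : ℕ} (hq : 2 ≤ q) (hB : q + 1 ≤ B) (hd : d + 1 = q * B)
    (h : d ∣ (1 + q * B) * ((q - 1) * B) * q ^ k) : False := by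
  have c : Nat.Coprime d (q * B) := by rw [← hd]; simp
  have h1 := (Nat.Coprime.pow_right k c.coprime_mul_right_right).dvd_of_dvd_mul_right h
  rw [← mul_assoc] at h1
  have h2 := c.coprime_mul_left_right.dvd_of_dvd_mul_right h1
  rw [← hd, show 1 + (d + 1) = d + 2 by ring, add_mul] at h2
  have h3 := Nat.le_of_dvd (by omega) ((Nat.dvd_add_right (Dvd.intro _ rfl)).1 h2)
  have := Nat.mul_le_mul_left q hB
  have := Nat.mul_le_mul_left q hq
  zify [show 1 ≤ q by omega] at *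
  nlinarith

theorem arith2 {q d : ℕ} (hq : 2 ≤ q) (hd : d + 2 = q * (1 + q))
    (h : d ∣ (1 + q * (1 + q)) * ((q - 1) * (1 + q)) * q ^ 2) : q = 2 ∨ q = 4 ∨ q = 10 := by
  obtain ⟨r, rfl⟩ : ∃ r, q = r + 2 := ⟨q - 2, by omega⟩
  obtain rfl : d = (r + 4) * (r + 1) := by nlinarith
  have e : (1 + (r + 2) * (1 + (r + 2))) * ((r + 2 - 1) * (1 + (r + 2))) * (r + 2) ^ 2 =
      ((r + 4) * (r ^ 4 + 8 * r ^ 3 + 26 * r ^ 2 + 37 * r + 24) - 12) * (r + 1) := by
    zify [show 1 ≤ r + 2 by omega,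
      show 12 ≤ (r + 4) * (r ^ 4 + 8 * r ^ 3 + 26 * r ^ 2 + 37 * r + 24) by nlinarith [Nat.zero_le (r^4), Nat.zero_le (r^3), Nat.zero_le (r^2)]]
    ring
  rw [e] at h
  have h1 := Nat.dvd_of_mul_dvd_mul_right (by omega) h
  have h2 : r + 4 ∣ 12 := (Nat.dvd_sub_iff_right (by nlinarith [Nat.zero_le (r^4), Nat.zero_le (r^3), Nat.zero_le (r^2)]) (Dvd.intro _ rfl)).1 h1
  have := Nat.le_of_dvd (by omega) h2
  have : r ≤ 8 := by omega
  interval_cases r <;> omega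

universe u in
theorem sl_bound (n : ℕ) (hn : 3 ≤ n) (hex : (n, Fintype.card F) ≠ (3, 2) ∧
    (n, Fintype.card F) ≠ (3, 4) ∧ (n, Fintype.card F) ≠ (4, 2) ∧ (n, Fintype.card F) ≠ (4, 3))
    (W : Type u) [AddCommGroup W] [Module ℂ W] [FiniteDimensional ℂ W]
    (τ : Representation ℂ (SpecialLinearGroup (Fin n) F) W) (hτ : ∃ g, τ g ≠ 1) :
    Fintype.card F * ∑ j ∈ Finset.range (n - 1), Fintype.card F ^ j ≤ finrank ℂ W := by
  induction n generalizing W with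
  | zero => omega
  | succ k ih =>
  refine le_of_irr (fun W _ _ _ ρ hirr hρ => ?_) W τ hτ
  have hq : 2 ≤ Fintype.card F := Fintype.one_lt_card
  have hk : 2 ≤ Fintype.card (Fin k) := by simp; omega
  let e : Fin k ⊕ Unit ≃ Fin (k + 1) := Fintype.equivOfCardEq (by simp)
  obtain ⟨m, hm⟩ := exists_mult (ρ := ρ) e hk
  have h1 := mult_pos hm hk hρ
  have hd := finrank_step hm
  have hg := geom (q := Fintype.card F) (by omega) k
  simp only [Nat.add_sub_cancel, Fintype.card_fin, ne_eq, Prod.mk.injEq, not_and_or] at hd hex ⊢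
  obtain ⟨x1, x2, x3, x4⟩ := hex
  by_contra hlt
  push Not at hlt
  set q := Fintype.card F with hqF
  set B := ∑ j ∈ Finset.range k, q ^ j with hB
  obtain rfl : m = 1 := by
    by_contra h
    have h2 : (q ^ k - 1) * 2 ≤ (q ^ k - 1) * m := Nat.mul_le_mul_left _ (by omega)
    have h3 : q * B ≤ ((q - 1) * 2) * B := Nat.mul_le_mul_right _ (by omega)
    rw [← hg] at h2 hd
    nlinarith
  have hT : Triv ρ := triv_of_le_one (by simp; omega)
    (fun h => exists_pow_ne fun h' => by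
      have := Nat.le_of_dvd (by omega) h'
      have : q ≤ 4 := by omega
      simp only [Fintype.card_fin] at h
      rw [← hqF] at h'
      interval_cases q <;> omega)
    (fun h => exists_pow_ne fun h' => by
      have := Nat.le_of_dvd (by omega) h'
      simp only [Fintype.card_fin] at h
      omega)
    fun φ a hφ ha => finrank_E_le hm (by simp; omega) hφ ha
  obtain ⟨x, f, h, hx, hf⟩ := exists_pair (F := F) hk
  have hlow := low_ne hm hk hT hρ h hx hf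
  have hdvd := dvd_of_irr hm hk hirr rfl (T := (1 + q * B) * ((q - 1) * B)) (by
    rw [Fintype.card_fin, ← hqF, ← mul_assoc, ← geom (by omega) (k + 1), hg,
      Finset.sum_range_succ', hB, Finset.mul_sum]
    simp [pow_succ', add_comm])
  rw [Fintype.card_fin, ← hqF] at hdvd
  have hqk : 1 ≤ q ^ k := Nat.one_le_pow _ _ (by omega)
  obtain ⟨j, rfl⟩ : ∃ j, k = j + 2 := ⟨k - 2, by omega⟩
  have hB' : B = q ^ (j + 1) + ∑ i ∈ Finset.range (j + 1), q ^ i := by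
    rw [hB, Finset.sum_range_succ, add_comm]
  have hB2 : q + 1 ≤ B := by
    have h1 : q ≤ q ^ (j + 1) := Nat.le_self_pow (by omega) _
    have h2 : q ^ 0 ≤ ∑ i ∈ Finset.range (j + 1), q ^ i :=
      Finset.single_le_sum (f := fun i => q ^ i) (fun _ _ => Nat.zero_le _) (by simp)
    simp at h2; omega
  rcases Nat.eq_zero_or_pos j with rfl | hj
  · have h2 := low_two h hx hlow
    rw [← hqF] at h2
    have hB3 : B = 1 + q := by simp [hB', add_comm]
    rw [hB3] at hlt hdvd hB2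
    have h3 : q * (1 + q) = q + q ^ 2 := by ring
    simp only [zero_add] at hd hqk hdvd x1 x2
    by_cases h4 : finrank ℂ W + 1 = q * (1 + q)
    · exact arith1 hq hB2 h4 hdvd
    · have h5 := arith2 hq (by omega) hdvd
      have h6 : IsPrimePow q := Fintype.isPrimePow_card_of_field
      rcases h5 with h5 | h5 | h5
      · simp [h5] at x1
      · simp [h5] at x2
      · rw [h5] at h6; revert h6; decide
  by_cases hx' : (j + 2 ≠ 3 ∨ q ≠ 4) ∧ (j + 2 ≠ 4 ∨ q ≠ 2) ∧ (j + 2 ≠ 4 ∨ q ≠ 3)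
  · have h2 := ih (by omega) (by simp only [ne_eq, Prod.mk.injEq]; omega) _
      (low ρ e).toRepresentation ⟨_, hlow⟩
    refine arith1 hq hB2 ?_ hdvd
    rw [show j + 2 - 1 = j + 1 by omega] at h2
    have : q * B = q ^ (j + 2) + q * ∑ i ∈ Finset.range (j + 1), q ^ i := by rw [hB']; ring
    omega
  · rcases (by omega : (j = 1 ∧ q = 4) ∨ (j = 2 ∧ q = 2) ∨ (j = 2 ∧ q = 3)) with
      ⟨rfl, h4⟩ | ⟨rfl, h4⟩ | ⟨rfl, h4⟩
    · have h2 := chain4 (by simp) hT hρ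
      rw [← hqF] at h2
      simp only [h4, Finset.sum_range_succ, Finset.range_zero, Finset.sum_empty] at hB'
      rw [hB', h4] at hdvd hlt
      rw [h4] at h2
      generalize finrank ℂ W = d at *
      norm_num at h2 hlt hdvd
      interval_cases d <;> omega
    · have h2 := chain4 (by simp) (hT.low e) ⟨_, hlow⟩
      rw [← hqF] at h2
      simp only [h4, Finset.sum_range_succ, Finset.range_zero, Finset.sum_empty] at hB'
      rw [hB', h4] at hdvd hlt
      rw [h4] at h2 hd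
      have h3 : 26 ≤ finrank ℂ W := by omega
      generalize finrank ℂ W = d at *
      norm_num at hlt hdvd
      interval_cases d <;> omega
    · have h2 := chain4 (by simp) (hT.low e) ⟨_, hlow⟩
      rw [← hqF] at h2
      simp only [h4, Finset.sum_range_succ, Finset.range_zero, Finset.sum_empty] at hB'
      rw [hB', h4] at hdvd hlt
      rw [h4] at h2 hd
      have h3 : 116 ≤ finrank ℂ W := by omega
      generalize finrank ℂ W = d at *
      norm_num at hlt hdvd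
      interval_cases d <;> omega

end Cfsg.Agent.Classical.LS
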