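import Mathlib
import Cfsg.Agent.Classical.LS2
import Cfsg.Agent.Herm.Iso

/-!
# The Landazuri–Seitz bound for the special unitary groups
-/

set_option autoImplicit false

namespace Cfsg.Agent.Classical.LS

open Module Cfsg.Agent.Herm

variable {F V : Type*} [Field F] [AddCommGroup V] [Module F V] [FiniteDimensional F V]
  {σ : F →+* F} {B : V →ₛₗ[σ] V →ₗ[F] F} (hB : HF B)

/-- Eichler transformations in `SU`. -/
noncomputable def eS (u v : V) (l : F) : SUG B := ⟨hB.eich u v l, hB.eich_mem_SUG u v l⟩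

variable {U : Submodule F V}

/-- The Siegel family of a totally isotropic subspace. -/
noncomputable def sU (U : Submodule F V) (i : U × U) : SUG B := eS hB i.1 i.2 0

/-- The maps induced on `U`. -/
def ΓU (B : V →ₛₗ[σ] V →ₗ[F] F) (U : Submodule F V) : Set (U →ₗ[F] U) :=
  {γ | ∃ g : SUG B, ∀ u : U, g.1.1 u = γ u}

theorem sU_apply (hU : Iso B U) (u v : U) (x : V) :
    (sU hB U (u, v)).1.1 x = x + B v x • (u : V) - B u x • (v : V) := by
  change (hB.eich u v 0).1 x = _
  rw [hB.eich_apply (hU _ u.2 _ u.2) (hU _ u.2 _ v.2) (by simp [hU _ v.2 _ v.2])]; simp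

theorem sug_ext {g h : SUG B} (H : ∀ x, g.1.1 x = h.1.1 x) : g = h := Subtype.ext (UG.ext H)

theorem sug_mul (g h : SUG B) (x : V) : (g * h).1.1 x = g.1.1 (h.1.1 x) := rfl

theorem sU_conj (g : SUG B) {u v u' v' : U} (hu : g.1.1 u = u') (hv : g.1.1 v = v') :
    g * sU hB U (u, v) * g⁻¹ = sU hB U (u', v') := by
  apply Subtype.ext
  change g.1 * hB.eich u v 0 * g.1⁻¹ = hB.eich u' v' 0
  rw [hB.eich_conj, hu, hv]

include hB in
theorem shear_mem (hU : Iso B U) (x : U) (f : Dual F U) (hf : f x = 0) :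
    LinearMap.id + f.smulRight x ∈ ΓU B U := by
  obtain ⟨f', hf'⟩ := LinearMap.exists_extend f
  obtain ⟨y, hy⟩ := hB.exists_dual_eq f'
  have e : ∀ u : U, B y u = f u := fun u => by rw [hy, ← hf']; rfl
  obtain ⟨l, hl⟩ := hB.toInv.exists_trace (hB.fix y)
  refine ⟨eS hB x y l, fun u => ?_⟩
  change (hB.eich x y l).1 u = _
  rw [hB.eich_apply (hU _ x.2 _ x.2) (hB.zero_symm (by rw [e, hf])) hl, hU _ x.2 _ u.2, e]
  simp

theorem sieg (hU : Iso B U) (hn : 3 ≤ finrank F V) : Sieg σ (-1) (sU hB U) (ΓU B U) where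
  add u v w := sug_ext fun x => by
    simp only [sug_mul, sU_apply hB hU, map_add, map_sub, map_smul, hU _ v.2 _ u.2,
      hU _ u.2 _ u.2, hU _ v.2 _ w.2, hU _ u.2 _ w.2, Submodule.coe_add,
      LinearMap.add_apply]
    module
  swap u v := sug_ext fun x => by
    simp only [sU_apply hB hU, neg_smul, one_smul, Submodule.coe_neg, b_neg_left]
    module
  smul a u v := sug_ext fun x => by
    simp only [sU_apply hB hU, Submodule.coe_smul, b_smul_left, hB.invol]
    module
  comm := by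
    rintro ⟨u, v⟩ ⟨u', v'⟩
    have := sU_conj hB (sU hB U (u, v)) (u := u') (v := v') (u' := u') (v' := v')
      (by rw [sU_apply hB hU, hU _ v.2 _ u'.2, hU _ u.2 _ u'.2]; simp)
      (by rw [sU_apply hB hU, hU _ v.2 _ v'.2, hU _ u.2 _ v'.2]; simp)
    exact mul_inv_eq_iff_eq_mul.1 this
  move := by
    rintro γ ⟨g, hg⟩
    refine ⟨g⁻¹, fun u v => ?_⟩
    rw [← sU_conj hB g (hg u) (hg v)]; group
  trans x y hx hy := by
    by_cases h2 : 2 ≤ finrank F U
    · refine trans_of_shear h2 ?_ (shear_mem hB hU) x y hx hy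
      rintro γ ⟨g, hg⟩ δ ⟨h, hh⟩
      exact ⟨g * h, fun u => by rw [sug_mul, hh, hg]; rfl⟩
    · obtain ⟨g, hg, e⟩ := hB.SUG_trans_iso hn (x := x) (y := y) (by simpa using hx)
        (by simpa using hy) (hU _ x.2 _ x.2) (hU _ y.2 _ y.2)
      have h1 : finrank F U = 1 := by
        have : Nontrivial U := ⟨x, 0, hx⟩
        have := finrank_pos (R := F) (M := U)
        omega
      have hm : ∀ u ∈ U, g.1 u ∈ U := by
        intro u hu
        obtain ⟨c, hc⟩ := (finrank_eq_one_iff_of_nonzero' x hx).1 h1 ⟨u, hu⟩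
        have : u = c • (x : V) := (congrArg Subtype.val hc).symm
        rw [this, map_smul, e]; exact U.smul_mem c y.2
      exact ⟨(g.1 : V →ₗ[F] V).restrict hm, ⟨⟨g, hg⟩, fun u => rfl⟩, Subtype.ext e⟩
  shear := shear_mem hB hU

theorem sU_smul_self (hU : Iso B U) (x : U) (c : F) :
    sU hB U (x, c • x) = eS hB x 0 (c - σ c) := by
  apply Subtype.ext
  change hB.eich x (c • x) 0 = hB.eich x 0 (c - σ c)
  have := hB.eich_add_smul (u := x) (v := 0) (l := 0) (hU _ x.2 _ x.2) (by simp) (by simp) c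
  rwa [zero_add, zero_add] at this

variable [Fintype F] {q : ℕ} (hF : Nat.card F = q ^ 2)
  {W : Type*} [AddCommGroup W] [Module ℂ W] [FiniteDimensional ℂ W]

omit [FiniteDimensional ℂ W] in
include hF in
theorem exists_sU_ne (hU : Iso B U) (hU0 : U ≠ ⊥) (hn : 3 ≤ finrank F V)
    (h32 : ¬ (finrank F V = 3 ∧ q = 2)) (ρ : Representation ℂ (SUG B) W) (hρ : ∃ g, ρ g ≠ 1) :
    ∃ i, ρ (sU hB U i) ≠ 1 := by
  by_contra H
  push Not at H
  obtain ⟨g, hg⟩ := hρ
  apply hg
  obtain ⟨u, hu, hu0⟩ := (Submodule.ne_bot_iff _).1 hU0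
  let K : Subgroup (UG B) := (MonoidHom.ker ρ.toHomUnits).map (SUG B).subtype
  have hK : ∀ g : SUG B, ρ g = 1 → g.1 ∈ K := fun g h =>
    ⟨g, MonoidHom.mem_ker.2 (Units.ext h), rfl⟩
  have : hB.tvGroup ≤ K := by
    rw [HF.tvGroup, Subgroup.closure_le]
    rintro _ ⟨v, c, hv, rfl⟩
    by_cases hc : c + σ c = 0
    swap
    · rw [hB.qr_of_not (by rw [hv]; simpa using hc)]; exact K.one_mem
    rcases eq_or_ne v 0 with rfl | hv0
    · rw [hB.qr_zero_left]; exact K.one_mem
    obtain ⟨s, hs, e⟩ := hB.SUG_trans_iso hn hu0 hv0 (hU _ hu _ hu) hv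
    obtain ⟨b, hb⟩ := hB.toInv.exists_sub (c := -c) (by rw [map_neg]; linear_combination -hc)
    have := hK _ (conj_eq_one ρ (H (⟨u, hu⟩, b • ⟨u, hu⟩)) ⟨s, hs⟩)
    rw [sU_smul_self hB hU] at this
    change s * hB.eich u 0 _ * s⁻¹ ∈ K at this
    rwa [hB.eich_zero (hU _ hu _ hu), hB.qr_conj, e, hb, neg_neg] at this
  rw [hB.tvGroup_eq hF (by omega) h32] at this
  obtain ⟨g', hg', e⟩ := this g.2
  obtain rfl : g' = g := Subtype.ext e
  exact congrArg Units.val (MonoidHom.mem_ker.1 hg')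

include hB hF in
theorem card_norm_eq_le (d : F) : Nat.card {a : F // σ a * a = d} ≤ q + 1 := by
  rcases eq_or_ne d 0 with rfl | hd
  · have : Subsingleton {a : F // σ a * a = 0} := ⟨fun a b => Subtype.ext (by
      have h1 := a.2; have h2 := b.2
      simp only [mul_eq_zero, map_eq_zero, or_self] at h1 h2
      rw [h1, h2])⟩
    exact Finite.card_le_one_iff_subsingleton.2 this |>.trans (by omega)
  by_cases h : σ d = d
  · exact (hB.toInv.card_norm hF hd h).le
  · have : IsEmpty {a : F // σ a * a = d} :=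
      ⟨fun a => h (by rw [← a.2, map_mul, hB.invol, mul_comm])⟩
    simp

include hF in
theorem unitary_bound (hU : Iso B U) (hU0 : U ≠ ⊥) (hn : 3 ≤ finrank F V)
    (h32 : ¬ (finrank F V = 3 ∧ q = 2)) (ρ : Representation ℂ (SUG B) W) (hρ : ∃ g, ρ g ≠ 1) {m : ℕ}
    (hm : ∀ β, Wt ρ (sU hB U) β ≠ ⊥ → (∃ x, ∃ c : F, β (x, c • x) ≠ 1) →
      m ≤ finrank ℂ (Wt ρ (sU hB U) β)) :
    (q ^ (2 * finrank F U) - 1) * m ≤ (q + 1) * finrank ℂ W := by
  have : Finite V := Module.finite_of_finite F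
  obtain ⟨θ, hθ⟩ := hB.ne
  have := (sieg hB hU hn).bound (ρ := ρ) (card_norm_eq_le hB hF)
    (fun h _ h0 => LinearMap.ext₂ (zero_of_self hθ h0)) hm (exists_sU_ne hB hF hU hU0 hn h32 ρ hρ)
  rwa [← Nat.card_eq_fintype_card, hF, ← pow_mul] at this

include hF in
/-- The multiplicity of a weight in odd dimension. -/
theorem mult_odd (hU : Iso B U) {w : V} (hw : B w w ≠ 0) (hwU : ∀ u ∈ U, B u w = 0)
    (ρ : Representation ℂ (SUG B) W) (β : U × U → ℂ) (hβ : Wt ρ (sU hB U) β ≠ ⊥)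
    (h : ∃ x, ∃ c : F, β (x, c • x) ≠ 1) : q ≤ finrank ℂ (Wt ρ (sU hB U) β) := by
  obtain ⟨x, c, hc⟩ := h
  have hx := hU _ x.2 _ x.2
  let H : Subgroup (SUG B) :=
    { carrier := {g | ∀ u ∈ U, g.1.1 u = u}
      one_mem' := fun _ _ => rfl
      mul_mem' := fun {a b} ha hb u hu => by rw [sug_mul, hb u hu, ha u hu]
      inv_mem' := fun {a} ha u hu => by
        conv_lhs => rw [← ha u hu]
        exact UG.inv_apply_self _ _ }
  let τ : Subrepresentation (ρ.comp H.subtype) := ⟨Wt ρ (sU hB U) β, fun g v hv =>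
    apply_mem_Wt (π := id) (g := g.1) (fun i => by
      have := sU_conj hB g.1 (u := i.1) (v := i.2) (g.2 _ i.1.2) (g.2 _ i.2.2)
      exact (mul_inv_eq_iff_eq_mul.1 this).symm) hv⟩
  have hxw : ∀ a : F, B x (a • w) = 0 := fun a => by rw [map_smul, hwU _ x.2, smul_zero]
  have hmem : ∀ (a l : F), eS hB x (a • w) l ∈ H := fun a l u hu =>
    hB.eich_apply_of_orth l (hU _ x.2 _ hu) (by rw [b_smul_left, hB.zero_symm (hwU _ hu), mul_zero])
  choose L hL using fun a : F => hB.toInv.exists_trace (hB.fix (a • w))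
  have : Nontrivial τ.toSubmodule := Submodule.nontrivial_iff_ne_bot.2 hβ
  have key := heis τ.toRepresentation (fun a : F => (⟨_, hmem a (L a)⟩ : H)) (fun a b hab => ?_)
  · rw [← Nat.card_eq_fintype_card, hF] at key
    exact (pow_le_pow_iff_left₀ (by omega) (by omega) two_ne_zero).1 key
  · have hab' : a - b ≠ 0 := sub_ne_zero.2 hab
    have hs : σ (a - b) ≠ 0 := (map_ne_zero σ).2 hab'
    obtain ⟨l, hl, e⟩ : ∃ l, l + σ l = B ((a - b) • w) ((a - b) • w) ∧
        (eS hB x (b • w) (L b))⁻¹ * eS hB x (a • w) (L a) = eS hB x ((a - b) • w) l := by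
      refine ⟨σ (L b) + L a + B (-(b • w)) (a • w), ?_, Subtype.ext ?_⟩
      · have h1 := hL a; have h2 := hL b
        rw [b_neg_left]
        simp only [map_add, hB.invol, b_smul_left, map_smul, smul_eq_mul, map_neg,
          map_mul, hB.fix, map_sub] at h1 h2 ⊢
        linear_combination h1 + h2
      · change (hB.eich x (b • w) (L b))⁻¹ * hB.eich x (a • w) (L a) = hB.eich x _ _
        rw [hB.eich_inv hx (hxw b) (hL b), hB.eich_mul hx (by rw [map_neg, hxw, neg_zero])
          (by rw [hB.invol, add_comm, hL, b_neg_left, map_neg, neg_neg]) (hxw a) (hL a)]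
        congr 1; module
    let d : F := -c / (σ (a - b) * B w w)
    refine ⟨⟨_, hmem d (L d)⟩, β (x, c • x), hc, ?_⟩
    have e2 : eS hB x (d • w) (L d) * eS hB x ((a - b) • w) l * (eS hB x (d • w) (L d))⁻¹ =
        sU hB U (x, c • x) * eS hB x ((a - b) • w) l := by
      rw [sU_smul_self hB hU, mul_inv_eq_iff_eq_mul]
      apply Subtype.ext
      change hB.eich x _ _ * hB.eich x _ _ = hB.eich x _ _ * hB.eich x _ _ * hB.eich x _ _
      rw [hB.eich_mul hx (hxw _) (hL d) (hxw _) hl, hB.eich_mul hx (by simp)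
        (by simp [hB.invol]) (hxw _) hl, hB.eich_mul hx (by rw [zero_add, hxw])
        (by rw [b_zero_left, zero_add, ← hl]
            simp only [map_add, map_sub, hB.invol, add_zero]
            ring) (hxw _) (hL d)]
      congr 1
      · module
      · simp only [zero_add, b_zero_left, b_smul_left, map_smul, smul_eq_mul, d, map_div₀, map_neg,
          map_mul, hB.invol, hB.fix]
        field_simp
        ring
    ext v
    change ρ (eS hB x (d • w) (L d) * ((eS hB x (b • w) (L b))⁻¹ * eS hB x (a • w) (L a)) *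
      (eS hB x (d • w) (L d))⁻¹) v = β (x, c • x) •
        ρ ((eS hB x (b • w) (L b))⁻¹ * eS hB x (a • w) (L a)) v
    rw [e, e2, map_mul, Module.End.mul_apply]
    exact mem_Wt.1 (τ.apply_mem_toSubmodule ⟨_, hmem (a - b) l⟩ v.2) _

include hB hF in
theorem unitary_even {m : ℕ} (hm : 2 ≤ m) (hV : finrank F V = 2 * m)
    (ρ : Representation ℂ (SUG B) W) (hρ : ∃ g, ρ g ≠ 1) :
    q ^ (2 * m) - 1 ≤ (q + 1) * finrank ℂ W := by
  obtain ⟨U, hU, e⟩ := hB.exists_iso_finrank (k := m) hV.ge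
  have := unitary_bound hB hF hU (by rintro rfl; simp at e; omega) (by omega) (by omega) ρ hρ
    (m := 1) fun β hβ _ => by
      have := Submodule.nontrivial_iff_ne_bot.2 hβ
      exact finrank_pos
  rwa [mul_one, e] at this

include hB hF in
theorem unitary_odd {m : ℕ} (hm : 1 ≤ m) (hV : finrank F V = 2 * m + 1) (h32 : ¬ (m = 1 ∧ q = 2))
    (ρ : Representation ℂ (SUG B) W) (hρ : ∃ g, ρ g ≠ 1) :
    (q ^ (2 * m) - 1) * q ≤ (q + 1) * finrank ℂ W := by
  obtain ⟨U, hU, e⟩ := hB.exists_iso_finrank (k := m) (by omega)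
  obtain ⟨w, hw, hw'⟩ : ∃ w ∈ perp B U, B w w ≠ 0 := by
    by_contra H
    push Not at H
    have := hB.two_mul_finrank_le (hB.iso_of_self H)
    have := hB.finrank_perp_add U
    omega
  have := unitary_bound hB hF hU (by rintro rfl; simp at e; omega) (by omega) (by omega) ρ hρ
    (mult_odd hB hF hU hw' hw ρ)
  rwa [e] at this

end Cfsg.Agent.Classical.LS
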